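import Cfsg.Agent.Lib.UW.Sub
import Cfsg.Agent.Lib.GL.GrA
import Cfsg.Prelude.Def_Classical

/-!
# Determinant, Brauer lifts and the standard model of the unitary groups
-/

set_option autoImplicit false
set_option linter.unusedSectionVars false

namespace GUH

open Finset Module Matrix Cfsg UW Polynomial
open scoped Classical

section Det
variable {F V : Type*} [Field F] [Fintype F] [StarRing F] [HF F] [AddCommGroup V] [Module F V]
  [Fintype V] (H : HS F V)

theorem dt_mul_star (g : H.U) : H.dt g * star (H.dt g) = 1 := by
  let b := Module.finBasis F V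
  let A := LinearMap.toMatrix b b (H.lin g)
  let B : Matrix (Fin (finrank F V)) (Fin (finrank F V)) F := Matrix.of fun i j => H.b (b i) (b j)
  have hA : ∀ i, g • b i = ∑ k, A k i • b k := fun i => by
    conv_lhs => rw [← b.sum_repr (g • b i)]
    simp only [A, LinearMap.toMatrix_apply, HS.lin_apply]
  have h1 : Aᵀ * B * A.map star = B := by
    ext i j
    change _ = H.b (b i) (b j)
    rw [← HS.b_smul_smul g, hA j, ← H.herm, H.sum_left, star_sum, Matrix.mul_apply]
    refine sum_congr rfl fun l _ => ?_
    rw [H.smul_left, star_mul', H.herm, hA i, H.sum_left, Matrix.mul_apply, mul_comm]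
    simp only [HS.smul_left, transpose_apply, map_apply, B, of_apply]
  have h2 : B.det ≠ 0 := fun h => by
    obtain ⟨v, hv, h0⟩ := Matrix.exists_vecMul_eq_zero_iff.2 h
    have : ∑ i, v i • b i = 0 := H.nondeg _ fun y => by
      rw [← b.sum_repr y, ← H.herm, H.sum_left, star_sum]
      refine sum_eq_zero fun j _ => ?_
      have := congrFun h0 j
      rw [H.smul_left, star_mul', H.herm, H.sum_left]
      simp only [HS.smul_left]
      exact mul_eq_zero_of_right _ this
    exact hv (funext (Fintype.linearIndependent_iff.1 b.linearIndependent v this))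
  have h3 := congrArg Matrix.det h1
  have h4 : (A.map star).det = star A.det := ((starRingEnd F).map_det _).symm
  rw [det_mul, det_mul, det_transpose, h4, LinearMap.det_toMatrix] at h3
  refine mul_left_cancel₀ h2 ?_
  rw [H.dt_apply]
  linear_combination h3

/-- the determinant with values in the elements of norm one -/
noncomputable def dtU : H.U →* unitary F := H.dt.codRestrict _ fun g => mem_unitary.2 (dt_mul_star H g)

@[simp] theorem dtU_val (g : H.U) : (dtU H g : F) = H.dt g := rfl

theorem ker_dtU : (dtU H).ker = H.S := by
  ext g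
  rw [MonoidHom.mem_ker, Subtype.ext_iff]
  rfl

theorem nd_span {v : V} (hv : H.b v v ≠ 0) : H.Nd (F ∙ v) := fun x hx h => by
  obtain ⟨a, rfl⟩ := Submodule.mem_span_singleton.1 hx
  have := h v (Submodule.mem_span_singleton_self v)
  rw [H.smul_left] at this
  rw [(mul_eq_zero.1 this).resolve_right hv, zero_smul]

theorem dtU_surjective [Nontrivial V] : Function.Surjective (dtU H) := fun z => by
  obtain ⟨v, hv⟩ := H.exists_aniso
  have h0 : v ≠ 0 := fun h => hv (by simp [h])
  refine ⟨(nd_span H hv).ext ((H.sub _ (nd_span H hv)).sc z), Subtype.ext ?_⟩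
  rw [dtU_val, HS.Nd.dt_ext, HS.dt_sc, finrank_span_singleton h0, pow_one]

theorem dtU_sc (z : unitary F) : dtU H (H.sc z) = z ^ finrank F V :=
  Subtype.ext (by rw [dtU_val, HS.dt_sc]; rfl)

theorem dtU_ext {D : Submodule F V} (hD : H.Nd D) (g : (H.sub D hD).U) :
    dtU H (hD.ext g) = dtU (H.sub D hD) g := Subtype.ext (hD.dt_ext g)

instance isCyclic_unitary : IsCyclic (unitary F) :=
  isCyclic_of_injective_ringHom (unitary F).subtype Subtype.val_injective

theorem natCard_unitary : Nat.card (unitary F) = qq F + 1 := by
  rw [Nat.card_eq_fintype_card, card_unitary]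

/-- the matrix of an isometry -/
noncomputable def toG : H.U →* GLH.G F (finrank F V) :=
  MonoidHom.toHomUnits ((LinearMap.toMatrixAlgEquiv (Module.finBasis F V)).toMonoidHom.comp H.lin)

theorem charpoly_toG (g : H.U) : (toG H g).1.charpoly = (H.lin g).charpoly :=
  LinearMap.charpoly_toMatrix _ _

/-- Green's lift, restricted to the unitary group -/
theorem lift_U {K : Type} [Field K] [Fintype K] [Algebra F K] (w : K →* ℂ) (j : ℕ)
    (h : ∀ f : F[X], f.natDegree = finrank F V → f.Monic → (f.aroots K).card = finrank F V) :
    IsGeneralizedCharacter H.U fun g => (((H.lin g).charpoly.aroots K).map w).esymm j := by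
  have := (GLH.Gr.green_lift w (finrank F V) j fun g : GLH.G F (finrank F V) =>
    h _ (by simp) (charpoly_monic _)).comp (toG H)
  simpa only [charpoly_toG] using this

end Det

theorem exists_conj {F : Type*} [Field F] [Fintype F] {q : ℕ} (h : Fintype.card F = q ^ 2) :
    ∃ σ : F →+* F, (∀ a, σ a = a ^ q) ∧ (∀ a, σ (σ a) = a) ∧ ∃ a, σ a ≠ a := by
  obtain ⟨p, hp⟩ := CharP.exists F
  obtain ⟨n, hp', hn⟩ := FiniteField.card F p
  have : Fact p.Prime := ⟨hp'⟩
  obtain ⟨k, -, rfl⟩ := (Nat.dvd_prime_pow hp').1
    (show q ∣ p ^ (n : ℕ) from hn ▸ h ▸ dvd_pow_self q two_ne_zero)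
  refine ⟨iterateFrobenius F p k, fun _ => rfl, fun a => ?_, ?_⟩
  · rw [iterateFrobenius_def, iterateFrobenius_def, ← pow_mul, ← pow_two, ← h,
      FiniteField.pow_card]
  by_contra! h2
  have h4 : 1 < p ^ k := by
    have := Fintype.one_lt_card (α := F)
    rw [h] at this
    exact lt_of_pow_lt_pow_left₀ 2 (Nat.zero_le _) (by simpa using this)
  have h5 := (FiniteField.forall_pow_eq_one_iff F (p ^ k - 1)).1 fun x => by
    have h6 : (x : F) ^ p ^ k = x := h2 x
    apply mul_right_cancel (b := x)
    rw [← pow_succ, Nat.sub_add_cancel h4.le, one_mul]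
    exact Units.ext (by simpa using h6)
  have := Nat.le_of_dvd (by omega) h5
  rw [h] at this
  have : p ^ k < (p ^ k) ^ 2 := by nlinarith
  omega

/-- a field with `q ^ 2` elements as a field with involution -/
theorem exists_star {F : Type*} [Field F] [Fintype F] {q : ℕ} (h : Fintype.card F = q ^ 2) :
    ∃ (_ : StarRing F) (_ : HF F), (∀ a : F, star a = a ^ q) ∧ qq F = q := by
  obtain ⟨σ, h1, h2, h3⟩ := exists_conj h
  let _ : StarRing F :=
    { star := σ
      star_involutive := h2
      star_mul := fun a b => by
        change σ (a * b) = σ b * σ a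
        rw [map_mul, mul_comm]
      star_add := map_add σ }
  have : HF F := ⟨h3⟩
  exact ⟨inferInstance, this, h1, Nat.pow_left_injective two_ne_zero ((card_F F).symm.trans h)⟩

/-- the involution is the `q`-th power map -/
theorem star_eq_pow {F : Type*} [Field F] [Fintype F] [StarRing F] [HF F] (a : F) :
    star a = a ^ qq F := by
  have h1 : ∀ t : F, star t = t → t ^ qq F = t := fun t ht => by
    let S : Subfield F :=
      { carrier := {x | star x = x}
        mul_mem' := fun {x y} hx hy => by
          change star (x * y) = x * y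
          rw [star_mul', show star x = x from hx, show star y = y from hy]
        one_mem' := star_one F
        add_mem' := fun {x y} hx hy => by
          change star (x + y) = x + y
          rw [star_add, show star x = x from hx, show star y = y from hy]
        zero_mem' := star_zero F
        neg_mem' := fun {x} hx => by
          change star (-x) = -x
          rw [star_neg, show star x = x from hx]
        inv_mem' := fun x hx => by
          change star x⁻¹ = x⁻¹
          rw [star_inv₀, show star x = x from hx] }
    have hc : Fintype.card S = qq F := Fintype.card_congr (Equiv.subtypeEquivRight fun _ => Iff.rfl)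
    have := congrArg Subtype.val (FiniteField.pow_card (⟨t, ht⟩ : S))
    rwa [hc] at this
  obtain ⟨σ, hσ, -, -⟩ := exists_conj (card_F F)
  have h3 := h1 (a * star a) (by rw [star_mul', star_star, mul_comm])
  have h4 := h1 (a + star a) (by rw [star_add, star_star, add_comm])
  rw [← hσ] at h3 h4 ⊢
  have h5 : (σ a - a) * (σ a - star a) = 0 := by
    have : σ (a * a - (a + star a) * a + a * star a) = 0 := by rw [← map_zero σ]; congr 1; ring
    rw [map_add, map_sub, map_mul σ (a + star a), h3, h4, map_mul] at this
    linear_combination this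
  rcases mul_eq_zero.1 h5 with h6 | h6
  · have hq := two_le_qq F
    have hne : (X ^ qq F - X : F[X]) ≠ 0 := FiniteField.X_pow_card_sub_X_ne_zero F hq
    have hsub : (univ.filter fun x : F => star x = x) ⊆ (X ^ qq F - X : F[X]).roots.toFinset :=
      fun x hx => by
        rw [Multiset.mem_toFinset, mem_roots hne, IsRoot, eval_sub, eval_pow, eval_X,
          h1 x (mem_filter.1 hx).2, sub_self]
    have hcard : ((X ^ qq F - X : F[X]).roots.toFinset).card ≤
        (univ.filter fun x : F => star x = x).card := by
      refine (Multiset.toFinset_card_le _).trans ((card_roots' _).trans ?_)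
      rw [FiniteField.X_pow_card_sub_X_natDegree_eq F hq, ← Fintype.card_subtype]
      exact (Fintype.card_congr (Equiv.subtypeEquivRight fun _ => Iff.rfl)).le
    have ha : a ∈ (X ^ qq F - X : F[X]).roots.toFinset := by
      rw [Multiset.mem_toFinset, mem_roots hne, IsRoot, eval_sub, eval_pow, eval_X, ← hσ, h6]
    rw [← eq_of_subset_of_card_le hsub hcard] at ha
    rw [(mem_filter.1 ha).2, sub_eq_zero.1 h6]
  · exact (sub_eq_zero.1 h6).symm

theorem exists_SU_equiv (n q : ℕ) (F : Type*) [Field F] [Fintype F] [StarRing F] [HF F]
    (hs : ∀ a : F, star a = a ^ q) : ∃ H : HS F (Fin n → F), Nonempty (SU n F q ≃* H.S) := by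
  have hb : ∀ u v : Fin n → F, hermForm n F q u v = ∑ i, u i * star (v i) := fun u v => by
    simp only [hermForm, hs]
  let H : HS F (Fin n → F) :=
    { b := hermForm n F q
      add_left := fun x y z => by simp only [hb, Pi.add_apply, add_mul, Finset.sum_add_distrib]
      smul_left := fun a x y => by
        simp only [hb, Pi.smul_apply, smul_eq_mul, Finset.mul_sum, mul_assoc]
      herm := fun x y => by simp only [hb, star_sum, star_mul', star_star, mul_comm]
      nondeg := fun x hx => funext fun i => by
        have := hx (Pi.single i 1)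
        rw [hb, Finset.sum_eq_single i (fun j _ hj => by simp [hj]) (by simp)] at this
        simpa using this }
  let j : SU n F q →* H.S :=
    { toFun := fun A => ⟨H.mkU (Matrix.toLin' A.1.1) fun x y => A.2 x y,
        (LinearMap.det_toLin' _).trans A.1.2⟩
      map_one' := Subtype.ext (HS.U_ext fun y => by simp)
      map_mul' := fun A B => Subtype.ext (HS.U_ext fun y =>
        (Matrix.mulVec_mulVec y A.1.1 B.1.1).symm) }
  have hj : Function.Bijective j := by
    constructor
    · intro A B h
      have := congrArg (fun g : H.S => H.lin g) h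
      exact Subtype.ext (Subtype.ext (Matrix.toLin'.injective this))
    · intro g
      refine ⟨⟨⟨LinearMap.toMatrix' (H.lin g), by rw [LinearMap.det_toMatrix']; exact g.2⟩,
        fun u v => ?_⟩, Subtype.ext (HS.U_ext fun y => ?_)⟩
      · change H.b (LinearMap.toMatrix' (H.lin g) *ᵥ u) (LinearMap.toMatrix' (H.lin g) *ᵥ v) = _
        rw [LinearMap.toMatrix'_mulVec, LinearMap.toMatrix'_mulVec]
        exact HS.b_smul_smul g.1 u v
      · simp [j]
  exact ⟨H, ⟨MulEquiv.ofBijective j hj⟩⟩

theorem bridge_realise_eqns : True := by
  have := @dtU.eq_1.{0, 0}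
  have := @toG.eq_1.{0, 0}
  trivial

end GUH
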