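import Cfsg.Agent.Lib.Block.IBr
import Cfsg.Agent.Lib.Block.CoverP
import Cfsg.Agent.Lib.Char.CliffordCorr

/-!
# The rank of a block of a normal subgroup with cyclic quotient

`GUH.index_mul_rank_le`: `N ⊴ G` with cyclic quotient, `B₀` a block of `G` covering the block `b`
of `N`, `B` a set of characters whose `p`-regular parts span those of `B₀`. Then
`|G : G_b| l(b) ≤ P ∑_ν #{χ ∈ B ∩ B₀ | ν χ = χ}`, the sum over the `p`-regular characters of
`G / N`, where `P` bounds the order of a `p`-character of `G / N` fixing a member of `B₀`.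
`GUH.index_mul_rank_le_mid`: the same with `|G : N₀|` on the left, if `N ≤ N₀ ⊴ G` and the blocks of
`N₀` below `B₀` have stabiliser `N₀`.
-/

set_option autoImplicit false
set_option linter.unusedSectionVars false

namespace GUH

open Cfsg CT BT MulAction
open scoped MonoidAlgebra ComplexConjugate Pointwise

section Abstract

/-- A linear bijection which preserves the natural span of a basis both ways permutes it. -/
theorem exists_eq_of_nat_comb {ι V : Type*} [Fintype ι] [AddCommGroup V] [Module ℂ V]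
    {Φ : ι → V} (hΦ : LinearIndependent ℂ Φ) (σ : V ≃ₗ[ℂ] V)
    (h1 : ∀ j, ∃ a : ι → ℕ, σ (Φ j) = ∑ k, (a k : ℂ) • Φ k)
    (h2 : ∀ j, ∃ a : ι → ℕ, σ.symm (Φ j) = ∑ k, (a k : ℂ) • Φ k) (j : ι) :
    ∃ k, σ (Φ j) = Φ k := by
  classical
  obtain ⟨a, ha⟩ := h1 j
  choose c hc using h2
  have key : ∀ l, ∑ k, a k * c k l = if l = j then 1 else 0 := fun l => by
    have h3 : ∑ l, (((∑ k, a k * c k l : ℕ) : ℂ) - if l = j then 1 else 0) • Φ l = 0 := by
      simp only [sub_smul, Finset.sum_sub_distrib, ite_smul, one_smul, zero_smul,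
        Finset.sum_ite_eq', Finset.mem_univ, if_true]
      rw [sub_eq_zero]
      conv_rhs => rw [← σ.symm_apply_apply (Φ j), ha, map_sum]
      simp only [map_smul, hc, Finset.smul_sum, smul_smul]
      rw [Finset.sum_comm]
      simp [Finset.sum_smul]
    have h4 := sub_eq_zero.1 (Fintype.linearIndependent_iff.1 hΦ _ h3 l)
    split_ifs at h4 ⊢ <;> exact_mod_cast h4
  have hpos : ∀ k, a k ≤ a k * c k j := fun k => by
    rcases Nat.eq_zero_or_pos (a k) with h | h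
    · simp [h]
    have h5 : ∀ l, l ≠ j → c k l = 0 := fun l hl => by
      have := key l
      rw [if_neg hl, Finset.sum_eq_zero_iff] at this
      exact (mul_eq_zero.1 (this k (Finset.mem_univ _))).resolve_left h.ne'
    refine Nat.le_mul_of_pos_right _ (Nat.pos_of_ne_zero fun h6 => hΦ.ne_zero k ?_)
    rw [← σ.symm.map_eq_zero_iff, hc]
    refine Finset.sum_eq_zero fun l _ => ?_
    by_cases hl : l = j
    · rw [hl, h6, Nat.cast_zero, zero_smul]
    · rw [h5 l hl, Nat.cast_zero, zero_smul]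
  have h7 : ∑ k, a k ≤ 1 := by
    have := key j
    rw [if_pos rfl] at this
    exact this ▸ Finset.sum_le_sum fun k _ => hpos k
  obtain ⟨k, hk⟩ : ∃ k, a k ≠ 0 := by
    by_contra! h
    have := key j
    simp [h] at this
  rw [← Finset.add_sum_erase _ _ (Finset.mem_univ k)] at h7
  have h8 : ∑ x ∈ Finset.univ.erase k, a x = 0 := by omega
  refine ⟨k, ?_⟩
  rw [ha, ← Finset.add_sum_erase _ _ (Finset.mem_univ k), show a k = 1 by omega,
    Finset.sum_eq_zero fun x hx => by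
      rw [Finset.sum_eq_zero_iff.1 h8 x hx, Nat.cast_zero, zero_smul]]
  simp

/-- Independent fixed vectors in the span of a permuted family. -/
theorem card_mul_le_sum_fixed {H S V R : Type*} [Group H] [Fintype H] [Finite S] [MulAction H S]
    [AddCommGroup V] [Module ℂ V] [Finite R] (ρ : H → V →ₗ[ℂ] V) (w : S → V)
    (hρ : ∀ h s, ρ h (w s) = w (h • s)) {v : R → V} (hv : LinearIndependent ℂ v)
    (hs : ∀ r, v r ∈ Submodule.span ℂ (Set.range w)) (hf : ∀ h r, ρ h (v r) = v r) :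
    Nat.card R * Nat.card H ≤ ∑ h : H, Nat.card (fixedBy S h) := by
  classical
  have := Fintype.ofFinite S
  have := Fintype.ofFinite R
  have := Fintype.ofFinite (orbitRel.Quotient H S)
  let u : orbitRel.Quotient H S → V := fun q => ∑ h : H, w (h • q.out)
  have hu : ∀ s, ∑ h : H, w (h • s) = u (Quotient.mk'' s) := fun s => by
    obtain ⟨k, hk⟩ : (Quotient.mk'' s : orbitRel.Quotient H S).out ∈ orbit H s :=
      orbitRel_apply.1 (Quotient.mk_out' s)
    simp only [u, ← hk, smul_smul]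
    exact (Equiv.sum_comp (Equiv.mulRight k) fun h => w (h • s)).symm
  have h1 : ∀ x ∈ Submodule.span ℂ (Set.range w),
      ∑ h : H, ρ h x ∈ Submodule.span ℂ (Set.range u) := fun x hx => by
    induction hx using Submodule.span_induction with
    | mem x h =>
      obtain ⟨s, rfl⟩ := h
      simp only [hρ, hu]
      exact Submodule.subset_span ⟨_, rfl⟩
    | zero => simp
    | add x y _ _ hx hy => simpa [Finset.sum_add_distrib] using add_mem hx hy
    | smul c x _ hx => simpa [← Finset.smul_sum] using Submodule.smul_mem _ c hx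
  have h2 : ∀ r, v r ∈ Submodule.span ℂ (Set.range u) := fun r => by
    have := h1 _ (hs r)
    simp only [hf, Finset.sum_const, Finset.card_univ, ← Nat.cast_smul_eq_nsmul ℂ] at this
    exact (Submodule.smul_mem_iff _ (Nat.cast_ne_zero.2 Fintype.card_ne_zero)).1 this
  have h3 : Fintype.card R ≤ Fintype.card (orbitRel.Quotient H S) := by
    have h4 : LinearIndependent ℂ fun r => (⟨v r, h2 r⟩ : Submodule.span ℂ (Set.range u)) :=
      LinearIndependent.of_comp (Submodule.subtype _) hv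
    have : Module.Finite ℂ (Submodule.span ℂ (Set.range u)) :=
      Module.Finite.span_of_finite ℂ (Set.finite_range u)
    exact h4.fintype_card_le_finrank.trans (finrank_range_le_card u)
  simp only [Nat.card_eq_fintype_card]
  rw [sum_card_fixedBy_eq_card_orbits_mul_card_group]
  exact Nat.mul_le_mul_right _ h3

end Abstract

variable {p : ℕ} [Fact p.Prime] {M : Ideal AlgInt} (hM : IsPModular p M)
variable {G : Type*} [Group G] [Finite G]

section Aut

theorem idemChar_domCongr (a : MulAut G) (e : ℂ[G]) (g : G) :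
    idemChar (MonoidAlgebra.domCongr ℂ ℂ a e) g = idemChar e (a⁻¹ g) := by
  have := Fintype.ofFinite G
  rw [idemChar_apply, idemChar_apply, ← Equiv.sum_comp a.toEquiv]
  refine Finset.sum_congr rfl fun x _ => ?_
  rw [MonoidAlgebra.coeff_domCongr]
  simp

variable {hM}

/-- Automorphisms permute the projective indecomposable characters. -/
theorem exists_Φ_aut (W : Wed hM G) (a : MulAut G) (j : Fin W.N) :
    ∃ k, (fun g => W.Φ j (a⁻¹ g)) = W.Φ k := by
  have key : ∀ (a : MulAut G) j, ∃ c : Fin W.N → ℕ,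
      (fun g => W.Φ j (a⁻¹ g)) = ∑ k, (c k : ℂ) • W.Φ k := fun a j => by
    refine ⟨_, Eq.trans ?_ (W.idemChar_eq_sum_rank (e := MonoidAlgebra.domCongr ℂ ℂ a (W.e j))
      (fun g => ?_) (by rw [← map_mul, W.e_idem]))⟩
    · exact funext fun g => (idemChar_domCongr a _ g).symm
    · rw [MonoidAlgebra.coeff_domCongr]; exact W.e_int j _
  exact exists_eq_of_nat_comb W.linearIndependent_Φ
    (LinearEquiv.funCongrLeft ℂ ℂ (a⁻¹ : MulAut G).toEquiv) (key a) (key a⁻¹) j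

variable {N : Subgroup G} [N.Normal]

theorem conjFun_mul' (g h : G) (θ : N → ℂ) : conjFun (g * h) θ = conjFun g (conjFun h θ) := by
  funext n
  simp only [conjFun_apply, mul_inv_rev, map_mul, MulAut.mul_apply]

theorem exists_Φ_conj (W : Wed hM N) (g : G) (j : Fin W.N) : ∃ k, conjFun g (W.Φ j) = W.Φ k := by
  obtain ⟨k, hk⟩ := exists_Φ_aut W (MulAut.conjNormal g) j
  exact ⟨k, Eq.trans (funext fun n => by rw [conjFun_apply, map_inv]) hk⟩

/-- The action of `G` on the simple modules of `N`. -/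
@[reducible] noncomputable def wedAct (W : Wed hM N) : MulAction G (Fin W.N) where
  smul g j := (exists_Φ_conj W g j).choose
  one_smul j := W.Φ_injective ((exists_Φ_conj W 1 j).choose_spec.symm.trans
    (funext fun n => by simp [conjFun_apply]))
  mul_smul g h j := W.Φ_injective ((exists_Φ_conj W (g * h) j).choose_spec.symm.trans
    (by rw [conjFun_mul', (exists_Φ_conj W h j).choose_spec]
        exact (exists_Φ_conj W g _).choose_spec))

theorem exists_wedAct (W : Wed hM N) : ∃ A : MulAction G (Fin W.N),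
    ∀ (g : G) j, W.Φ (A.smul g j) = conjFun g (W.Φ j) :=
  ⟨wedAct W, fun g j => (exists_Φ_conj W g j).choose_spec.symm⟩

end Aut

section Lin

include hM in
theorem sameBlock_lin_smul (ν : G →* ℂˣ) {χ ψ : IrrCharacter G} (h : SameBlock M χ.1 ψ.1) :
    SameBlock M (ν • χ).1 (ν • ψ).1 := fun g => by
  have h1 : ∀ χ : IrrCharacter G, centralChar (ν • χ).1 g = ν g * centralChar χ.1 g := fun χ => by
    simp only [centralChar, lin_smul_apply, map_one, Units.val_one, one_mul]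
    ring
  rw [h1, h1, ← mul_sub]
  exact mul_mem_locIdeal_left hM (irr_apply_mem_locRing hM (linChar ν) g) (h g)

include hM in
theorem lin_smul_mem_of_mem {B : Set (IrrCharacter G)} (hB : IsPBlock M B) {ν : G →* ℂˣ}
    {χ ψ : IrrCharacter G} (hχ : χ ∈ B) (h : ν • χ ∈ B) (hψ : ψ ∈ B) : ν • ψ ∈ B :=
  (mem_block_iff_sameBlock hM hB h _).2
    (sameBlock_lin_smul hM ν ((mem_block_iff_sameBlock hM hB hχ _).1 hψ))

include hM in
theorem lin_smul_block_eq {B : Set (IrrCharacter G)} (hB : IsPBlock M B) {ν : G →* ℂˣ}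
    {χ : IrrCharacter G} (hχ : χ ∈ B) (h : ν • χ ∈ B) : ν • B = B := by
  ext ψ
  rw [Set.mem_smul_set_iff_inv_smul_mem]
  exact ⟨fun h' => by simpa using lin_smul_mem_of_mem hM hB hχ h h',
    lin_smul_mem_of_mem hM hB h (by simpa using hχ)⟩

/-- Multiplication by a linear character. -/
def mulLin (ν : G →* ℂˣ) : (G → ℂ) →ₗ[ℂ] G → ℂ := LinearMap.mulLeft ℂ (linChar ν).1

theorem mulLin_apply (ν : G →* ℂˣ) (f : G → ℂ) (g : G) : mulLin ν f g = ν g * f g := rfl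

theorem mulLin_pRegularPart (ν : G →* ℂˣ) (χ : IrrCharacter G) :
    mulLin ν (pRegularPart p χ.1) = pRegularPart p (ν • χ).1 := by
  funext g
  rw [mulLin_apply]
  by_cases h : IsPRegular p g <;> simp [pRegularPart, h]

theorem mulLin_blockPart {ν : G →* ℂˣ} {B : Set (IrrCharacter G)} (hB : ν • B = B) {f : G → ℂ}
    (hf : ∀ g, g ∉ ν.ker → f g = 0) : mulLin ν (blockPart B f) = blockPart B f := by
  have := Fintype.ofFinite G
  have h1 : ∀ χ : IrrCharacter G, ip f (ν • χ).1 = ip f χ.1 := fun χ => by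
    rw [ip_def, ip_def]
    refine congrArg _ (Finset.sum_congr rfl fun g _ => ?_)
    by_cases hg : g ∈ ν.ker
    · rw [lin_smul_apply, MonoidHom.mem_ker.1 hg, Units.val_one, one_mul]
    · rw [hf g hg, zero_mul, zero_mul]
  rw [blockPart_eq_sum_bset, map_sum]
  refine Finset.sum_equiv (MulAction.toPerm ν) (fun χ => ?_) fun χ _ => ?_
  · rw [mem_bset, mem_bset, MulAction.toPerm_apply]
    conv_rhs => rw [← hB]
    exact Set.smul_mem_smul_set_iff.symm
  · rw [map_smul, MulAction.toPerm_apply, h1]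
    rfl

theorem exists_ker_eq {N K : Subgroup G} [N.Normal] [IsCyclic (G ⧸ N)] (h : N ≤ K) :
    ∃ μ : G →* ℂˣ, μ.ker = K := by
  obtain ⟨f, hf⟩ := exists_units_hom_ker_eq N
  have hK : K.Normal := by
    refine ⟨fun n hn g => ?_⟩
    have h1 : g * n * g⁻¹ * n⁻¹ ∈ N := by
      rw [← hf, MonoidHom.mem_ker]
      simp [mul_comm (f g)]
    simpa using K.mul_mem (h h1) hn
  have : IsCyclic (G ⧸ K) := isCyclic_of_surjective (QuotientGroup.map N K (MonoidHom.id G) h)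
    (QuotientGroup.map_surjective_of_surjective _ _ _ (QuotientGroup.mk_surjective) _)
  exact exists_units_hom_ker_eq K

theorem index_dvd_of_pow_mem {N K : Subgroup G} [N.Normal] [IsCyclic (G ⧸ N)] (h : N ≤ K) {m : ℕ}
    (hm : ∀ g, g ^ m ∈ K) : K.index ∣ m := by
  obtain ⟨μ, rfl⟩ := exists_ker_eq h
  rw [← orderOf_units_hom, orderOf_dvd_iff_pow_eq_one]
  ext g
  rw [MonoidHom.pow_apply, ← map_pow, MonoidHom.mem_ker.1 (hm g), MonoidHom.one_apply]

/-- The inertia group of `θ` is the kernel of a linear character fixing everything over `θ`. -/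
theorem exists_ker_eq_inertia {N : Subgroup G} [N.Normal] [IsCyclic (G ⧸ N)]
    (θ : IrrCharacter N) : ∃ μ : G →* ℂˣ, μ.ker = stabilizer G θ ∧
      ∀ χ : IrrCharacter G, LiesOver N χ.1 θ.1 → μ • χ = χ := by
  obtain ⟨μ, hμ⟩ := exists_ker_eq (le_inertia θ)
  refine ⟨μ, hμ, fun χ hχ => (lin_smul_eq_self_iff μ χ).2 fun g hg => ?_⟩
  obtain ⟨ψ, -, h⟩ := cliffordCorr_surjective le_rfl (le_inertia θ) hχ
  rw [← h]
  exact ind_apply_eq_zero_of_le_normal hμ.ge _ hg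

variable (p) in
/-- The `p`-regular characters of `G / N` which stabilise `B`. -/
def regStab (N : Subgroup G) (B : Set (IrrCharacter G)) : Subgroup (G →* ℂˣ) where
  carrier := {ν | N ≤ ν.ker ∧ ¬ p ∣ orderOf ν ∧ ν • B = B}
  one_mem' := ⟨by simp, by simpa using (Fact.out : p.Prime).ne_one, one_smul _ _⟩
  mul_mem' := fun {a c} ha hc => ⟨fun n hn => by
      rw [MonoidHom.mem_ker, MonoidHom.mul_apply, ha.1 hn, hc.1 hn, mul_one],
    fun h => ((Fact.out : p.Prime).dvd_mul.1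
      (h.trans (Commute.all a c).orderOf_mul_dvd_mul_orderOf)).elim ha.2.1 hc.2.1,
    by rw [mul_smul, hc.2.2, ha.2.2]⟩
  inv_mem' := fun {a} ha => ⟨fun n hn => by
      rw [MonoidHom.mem_ker, MonoidHom.inv_apply, ha.1 hn, inv_one],
    by rw [orderOf_inv]; exact ha.2.1, by rw [inv_smul_eq_iff, ha.2.2]⟩

theorem orderOf_dvd_of_fixed' {N : Subgroup G} {B : Set (IrrCharacter G)}
    {P : ℕ} (hP : ∀ μ : G →* ℂˣ, N ≤ μ.ker → (∃ a, orderOf μ = p ^ a) → ∀ χ ∈ B, μ • χ = χ →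
      orderOf μ ≤ P) {μ : G →* ℂˣ} (hμ : N ≤ μ.ker) {χ : IrrCharacter G} (hχ : χ ∈ B)
    (h : μ • χ = χ) {H : Subgroup (G →* ℂˣ)}
    (hH : ∀ t : ℕ, N ≤ (μ ^ t).ker → ¬ p ∣ orderOf (μ ^ t) → μ ^ t • χ = χ → μ ^ t ∈ H) :
    orderOf μ ∣ p ^ Nat.log p P * Nat.card H := by
  have hp : p.Prime := Fact.out
  obtain ⟨a, k, hk, ho⟩ := Nat.exists_eq_pow_mul_and_not_dvd (orderOf_pos μ).ne' p hp.ne_one
  have hker : ∀ t, N ≤ (μ ^ t).ker := fun t n hn => by
    rw [MonoidHom.mem_ker, MonoidHom.pow_apply, hμ hn, one_pow]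
  have hfix : ∀ t, μ ^ t • χ = χ := fun t => pow_mem (mem_stabilizer_iff.2 h) t
  have hk0 : k ≠ 0 := fun h => hk (h ▸ dvd_zero p)
  have h1 : orderOf (μ ^ k) = p ^ a := by
    rw [orderOf_pow_of_dvd hk0 (ho ▸ dvd_mul_left _ _), ho, Nat.mul_div_cancel _ (by omega)]
  have h2 : orderOf (μ ^ p ^ a) = k := by
    rw [orderOf_pow_of_dvd (pow_ne_zero _ hp.ne_zero) (ho ▸ dvd_mul_right _ _), ho,
      Nat.mul_div_cancel_left _ (pow_pos hp.pos _)]
  rw [ho]
  refine mul_dvd_mul (pow_dvd_pow _ (Nat.le_log_of_pow_le hp.one_lt ?_)) ?_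
  · exact h1 ▸ hP _ (hker k) ⟨a, h1⟩ χ hχ (hfix k)
  · rw [← h2]
    exact Subgroup.orderOf_dvd_natCard _ (hH _ (hker _) (h2.symm ▸ hk) (hfix _))

end Lin

section Main

variable {N : Subgroup G} [N.Normal] {B₀ : Set (IrrCharacter G)} {b : Set (IrrCharacter N)}

include hM in
theorem eq_zero_of_blockPart_ind (hB₀ : IsPBlock M B₀) (hb : IsPBlock M b) (hc : Covers N B₀ b)
    {v : N → ℂ} (hv : IsClassFunction N v) (hinv : ∀ g : G, conjFun g v = v)
    (hs : ∀ θ : IrrCharacter N, ip v θ.1 ≠ 0 → ∃ g : G, θ ∈ g • b)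
    (h : blockPart B₀ (ind N v) = 0) : v = 0 := by
  classical
  refine hv.ext_ip (fun _ _ => rfl) fun θ => ?_
  rw [ip_zero_left]
  by_contra h0
  obtain ⟨g, hg⟩ := hs θ h0
  obtain ⟨χ, hχ, hl⟩ := (hc.smul g).exists_liesOver hM hB₀ (isPBlock_smul g hb) hg
  have h1 := ip_blockPart B₀ (ind N v) χ
  rw [h, ip_zero_left, if_pos hχ, ip_ind_left _ _ (irr_isClassFunction χ), clifford hl,
    ip_smul_right, ip_sum_right, Finset.sum_congr rfl (g := fun _ => ip v θ.1) fun φ hφ => ?_,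
    Finset.sum_const, card_conjOrbit, map_natCast, nsmul_eq_mul] at h1
  · have h2 := (liesOver_iff_mult_pos (irr_isCharacter χ) (irr_isCharacter θ)).1 hl
    exact mul_ne_zero (Nat.cast_ne_zero.2 h2.ne')
      (mul_ne_zero (Nat.cast_ne_zero.2 Subgroup.index_ne_zero_of_finite) h0) h1.symm
  · obtain ⟨x, rfl⟩ := mem_conjOrbit.1 hφ
    conv_lhs => rw [← hinv x]
    exact ip_conjFun x v θ.1

include hM in
theorem blockPart_mem_span (hB₀ : IsPBlock M B₀) {B : Set (IrrCharacter G)}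
    (hspan : ∀ χ ∈ B₀, pRegularPart p χ.1 ∈
      Submodule.span ℂ ((fun ψ : IrrCharacter G => pRegularPart p ψ.1) '' B))
    {f : G → ℂ} (hf : IsClassFunction G f) (h0 : ∀ g, p ∣ orderOf g → f g = 0) :
    blockPart B₀ f ∈
      Submodule.span ℂ ((fun ψ : IrrCharacter G => pRegularPart p ψ.1) '' (B ∩ B₀)) := by
  have key : ∀ x ∈ Submodule.span ℂ ((fun ψ : IrrCharacter G => pRegularPart p ψ.1) '' B),
      blockPart B₀ x ∈
        Submodule.span ℂ ((fun ψ : IrrCharacter G => pRegularPart p ψ.1) '' (B ∩ B₀)) := by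
    intro x hx
    induction hx using Submodule.span_induction with
    | mem x h =>
      obtain ⟨ψ, hψ, rfl⟩ := h
      rw [blockPart_pRegularPart hM hB₀ (irr_isClassFunction ψ)]
      by_cases h : ψ ∈ B₀
      · rw [blockPart_irr_of_mem h]
        exact Submodule.subset_span ⟨ψ, ⟨hψ, h⟩, rfl⟩
      · rw [blockPart_irr_of_not_mem h, ← zero_smul ℂ (0 : G → ℂ), pRegularPart_smul, zero_smul]
        exact zero_mem _
    | zero => rw [blockPart_zero]; exact zero_mem _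
    | add x y _ _ hx hy => rw [blockPart_add]; exact add_mem hx hy
    | smul c x _ hx => rw [blockPart_smul]; exact Submodule.smul_mem _ c hx
  rw [← pRegularPart_eq_self_iff.2 h0, blockPart_pRegularPart hM hB₀ hf, blockPart_eq_sum_bset,
    pRegularPart_sum]
  refine sum_mem fun χ hχ => ?_
  rw [pRegularPart_smul]
  refine Submodule.smul_mem _ _ ?_
  have := key _ (hspan χ (mem_bset.1 hχ))
  rwa [blockPart_pRegularPart hM hB₀ (irr_isClassFunction χ),
    blockPart_irr_of_mem (mem_bset.1 hχ)] at this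

variable {hM}

theorem conjFun_Φ_of_fixed (W : Wed hM N) {j : Fin W.N} {g : G}
    (h : ∀ θ ∈ W.blk j, g • θ = θ) : conjFun g (W.Φ j) = W.Φ j := by
  funext n
  rw [conjFun_apply, W.Φ_eq_sum, Finset.sum_apply, Finset.sum_apply]
  refine Finset.sum_congr rfl fun θ _ => ?_
  by_cases h0 : W.d θ j = 0
  · simp [h0]
  · rw [Pi.smul_apply, Pi.smul_apply, ← conjSmul_apply, h θ (W.mem_blk_of_d_ne_zero h0)]

theorem blk_of_conjFun (W : Wed hM N) {j k : Fin W.N} {g : G} (h : W.Φ k = conjFun g (W.Φ j)) :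
    W.blk k = g • W.blk j := by
  obtain ⟨θ, hθ⟩ := W.exists_d_ne_zero j
  refine (smul_block_eq_of_mem hM (W.isPBlock_blk j) (W.isPBlock_blk k)
    (W.mem_blk_of_d_ne_zero hθ) (W.mem_blk_of_d_ne_zero fun h0 => hθ ?_)).symm
  have := W.ip_Φ_irr k (g • θ)
  rw [h, conjSmul_val, ip_conjFun, W.ip_Φ_irr, h0] at this
  exact_mod_cast this

open Classical in
theorem index_mul_rank_le_card (W : Wed hM N) (hb : IsPBlock M b) :
    (stabilizer G b).index * blockRank p b ≤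
      (Finset.univ.filter fun j => W.blk j ∈ orbit G b).card := by
  rw [index_stabilizer, Set.ncard_eq_toFinset_card _ (Set.toFinite _), mul_comm]
  refine Finset.mul_card_image_le_card_of_maps_to (f := W.blk) (fun j hj => by simpa using hj) _
    fun c hc => ?_
  obtain ⟨g, rfl⟩ : c ∈ orbit G b := by simpa using hc
  rw [← blockRank_mapSet (MulAut.conjNormal g : MulAut N) b, mapSet_conjNormal,
    ← W.card_blk (isPBlock_smul g hb), Nat.card_eq_fintype_card, Fintype.card_subtype]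
  refine Finset.card_le_card fun j hj => ?_
  have : W.blk j = g • b := by simpa using hj
  simp [this]

variable (hM)

include hM in
/-- The orbit sums of projective indecomposable characters of `N`, induced and cut by `B₀`. -/
theorem exists_indep [IsCyclic (G ⧸ N)] (hB₀ : IsPBlock M B₀) (hb : IsPBlock M b)
    (hc : Covers N B₀ b) {m : ℕ} (hm0 : 0 < m)
    (hm : ∀ μ : G →* ℂˣ, N ≤ μ.ker → ∀ χ ∈ B₀, μ • χ = χ → orderOf μ ∣ m) :
    ∃ (k : ℕ) (f : Fin k → G → ℂ), (stabilizer G b).index * blockRank p b ≤ m * k ∧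
      (∀ r, IsClassFunction G (f r)) ∧ (∀ r g, g ∉ N → f r g = 0) ∧
      (∀ r g, p ∣ orderOf g → f r g = 0) ∧ LinearIndependent ℂ fun r => blockPart B₀ (f r) := by
  classical
  obtain ⟨W⟩ := exists_wed hM N
  obtain ⟨A, hA⟩ := exists_wedAct (G := G) W
  replace hA : ∀ (g : G) j, W.Φ (g • j) = conjFun g (W.Φ j) := hA
  set Y := Finset.univ.filter fun j => W.blk j ∈ orbit G b with hY
  -- orbits are short
  have h1 : ∀ j ∈ Y, (stabilizer G j).index ≤ m := fun j hj => by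
    obtain ⟨g, hg⟩ : W.blk j ∈ orbit G b := by simpa [hY] using hj
    have h2 : ∀ x : G, (∀ θ ∈ W.blk j, x • θ = θ) → x ∈ stabilizer G j := fun x hx =>
      W.Φ_injective ((hA x j).trans (conjFun_Φ_of_fixed W hx))
    refine Nat.le_of_dvd hm0 (index_dvd_of_pow_mem (N := N)
      (fun n hn => h2 n fun θ _ => conjSmul_of_mem hn θ) fun x => h2 _ fun θ hθ => ?_)
    obtain ⟨χ, hχ, hl⟩ := (hc.smul g).exists_liesOver hM hB₀ (isPBlock_smul g hb)
      (θ := θ) (by rw [← hg] at hθ; exact hθ)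
    obtain ⟨μ, h3, h4⟩ := exists_ker_eq_inertia θ
    have h5 := hm μ (h3 ▸ le_inertia θ) χ hχ (h4 χ hl)
    rw [← mem_stabilizer_iff, ← h3, MonoidHom.mem_ker, map_pow, ← MonoidHom.pow_apply,
      orderOf_dvd_iff_pow_eq_one.1 h5, MonoidHom.one_apply]
  let c : Fin W.N → orbitRel.Quotient G (Fin W.N) := Quotient.mk''
  have hcs : ∀ (g : G) j, c (g • j) = c j := fun g j =>
    Quotient.sound' (orbitRel_apply.2 ⟨g, rfl⟩)
  have hYs : ∀ (g : G) j, g • j ∈ Y ↔ j ∈ Y := fun g j => by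
    simp only [hY, Finset.mem_filter, Finset.mem_univ, true_and, blk_of_conjFun W (hA g j)]
    exact ⟨fun h => by simpa using mapsTo_smul_orbit g⁻¹ b h, fun h => mapsTo_smul_orbit g b h⟩
  have h6 : Y.card ≤ m * (Y.image c).card := by
    refine Finset.card_le_mul_card_image _ _ fun r hr => ?_
    obtain ⟨j, hj, rfl⟩ := Finset.mem_image.1 hr
    refine le_trans ?_ (h1 j hj)
    rw [index_stabilizer, Set.ncard_eq_toFinset_card _ (Set.toFinite _)]
    refine Finset.card_le_card fun k hk => ?_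
    rw [Set.Finite.mem_toFinset]
    exact orbitRel_apply.1 (Quotient.exact' (Finset.mem_filter.1 hk).2)
  -- the orbit sums
  let v : (Fin W.N → ℂ) → N → ℂ := fun a => ∑ k ∈ Y, a k • W.Φ k
  have hvc : ∀ a, IsClassFunction N (v a) := fun a =>
    isClassFunction_sum _ _ fun k _ => (W.isClassFunction_Φ k).smul _
  let e := (Y.image c).equivFin
  refine ⟨_, fun r => ind N (v fun k => if c k = (e.symm r).1 then 1 else 0),
    (index_mul_rank_le_card W hb).trans h6, fun r => isClassFunction_ind _ _,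
    fun r g hg => ind_apply_eq_zero_of_normal _ hg,
    fun r g hg => ind_apply_eq_zero' fun n hn => ?_, ?_⟩
  · simp only [v, Finset.sum_apply, Pi.smul_apply]
    refine Finset.sum_eq_zero fun k _ => ?_
    rw [W.Φ_apply_of_dvd k, smul_zero]
    obtain ⟨x, hx⟩ := isConj_iff.1 hn
    rwa [← Subgroup.orderOf_coe, ← hx, GT.orderOf_conj']
  refine LinearIndependent.comp (v := fun r : Y.image c =>
    blockPart B₀ (ind N (v fun k => if c k = r.1 then 1 else 0))) ?_ _ e.symm.injective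
  rw [Fintype.linearIndependent_iff]
  intro a ha r
  let a' : Fin W.N → ℂ := fun k => ∑ r : Y.image c, a r * if c k = r.1 then 1 else 0
  have h8 : v a' = ∑ r : Y.image c, a r • v fun k => if c k = r.1 then 1 else 0 := by
    simp only [v, a', Finset.sum_smul, Finset.smul_sum, smul_smul]
    exact Finset.sum_comm
  have h9 : v a' = 0 := by
    refine eq_zero_of_blockPart_ind hM hB₀ hb hc (hvc _) (fun g => ?_) (fun θ hθ => ?_) ?_
    · have : conjFun g (v a') = ∑ k ∈ Y, a' k • W.Φ (g • k) := by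
        funext n
        simp only [v, conjFun_apply, Finset.sum_apply, Pi.smul_apply, hA]
      rw [this]
      refine Finset.sum_equiv (MulAction.toPerm g) (fun k => (hYs g k).symm) fun k _ => ?_
      simp only [MulAction.toPerm_apply, a', hcs]
    · rw [ip_sum_left] at hθ
      obtain ⟨k, hk, h0⟩ := Finset.exists_ne_zero_of_sum_ne_zero hθ
      rw [ip_smul_left, W.ip_Φ_irr] at h0
      obtain ⟨g, hg⟩ : W.blk k ∈ orbit G b := by simpa [hY] using hk
      exact ⟨g, (show g • b = W.blk k from hg) ▸ W.mem_blk_of_d_ne_zero fun h => h0 (by simp [h])⟩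
    · rw [h8, ind_sum, blockPart_sum, ← ha]
      simp only [ind_smul, blockPart_smul]
  obtain ⟨j, hj, hr⟩ := Finset.mem_image.1 r.2
  have := linearIndependent_iff'.1 W.linearIndependent_Φ Y a' h9 j hj
  simpa [a', hr, Subtype.val_inj] using this

include hM in
/-- Burnside's count for the basic set of `B₀`. -/
theorem mul_le_sum_fixed (hB₀ : IsPBlock M B₀) {B : Set (IrrCharacter G)}
    (hspan : ∀ χ ∈ B₀, pRegularPart p χ.1 ∈
      Submodule.span ℂ ((fun ψ : IrrCharacter G => pRegularPart p ψ.1) '' B))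
    (hcl : ∀ ν : G →* ℂˣ, N ≤ ν.ker → ¬ p ∣ orderOf ν → ∀ χ ∈ B, χ ∈ B₀ → ν • χ ∈ B₀ → ν • χ ∈ B)
    {P : ℕ} (hP : ∀ μ : G →* ℂˣ, N ≤ μ.ker → (∃ a, orderOf μ = p ^ a) → ∀ χ ∈ B₀, μ • χ = χ →
      orderOf μ ≤ P)
    {Γ : Finset (G →* ℂˣ)} (hΓ : ∀ ν : G →* ℂˣ, N ≤ ν.ker → ¬ p ∣ orderOf ν → ν ∈ Γ)
    {H : Subgroup (G →* ℂˣ)} (hH : H ≤ regStab p N B₀) {k : ℕ} {f : Fin k → G → ℂ}
    (h1 : ∀ r, IsClassFunction G (f r)) (h2 : ∀ r, ∀ ν ∈ H, ∀ g, g ∉ ν.ker → f r g = 0)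
    (h3 : ∀ r g, p ∣ orderOf g → f r g = 0)
    (h4 : LinearIndependent ℂ fun r => blockPart B₀ (f r)) :
    p ^ Nat.log p P * Nat.card H * k ≤
      P * ∑ ν ∈ Γ, Nat.card {χ : IrrCharacter G // χ ∈ B ∧ χ ∈ B₀ ∧ ν • χ = χ} := by
  let S : SubMulAction H (IrrCharacter G) :=
    { carrier := B ∩ B₀
      smul_mem' := fun ν χ hχ => by
        have : ν.1 • χ ∈ B₀ := (hH ν.2).2.2 ▸ Set.smul_mem_smul_set hχ.2
        exact ⟨hcl ν.1 (hH ν.2).1 (hH ν.2).2.1 χ hχ.1 hχ.2 this, this⟩ }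
  have := Fintype.ofFinite H
  have h7 := card_mul_le_sum_fixed (H := H) (S := S) (fun ν => mulLin ν.1)
    (fun χ => pRegularPart p χ.1.1) (fun ν χ => mulLin_pRegularPart ν.1 χ.1) h4
    (fun r => Submodule.span_mono ?_ (blockPart_mem_span hM hB₀ hspan (h1 r) (h3 r)))
    fun ν r => mulLin_blockPart (hH ν.2).2.2 (h2 r ν.1 ν.2)
  · rw [mul_assoc]
    refine Nat.mul_le_mul ?_ ?_
    · obtain ⟨χ, hχ⟩ := block_nonempty hM hB₀
      have := hP 1 (by simp) ⟨0, by simp⟩ χ hχ (one_smul (G →* ℂˣ) χ)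
      rw [orderOf_one] at this
      exact Nat.pow_log_le_self _ (by omega)
    rw [Nat.card_eq_fintype_card (α := Fin k), Fintype.card_fin, mul_comm] at h7
    refine h7.trans ?_
    refine le_trans (le_of_eq ?_) (Finset.sum_le_sum_of_subset
      (s := Finset.univ.map (Function.Embedding.subtype (· ∈ H))) fun ν hν => ?_)
    · rw [Finset.sum_map]
      refine Finset.sum_congr rfl fun ν _ => Nat.card_congr ?_
      exact ⟨fun χ => ⟨χ.1.1, χ.1.2.1, χ.1.2.2, congrArg Subtype.val χ.2⟩,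
        fun χ => ⟨⟨χ.1, χ.2.1, χ.2.2.1⟩, Subtype.ext χ.2.2.2⟩, fun _ => rfl, fun _ => rfl⟩
    · obtain ⟨ν, -, rfl⟩ := Finset.mem_map.1 hν
      exact hΓ ν.1 (hH ν.2).1 (hH ν.2).2.1
  · rintro _ ⟨χ, hχ, rfl⟩
    exact ⟨⟨χ, hχ⟩, rfl⟩

include hM in
/-- **The rank of a block of a normal subgroup with cyclic quotient.** -/
theorem index_mul_rank_le [IsCyclic (G ⧸ N)] (hB₀ : IsPBlock M B₀) (hb : IsPBlock M b)
    (hc : Covers N B₀ b) (B : Set (IrrCharacter G))
    (hspan : ∀ χ ∈ B₀, pRegularPart p χ.1 ∈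
      Submodule.span ℂ ((fun ψ : IrrCharacter G => pRegularPart p ψ.1) '' B))
    (hcl : ∀ ν : G →* ℂˣ, N ≤ ν.ker → ¬ p ∣ orderOf ν → ∀ χ ∈ B, χ ∈ B₀ → ν • χ ∈ B₀ → ν • χ ∈ B)
    (P : ℕ) (hP : ∀ μ : G →* ℂˣ, N ≤ μ.ker → (∃ a, orderOf μ = p ^ a) → ∀ χ ∈ B₀, μ • χ = χ →
      orderOf μ ≤ P)
    (Γ : Finset (G →* ℂˣ)) (hΓ : ∀ ν : G →* ℂˣ, N ≤ ν.ker → ¬ p ∣ orderOf ν → ν ∈ Γ) :
    (stabilizer G b).index * blockRank p b ≤
      P * ∑ ν ∈ Γ, Nat.card {χ : IrrCharacter G // χ ∈ B ∧ χ ∈ B₀ ∧ ν • χ = χ} := by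
  obtain ⟨k, f, h0, h1, h2, h3, h4⟩ := exists_indep hM hB₀ hb hc
    (m := p ^ Nat.log p P * Nat.card (regStab p N B₀))
    (Nat.mul_pos (pow_pos (Fact.out : p.Prime).pos _) Nat.card_pos) fun μ hμ χ hχ h =>
      orderOf_dvd_of_fixed' hP hμ hχ h fun t a1 a2 a3 =>
        ⟨a1, a2, lin_smul_block_eq hM hB₀ hχ (a3.symm ▸ hχ)⟩
  exact h0.trans (mul_le_sum_fixed hM hB₀ hspan hcl hP hΓ le_rfl h1
    (fun r ν hν g hg => h2 r g fun h => hg (hν.1 h)) h3 h4)

include hM in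
/-- **The same with an intermediate normal subgroup** `N₀` whose blocks below `B₀` have
stabiliser `N₀`. -/
theorem index_mul_rank_le_mid [IsCyclic (G ⧸ N)] (hB₀ : IsPBlock M B₀) (hb : IsPBlock M b)
    (hc : Covers N B₀ b) {N₀ : Subgroup G} [N₀.Normal] (hN : N ≤ N₀)
    (hst : ∀ b₀ : Set (IrrCharacter N₀), IsPBlock M b₀ → Covers N₀ B₀ b₀ →
      ∀ g : G, g • b₀ = b₀ → g ∈ N₀) (B : Set (IrrCharacter G))
    (hspan : ∀ χ ∈ B₀, pRegularPart p χ.1 ∈
      Submodule.span ℂ ((fun ψ : IrrCharacter G => pRegularPart p ψ.1) '' B))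
    (hcl : ∀ ν : G →* ℂˣ, N ≤ ν.ker → ¬ p ∣ orderOf ν → ∀ χ ∈ B, χ ∈ B₀ → ν • χ ∈ B₀ → ν • χ ∈ B)
    (P : ℕ) (hP : ∀ μ : G →* ℂˣ, N ≤ μ.ker → (∃ a, orderOf μ = p ^ a) → ∀ χ ∈ B₀, μ • χ = χ →
      orderOf μ ≤ P)
    (Γ : Finset (G →* ℂˣ)) (hΓ : ∀ ν : G →* ℂˣ, N ≤ ν.ker → ¬ p ∣ orderOf ν → ν ∈ Γ) :
    N₀.index * blockRank p b ≤
      P * ∑ ν ∈ Γ, Nat.card {χ : IrrCharacter G // χ ∈ B ∧ χ ∈ B₀ ∧ ν • χ = χ} := by
  classical
  obtain ⟨χ₀, hχ₀, θ₀, hθ₀, hl₀⟩ := hc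
  obtain ⟨ψ₀, hl₁, hl₂⟩ := hl₀.exists_between hN (irr_isClassFunction χ₀)
  set b₀ := blockOf M ψ₀.1
  have hb₀ : IsPBlock M b₀ := isPBlock_blockOf ψ₀
  have hc₀ : Covers N₀ B₀ b₀ := ⟨χ₀, hχ₀, ψ₀, mem_blockOf_self hM ψ₀, hl₁⟩
  have hc₁ := (coversLe_iff_covers hN b₀ b).1 ⟨ψ₀, mem_blockOf_self hM ψ₀, θ₀, hθ₀, hl₂⟩
  have hs : ∀ ψ ∈ b₀, ∀ g : G, g • ψ ∈ b₀ → g ∈ N₀ := fun ψ hψ g hg =>
    hst b₀ hb₀ hc₀ g (smul_block_eq_of_mem hM hb₀ hb₀ hψ hg)
  let H := regStab p N B₀ ⊓ (stabilizer (N₀ →* ℂˣ) b₀).comap (MonoidHom.compHom' N₀.subtype)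
  have : IsCyclic (N₀ ⧸ N.subgroupOf N₀) := by
    obtain ⟨μ, hμ⟩ := exists_units_hom_ker_eq N
    have := isCyclic_quotient_ker_units_hom (μ.comp N₀.subtype)
    exact isCyclic_of_surjective _ (QuotientGroup.quotientMulEquivOfEq
      (show (μ.comp N₀.subtype).ker = N.subgroupOf N₀ by
        rw [← MonoidHom.comap_ker, hμ]; rfl)).surjective
  have key : ∀ μ : N₀ →* ℂˣ, N.subgroupOf N₀ ≤ μ.ker → ∀ ψ ∈ b₀, μ • ψ = ψ →
      orderOf μ * N₀.index ∣ p ^ Nat.log p P * Nat.card H := fun μ hμ ψ hψ h => by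
    obtain ⟨χ, hχ, hl⟩ := hc₀.exists_liesOver hM hB₀ hb₀ hψ
    have h1 : N ≤ μ.ker.map N₀.subtype := fun n hn => ⟨⟨n, hN hn⟩, hμ hn, rfl⟩
    obtain ⟨μ', hμ'⟩ := exists_ker_eq h1
    have h2 : orderOf μ' = orderOf μ * N₀.index := by
      rw [orderOf_units_hom, orderOf_units_hom, hμ', Subgroup.index_map_subtype]
    have h3 : ∀ n : N₀, (n : G) ∉ μ'.ker → ψ.1 n = 0 := fun n hn =>
      (lin_smul_eq_self_iff μ ψ).1 h n fun h' => hn (hμ' ▸ ⟨n, h', rfl⟩)
    have h4 : μ' • χ = χ := (lin_smul_eq_self_iff _ _).2 fun g hg => by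
      rw [← hl.ind_eq_of_inertia_eq (le_antisymm (fun g hg => hs ψ hψ g (by
        rw [mem_stabilizer_iff.1 hg]; exact hψ)) (le_inertia ψ))]
      refine ind_apply_eq_zero' fun n hn => h3 n fun h' => hg ?_
      obtain ⟨x, hx⟩ := isConj_iff.1 hn.symm
      exact hx ▸ (MonoidHom.normal_ker μ').conj_mem _ h' x
    rw [← h2]
    refine orderOf_dvd_of_fixed' hP (hμ' ▸ h1) hχ h4 fun t a1 a2 a3 =>
      ⟨⟨a1, a2, lin_smul_block_eq hM hB₀ hχ (a3.symm ▸ hχ)⟩, lin_smul_block_eq hM hb₀ hψ ?_⟩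
    rwa [(lin_smul_eq_self_iff _ ψ).2 fun n hn => h3 n fun h' => hn ?_]
    change (μ' ^ t) n = 1
    rw [MonoidHom.pow_apply, h', one_pow]
  obtain ⟨m, hm⟩ : N₀.index ∣ p ^ Nat.log p P * Nat.card H := by
    simpa using key 1 (by simp) ψ₀ (mem_blockOf_self hM ψ₀) (one_smul (N₀ →* ℂˣ) ψ₀)
  have hm0 : 0 < N₀.index * m :=
    hm ▸ Nat.mul_pos (pow_pos (Fact.out : p.Prime).pos _) Nat.card_pos
  obtain ⟨k, f, h0, h1, h2, h3, h4⟩ := exists_indep hM hb₀ (isPBlock_mapSet _ hb) hc₁ (m := m)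
    (Nat.pos_of_mul_pos_left hm0) fun μ hμ ψ hψ h => by
      have := key μ hμ ψ hψ h
      rwa [hm, mul_comm, Nat.mul_dvd_mul_iff_left (Nat.pos_of_mul_pos_right hm0)] at this
  rw [blockRank_mapSet] at h0
  refine le_trans ?_ (mul_le_sum_fixed hM hB₀ hspan hcl hP hΓ (H := H) inf_le_left
    (f := fun r => ind N₀ (blockPart b₀ (f r))) (fun r => isClassFunction_ind _ _)
    (fun r ν hν g hg => ind_apply_eq_zero' fun n hn => ?_)
    (fun r g hg => ind_apply_eq_zero' fun n hn => ?_) ?_)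
  · rw [hm, mul_assoc]
    exact Nat.mul_le_mul_left _ (le_trans (Nat.le_mul_of_pos_left _
      (Nat.pos_of_ne_zero Subgroup.index_ne_zero_of_finite)) h0)
  · have h5 := congrFun (mulLin_blockPart (ν := ν.comp N₀.subtype) hν.2 (f := f r)
      fun x hx => h2 r x fun h => hx (hν.1.1 h)) n
    rw [mulLin_apply] at h5
    by_contra h6
    obtain ⟨x, hx⟩ := isConj_iff.1 hn.symm
    refine hg (hx ▸ (MonoidHom.normal_ker ν).conj_mem _ (Units.ext ?_) x)
    exact mul_right_cancel₀ h6 (h5.trans (one_mul _).symm)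
  · obtain ⟨x, hx⟩ := isConj_iff.1 hn
    rw [← pRegularPart_eq_self_iff.2 (h3 r), blockPart_pRegularPart hM hb₀ (h1 r)]
    exact pRegularPart_of_dvd _ (by rwa [← Subgroup.orderOf_coe, ← hx, GT.orderOf_conj'])
  · rw [Fintype.linearIndependent_iff] at h4 ⊢
    intro a ha
    refine h4 a ?_
    have h5 : ∑ r, a r • blockPart b₀ (f r) = blockPart b₀ (∑ r, a r • f r) := by
      simp only [blockPart_sum, blockPart_smul]
    have h6 : blockPart B₀ (ind N₀ (blockPart b₀ (∑ r, a r • f r))) = 0 := by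
      rw [← h5, ind_sum, blockPart_sum, ← ha]
      simp only [ind_smul, blockPart_smul]
    rw [h5]
    refine (isClassFunction_blockPart _ _).ext_ip (fun _ _ => rfl) fun ψ => ?_
    rw [ip_zero_left]
    by_cases hψ : ψ ∈ b₀
    · obtain ⟨χ, hχ, hl⟩ := hc₀.exists_liesOver hM hB₀ hb₀ hψ
      have h7 := ip_blockPart B₀ (ind N₀ (blockPart b₀ (∑ r, a r • f r))) χ
      rw [h6, ip_zero_left, if_pos hχ, ip_ind_left _ _ (irr_isClassFunction χ), clifford hl,
        ip_smul_right, ip_sum_right, Finset.sum_eq_single ψ, map_natCast] at h7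
      · exact (mul_eq_zero.1 h7.symm).resolve_left (Nat.cast_ne_zero.2
          ((liesOver_iff_mult_pos (irr_isCharacter χ) (irr_isCharacter ψ)).1 hl).ne')
      · intro φ hφ hne
        obtain ⟨x, rfl⟩ := mem_conjOrbit.1 hφ
        rw [ip_blockPart, if_neg fun h => hne (conjSmul_of_mem (hs ψ hψ x h) ψ)]
      · exact fun h => absurd (mem_conjOrbit.2 (mem_orbit_self ψ)) h
    · rw [ip_blockPart, if_neg hψ]

include hM in
/-- The same for `N = ker δ` with `δ` onto a cyclic group and a union `X` of blocks. -/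
theorem index_mul_rank_le_ker {C : Type*} [Group C] [IsCyclic C] (δ : G →* C)
    (hδ : Function.Surjective δ) {X B : Set (IrrCharacter G)} (hB₀ : IsPBlock M B₀) (hX : B₀ ⊆ X)
    {b : Set (IrrCharacter δ.ker)} (hb : IsPBlock M b) (hc : Covers δ.ker B₀ b)
    (hspan : ∀ χ ∈ X, pRegularPart p χ.1 ∈
      Submodule.span ℂ ((fun ψ : IrrCharacter G => pRegularPart p ψ.1) '' B))
    (hcl : ∀ ν : C →* ℂˣ, ¬ p ∣ orderOf ν → ∀ χ ∈ B, ν.comp δ • χ ∈ X → ν.comp δ • χ ∈ B)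
    (P : ℕ) (hP : ∀ μ : C →* ℂˣ, (∃ a, orderOf μ = p ^ a) → ∀ χ ∈ X, μ.comp δ • χ = χ →
      orderOf μ ≤ P)
    (Γ : Finset (C →* ℂˣ)) (hΓ : ∀ ν : C →* ℂˣ, ¬ p ∣ orderOf ν → ν ∈ Γ) :
    (stabilizer G b).index * blockRank p b ≤
      P * ∑ ν ∈ Γ, Nat.card {χ : IrrCharacter G // χ ∈ B ∧ χ ∈ B₀ ∧ ν.comp δ • χ = χ} := by
  classical
  have hinj : Function.Injective (MonoidHom.compHom' δ : (C →* ℂˣ) →* G →* ℂˣ) :=
    fun a c h => (MonoidHom.cancel_right hδ).1 h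
  have hord : ∀ ν : C →* ℂˣ, orderOf (ν.comp δ) = orderOf ν := orderOf_injective _ hinj
  have hl : ∀ ν : G →* ℂˣ, δ.ker ≤ ν.ker → ∃ ν' : C →* ℂˣ, ν'.comp δ = ν := fun ν h =>
    ⟨δ.liftOfSurjective hδ ⟨ν, h⟩, δ.liftOfRightInverse_comp _ _ ⟨ν, h⟩⟩
  have : IsCyclic (G ⧸ δ.ker) := isCyclic_of_surjective _
    (QuotientGroup.quotientKerEquivOfSurjective δ hδ).symm.surjective
  refine (index_mul_rank_le hM hB₀ hb hc B (fun χ hχ => hspan χ (hX hχ))
    (fun ν h1 h2 χ h3 _ h4 => ?_) P (fun μ h1 h2 χ h3 h4 => ?_) (Γ.image fun ν => ν.comp δ)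
    fun ν h1 h2 => ?_).trans (le_of_eq ?_)
  · obtain ⟨ν, rfl⟩ := hl ν h1
    exact hcl ν (hord ν ▸ h2) χ h3 (hX h4)
  · obtain ⟨μ, rfl⟩ := hl μ h1
    rw [hord] at h2 ⊢
    exact hP μ h2 χ (hX h3) h4
  · obtain ⟨ν, rfl⟩ := hl ν h1
    exact Finset.mem_image_of_mem _ (hΓ ν (hord ν ▸ h2))
  · rw [Finset.sum_image (g := fun ν : C →* ℂˣ => ν.comp δ) fun a _ c _ h => hinj h]

include hM in
/-- The same for `N = ker δ` with `δ` onto a cyclic group and a union `X` of blocks. -/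
theorem index_mul_rank_le_ker_mid {C : Type*} [Group C] [IsCyclic C] (δ : G →* C)
    (hδ : Function.Surjective δ) {X B : Set (IrrCharacter G)} (hB₀ : IsPBlock M B₀) (hX : B₀ ⊆ X)
    {b : Set (IrrCharacter δ.ker)} (hb : IsPBlock M b) (hc : Covers δ.ker B₀ b)
    {N₀ : Subgroup G} [N₀.Normal] (hN : δ.ker ≤ N₀)
    (hst : ∀ b₀ : Set (IrrCharacter N₀), IsPBlock M b₀ → Covers N₀ B₀ b₀ →
      ∀ g : G, g • b₀ = b₀ → g ∈ N₀)
    (hspan : ∀ χ ∈ X, pRegularPart p χ.1 ∈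
      Submodule.span ℂ ((fun ψ : IrrCharacter G => pRegularPart p ψ.1) '' B))
    (hcl : ∀ ν : C →* ℂˣ, ¬ p ∣ orderOf ν → ∀ χ ∈ B, ν.comp δ • χ ∈ X → ν.comp δ • χ ∈ B)
    (P : ℕ) (hP : ∀ μ : C →* ℂˣ, (∃ a, orderOf μ = p ^ a) → ∀ χ ∈ X, μ.comp δ • χ = χ →
      orderOf μ ≤ P)
    (Γ : Finset (C →* ℂˣ)) (hΓ : ∀ ν : C →* ℂˣ, ¬ p ∣ orderOf ν → ν ∈ Γ) :
    N₀.index * blockRank p b ≤
      P * ∑ ν ∈ Γ, Nat.card {χ : IrrCharacter G // χ ∈ B ∧ χ ∈ B₀ ∧ ν.comp δ • χ = χ} := by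
  classical
  have hinj : Function.Injective (MonoidHom.compHom' δ : (C →* ℂˣ) →* G →* ℂˣ) :=
    fun a c h => (MonoidHom.cancel_right hδ).1 h
  have hord : ∀ ν : C →* ℂˣ, orderOf (ν.comp δ) = orderOf ν := orderOf_injective _ hinj
  have hl : ∀ ν : G →* ℂˣ, δ.ker ≤ ν.ker → ∃ ν' : C →* ℂˣ, ν'.comp δ = ν := fun ν h =>
    ⟨δ.liftOfSurjective hδ ⟨ν, h⟩, δ.liftOfRightInverse_comp _ _ ⟨ν, h⟩⟩
  have : IsCyclic (G ⧸ δ.ker) := isCyclic_of_surjective _
    (QuotientGroup.quotientKerEquivOfSurjective δ hδ).symm.surjective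
  refine (index_mul_rank_le_mid hM hB₀ hb hc hN hst B (fun χ hχ => hspan χ (hX hχ))
    (fun ν h1 h2 χ h3 _ h4 => ?_) P (fun μ h1 h2 χ h3 h4 => ?_) (Γ.image fun ν => ν.comp δ)
    fun ν h1 h2 => ?_).trans (le_of_eq ?_)
  · obtain ⟨ν, rfl⟩ := hl ν h1
    exact hcl ν (hord ν ▸ h2) χ h3 (hX h4)
  · obtain ⟨μ, rfl⟩ := hl μ h1
    rw [hord] at h2 ⊢
    exact hP μ h2 χ (hX h3) h4
  · obtain ⟨ν, rfl⟩ := hl ν h1
    exact Finset.mem_image_of_mem _ (hΓ ν (hord ν ▸ h2))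
  · rw [Finset.sum_image (g := fun ν : C →* ℂˣ => ν.comp δ) fun a _ c _ h => hinj h]

end Main

end GUH
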