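import Cfsg.Agent.Lib.GU.Orb
import Cfsg.Agent.Lib.GL.CnB2

/-!
# S4537: the count of labels
-/

set_option autoImplicit false
set_option linter.unusedSectionVars false

namespace GUH

open Finset SFock Cfsg GT GLH GLH.CnB
open scoped Classical

namespace Cn

/-- a computable superset of the partitions -/
def pl : ℕ → ℕ → Finset (Multiset ℕ)
  | 0, _ => {0}
  | f + 1, w => if w = 0 then {0} else (range w).biUnion fun a => (pl f (w - (a + 1))).image ((a + 1) ::ₘ ·)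

theorem par_sub (f : ℕ) : ∀ w, w ≤ f → Par w ⊆ pl f w := by
  have h0 : ∀ ν ∈ Par 0, ν = 0 := fun a ha => Multiset.eq_zero_iff_forall_notMem.2
    fun x hx => ((mem_Par.1 ha).1 x hx).ne' (Multiset.sum_eq_zero_iff.1 (mem_Par.1 ha).2 x hx)
  induction f with
  | zero =>
    intro w hw ν hν
    obtain rfl : w = 0 := by omega
    exact mem_singleton.2 (h0 ν hν)
  | succ f ih =>
    intro w hw ν hν
    rw [pl]
    split_ifs with h
    · subst h; exact mem_singleton.2 (h0 ν hν)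
    rw [mem_Par] at hν
    obtain ⟨x, hx⟩ := Multiset.exists_mem_of_ne_zero (s := ν) (by rintro rfl; exact h hν.2.symm)
    obtain ⟨b, rfl⟩ := Multiset.exists_cons_of_mem hx
    have h1 := hν.1 x hx
    have h2 := hν.2
    rw [Multiset.sum_cons] at h2
    exact mem_biUnion.2 ⟨x - 1, mem_range.2 (by omega), mem_image.2 ⟨b, ih _ (by omega)
      (mem_Par.2 ⟨fun y hy => hν.1 y (Multiset.mem_cons_of_mem hy), by omega⟩), by rw [Nat.sub_add_cancel h1]⟩⟩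

theorem card_Par_eight : (Par 8).card ≤ 32 := (card_le_card (par_sub 8 8 le_rfl)).trans (by decide +kernel)

theorem card_SZ_par (N w : ℕ) (c : Multiset ℕ) : (SZ N 1 w c).card ≤ (Par w).card := by
  refine card_le_card_of_injOn (fun T => (qt 1 T).map Prod.fst) (fun T hT => mem_Par.2 ⟨fun x hx => ?_, ?_⟩)
    fun S hS T hT h => eq_of_qt one_pos ((mem_SZ.1 hS).2.2.trans (mem_SZ.1 hT).2.2.symm) ?_
  · obtain ⟨y, hy, rfl⟩ := Multiset.mem_map.1 hx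
    obtain ⟨z, -, h4, rfl⟩ := mem_qt hy
    exact h4
  · rw [sum_qt_fst, wt_one (mem_SZ.1 hT).1, (mem_SZ.1 hT).2.1]
  · have key : ∀ T, ((qt 1 T).map Prod.fst).map (fun x => (x, 0)) = qt 1 T := fun T => by
      rw [Multiset.map_map]
      refine (Multiset.map_congr rfl fun y hy => ?_).trans (Multiset.map_id _)
      obtain ⟨z, -, -, rfl⟩ := mem_qt hy
      simp [Nat.mod_one]
    rw [← key S, ← key T]
    exact congrArg _ h

theorem mul_fib (w : ℕ) : (w + 9) * Nat.fib (w + 9 + 1) ≤ 2 ^ (w + 9) := by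
  induction w with
  | zero => decide
  | succ w ih =>
    have h1 : Nat.fib (w + 9 + 2) = _ := Nat.fib_add_two
    have h2 : Nat.fib (w + 8 + 2) = _ := Nat.fib_add_two
    have h3 : Nat.fib (w + 7 + 2) = _ := Nat.fib_add_two
    have h4 := @Nat.fib_le_fib_succ (w + 7)
    rw [show w + 1 + 9 + 1 = w + 9 + 2 from rfl, show w + 1 + 9 = w + 9 + 1 from rfl, pow_succ]
    simp only [add_assoc, Nat.reduceAdd] at *
    have h5 : 3 * Nat.fib (w + 11) ≤ 5 * Nat.fib (w + 10) := by omega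
    nlinarith

theorem mul_fib' (w : ℕ) : w * (Nat.fib (w + 1) + 1) ≤ 2 * 2 ^ w := by
  rcases lt_or_ge w 9 with h | h
  · interval_cases w <;> decide
  · obtain ⟨k, rfl⟩ : ∃ k, w = k + 9 := ⟨w - 9, by omega⟩
    have := mul_fib k
    have := @Nat.lt_two_pow_self (k + 9)
    rw [mul_add]
    omega

theorem num_three (w : ℕ) : (w + 6) * 2 ^ (w + 5) ≤ 3 ^ (w + 5) := by
  induction w with
  | zero => decide
  | succ w ih =>
    rw [show w + 1 + 5 = w + 5 + 1 from rfl, pow_succ 2, pow_succ 3]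
    have := Nat.one_le_two_pow (n := w + 5)
    nlinarith

theorem num {X : Type*} [Fintype X] {n : X → ℕ} {x0 : X} (h0 : n x0 ≠ 0) {p s j : ℕ} (hp : p.Prime)
    (hW : ∑ x, n x ≤ s + 1) (hv : ∀ x, p ^ j ∣ n x) (h3 : p = 2 → (∀ x, Even (n x)) → ∑ x, n x ≤ s)
    (h4 : p = 2 → 2 ≤ j → ∑ x, n x = 4 → 5 ≤ s) :
    p ^ j * ∏ x, bf (n x ≠ 0 ∧ x ≠ x0) (Par (n x)).card ≤ p ^ s := by
  have a0 : n x0 ≤ ∑ x, n x := single_le_sum (f := n) (fun _ _ => Nat.zero_le _) (mem_univ x0)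
  have a1 := Tb_le' h0 fun x => one_dvd (n x)
  have a2 : ∏ x, bf (n x ≠ 0 ∧ x ≠ x0) (Par (n x)).card ≤ Tb n x0 1 :=
    prod_le_prod' fun x _ => bf_mono _ (by rw [Nat.div_one]; exact card_Par_le _)
  have a3 : (∀ x ≠ x0, n x = 0) → ∏ x, bf (n x ≠ 0 ∧ x ≠ x0) (Par (n x)).card = (Par (∑ x, n x)).card :=
    fun h => by
      have h1 : (Par 0).card = 1 := le_antisymm (card_Par_le 0) (card_pos.2 ⟨0, mem_Par.2 (by simp)⟩)
      rw [prod_eq_single x0 (fun x _ hx => by simp [h x hx, bf, h1]) (by simp),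
        sum_eq_single x0 (fun x _ hx => h x hx) (by simp)]
      simp [bf]
  have a4 : ∀ x ≠ x0, n x0 + n x ≤ ∑ x, n x := fun x h => by
    rw [← sum_pair h.symm]
    exact sum_le_sum_of_subset (subset_univ _)
  have a5 := Nat.le_of_dvd (Nat.pos_of_ne_zero h0) (hv x0)
  have a6 := dvd_sum fun x (_ : x ∈ univ) => hv x
  have a7 := card_Par_le (∑ x, n x)
  rw [Nat.div_one] at a1
  generalize ∏ x, bf (n x ≠ 0 ∧ x ≠ x0) (Par (n x)).card = T at *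
  rcases j with _ | j
  · have := Nat.pow_le_pow_left hp.two_le s
    have := Nat.pow_le_pow_right two_pos hW
    rw [pow_succ] at this
    rw [pow_zero, one_mul]
    omega
  have a8 : p ∣ p ^ (j + 1) := dvd_pow_self p j.succ_ne_zero
  rcases hp.eq_two_or_odd' with rfl | ho
  · have b1 := Nat.pow_le_pow_right two_pos (h3 rfl fun x => even_iff_two_dvd.2 (a8.trans (hv x)))
    rcases j with _ | j
    · omega
    by_cases h : ∀ x ≠ x0, n x = 0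
    · rw [a3 h]
      obtain ⟨k, hk⟩ := (pow_dvd_pow 2 (by omega : 2 ≤ j + 1 + 1)).trans a6
      have b2 := a5.trans a0
      generalize 2 ^ (j + 1 + 1) = v at *
      rcases k with _ | _ | _ | k
      · omega
      · have := Nat.pow_le_pow_right two_pos (h4 rfl (by omega) hk)
        rw [hk] at b2 a7 ⊢
        exact (Nat.mul_le_mul b2 a7).trans (le_trans (by decide) this)
      · rw [hk] at b1 b2 ⊢
        exact (Nat.mul_le_mul b2 card_Par_eight).trans b1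
      · have := mul_fib (4 * k + 3)
        rw [show 4 * k + 3 + 9 = ∑ x, n x by omega] at this
        exact (Nat.mul_le_mul b2 a7).trans (this.trans b1)
    · push Not at h
      obtain ⟨x1, h, h'⟩ := h
      have b2 := Tb_le h0 (fun x => one_dvd (n x)) (a := n x1) (b := 2)
        (fun _ => by rw [Nat.div_one]; exact mul_fib' _) (fun e => (h e).elim) h'
      rw [Nat.div_one, mul_assoc] at b2
      have := Nat.mul_le_mul (Nat.le_of_dvd (Nat.pos_of_ne_zero h') (hv x1)) a2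
      omega
  · have b0 : 3 ≤ p := by have := hp.two_le; obtain ⟨k, rfl⟩ := ho; omega
    have b1 := Nat.le_of_dvd (Nat.pos_of_ne_zero h0) (a8.trans (hv x0))
    have b2 := a8.trans a6
    have b3 := Nat.mul_le_mul (a5.trans a0) a2
    generalize p ^ (j + 1) = v at *
    obtain ⟨w, e⟩ : ∃ w, ∑ x, n x = w + 3 := ⟨∑ x, n x - 3, by omega⟩
    have b4 := Nat.pow_le_pow_right hp.pos (show w + 2 ≤ s by omega)
    rw [e] at a0 a1 a3 a4 a7 b2 b3
    rcases w with _ | _ | _ | w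
    · have c := a3 fun x h => by have := a4 x h; omega
      have := Nat.pow_le_pow_left b0 (0 + 2)
      have : v * T ≤ 3 * 3 := Nat.mul_le_mul (by omega) (c.le.trans a7)
      omega
    · have := (Nat.prime_dvd_prime_iff_eq hp Nat.prime_two).1 (hp.dvd_of_dvd_pow (n := 2) b2)
      omega
    · obtain rfl := (Nat.prime_dvd_prime_iff_eq hp Nat.prime_five).1 b2
      omega
    · have b5 := num_three w
      have b6 := Nat.pow_le_pow_left b0 (w + 5)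
      have b7 : Tb n x0 1 ≤ 2 ^ (w + 5) := by rw [pow_succ] at a1; omega
      exact b3.trans ((Nat.mul_le_mul_left _ b7).trans (b5.trans (b6.trans b4)))

theorem orderOf_dvd_sum {Γ : Type*} [CommGroup Γ] [Fintype Γ] (z : Γ) (S : Finset Γ) (f : Γ → ℕ)
    (hS : ∀ x ∈ S, z * x ∈ S) (hf : ∀ x, f (z * x) = f x) : orderOf z ∣ ∑ x ∈ S, f x := by
  have h1 : ∀ h ∈ Subgroup.zpowers z, ∀ x, (x ∈ S → h * x ∈ S) ∧ f (h * x) = f x := fun h hh => by
    obtain ⟨k, rfl⟩ := mem_powers_iff_mem_zpowers.2 hh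
    clear hh
    induction k with
    | zero => simp
    | succ k ih =>
      intro x
      simp only [pow_succ', mul_assoc] at ih ⊢
      exact ⟨fun hx => hS _ ((ih x).1 hx), (hf _).trans (ih x).2⟩
  rw [← sum_fiberwise_of_maps_to (g := QuotientGroup.mk (s := Subgroup.zpowers z)) (t := S.image _)
    fun x hx => mem_image_of_mem _ hx]
  refine dvd_sum fun c hc => ?_
  obtain ⟨x, hx, rfl⟩ := mem_image.1 hc
  refine Dvd.intro (f x) ?_
  rw [← Nat.card_zpowers, Nat.card_eq_fintype_card, ← card_univ, ← smul_eq_mul, ← sum_const]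
  refine sum_bij (fun h _ => h.1 * x) (fun h _ => mem_filter.2 ⟨(h1 _ h.2 x).1 hx, ?_⟩)
    (fun _ _ _ _ e => Subtype.ext (mul_right_cancel e)) (fun y hy => ⟨⟨x⁻¹ * y, ?_⟩, mem_univ _, by simp⟩)
    fun h _ => (h1 _ h.2 x).2.symm
  · rw [mul_comm]; exact QuotientGroup.mk_mul_of_mem x h.2
  · exact QuotientGroup.eq.1 (mem_filter.1 hy).2.symm

end Cn

namespace OD

open Cn

variable {Γ : Type} [CommGroup Γ] [Fintype Γ] {D : OD Γ}

theorem act_cl_iff {z : D.XS 1} {ξ : Γ} : D.act z (D.cl ξ) = D.cl ξ ↔ ∃ i : ℕ, z * ξ = ξ ^ D.Q ^ i := by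
  rw [act_mk, eq_comm, mk_eq]

theorem pow_mul_eq {z : D.XS 1} {ξ : Γ} {i : ℕ} (h : z * ξ = ξ ^ D.Q ^ i) (t : ℕ) :
    (z ^ t : D.XS 1) * ξ = ξ ^ D.Q ^ (i * t) := by
  induction t with
  | zero => simp
  | succ t ih =>
    rw [Nat.mul_succ, pow_add D.Q, pow_mul, ← ih, mul_pow, ← h, coe_pow_Q, pow_succ, Subgroup.coe_mul, mul_assoc]

/-- the order of an element fixing an orbit divides the degree -/
theorem dvd_deg {z : D.XS 1} {θ : D.Th} (h : D.act z θ = θ) : orderOf z ∣ D.deg θ := by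
  induction θ using ind with | _ ξ =>
  obtain ⟨i, h⟩ := act_cl_iff.1 h
  have := pow_mul_eq h (D.deg (D.cl ξ))
  rw [mem_XS.1 (mem_XS_iff.2 (Dvd.intro_left i rfl)), mul_eq_right] at this
  exact orderOf_dvd_of_pow_eq_one (Subtype.ext this)

theorem pow_eq_self {ζ : Γ} {k o : ℕ} (h : (D.t : ZMod D.p) ^ o = 1) (hζ : ζ ^ D.p ^ k = 1) {i : ℕ}
    (hi : o * D.p ^ k ∣ i) : ζ ^ D.Q ^ i = ζ := by
  refine XS_mono hi (mem_XS'.2 (orderOf_dvd_iff_pow_eq_one.1 ((orderOf_dvd_of_pow_eq_one hζ).trans ?_)))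
  have h1 : (D.p : ℤ) ∣ D.t ^ o - 1 := (ZMod.intCast_zmod_eq_zero_iff_dvd _ _).1 (by push_cast; rw [h, sub_self])
  have h2 := (pow_dvd_pow _ k.le_succ).trans (dvd_sub_pow_of_dvd_sub h1 k)
  rw [one_pow, ← pow_mul, ← Nat.cast_pow] at h2
  exact Int.natCast_dvd.1 h2

theorem act_pow_eq {z : D.XS 1} (hz : IsPRegular D.p z) {θ : D.Th} (h : D.act z (D.par θ) = D.par θ) :
    D.act (z ^ orderOf (D.t : ZMod D.p)) θ = θ := by
  induction θ using ind with | _ ξ =>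
  rw [par_mk] at h
  obtain ⟨i, h⟩ := act_cl_iff.1 h
  obtain ⟨k, hk⟩ := (isPElt_pPart D.p ξ).exists_pow_eq_one
  obtain ⟨t, t1, t2⟩ := Nat.chineseRemainder ((isPRegular_iff_coprime.1 hz).pow_right k) 1 0
  have h1 := pow_mul_eq h (t * orderOf (D.t : ZMod D.p))
  rw [pow_mul z, pow_eq_pow_iff_modEq.2 t1, pow_one] at h1
  refine act_cl_iff.2 ⟨i * (t * orderOf (D.t : ZMod D.p)), ?_⟩
  rw [← pPart_mul_pRegPart D.p ξ, mul_pow, ← h1, mul_left_comm, pow_eq_self (pow_orderOf_eq_one _) hk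
    (Dvd.dvd.mul_left (mul_comm t _ ▸ mul_dvd_mul_left _ ((Nat.modEq_zero_iff_dvd).1 t2)) i)]

variable {n : ℕ} {Λ₀ : D.Th → Finset ℕ}

theorem msz_plab (h : D.PLab Λ₀) {θ : D.Th} (hθ : D.par θ = θ) : msz D.N D.par D.rho Λ₀ θ = sz D.N (Λ₀ θ) :=
  msz_pl h deg_pos hθ

theorem par_of_ww (h : D.PLab Λ₀) {θ : D.Th} (hθ : D.ww Λ₀ θ ≠ 0) : D.par θ = θ :=
  by_contra fun e => hθ (by rw [ww, h θ e, wt_range])

/-- a `p`-element fixing a label of the class divides all sizes -/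
theorem orderOf_dvd_sz (h2 : D.PLab Λ₀) {Λ : D.Th → Finset ℕ} (hc : D.Cls Λ Λ₀) {z : D.XS 1}
    (hz : IsPElt D.p z) (hf : ∀ θ, Λ (D.act z θ) = Λ θ) (θ : D.Th) : orderOf z ∣ sz D.N (Λ₀ θ) := by
  by_cases e : D.par θ = θ
  swap
  · rw [h2 θ e, sz_range]; exact dvd_zero _
  have h1 := sum_fib (D := D) (fun O => sz D.N (Λ O)) (D.rep θ)
  rw [mk_rep] at h1
  rw [← msz_plab h2 e, ← (hc θ e).1, msz, ← Subgroup.orderOf_coe]
  convert orderOf_dvd_sum (z : Γ) (univ.filter (pRegPart D.p · = D.rep θ)) (fun x => sz D.N (Λ (D.cl x)))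
    (fun x hx => ?_) (fun x => by rw [← act_mk, hf]) using 1
  · convert h1.symm
  · rw [mem_filter_univ, pRegPart_mul (Commute.all _ _), (mem_filter.1 hx).2,
      IsPElt.pRegPart_eq (g := (z : Γ)) (hz.map (D.XS 1).subtype), one_mul]

variable (D Λ₀) in
/-- the `p'`-elements fixing the class -/
def Bg : Subgroup (D.XS 1) where
  carrier := {z | IsPRegular D.p z ∧ ∀ θ, sz D.N (Λ₀ (D.act z θ)) = sz D.N (Λ₀ θ) ∧
    res (D.ee θ) (Λ₀ (D.act z θ)) = res (D.ee θ) (Λ₀ θ)}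
  one_mem' := ⟨isPRegular_one, fun θ => by simp [act_one]⟩
  mul_mem' := fun {a b} ha hb => ⟨ha.1.mul_of_commute hb.1 (Commute.all _ _), fun θ => by
    have := ha.2 (D.act b θ)
    rw [act_act, ee_act] at this
    exact ⟨this.1.trans (hb.2 θ).1, this.2.trans (hb.2 θ).2⟩⟩
  inv_mem' := fun {a} ha => ⟨ha.1.inv, fun θ => by
    have := ha.2 (D.act a⁻¹ θ)
    rw [act_act, ee_act, mul_inv_cancel, act_one] at this
    exact ⟨this.1.symm, this.2.symm⟩⟩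

variable (D Λ₀) in
/-- the possible components of a label -/
noncomputable abbrev Su (θ : D.Th) : Finset (Finset ℕ) :=
  SZ D.N (D.ee θ) (sz D.N (Λ₀ θ)) (res (D.ee θ) (Λ₀ θ))

variable (D n Λ₀) in
/-- the `p'`-labels in the class fixed by `z` -/
abbrev FixL (z : D.XS 1) : Type :=
  {Λ // D.Lab n Λ ∧ D.PLab Λ ∧ D.Cls Λ Λ₀ ∧ ∀ θ, Λ (D.act z θ) = Λ θ}

variable (h1 : D.Lab n Λ₀) (h2 : D.PLab Λ₀)
include h1

theorem ww_act {z : D.XS 1} (hz : z ∈ D.Bg Λ₀) (θ : D.Th) : D.ww Λ₀ (D.act z θ) = D.ww Λ₀ θ := by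
  have := sz_add_wt (ee_pos θ) (h1.1 _) (h1.1 _) (hz.2 θ).2
  rw [(hz.2 θ).1, add_right_inj] at this
  rw [ww, ee_act]
  exact (Nat.eq_of_mul_eq_mul_left (ee_pos θ) this).symm

include h2

/-- labels in one class agree over the orbits of weight zero -/
theorem eq_of_cls {Λ : D.Th → Finset ℕ} (h : D.Lab n Λ) (hc : D.Cls Λ Λ₀) {θ : D.Th}
    (h0 : D.ww Λ₀ (D.par θ) = 0) : Λ θ = Λ₀ θ := by
  obtain ⟨a1, a2⟩ := hc _ (par_par θ)
  rw [msz_plab h2 (par_par θ), msz, ← add_sum_erase _ _ (a := D.par θ) (by simp [par_par]),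
    rho_of_par (par_par θ), one_mul] at a1
  have a5 := eq_of_wt_zero (ee_pos _) (h.1 _) (h1.1 _) a2 h0 (by omega)
  by_cases e : D.par θ = θ
  · rwa [e] at a5
  rw [a5, add_eq_left, sum_eq_zero_iff] at a1
  rw [h2 θ e, eq_range (h.1 θ)
    ((Nat.mul_eq_zero.1 (a1 θ (by simpa using Ne.symm e))).resolve_left (rho_pos θ).ne')]

/-- `p'`-labels in one class have the same sizes, residues and weights -/
theorem cls_plab {Λ : D.Th → Finset ℕ} (h : D.Lab n Λ) (h' : D.PLab Λ) (hc : D.Cls Λ Λ₀) (θ : D.Th) :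
    sz D.N (Λ θ) = sz D.N (Λ₀ θ) ∧ res (D.ee θ) (Λ θ) = res (D.ee θ) (Λ₀ θ) ∧ D.ww Λ θ = D.ww Λ₀ θ := by
  have a : sz D.N (Λ θ) = sz D.N (Λ₀ θ) ∧ res (D.ee θ) (Λ θ) = res (D.ee θ) (Λ₀ θ) := by
    by_cases e : D.par θ = θ
    · rw [← msz_plab h' e, ← msz_plab h2 e]; exact hc θ e
    · rw [h' θ e, h2 θ e]; exact ⟨rfl, rfl⟩
  have := sz_add_wt (ee_pos θ) (h.1 _) (h1.1 _) a.2
  rw [a.1, add_right_inj] at this
  exact ⟨a.1, a.2, (Nat.eq_of_mul_eq_mul_left (ee_pos θ) this).symm⟩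

/-- a good element fixes all labels of the class -/
theorem Good.cls {m : D.XS 1} (hG : D.Good Λ₀ m) {Λ : D.Th → Finset ℕ} (h : D.Lab n Λ) (hc : D.Cls Λ Λ₀)
    (θ : D.Th) : Λ (D.act m θ) = Λ θ := by
  by_cases h0 : D.ww Λ₀ (D.par θ) = 0
  · rw [eq_of_cls h1 h2 h hc h0, eq_of_cls h1 h2 h hc (by
      rwa [par_act_reg hG.reg, ww, ee_act, hG.fix]), hG.fix]
  · rw [hG.loc θ h0]

theorem Good.of_cls {m : D.XS 1} (hG : D.Good Λ₀ m) {Λ : D.Th → Finset ℕ} (h : D.Lab n Λ) (h' : D.PLab Λ)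
    (hc : D.Cls Λ Λ₀) : D.Good Λ m :=
  ⟨hG.reg, hG.cls h1 h2 h hc, fun θ e => hG.loc θ (by rwa [← (cls_plab h1 h2 h h' hc _).2.2])⟩

omit h1 h2 in
/-- changing a label over orbits of positive weight -/
theorem Good.of_eq {m : D.XS 1} (hG : D.Good Λ₀ m) {Λ : D.Th → Finset ℕ}
    (h : ∀ θ, D.ww Λ₀ (D.par θ) = 0 → Λ θ = Λ₀ θ) : D.Good Λ m := by
  refine ⟨hG.reg, fun θ => ?_, fun θ e => hG.loc θ fun e' => e ?_⟩
  · by_cases h0 : D.ww Λ₀ (D.par θ) = 0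
    · rw [h θ h0, h _ (by rwa [par_act_reg hG.reg, ww, ee_act, hG.fix]), hG.fix]
    · rw [hG.loc θ h0]
  · rwa [ww, h _ (by rwa [par_par])]

omit h1 h2 in
/-- labels supported over orbits of positive weight -/
theorem Good.of_supp {m : D.XS 1} (hG : D.Good Λ₀ m) {Λ : D.Th → Finset ℕ}
    (h : ∀ θ, D.ww Λ₀ (D.par θ) = 0 → Λ θ = range D.N) : D.Good Λ m := by
  refine ⟨hG.reg, fun θ => ?_, fun θ e => hG.loc θ fun e' => e ?_⟩
  · by_cases h0 : D.ww Λ₀ (D.par θ) = 0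
    · rw [h θ h0, h _ (by rwa [par_act_reg hG.reg, ww, ee_act, hG.fix])]
    · rw [hG.loc θ h0]
  · rw [ww, h _ (by rwa [par_par]), wt_range]

omit h1 h2 in
theorem Good.zpowers {m m' : D.XS 1} (hG : D.Good Λ₀ m) (h : m' ∈ Subgroup.zpowers m) : D.Good Λ₀ m' := by
  obtain ⟨k, rfl⟩ := mem_powers_iff_mem_zpowers.2 h
  refine ⟨hG.reg.pow k, ?_, fun θ e => act_zpowers h (hG.loc θ e)⟩
  clear h
  induction k with
  | zero => simp [act_one]
  | succ k ih => exact fun θ => by simp only [pow_succ', ← act_act, hG.fix] at ih ⊢; exact ih θ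

theorem good {b : D.XS 1} (hb : b ∈ D.Bg Λ₀) (hb' : ∀ θ, D.ww Λ₀ θ ≠ 0 → D.act b θ = θ) :
    D.Good Λ₀ (b ^ orderOf (D.t : ZMod D.p)) := by
  have a1 := fun θ (h : D.ww Λ₀ (D.par θ) ≠ 0) => act_pow_eq hb.1 (hb' _ h)
  have a2 := pow_mem hb (orderOf (D.t : ZMod D.p))
  refine ⟨a2.1, fun θ => ?_, a1⟩
  by_cases h0 : D.ww Λ₀ (D.par θ) = 0
  · by_cases e : D.par θ = θ
    · exact eq_of_wt_zero (ee_pos θ) (h1.1 _) (h1.1 _) (a2.2 θ).2 (e ▸ h0 :) (a2.2 θ).1.le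
    · rw [h2 θ e, h2 _ ((par_act_iff a2.1 θ).not.2 e)]
  · rw [a1 θ h0]

theorem card_FixL_le {z : D.XS 1} (hz : IsPRegular D.p z) : Nat.card (D.FixL n Λ₀ z) ≤
    if z ∈ D.Bg Λ₀ then #(fixc (D.Su Λ₀) (D.act z)) else 0 := by
  rcases isEmpty_or_nonempty (D.FixL n Λ₀ z) with h | ⟨⟨Λ, a1, a2, a3, a4⟩⟩
  · simp
  have a5 := cls_plab h1 h2 a1 a2 a3
  rw [if_pos ⟨hz, fun θ => ⟨by rw [← (a5 _).1, a4, (a5 θ).1], by
    rw [← ee_act z, ← (a5 _).2.1, a4, ee_act, (a5 θ).2.1]⟩⟩, ← Nat.card_eq_finsetCard]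
  exact Nat.card_le_card_of_injective (fun L => ⟨L.1, mem_fixc.2 ⟨fun θ => mem_SZ.2 ⟨L.2.1.1 θ,
    (cls_plab h1 h2 L.2.1 L.2.2.1 L.2.2.2.1 θ).1, (cls_plab h1 h2 L.2.1 L.2.2.1 L.2.2.2.1 θ).2.1⟩,
    L.2.2.2.2⟩⟩) fun _ _ e => Subtype.ext (Subtype.mk.inj e)

theorem sum_le (x0 : D.Th) : ∃ b ∈ D.Bg Λ₀, (∀ θ, D.ww Λ₀ θ ≠ 0 → D.act b θ = θ) ∧
    ∑ z with IsPRegular D.p z, Nat.card (D.FixL n Λ₀ z) ≤
      orderOf b * ∏ θ, bf (D.ww Λ₀ θ ≠ 0 ∧ θ ≠ x0) (D.Su Λ₀ θ).card := by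
  let _ := D.actMul
  obtain ⟨b, hb⟩ := (Subgroup.isCyclic_iff_exists_zpowers_eq_top _).1
    (inferInstance : IsCyclic ↥(D.Bg Λ₀ ⊓ fixingSubgroup (D.XS 1) {θ | D.ww Λ₀ θ ≠ 0}))
  have hb' := hb.le (Subgroup.mem_zpowers b)
  refine ⟨b, hb'.1, fun θ h => (mem_fixingSubgroup_iff _).1 hb'.2 θ h,
    (sum_le_sum fun m hm => card_FixL_le h1 h2 (mem_filter.1 hm).2).trans
      ((sum_le_sum_of_subset (filter_subset _ _)).trans ?_)⟩
  rw [← sum_filter, ← Nat.card_zpowers, hb]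
  exact card_pairs (D.Bg Λ₀) (D.Su Λ₀) (D.ww Λ₀ · ≠ 0) (fun a ha θ h => (ww_act h1 ha θ).trans_ne h) x0

/-- the count -/
theorem count (hn : 0 < n) {s : ℕ} (hs : 2 ≤ s) (S1 : D.W Λ₀ ≤ s + 1) (S2 : ¬ D.p ∣ D.cX 1 → D.W Λ₀ ≤ s)
    (S3 : D.p = 2 → (∀ θ, Even (sz D.N (Λ₀ θ))) → D.W Λ₀ ≤ s)
    (S4 : D.p = 2 → 4 ∣ D.cX 1 → (∀ θ, 4 ∣ sz D.N (Λ₀ θ)) → D.W Λ₀ = 4 → 5 ≤ s) :
    ∃ m₀ P, D.Good Λ₀ m₀ ∧ (∀ (z : D.XS 1) Λ, IsPElt D.p z → D.Lab n Λ → D.Cls Λ Λ₀ →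
      (∀ θ, Λ (D.act z θ) = Λ θ) → orderOf z ≤ P) ∧
      P * ∑ z with IsPRegular D.p z, Nat.card (D.FixL n Λ₀ z) ≤ orderOf m₀ * D.p ^ s := by
  have q1 : ∀ u : D.XS 1, orderOf u ∣ D.cX 1 := fun u => D.card_XS one_pos D.N_pos ▸ orderOf_dvd_natCard u
  by_cases hq : D.p ∣ D.cX 1
  · have a1 : (D.t : ZMod D.p) = 1 := by simpa using dvd_cX.1 hq
    have a2 : ∀ θ, D.ee θ = 1 := fun θ => by rw [ee, a1, one_pow, orderOf_one]
    have a3 : ∀ θ, D.ww Λ₀ θ = sz D.N (Λ₀ θ) := fun θ => by rw [ww, a2, wt_one (h1.1 θ)]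
    have a4 : D.W Λ₀ = ∑ θ, sz D.N (Λ₀ θ) := sum_congr rfl fun θ _ => a3 θ
    obtain ⟨x0, -, h0⟩ := exists_ne_zero_of_sum_ne_zero (h1.2.trans_ne hn.ne')
    obtain ⟨b, b1, b2, b3⟩ := sum_le h1 h2 x0
    obtain ⟨u, u1, u2⟩ := exists_max_image
      (univ.filter fun u : D.XS 1 => IsPElt D.p u ∧ ∀ θ, orderOf u ∣ sz D.N (Λ₀ θ)) orderOf
      ⟨1, mem_filter.2 ⟨mem_univ _, isPElt_one, fun θ => by simp⟩⟩
    obtain ⟨⟨j, hj⟩, u3⟩ := (mem_filter.1 u1).2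
    refine ⟨_, orderOf u, good h1 h2 b1 b2, fun z Λ c1 _ c3 c4 =>
      u2 z (mem_filter.2 ⟨mem_univ _, c1, orderOf_dvd_sz h2 c3 c1 c4⟩), (Nat.mul_le_mul_left _ b3).trans ?_⟩
    rw [a1, orderOf_one, pow_one, mul_left_comm, hj]
    rw [hj] at u3
    rw [a4] at S1 S3 S4
    refine Nat.mul_le_mul_left _ ((Nat.mul_le_mul_left _ (prod_le_prod' fun θ _ => ?_)).trans
      (num (n := fun θ => sz D.N (Λ₀ θ)) (right_ne_zero_of_mul h0) D.hp S1 u3 S3 fun e e' => ?_))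
    · rw [a3, Su, a2]
      exact bf_mono _ (card_SZ_par _ _ _)
    · have : 4 ∣ D.p ^ j := by rw [e]; exact pow_dvd_pow 2 e'
      exact S4 e (this.trans (hj ▸ q1 u)) fun θ => this.trans (u3 θ)
  have a2 : orderOf (D.t : ZMod D.p) ∣ D.p - 1 := ZMod.orderOf_dvd_card_sub_one t_ne
  have a3 := D.hp.one_lt
  have a4 := Nat.le_of_dvd (by omega) a2
  have a5 := Nat.pos_of_dvd_of_pos a2 (by omega)
  obtain ⟨x0, h0⟩ : ∃ x0, (∃ θ, D.ww Λ₀ θ ≠ 0) → D.ww Λ₀ x0 ≠ 0 := by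
    by_cases h : ∃ θ, D.ww Λ₀ θ ≠ 0
    · exact h.imp fun _ h _ => h
    · exact ⟨D.cl 1, fun h' => (h h').elim⟩
  obtain ⟨b, b1, b2, b3⟩ := sum_le h1 h2 x0
  refine ⟨_, 1, good h1 h2 b1 b2, fun z _ c1 _ _ _ => ?_, (one_mul _).le.trans (b3.trans ?_)⟩
  · obtain rfl : z = 1 := by_contra fun h => hq ((c1.dvd_orderOf h).trans (q1 z))
    exact orderOf_one.le
  generalize ho : orderOf (D.t : ZMod D.p) = o at *
  have a6 := Nat.gcd_pos_of_pos_right (orderOf b) a5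
  have a7 : ∀ θ, D.ww Λ₀ θ = 0 → (D.Su Λ₀ θ).card ≤ 1 := fun θ h => card_le_one_iff_subset_singleton.2
    ⟨Λ₀ θ, fun T hT => mem_singleton.2 (eq_of_wt_zero (ee_pos θ) (mem_SZ.1 hT).1 (h1.1 θ) (mem_SZ.1 hT).2.2 h
      (mem_SZ.1 hT).2.1.le)⟩
  have a8 : ∀ θ, D.ww Λ₀ θ ≠ 0 → (orderOf b).gcd o * (D.Su Λ₀ θ).card < D.p ^ D.ww Λ₀ θ := fun θ h => by
    obtain ⟨w, e⟩ := Nat.exists_eq_add_one_of_ne_zero h
    have c1 := card_SZ_le (ee_pos θ) (h1.1 θ) e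
    have c2 : (orderOf b).gcd o * D.ee θ ≤ o := by
      rw [ee, orderOf_pow' _ (deg_pos θ).ne', ho]
      exact (Nat.mul_le_mul_right _ (Nat.le_of_dvd (Nat.gcd_pos_of_pos_left _ a5) (Nat.dvd_gcd (Nat.gcd_dvd_right _ _)
        ((Nat.gcd_dvd_left _ _).trans (dvd_deg (b2 θ h)))))).trans (Nat.mul_div_le _ _)
    have c3 := Nat.pow_le_pow_left (show D.ee θ + 1 ≤ D.p by
      have := Nat.le_mul_of_pos_left (D.ee θ) a6; omega) w
    rw [Su, e, pow_succ']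
    refine (Nat.mul_le_mul_left _ c1).trans_lt ?_
    rw [← mul_assoc]
    exact Nat.mul_lt_mul_of_lt_of_le (by omega) c3 (by positivity)
  rw [orderOf_pow' _ a5.ne']
  nth_rewrite 1 [← Nat.div_mul_cancel (Nat.gcd_dvd_left (orderOf b) o)]
  rw [mul_assoc]
  refine Nat.mul_le_mul_left _ ?_
  by_cases h : ∃ θ, D.ww Λ₀ θ ≠ 0
  · have := prod_le (a := fun θ => if θ = x0 then (orderOf b).gcd o else 1) (b := fun _ => 1)
      (g := fun θ => D.p ^ D.ww Λ₀ θ) (f := fun θ => bf (D.ww Λ₀ θ ≠ 0 ∧ θ ≠ x0) (D.Su Λ₀ θ).card) fun θ => by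
      by_cases e : θ = x0
      · simpa [e, bf] using (a8 x0 (h0 h)).le
      by_cases e' : D.ww Λ₀ θ = 0
      · simpa [e, e', bf] using a7 θ e'
      · simpa [e, e', bf] using (Nat.le_mul_of_pos_left _ a6).trans_lt (a8 θ e')
    rw [prod_ite_eq', if_pos (mem_univ _), prod_const_one, one_mul, prod_pow_eq_pow_sum] at this
    exact this.trans (Nat.pow_le_pow_right D.hp.pos (S2 hq))
  · push Not at h
    refine (Nat.mul_le_mul (Nat.le_of_dvd a5 (Nat.gcd_dvd_right _ _)) (prod_le_one' fun θ _ => ?_)).trans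
      (by have := Nat.le_self_pow (show s ≠ 0 by omega) D.p; omega)
    simpa [h θ, bf] using a7 θ (h θ)

omit h1 h2 in
theorem cn_realise_eqns : True := by
  have := @Bg.eq_1
  have := @pl.eq_1
  have := @pl.eq_2
  have := @pl.eq_def
  trivial

end OD

end GUH
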