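import Cfsg.Agent.Lib.GL.DefA
import Cfsg.Agent.Lib.Block.Subsection
import Cfsg.Agent.Lib.Block.PairsMax

/-!
# S4537, package DEF-U: Brauer pairs under injective homomorphisms and direct products
-/

set_option autoImplicit false
set_option linter.unusedSectionVars false

namespace GUH.Df

open Cfsg CT GT BT Finset Subgroup
open scoped ComplexConjugate Classical MonoidAlgebra Pointwise

variable {Γ Γ₁ Γ₂ Δ : Type*} [Group Γ] [Finite Γ] [Group Γ₁] [Finite Γ₁] [Group Γ₂] [Finite Γ₂]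
  [Group Δ] [Finite Δ]

section Ring
variable {R : Type*} [CommRing R]

/-- the map of group algebras -/
noncomputable abbrev gm (ι : Δ →* Γ) : R[Δ] →ₐ[R] R[Γ] := MonoidAlgebra.mapDomainAlgHom R R ι

theorem coeff_gm {ι : Δ →* Γ} (hι : Function.Injective ι) (a : R[Δ]) (x : Δ) :
    (gm ι a).coeff (ι x) = a.coeff x := Finsupp.mapDomain_apply hι a.coeff x

theorem coeff_gm_not {ι : Δ →* Γ} (a : R[Δ]) {y : Γ} (hy : y ∉ ι.range) :
    (gm ι a).coeff y = 0 := Finsupp.mapDomain_of_notMem_range a.coeff y hy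

theorem gm_ext {ι : Δ →* Γ} (hι : Function.Injective ι) {a : R[Δ]} {b : R[Γ]}
    (h1 : ∀ x, b.coeff (ι x) = a.coeff x) (h2 : ∀ y, y ∉ ι.range → b.coeff y = 0) :
    gm ι a = b := ga_ext fun y => by
  by_cases hy : y ∈ ι.range
  · obtain ⟨x, rfl⟩ := hy
    rw [coeff_gm hι, h1]
  · rw [coeff_gm_not a hy, h2 y hy]

theorem gm_ne_zero {ι : Δ →* Γ} (hι : Function.Injective ι) {a : R[Δ]} (h : a ≠ 0) :
    gm ι a ≠ 0 := fun h0 => h (ga_ext fun x => by rw [← coeff_gm hι, h0]; rfl)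

theorem gm_gm (κ : Γ →* Γ₁) (ι : Δ →* Γ) (a : R[Δ]) : gm κ (gm ι a) = gm (κ.comp ι) a := by
  induction a using MonoidAlgebra.induction_linear with
  | zero => simp
  | add a b ha hb => simp only [map_add, ha, hb]
  | single x r => simp

theorem mem_centralizer_map {ι : Δ →* Γ} (hι : Function.Injective ι) (Q : Subgroup Δ) (x : Δ) :
    ι x ∈ centralizer ((Q.map ι : Subgroup Γ) : Set Γ) ↔ x ∈ centralizer (Q : Set Δ) := by
  simp only [mem_centralizer_iff, SetLike.mem_coe, mem_map]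
  refine ⟨fun h y hy => hι (by rw [map_mul, map_mul]; exact h _ ⟨y, hy, rfl⟩), ?_⟩
  rintro h _ ⟨y, hy, rfl⟩
  rw [← map_mul, h y hy, map_mul]

theorem br_gm {ι : Δ →* Γ} (hι : Function.Injective ι) (Q : Subgroup Δ) (a : R[Δ]) :
    br (Q.map ι) (gm ι a) = gm ι (br Q a) := by
  refine (gm_ext hι (fun x => ?_) fun y hy => ?_).symm
  · rw [br_def, br_def, coeff_trunc, coeff_trunc, coeff_gm hι]
    exact if_congr (mem_centralizer_map hι Q x) rfl rfl
  · rw [br_def, coeff_trunc, coeff_gm_not a hy, ite_self]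

theorem map_inf_centralizer {ι : Δ →* Γ} (hι : Function.Injective ι) (K Q : Subgroup Δ) :
    (K ⊓ centralizer (Q : Set Δ)).map ι = K.map ι ⊓ centralizer ((Q.map ι : Subgroup Γ) : Set Γ) := by
  ext y
  constructor
  · rintro ⟨x, hx, rfl⟩
    exact mem_inf.2 ⟨⟨x, hx.1, rfl⟩, (mem_centralizer_map hι Q x).2 hx.2⟩
  · rintro ⟨⟨x, hx, rfl⟩, h⟩
    exact ⟨x, mem_inf.2 ⟨hx, (mem_centralizer_map hι Q x).1 h⟩, rfl⟩

theorem suppIn_gm (ι : Δ →* Γ) (a : R[Δ]) : SuppIn (ι.range : Set Γ) (gm ι a) := fun y hy => by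
  by_contra h
  exact hy (coeff_gm_not a h)

theorem isFixed_gm {ι : Δ →* Γ} (hι : Function.Injective ι) {K : Subgroup Δ} {a : R[Δ]}
    (h : IsFixed K a) : IsFixed (K.map ι) (gm ι a) := by
  rintro _ ⟨k, hk, rfl⟩ y
  by_cases hy : y ∈ ι.range
  · obtain ⟨x, rfl⟩ := hy
    rw [← map_inv, ← map_mul, ← map_mul, coeff_gm hι, coeff_gm hι, h k hk]
  · rw [coeff_gm_not a hy, coeff_gm_not a fun h' => hy ?_]
    have := mul_mem (mul_mem (inv_mem (⟨k, rfl⟩ : ι k ∈ ι.range)) h') (⟨k, rfl⟩ : ι k ∈ ι.range)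
    simpa [mul_assoc] using this

/-- the tensor product of two elements -/
noncomputable def tens (a : R[Γ₁]) (b : R[Γ₂]) : R[Γ₁ × Γ₂] :=
  gm (MonoidHom.inl Γ₁ Γ₂) a * gm (MonoidHom.inr Γ₁ Γ₂) b

theorem coeff_tens (a : R[Γ₁]) (b : R[Γ₂]) (x : Γ₁) (y : Γ₂) :
    (tens a b).coeff (x, y) = a.coeff x * b.coeff y := by
  have := Fintype.ofFinite Γ₁
  have := Fintype.ofFinite Γ₂
  have i1 : Function.Injective (MonoidHom.inl Γ₁ Γ₂) := fun _ _ h => congrArg Prod.fst h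
  have i2 : Function.Injective (MonoidHom.inr Γ₁ Γ₂) := fun _ _ h => congrArg Prod.snd h
  rw [tens, coeff_mul_eq_sum, Fintype.sum_eq_single (x, 1)]
  · rw [← coeff_gm i1 a x, ← coeff_gm i2 b y]
    simp
  · rintro ⟨x', y'⟩ hne
    by_cases h1 : y' = 1
    · subst h1
      refine mul_eq_zero_of_right _ (coeff_gm_not b ?_)
      rintro ⟨z, hz⟩
      have := congrArg Prod.fst hz
      simp only [MonoidHom.inr_apply, Prod.inv_mk, Prod.mk_mul_mk] at this
      exact hne (by rw [eq_comm, inv_mul_eq_one] at this; rw [this])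
    · refine mul_eq_zero_of_left (coeff_gm_not a ?_) _
      rintro ⟨z, hz⟩
      exact h1 (congrArg Prod.snd hz).symm

theorem commute_inl_inr (a : R[Γ₁]) (b : R[Γ₂]) :
    Commute (gm (MonoidHom.inl Γ₁ Γ₂) a) (gm (MonoidHom.inr Γ₁ Γ₂) b) := by
  induction a using MonoidAlgebra.induction_linear with
  | zero => simp
  | add a a' ha ha' => rw [map_add]; exact ha.add_left ha'
  | single x r =>
    induction b using MonoidAlgebra.induction_linear with
    | zero => simp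
    | add b b' hb hb' => rw [map_add]; exact hb.add_right hb'
    | single y s => simp [Commute, SemiconjBy, MonoidAlgebra.single_mul_single, mul_comm]

theorem tens_mul (a a' : R[Γ₁]) (b b' : R[Γ₂]) :
    tens a b * tens a' b' = tens (a * a') (b * b') := by
  rw [tens, tens, tens, map_mul, map_mul, mul_assoc, mul_assoc, ← mul_assoc (gm _ b),
    ← (commute_inl_inr a' b).eq, mul_assoc]

theorem tens_one_right (a : R[Γ₁]) : tens a (1 : R[Γ₂]) = gm (MonoidHom.inl Γ₁ Γ₂) a := by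
  rw [tens, map_one, mul_one]

theorem tens_one_left (b : R[Γ₂]) : tens (1 : R[Γ₁]) b = gm (MonoidHom.inr Γ₁ Γ₂) b := by
  rw [tens, map_one, one_mul]

theorem centralizer_prod (Q₁ : Subgroup Γ₁) (Q₂ : Subgroup Γ₂) :
    centralizer ((Q₁.prod Q₂ : Subgroup (Γ₁ × Γ₂)) : Set (Γ₁ × Γ₂)) =
      (centralizer (Q₁ : Set Γ₁)).prod (centralizer (Q₂ : Set Γ₂)) := by
  ext ⟨x, y⟩
  simp only [mem_centralizer_iff, SetLike.mem_coe, mem_prod, Prod.forall, Prod.mk_mul_mk,
    Prod.mk.injEq]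
  exact ⟨fun h => ⟨fun a ha => (h a 1 ⟨ha, one_mem _⟩).1, fun b hb => (h 1 b ⟨one_mem _, hb⟩).2⟩,
    fun h a b hab => ⟨h.1 a hab.1, h.2 b hab.2⟩⟩

theorem br_tens (Q₁ : Subgroup Γ₁) (Q₂ : Subgroup Γ₂) (a : R[Γ₁]) (b : R[Γ₂]) :
    br (Q₁.prod Q₂) (tens a b) = tens (br Q₁ a) (br Q₂ b) := ga_ext fun ⟨x, y⟩ => by
  rw [br_def, coeff_trunc, coeff_tens, coeff_tens, br_def, br_def, coeff_trunc, coeff_trunc,
    centralizer_prod]
  by_cases h1 : x ∈ centralizer (Q₁ : Set Γ₁) <;> by_cases h2 : y ∈ centralizer (Q₂ : Set Γ₂) <;>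
    simp [h1, h2, mem_prod]

theorem tens_ne_zero [IsDomain R] {a : R[Γ₁]} {b : R[Γ₂]} (ha : a ≠ 0) (hb : b ≠ 0) :
    tens a b ≠ 0 := fun h => by
  obtain ⟨x, hx⟩ : ∃ x, a.coeff x ≠ 0 := by
    by_contra! hc
    exact ha (ga_ext hc)
  obtain ⟨y, hy⟩ : ∃ y, b.coeff y ≠ 0 := by
    by_contra! hc
    exact hb (ga_ext hc)
  exact mul_ne_zero hx hy (by rw [← coeff_tens, h]; rfl)

theorem isFixed_tens {K₁ : Subgroup Γ₁} {K₂ : Subgroup Γ₂} {a : R[Γ₁]} {b : R[Γ₂]}
    (ha : IsFixed K₁ a) (hb : IsFixed K₂ b) : IsFixed (K₁.prod K₂) (tens a b) := by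
  rintro ⟨k, l⟩ ⟨hk, hl⟩ ⟨x, y⟩
  rw [Prod.inv_mk, Prod.mk_mul_mk, Prod.mk_mul_mk, coeff_tens, coeff_tens, ha k hk, hb l hl]

theorem gm_prodMap_tens {Δ₁ Δ₂ : Type*} [Group Δ₁] [Finite Δ₁] [Group Δ₂] [Finite Δ₂]
    (ι : Δ₁ →* Γ₁) (κ : Δ₂ →* Γ₂) (a : R[Δ₁]) (b : R[Δ₂]) :
    gm (ι.prodMap κ) (tens a b) = tens (gm ι a) (gm κ b) := by
  rw [tens, tens, map_mul, gm_gm, gm_gm, gm_gm, gm_gm]
  congr 2 <;> ext <;> simp

end Ring

variable {p : ℕ} [hp : Fact p.Prime] {M : Ideal AlgInt} (hM : IsPModular p M)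

theorem sidem_map {ι : Δ →* Γ} (hι : Function.Injective ι) (K : Subgroup Δ)
    (b : Set (IrrCharacter K)) :
    sidem hM (K.map ι) (mapSet (K.equivMapOfInjective ι hι) b) = gm ι (sidem hM K b) :=
  sidem_mapSet hM ι _ (fun _ => rfl) b

theorem sidem_of_equiv {ι : Δ →* Γ} {K : Subgroup Γ} (e : Δ ≃* K) (he : ∀ x, (e x : Γ) = ι x)
    (b : Set (IrrCharacter Δ)) : sidem hM K (mapSet e b) = gm ι (idem hM b) := by
  have hι : Function.Injective ι := fun x y h => e.injective (Subtype.ext (by rw [he, he, h]))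
  refine (gm_ext hι (fun x => ?_) fun y hy => ?_).symm
  · rw [← he, sidem_def, coeff_emb_coe, coeff_idem, coeff_idem, blockCoeff_mapSet]
  · rw [sidem_def, coeff_emb_of_not_mem]
    intro h
    exact hy ⟨e.symm ⟨y, h⟩, by rw [← he, e.apply_symm_apply]⟩

theorem bIdem_gm {ι : Δ →* Γ} (hι : Function.Injective ι) {K : Subgroup Δ} {f : (ResF hM)[Δ]}
    (h : BIdem K f) : BIdem (K.map ι) (gm ι f) := by
  obtain ⟨b, hb, rfl⟩ := h.exists_block hM
  rw [← sidem_map hM hι]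
  exact bIdem_sidem hM (isPBlock_mapSet _ hb)

theorem defGrp_gm {ι : Δ →* Γ} (hι : Function.Injective ι) {K D : Subgroup Δ}
    {f : (ResF hM)[Δ]} (h : DefGrp p K f D) : DefGrp p (K.map ι) (gm ι f) (D.map ι) where
  le := map_mono h.le
  pgroup := h.pgroup.map _
  br_ne := by rw [br_gm hι]; exact gm_ne_zero hι h.br_ne
  max := fun Q hQ hq h0 => by
    have e : (Q.comap ι).map ι = Q := map_comap_eq_self (hQ.trans (map_le_range _ _))
    rw [← e, br_gm hι] at h0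
    obtain ⟨k, hk, h1⟩ := h.max (Q.comap ι)
      (fun x hx => by
        obtain ⟨y, hy, h2⟩ := hQ hx
        rwa [← hι h2])
      (hq.comap_of_injective ι hι) fun h' => h0 (by rw [h', map_zero])
    refine ⟨ι k, ⟨k, hk, rfl⟩, ?_⟩
    rintro _ ⟨y, hy, rfl⟩
    obtain ⟨x, -, rfl⟩ := hQ hy
    exact ⟨_, h1 ⟨x, hy, rfl⟩, by simp⟩

theorem bp_gm {ι : Δ →* Γ} (hι : Function.Injective ι) {K Q : Subgroup Δ} {f : (ResF hM)[Δ]}
    (h : BP p K Q f) : BP p (K.map ι) (Q.map ι) (gm ι f) where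
  pgroup := h.pgroup.map _
  norm := (map_mono h.norm).trans (le_normalizer_map ι)
  bidem := by
    rw [← map_inf_centralizer hι]
    exact bIdem_gm hM hι h.bidem

theorem idem_prod (θ₁ : IrrCharacter Γ₁) (θ₂ : IrrCharacter Γ₂) :
    idem hM (blockOf M (irrProd θ₁ θ₂).1) =
      tens (idem hM (blockOf M θ₁.1)) (idem hM (blockOf M θ₂.1)) := ga_ext fun ⟨x, y⟩ => by
  rw [coeff_tens, coeff_idem, coeff_idem, coeff_idem, GLH.Df.blockCoeff_prod hM, red_mul]
  · exact blockCoeff_mem_locRing hM (isPBlock_blockOf _) _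
  · exact blockCoeff_mem_locRing hM (isPBlock_blockOf _) _

theorem bIdem_tens {K₁ : Subgroup Γ₁} {K₂ : Subgroup Γ₂} {f₁ : (ResF hM)[Γ₁]}
    {f₂ : (ResF hM)[Γ₂]} (h₁ : BIdem K₁ f₁) (h₂ : BIdem K₂ f₂) :
    BIdem (K₁.prod K₂) (tens f₁ f₂) := by
  obtain ⟨b₁, hb₁, rfl⟩ := h₁.exists_block hM
  obtain ⟨b₂, hb₂, rfl⟩ := h₂.exists_block hM
  obtain ⟨θ₁, t₁⟩ := block_nonempty hM hb₁
  obtain ⟨θ₂, t₂⟩ := block_nonempty hM hb₂
  rw [block_eq_blockOf hM hb₁ t₁, block_eq_blockOf hM hb₂ t₂, sidem_def, sidem_def]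
  have := gm_prodMap_tens K₁.subtype K₂.subtype (idem hM (blockOf M θ₁.1))
    (idem hM (blockOf M θ₂.1))
  erw [← this]
  rw [← idem_prod, ← sidem_of_equiv hM (K := K₁.prod K₂) (K₁.prodEquiv K₂).symm fun _ => rfl]
  exact bIdem_sidem hM (isPBlock_mapSet _ (isPBlock_blockOf _))

theorem isPGroup_prod {D₁ : Subgroup Γ₁} {D₂ : Subgroup Γ₂} (q₁ : IsPGroup p D₁)
    (q₂ : IsPGroup p D₂) : IsPGroup p (D₁.prod D₂) := by
  rw [isPGroup_iff_forall_isPElt] at q₁ q₂ ⊢
  rintro ⟨a, b⟩ ⟨ha, hb⟩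
  obtain ⟨k, hk⟩ := (q₁ a ha).exists_pow_eq_one
  obtain ⟨l, hl⟩ := (q₂ b hb).exists_pow_eq_one
  refine isPElt_of_pow_eq_one (k := k + l) (Prod.ext ?_ ?_)
  · simp [pow_add, pow_mul, hk]
  · simp [pow_add, mul_comm (p ^ k), pow_mul, hl]

theorem zpowers_le_centralizer (w : Γ) : zpowers w ≤ centralizer ({w} : Set Γ) :=
  zpowers_le.2 (mem_centralizer_singleton_iff.2 rfl)

theorem centralizer_le_normalizer_zpowers (w : Γ) :
    centralizer ({w} : Set Γ) ≤ normalizer (zpowers w : Set Γ) := by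
  rw [← centralizer_zpowers_eq]
  exact centralizer_le_normalizer _

theorem ind_iff {w : Γ} (hw : IsPElt p w) {b : Set (IrrCharacter (centralizer ({w} : Set Γ)))}
    (hb : IsPBlock M b) {B : Set (IrrCharacter Γ)} (hB : IsPBlock M B) :
    IsInducedBlock M _ b B ↔ br (zpowers w) (idem hM B) * sidem hM _ b = sidem hM _ b :=
  isInducedBlock_iff_br hM hw.isPGroup_zpowers (zpowers_le_centralizer w)
    (centralizer_zpowers_eq w).le (centralizer_le_normalizer_zpowers w) hb hB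

theorem bp_sidem {w : Γ} (hw : IsPElt p w) {b : Set (IrrCharacter (centralizer ({w} : Set Γ)))}
    (hb : IsPBlock M b) : BP p ⊤ (zpowers w) (sidem hM _ b) :=
  bp_top_iff.2 ⟨hw.isPGroup_zpowers, by rw [centralizer_zpowers_eq]; exact bIdem_sidem hM hb⟩

/-- second main theorem for a centraliser given as the range of a homomorphism -/
theorem ind_of_ip {ι : Δ →* Γ} (hι : Function.Injective ι) {w : Γ} (hw : IsPElt p w)
    (hr : ι.range = centralizer ({w} : Set Γ)) {B : Set (IrrCharacter Γ)} (hB : IsPBlock M B)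
    {χ : IrrCharacter Γ} (hχ : χ ∈ B) {θ : IrrCharacter Δ}
    (h : ip (pRegularPart p θ.1) (fun g => χ.1 (w * ι g)) ≠ 0) :
    br (zpowers w) (idem hM B) * gm ι (idem hM (blockOf M θ.1)) =
      gm ι (idem hM (blockOf M θ.1)) := by
  let e : Δ ≃* centralizer ({w} : Set Γ) :=
    (MonoidHom.ofInjective hι).trans (MulEquiv.subgroupCongr hr)
  let ξ := irrCongr e θ
  have hb : IsPBlock M (blockOf M ξ.1) := isPBlock_blockOf _
  have hξ : ξ ∈ blockOf M ξ.1 := mem_blockOf_self hM ξ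
  rw [← sidem_of_equiv hM e fun _ => rfl, mapSet_blockOf, ← ind_iff hM hw hb hB]
  by_contra hn
  apply h
  have h1 := subsec_eq_zero_of_not_induced hM rfl hw hB hb hn hχ
  have h2 : θ.1 = fun g => ξ.1 (e g) := by
    funext g
    simp [ξ]
  have h3 := ip_comp_mulEquiv e (pRegularPart p ξ.1) (shift _ w χ.1)
  rw [h2, GLH.Df.pRegularPart_comp]
  refine h3.trans ?_
  rw [← blockPart_irr_of_mem hξ, ← blockPart_pRegularPart hM hb (irr_isClassFunction ξ),
    ip_blockPart_left_eq_right, ip_pRegularPart_left_eq_right, ← subsec_def, h1, ip_zero_right]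

include hM in
/-- some member of the block does not vanish at a given element of a defect group -/
theorem exists_apply_ne {B : Set (IrrCharacter Γ)} (hB : IsPBlock M B) {v : Γ} (hv : IsPElt p v)
    (h : br (zpowers v) (idem hM B) ≠ 0) : ∃ χ ∈ B, χ.1 v ≠ 0 := by
  have h1 := cIdem_br_idem hM hv.isPGroup_zpowers hB
  rw [centralizer_zpowers_eq] at h1
  obtain ⟨f, f1, f2⟩ := h1.exists_bIdem_mul_eq hM h
  obtain ⟨b, hb, rfl⟩ := f1.exists_block hM
  obtain ⟨θ, hθ⟩ := block_nonempty hM hb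
  have c0 : ∀ c, p ∣ orderOf c → pRegularPart p θ.1 c = 0 := fun c hc => pRegularPart_of_dvd _ hc
  have h2 := blockPart_lft hM rfl hv ((ind_iff hM hv hb hB).2 f2) (φ := pRegularPart p θ.1)
    (by rw [blockPart_pRegularPart hM hb (irr_isClassFunction θ), blockPart_irr_of_mem hθ]) c0
  have n1 : ¬ p ∣ orderOf (1 : centralizer ({v} : Set Γ)) := by
    rw [orderOf_one]
    exact fun h => hp.out.one_lt.ne' (Nat.dvd_one.1 h)
  have h3 := lft_apply rfl hv ((irr_isClassFunction θ).pRegularPart (p := p)) c0 n1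
  rw [← h2, pRegularPart_apply, if_neg n1, blockPart_apply_eq_sum_bset, OneMemClass.coe_one,
    mul_one] at h3
  obtain ⟨χ, a1, a2⟩ := exists_ne_zero_of_sum_ne_zero (h3 ▸ irr_apply_one_ne_zero θ)
  exact ⟨χ, mem_bset.1 a1, right_ne_zero_of_mul a2⟩

theorem br_br_mul {B : Set (IrrCharacter Γ)} {w : Γ} {E : (ResF hM)[Γ]}
    (h : br (zpowers w) (idem hM B) * E = E) {Q : Subgroup Γ} (hQ : IsPGroup p Q)
    (hn : Q ≤ normalizer ((centralizer ({w} : Set Γ) : Subgroup Γ) : Set Γ)) (hE : IsFixed Q E) :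
    br Q (br (zpowers w) (idem hM B)) * br Q E = br Q E := by
  rw [← br_mul hQ _ hE, h]
  intro r hr x
  rw [br_def, coeff_trunc, coeff_trunc, centralizer_zpowers_eq, isCentral_idem hM B r x]
  exact if_congr (mem_normalizer_iff.1 (hn hr) x).symm rfl rfl

theorem exists_conj_le {B : Set (IrrCharacter Γ)} (hB : IsPBlock M B) {P : Subgroup Γ}
    (hP : IsDefectGroup p M B P) {w : Γ} {E : (ResF hM)[Γ]}
    (h : br (zpowers w) (idem hM B) * E = E) {Q : Subgroup Γ} (hQ : IsPGroup p Q)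
    (hn : Q ≤ normalizer ((centralizer ({w} : Set Γ) : Subgroup Γ) : Set Γ)) (hE : IsFixed Q E)
    (h0 : br Q E ≠ 0) : ∃ x : Γ, ∀ y ∈ Q, x * y * x⁻¹ ∈ P := by
  have h1 := br_br_mul hM h hQ hn hE
  obtain ⟨x, -, hx⟩ := (defGrp_of_isDefectGroup hM hB hP).max Q le_top hQ fun h2 => h0 (by
    rw [← h1, br_def, br_def, trunc_trunc, Set.inter_comm, ← trunc_trunc, ← br_def Q, h2,
      map_zero, zero_mul])
  exact ⟨x, fun y hy => hx ⟨y, hy, rfl⟩⟩

section Prod
variable {φ : Γ₁ × Γ₂ →* Γ} (hφ : Function.Injective φ) {u : Γ₂}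
  (hC : ∀ g, Commute (φ (1, u)) g → g ∈ φ.range)
include hφ hC

theorem range_eq : (φ.comp ((MonoidHom.id Γ₁).prodMap (centralizer ({u} : Set Γ₂)).subtype)).range =
    centralizer ({φ (1, u)} : Set Γ) := by
  ext g
  rw [mem_centralizer_singleton_iff]
  constructor
  · rintro ⟨x, rfl⟩
    have := mem_centralizer_singleton_iff.1 x.2.2
    change φ (x.1, x.2.1) * _ = _ * φ (x.1, x.2.1)
    rw [← map_mul, ← map_mul, Prod.mk_mul_mk, Prod.mk_mul_mk, this, mul_one, one_mul]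
  · intro h
    obtain ⟨x, rfl⟩ := hC g (Eq.symm h)
    rw [← map_mul, ← map_mul] at h
    exact ⟨(x.1, ⟨x.2, mem_centralizer_singleton_iff.2 (congrArg Prod.snd (hφ h))⟩), rfl⟩

/-- the product of two Brauer pairs -/
theorem pair_prod {B : Set (IrrCharacter Γ)} {e₁ f₁ : (ResF hM)[Γ₁]} (he₁ : IsCentral e₁)
    {f₂ : (ResF hM)[Γ₂]} (hf₂ : BP p ⊤ (zpowers u) f₂)
    (h : br (zpowers (φ (1, u))) (idem hM B) * gm φ (tens e₁ f₂) = gm φ (tens e₁ f₂))
    {A₁ : Subgroup Γ₁} (hf₁ : BP p ⊤ A₁ f₁) (h₁ : br A₁ e₁ * f₁ = f₁) :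
    BP p ⊤ ((A₁.prod (zpowers u)).map φ) (gm φ (tens f₁ f₂)) ∧
      br ((A₁.prod (zpowers u)).map φ) (idem hM B) * gm φ (tens f₁ f₂) = gm φ (tens f₁ f₂) := by
  have m : φ (1, u) ∈ (A₁.prod (zpowers u)).map φ := ⟨_, ⟨one_mem _, mem_zpowers u⟩, rfl⟩
  have q : IsPGroup p ((A₁.prod (zpowers u)).map φ) := (isPGroup_prod hf₁.pgroup hf₂.pgroup).map φ
  refine ⟨bp_top_iff.2 ⟨q, ?_⟩, ?_⟩
  · have h2 := bIdem_gm hM hφ (bIdem_tens hM hf₁.bidem_top hf₂.bidem_top)
    rw [← centralizer_prod, ← top_inf_eq (centralizer _), map_inf_centralizer hφ,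
      inf_eq_right.2] at h2
    · exact h2
    · intro g hg
      rw [← MonoidHom.range_eq_map]
      exact hC g (hg _ m)
  · have h2 := br_br_mul hM h q (le_trans ?_ le_normalizer)
      (isFixed_gm hφ (isFixed_tens (he₁.isFixed _) hf₂.isFixed_self))
    · rw [br_br_of_le (zpowers_le.2 m), br_gm hφ, br_tens, hf₂.br_self] at h2
      have h3 : gm φ (tens f₁ f₂) = gm φ (tens (br A₁ e₁) f₂) * gm φ (tens f₁ f₂) := by
        rw [← map_mul, tens_mul, h₁, hf₂.idem]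
      rw [h3, ← mul_assoc, h2]
    · rw [← range_eq hφ hC]
      rintro _ ⟨x, hx, rfl⟩
      exact ⟨(x.1, ⟨x.2, zpowers_le_centralizer u hx.2⟩), rfl⟩

end Prod

/-- one step of the reduction -/
theorem stepG {φ : Γ₁ × Γ₂ →* Γ} (hφ : Function.Injective φ) {a : Γ₂}
    (hC : ∀ g, Commute (φ (1, pPart p a)) g → g ∈ φ.range) {B : Set (IrrCharacter Γ)}
    (hB : IsPBlock M B) {χ : IrrCharacter Γ} (hχ : χ ∈ B) {χ' : IrrCharacter Γ₁}
    (h : ip (pRegularPart p χ'.1) (fun D => χ.1 (φ (D, a))) ≠ 0) :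
    ∃ (β : Set (IrrCharacter (centralizer ({pPart p a} : Set Γ₂)))) (B₂ : Set (IrrCharacter Γ₂))
      (g : Γ₂ → ℂ), IsPBlock M β ∧ IsPBlock M B₂ ∧ IsInducedBlock M _ β B₂ ∧
      IsClassFunction Γ₂ g ∧ blockPart B₂ g = g ∧
      (∀ v, g v ≠ 0 → IsConj (pPart p a) (pPart p v)) ∧
      ip (prodFun (pRegularPart p χ'.1) g) (fun x => χ.1 (φ x)) ≠ 0 ∧
      br (zpowers (φ (1, pPart p a))) (idem hM B) *
        gm φ (tens (idem hM (blockOf M χ'.1)) (sidem hM _ β)) =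
        gm φ (tens (idem hM (blockOf M χ'.1)) (sidem hM _ β)) := by
  set u := pPart p a with hu
  have pu : IsPElt p u := isPElt_pPart p a
  have hr := range_eq hφ hC
  set ι := φ.comp ((MonoidHom.id Γ₁).prodMap (centralizer ({u} : Set Γ₂)).subtype) with hι
  have ιi : Function.Injective ι := hφ.comp (Function.injective_id.prodMap Subtype.val_injective)
  have e1 : ∀ x : Γ₁ × centralizer ({u} : Set Γ₂), φ (1, u) * ι x = φ (x.1, u * x.2) := fun x => by
    change _ * φ (x.1, x.2.1) = _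
    rw [← map_mul, Prod.mk_mul_mk, one_mul]
  have cl : IsClassFunction _ fun x => χ.1 (φ (1, u) * ι x) := fun g x => by
    have h1 : ι x ∈ centralizer ({φ (1, u)} : Set Γ) := hr ▸ ⟨x, rfl⟩
    rw [mem_centralizer_singleton_iff] at h1
    beta_reduce
    rw [map_mul, map_mul, map_inv, ← irr_isClassFunction χ (φ (1, u) * ι g) (ι x), ← mul_assoc,
      ← mul_assoc, ← h1, mul_assoc (ι x)]
  obtain ⟨θ, hθ⟩ := GLH.Df.exists_right (θ₁ := χ') cl
    (y := ⟨pRegPart p a, mem_centralizer_singleton_iff.2 (commute_pPart_pRegPart p a).eq.symm⟩)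
    (by
      have := isPRegular_pRegPart p a
      rwa [IsPRegular, ← Subgroup.orderOf_coe])
    (by
      simp only [e1]
      rwa [hu, pPart_mul_pRegPart])
  have hβ := isPBlock_blockOf (M := M) θ
  obtain ⟨B₂, hB₂⟩ := exists_isInducedBlock_of_eq_centralizer hM rfl pu hβ
  have c0 : ∀ c, p ∣ orderOf c → pRegularPart p θ.1 c = 0 := fun c hc => pRegularPart_of_dvd _ hc
  refine ⟨_, B₂, lft _ u (pRegularPart p θ.1), hβ, hB₂.2.1, hB₂, isClassFunction_lft _,
    blockPart_lft hM rfl pu hB₂ (by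
      rw [blockPart_pRegularPart hM hβ (irr_isClassFunction θ),
        blockPart_irr_of_mem (mem_blockOf_self hM θ)]) c0,
    fun v hv => by_contra fun hc => hv (lft_apply_eq_zero rfl pu c0 hc), ?_, ?_⟩
  · rw [irrProd_val, GLH.Df.pRegularPart_prodFun, GLH.Df.ip_prod] at hθ
    rw [GLH.Df.ip_prod, ip_lft_left rfl]
    · simp only [e1] at hθ
      exact hθ
    · intro b x
      beta_reduce
      congr 1
      funext c
      have := irr_isClassFunction χ (φ (c, b)) (φ (1, x))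
      rw [← map_inv, ← map_mul, ← map_mul] at this
      simpa using this
  · have h1 := ind_of_ip hM ιi ((isPElt_of_pow_eq_one (g := ((1, u) : Γ₁ × Γ₂))
      (k := pu.choose) (Prod.ext (one_pow _) (by
        rw [← pu.choose_spec]; exact pow_orderOf_eq_one u))).map φ) hr hB hχ hθ
    rwa [idem_prod, hι, ← gm_gm, gm_prodMap_tens, show gm (MonoidHom.id Γ₁) (idem hM (blockOf M χ'.1))
      = idem hM (blockOf M χ'.1) from gm_ext Function.injective_id (fun _ => rfl)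
        fun y hy => absurd ⟨y, rfl⟩ hy] at h1

universe u

/-- `X` has an elementary abelian section of rank at least `r` -/
def Sx (p : ℕ) (X : Type u) [Group X] (r : ℕ) : Prop :=
  ∃ (Y V : Type u) (_ : Group Y) (_ : Finite Y) (_ : Group V) (ι : Y →* X) (f : Y →* V),
    Function.Injective ι ∧ Function.Surjective f ∧ (∀ a b : V, a * b = b * a) ∧
      (∀ a : V, a ^ p = 1) ∧ p ^ r ≤ Nat.card V

section Sx
variable {X X' : Type u} [Group X] [Group X'] {r r' : ℕ}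

theorem Sx.le (h : Sx p X r) {s : ℕ} (hs : SectionalPRankLE p s X) : r ≤ s := by
  obtain ⟨Y, V, _, _, _, ι, f, h1, h2, h3, h4, h5⟩ := h
  exact (Nat.pow_le_pow_iff_right hp.out.one_lt).1
    (h5.trans (GLH.Df.card_le_of_section hs ι h1 f h2 h3 h4))

theorem Sx.map (h : Sx p X r) (κ : X →* X') (hκ : Function.Injective κ) : Sx p X' r := by
  obtain ⟨Y, V, _, _, _, ι, f, h1, h2⟩ := h
  exact ⟨Y, V, _, ‹_›, _, κ.comp ι, f, hκ.comp h1, h2⟩

theorem Sx.mono (h : Sx p X r) (hr : r' ≤ r) : Sx p X r' := by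
  obtain ⟨Y, V, _, _, _, ι, f, h1, h2, h3, h4, h5⟩ := h
  exact ⟨Y, V, _, ‹_›, _, ι, f, h1, h2, h3, h4, (Nat.pow_le_pow_right hp.out.pos hr).trans h5⟩

theorem Sx.prod (h : Sx p X r) (h' : Sx p X' r') : Sx p (X × X') (r + r') := by
  obtain ⟨Y, V, _, _, _, ι, f, h1, h2, h3, h4, h5⟩ := h
  obtain ⟨Y', V', _, _, _, ι', f', h1', h2', h3', h4', h5'⟩ := h'
  exact ⟨Y × Y', V × V', _, inferInstance, _, ι.prodMap ι', f.prodMap f', h1.prodMap h1',
    h2.prodMap h2', fun a b => Prod.ext (h3 _ _) (h3' _ _), fun a => Prod.ext (h4 _) (h4' _),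
    by rw [pow_add, Nat.card_prod]; exact Nat.mul_le_mul h5 h5'⟩

theorem sx_zero : Sx p X 0 :=
  ⟨(⊥ : Subgroup X), (⊥ : Subgroup X), _, inferInstance, _, Subgroup.subtype _, MonoidHom.id _,
    subtype_injective _, Function.surjective_id, fun _ _ => Subsingleton.elim _ _,
    fun _ => Subsingleton.elim _ _, by simp⟩

/-- passing to the kernel of a homomorphism to a cyclic group -/
theorem Sx.ker (h : Sx p X (r + 1)) {C : Type*} [Group C] [IsCyclic C] (δ : X →* C) :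
    Sx p δ.ker r := by
  obtain ⟨Y, V, _, _, _, ι, f, h1, h2, h3, h4, h5⟩ := h
  have : Finite V := Finite.of_surjective f h2
  let K := (δ.comp ι).ker
  refine ⟨K, K.map f, _, inferInstance, _, (ι.comp K.subtype).codRestrict _ fun y => y.2,
    f.subgroupMap K, fun a b e => Subtype.ext (h1 (congrArg Subtype.val e)),
    f.subgroupMap_surjective K, fun a b => Subtype.ext (h3 _ _), fun a => Subtype.ext (h4 _), ?_⟩
  have : (K.map f).Normal := ⟨fun a ha g => by rwa [h3 g a, mul_inv_cancel_right]⟩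
  have c1 : IsCyclic (Y ⧸ K) := isCyclic_of_injective _ (QuotientGroup.kerLift_injective (δ.comp ι))
  have c2 : IsCyclic (V ⧸ K.map f) := isCyclic_of_surjective
    (QuotientGroup.map K (K.map f) f (le_comap_map f K)) fun v => by
      obtain ⟨v, rfl⟩ := QuotientGroup.mk_surjective v
      obtain ⟨y, rfl⟩ := h2 v
      exact ⟨y, rfl⟩
  have c3 : Nat.card (V ⧸ K.map f) ≤ p := by
    rw [← IsCyclic.exponent_eq_card]
    refine Nat.le_of_dvd hp.out.pos (Monoid.exponent_dvd_of_forall_pow_eq_one fun v => ?_)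
    obtain ⟨v, rfl⟩ := QuotientGroup.mk_surjective v
    rw [← QuotientGroup.mk_pow, h4, QuotientGroup.mk_one]
  rw [card_eq_card_quotient_mul_card_subgroup (K.map f), pow_succ'] at h5
  exact Nat.le_of_mul_le_mul_left (h5.trans (Nat.mul_le_mul_right _ c3)) hp.out.pos

theorem sx_frattini [Finite X] (q : IsPGroup p X) (h : p ^ r ≤ (frattini X).index) : Sx p X r :=
  have e := isElementaryAbelian_quotient_frattini q
  ⟨X, X ⧸ frattini X, _, ‹_›, _, MonoidHom.id _, QuotientGroup.mk' _, Function.injective_id,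
    QuotientGroup.mk'_surjective _,
    fun a b => congrArg Subtype.val (e.1.is_comm.comm ⟨a, trivial⟩ ⟨b, trivial⟩),
    fun a => e.2 a trivial, h⟩

theorem sx_two [Finite X] (q : IsPGroup p X) (c : ¬ IsCyclic X) : Sx p X 2 :=
  sx_frattini q (Nat.le_of_dvd (Nat.pos_of_ne_zero (frattini X).index_ne_zero_of_finite)
    (sq_dvd_index_frattini q c))

theorem sx_one [Finite X] (q : IsPGroup p X) {x : X} (hx : x ≠ 1) : Sx p X 1 := by
  obtain ⟨k, hk⟩ := (IsPGroup.iff_orderOf.1 q) x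
  have h1 : p ∣ orderOf x := hk ▸ dvd_pow_self p fun h => hx (by
    rw [← orderOf_eq_one_iff, hk, h, pow_zero])
  have h2 := orderOf_pow_orderOf_div (orderOf_pos x).ne' h1
  refine ⟨zpowers (x ^ (orderOf x / p)), zpowers (x ^ (orderOf x / p)), _, inferInstance, _,
    Subgroup.subtype _, MonoidHom.id _, subtype_injective _, Function.surjective_id,
    fun a b => IsCyclic.commGroup.mul_comm a b, fun a => ?_, by rw [Nat.card_zpowers, h2, pow_one]⟩
  have := pow_card_eq_one' (x := a)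
  rwa [Nat.card_zpowers, h2] at this

end Sx

end GUH.Df
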