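import Cfsg.Agent.Lib.GU.LocD

/-!
# Local analysis of blocks of unitary groups: the geometric part
-/

set_option autoImplicit false
set_option linter.unusedSectionVars false

namespace GUL

open Cfsg UW UW.HS Subgroup
open scoped Pointwise

variable {F V : Type*} [Field F] [Fintype F] [StarRing F] [HF F] [AddCommGroup V] [Module F V]
  [Fintype V] {H : HS F V} {D D' : Submodule F V} {g n : H.U}

theorem le_perp_perp (D : Submodule F V) : D ≤ H.perp (H.perp D) := fun _ hx _ hy => H.symm_zero (hy _ hx)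

theorem le_perp_symm (h : D ≤ H.perp D') : D' ≤ H.perp D := fun _ hx _ hy => H.symm_zero (h hy _ hx)

theorem sub_mem_of_GD (hD : H.Nd D) (hg : g ∈ GD H D) (v : V) : g • v - v ∈ D :=
  hD.perp_perp fun y hy => by rw [H.sub_left, b_gsmul_left, (GD H D).inv_mem hg y hy, sub_self]

theorem smul_mem_of_GD (hD : H.Nd D) (hg : g ∈ GD H D) {v : V} (hv : v ∈ D) : g • v ∈ D := by
  simpa using D.add_mem (sub_mem_of_GD hD hg v) hv

theorem mem_GD_perp (hD : H.Nd D) : g ∈ GD H (H.perp D) ↔ ∀ x ∈ D, g • x = x :=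
  ⟨fun h x hx => h x (le_perp_perp D hx), fun h x hx => h x (hD.perp_perp hx)⟩

theorem GD_le_perp (hD : H.Nd D) (h : D ≤ H.perp D') : GD H D' ≤ GD H (H.perp D) := fun _ hg =>
  (mem_GD_perp hD).2 fun x hx => hg x (h hx)

theorem commute_perp (hD : H.Nd D) {x y : H.U} (hx : x ∈ GD H D) (hy : y ∈ GD H (H.perp D)) : Commute x y :=
  hD.U_ext (fun v hv => by
    rw [mul_smul, mul_smul, (mem_GD_perp hD).1 hy v hv, (mem_GD_perp hD).1 hy _ (smul_mem_of_GD hD hx hv)])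
    fun v hv => by rw [mul_smul, mul_smul, hx v hv, hx _ (smul_mem_of_GD hD.perp hy hv)]

theorem exists_res_GD (hD : H.Nd D) (g : H.U) (hg : ∀ y ∈ D, g • y ∈ D) : ∃ c ∈ GD H D, ∀ x ∈ D, c • x = g • x := by
  obtain ⟨g', h⟩ := hD.exists_res g hg
  exact ⟨hD.ext g', fun y hy => hD.ext_perp g' hy, fun x hx => (hD.ext_coe g' ⟨x, hx⟩).trans (h _)⟩

/-- `n` maps `D` onto `D'` -/
def Mp (n : H.U) (D D' : Submodule F V) : Prop := (∀ x ∈ D, n • x ∈ D') ∧ ∀ x ∈ D', n⁻¹ • x ∈ D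

theorem Mp.symm (h : Mp n D D') : Mp n⁻¹ D' D := ⟨h.2, by simpa using h.1⟩

theorem Mp.perp (h : Mp n D D') : Mp n (H.perp D) (H.perp D') :=
  ⟨fun x hx y hy => by rw [b_gsmul_left]; exact hx _ (h.2 y hy),
    fun x hx y hy => by rw [← b_gsmul_right]; exact hx _ (h.1 y hy)⟩

theorem Mp.mem (h : Mp n D D') (hg : g ∈ GD H D) : n * g * n⁻¹ ∈ GD H D' := fun y hy => by
  rw [mul_smul, mul_smul, hg _ (h.perp.2 y hy), smul_inv_smul]

theorem conj_eq_of {G : Type*} [Group G] {A B : Subgroup G} {n : G} (h1 : ∀ g ∈ A, n * g * n⁻¹ ∈ B)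
    (h2 : ∀ g ∈ B, n⁻¹ * g * n⁻¹⁻¹ ∈ A) : MulAut.conj n • A = B :=
  le_antisymm (by rintro _ ⟨g, hg, rfl⟩; exact h1 g hg) fun g hg =>
    ⟨_, h2 g hg, by simp [MulAut.conj_apply, mul_assoc]⟩

theorem Mp.conj (h : Mp n D D') : MulAut.conj n • GD H D = GD H D' :=
  conj_eq_of (fun _ => h.mem) fun _ => h.symm.mem

theorem smul_mem_of_conj (hD : H.Nd D) (hD' : H.Nd D') (h : ∀ g ∈ GD H D, n * g * n⁻¹ ∈ GD H D') {x : V}
    (hx : x ∈ D) : n • x ∈ D' := by
  classical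
  obtain ⟨z, hz⟩ := Fintype.exists_ne_of_one_lt_card (show 1 < Fintype.card (unitary F) by
    have := two_le_qq F
    rw [card_unitary]; omega) 1
  obtain ⟨c, hc, h1⟩ := exists_res_GD hD (H.sc z) fun y hy => D.smul_mem _ hy
  have h2 := sub_mem_of_GD hD' (h c hc) (n • x)
  rw [mul_smul, mul_smul, inv_smul_smul, h1 x hx, sc_smul, gsmul] at h2
  exact (D'.smul_mem_iff (sub_ne_zero.2 fun e : (z : F) = 1 => hz (Subtype.ext e))).1 (by rwa [sub_smul, one_smul])

theorem Mp.of_conj (hD : H.Nd D) (hD' : H.Nd D') (h : MulAut.conj n • GD H D = GD H D') : Mp n D D' :=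
  ⟨fun _ => smul_mem_of_conj hD hD' fun _ hg => h ▸ smul_mem_pointwise_smul _ _ _ hg,
    fun _ => smul_mem_of_conj hD' hD fun g hg => by
      obtain ⟨g', hg', rfl⟩ := h.ge hg
      simpa [MulAut.conj_apply, mul_assoc] using hg'⟩

theorem exists_proj (hD : H.Nd D) : ∃ P : Module.End F V, (∀ v, P v ∈ D) ∧ (∀ x ∈ D, P x = x) ∧
    (∀ x ∈ H.perp D, P x = 0) ∧ ∀ x y, H.b (P x) y = H.b x (P y) := by
  have h1 := fun x (hx : x ∈ D) => LinearMap.ofIsCompl_apply_left hD.isCompl (φ := D.subtype) (ψ := 0) ⟨x, hx⟩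
  have h2 := fun x (hx : x ∈ H.perp D) =>
    LinearMap.ofIsCompl_apply_right hD.isCompl (φ := D.subtype) (ψ := 0) ⟨x, hx⟩
  refine ⟨_, fun v => ?_, h1, h2, fun x y => ?_⟩
  · obtain ⟨d, hd, z, hz, rfl⟩ := hD.decomp v
    rw [map_add, h1 d hd, h2 z hz]
    simpa using hd
  · obtain ⟨d, hd, z, hz, rfl⟩ := hD.decomp x
    obtain ⟨d', hd', z', hz', rfl⟩ := hD.decomp y
    rw [map_add, map_add, h1 d hd, h2 z hz, h1 d' hd', h2 z' hz']
    simp [hz _ hd', H.symm_zero (hz' _ hd)]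

theorem Mp.swap (hD : H.Nd D) (hD' : H.Nd D') (ho : D ≤ H.perp D') (h : Mp n D D') :
    ∃ s : H.U, s * s = 1 ∧ (∀ x ∈ D, s • x = n • x) ∧ (∀ x ∈ H.perp D, x ∈ H.perp D' → s • x = x) ∧
      ∃ c ∈ GD H D, (∀ x ∈ D, c • x = -x) ∧ s * c ∈ H.S := by
  obtain ⟨P, p1, p2, p3, p4⟩ := exists_proj hD
  obtain ⟨Q, q1, q2, q3, q4⟩ := exists_proj hD'
  have ho' := le_perp_symm ho
  have h1 : ∀ v, Q (n • v) = n • P v := fun v => by
    obtain ⟨d, hd, z, hz, rfl⟩ := hD.decomp v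
    rw [smul_add, map_add, map_add, q2 _ (h.1 d hd), q3 _ (h.perp.1 z hz), p2 d hd, p3 z hz, add_zero, add_zero]
  have h2 : ∀ v, P (n⁻¹ • v) = n⁻¹ • Q v := fun v => by rw [eq_inv_smul_iff, ← h1, smul_inv_smul]
  let A := H.lin n⁻¹ * Q
  let B := H.lin n * P
  have aa : A * A = 0 := LinearMap.ext fun v => by simp [A, q3 _ (ho (h.2 _ (q1 v)))]
  have bb : B * B = 0 := LinearMap.ext fun v => by simp [B, p3 _ (ho' (h.1 _ (p1 v)))]
  have ab : A * B = P := LinearMap.ext fun v => by simp [A, B, h1, p2 _ (p1 v)]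
  have ba : B * A = Q := LinearMap.ext fun v => by simp [A, B, h2, q2 _ (q1 v)]
  have pa : P * A = A := LinearMap.ext fun v => by simp [A, h2, q2 _ (q1 v)]
  have qb : Q * B = B := LinearMap.ext fun v => by simp [B, h1, p2 _ (p1 v)]
  have ap : A * P = 0 := by rw [← ab, ← mul_assoc, aa, zero_mul]
  have qa : Q * A = 0 := by rw [← ba, mul_assoc, aa, mul_zero]
  have bq : B * Q = 0 := by rw [← ba, ← mul_assoc, bb, zero_mul]
  have pb : P * B = 0 := by rw [← ab, mul_assoc, bb, mul_zero]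
  have aq : A * Q = A := by rw [← ba, ← mul_assoc, ab, pa]
  have bp : B * P = B := by rw [← ab, ← mul_assoc, ba, qb]
  have pp : P * P = P := by nth_rw 2 [← ab]; rw [← mul_assoc, pa, ab]
  have qq : Q * Q = Q := by nth_rw 2 [← ba]; rw [← mul_assoc, qb, ba]
  have pq : P * Q = 0 := by rw [← ba, ← mul_assoc, pb, zero_mul]
  have qp : Q * P = 0 := by rw [← ab, ← mul_assoc, qa, zero_mul]
  have hs : (1 - P - Q + A + B) * (1 - P - Q + A + B) = 1 := by
    simp only [mul_add, add_mul, mul_sub, sub_mul, one_mul, mul_one, *]; abel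
  have hv : ∀ v, (1 - P - Q + A + B) v = v - P v - Q v + n⁻¹ • Q v + n • P v := fun _ => rfl
  have ha : ∀ x y, H.b ((1 - P - Q + A + B) x) y = H.b x ((1 - P - Q + A + B) y) := fun x y => by
    simp only [hv, add_left, sub_left, add_right, sub_right]
    rw [p4, q4, b_gsmul_left n⁻¹, inv_inv, q4, h1, b_gsmul_left n, p4, h2, add_right_comm]
  obtain ⟨c, hc, h3⟩ := exists_res_GD hD (H.sc (-1)) fun y hy => D.smul_mem _ hy
  replace h3 : ∀ x ∈ D, c • x = -x := fun x hx => (h3 x hx).trans (neg_one_smul F x)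
  have h4 : H.lin c = 1 - P - P := LinearMap.ext fun v => by
    obtain ⟨d, hd, z, hz, rfl⟩ := hD.decomp v
    simp [h3 d hd, hc z hz, p2 d hd, p3 z hz]; abel
  refine ⟨H.mkU (1 - P - Q + A + B) fun x y => by rw [ha, ← Module.End.mul_apply, hs, Module.End.one_apply],
    U_ext fun v => LinearMap.congr_fun hs v, fun x hx => ?_, fun x hx hx' => ?_, c, hc, h3, ?_⟩
  · simp [hv, p2 x hx, q3 x (ho hx)]
  · simp [hv, p3 x hx, q3 x hx']
  · have h5 : ∀ C : Module.End F V, C * C = 0 → LinearMap.det (1 + C) = 1 := fun C hC =>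
      det_eq_one_of_nilpotent ⟨2, by rw [add_sub_cancel_left, sq, hC]⟩
    rw [mem_S, map_mul, lin_mkU, h4, show (1 - P - Q + A + B) * (1 - P - P) = (1 + A) * (1 + -B) * (1 + A) by
      simp only [mul_add, add_mul, mul_sub, sub_mul, one_mul, mul_one, mul_neg, neg_mul, *]; abel,
      map_mul, map_mul, h5 A aa, h5 (-B) (by rw [neg_mul_neg, bb]), one_mul, one_mul]

section
variable {J : Type*} {D : J → Submodule F V} {u : J → H.U} (h : Geo H D u)
include h

theorem Geo.eq_one (hg : ∀ l, ∀ x ∈ D l, g • x = x) : g = 1 := U_ext fun v =>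
  Submodule.iSup_induction D (motive := fun v => g • v = (1 : H.U) • v) (h.span.ge trivial : v ∈ _)
    (fun l x hx => (hg l x hx).trans (one_smul _ x).symm) (by simp) fun x y hx hy => by rw [smul_add, smul_add, hx, hy]

theorem Geo.exists_pow (hg : g ∈ ⨆ j, zpowers (u j)) (l : J) : ∃ a ∈ zpowers (u l), ∀ x ∈ D l, g • x = a • x := by
  refine iSup_induction _ (C := fun g => ∃ a ∈ zpowers (u l), ∀ x ∈ D l, g • x = a • x) hg (fun j x hx => ?_)
    ⟨1, one_mem _, fun _ _ => rfl⟩ ?_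
  · by_cases e : j = l
    · exact ⟨x, e ▸ hx, fun _ _ => rfl⟩
    · exact ⟨1, one_mem _, fun y hy => (zpowers_le.2 (h.mem j) hx y (h.orth l j (Ne.symm e) hy)).trans
        (one_smul _ y).symm⟩
  · rintro x y ⟨a, ha, hx⟩ ⟨b, hb, hy⟩
    exact ⟨a * b, mul_mem ha hb, fun v hv => by
      rw [mul_smul, mul_smul, hy v hv, hx _ (smul_mem_of_GD (h.nd l) (zpowers_le.2 (h.mem l) hb) hv)]⟩

theorem Geo.mem_perp (hg : g ∈ ⨆ j, zpowers (u j)) {l : J} (hl : ¬ ∀ x ∈ D l, g • x = x) {y : V} (hy : g • y = y) :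
    y ∈ H.perp (D l) := by
  obtain ⟨a, ha, h1⟩ := h.exists_pow hg l
  obtain ⟨k, rfl⟩ := (mem_powers_iff_mem_zpowers.2 ha :)
  have h2 : ∀ x ∈ D l, g • x ∈ D l := fun x hx => h1 x hx ▸ smul_mem_of_GD (h.nd l) (pow_mem (h.mem l) k) hx
  obtain ⟨d, hd, z, hz, rfl⟩ := (h.nd l).decomp y
  have h3 : g • d - d = 0 := (Submodule.disjoint_def.1 (h.nd l).isCompl.disjoint) _ (sub_mem (h2 d hd) hd) (by
    rw [show g • d - d = z - g • z by rw [sub_eq_sub_iff_add_eq_add, ← smul_add, hy, add_comm]]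
    exact sub_mem hz (perp_invariant g h2 z hz))
  rwa [h.fpf l k (fun e => hl fun x hx => by rw [h1 x hx]; simp only [e, one_smul]) d hd
    ((h1 d hd).symm.trans (sub_eq_zero.1 h3)), zero_add]

theorem Geo.step (hn : ∀ g ∈ ⨆ j, zpowers (u j), n * g * n⁻¹ ∈ ⨆ j, zpowers (u j)) {j : J} (hj : u j ≠ 1) :
    ∃ l, u l ≠ 1 ∧ ∀ x ∈ D l, n⁻¹ • x ∈ D j := by
  have h1 := hn _ (mem_iSup_of_mem j (mem_zpowers _))
  obtain ⟨l, hl⟩ := not_forall.1 (mt h.eq_one (show n * u j * n⁻¹ ≠ 1 by simpa using hj))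
  refine ⟨l, fun e => hl fun x hx => ?_, fun x hx => (h.nd j).perp_perp fun y hy => ?_⟩
  · obtain ⟨a, ha, h2⟩ := h.exists_pow h1 l
    rw [e, zpowers_one_eq_bot, mem_bot] at ha
    rw [h2 x hx, ha, one_smul]
  · rw [← b_gsmul_right]
    exact H.symm_zero (h.mem_perp h1 hl (by rw [mul_smul, mul_smul, inv_smul_smul, h.mem j y hy]) x hx)

theorem Geo.mem_of_fix {j : J} (hj : u j = 1) {y : V} (hy : ∀ l, u l • y = y) : y ∈ D j := by
  refine (h.nd j).perp_perp fun x hx => ?_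
  obtain ⟨P, p1, p2, p3, p4⟩ := exists_proj (h.nd j)
  have h1 : ∀ v, H.b y (v - P v) = 0 := fun v =>
    Submodule.iSup_induction D (motive := fun v => H.b y (v - P v) = 0) (h.span.ge trivial : v ∈ _)
      (fun l x hx => by
        by_cases e : l = j
        · simp [p2 x (e ▸ hx)]
        · rw [p3 x (h.orth l j e hx), sub_zero]
          exact h.mem_perp (mem_iSup_of_mem l (mem_zpowers _)) (fun h2 => e (h.one l j
            ((h.nd l).U_ext (by simpa using h2) fun y hy => (h.mem l y hy).trans (one_smul _ y).symm) hj)) (hy l) x hx) (by simp)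
      fun x y hx hy => by rw [map_add, add_sub_add_comm, add_right, hx, hy, add_zero]
  simpa [p3 x hx] using h1 x

theorem Geo.conj_mem (hn : ∀ g ∈ ⨆ j, zpowers (u j), n * g * n⁻¹ ∈ ⨆ j, zpowers (u j)) {j l : J}
    (m : Mp n (D j) (D l)) (hg : g ∈ zpowers (u j)) : n * g * n⁻¹ ∈ zpowers (u l) := by
  obtain ⟨a, ha, h2⟩ := h.exists_pow (hn _ (mem_iSup_of_mem j hg)) l
  rwa [(h.nd l).U_ext h2 fun y hy =>
    (m.mem (zpowers_le.2 (h.mem j) hg) y hy).trans (zpowers_le.2 (h.mem l) ha y hy).symm]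

theorem Geo.exists_mp (hn : ∀ g ∈ ⨆ j, zpowers (u j), n * g * n⁻¹ ∈ ⨆ j, zpowers (u j))
    (hn' : ∀ g ∈ ⨆ j, zpowers (u j), n⁻¹ * g * n⁻¹⁻¹ ∈ ⨆ j, zpowers (u j)) (j : J) : ∃ l, Mp n (D j) (D l) := by
  by_cases hj : u j = 1
  · have h1 : ∀ n : H.U, (∀ g ∈ ⨆ j, zpowers (u j), n⁻¹ * g * n⁻¹⁻¹ ∈ ⨆ j, zpowers (u j)) → ∀ x ∈ D j, n • x ∈ D j :=
      fun n hn x hx => h.mem_of_fix hj fun l => by
        obtain ⟨a, ha, h2⟩ := h.exists_pow (hn _ (mem_iSup_of_mem l (mem_zpowers _))) j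
        rw [hj, zpowers_one_eq_bot, mem_bot] at ha
        have := h2 x hx
        rwa [ha, one_smul, inv_inv, mul_smul, mul_smul, inv_smul_eq_iff] at this
    exact ⟨j, h1 n hn', h1 n⁻¹ (by simpa using hn)⟩
  obtain ⟨l, h1, h2⟩ := h.step hn hj
  obtain ⟨m, h3, h4⟩ := h.step hn' h1
  rw [inv_inv] at h4
  obtain rfl : m = j := by_contra fun e => h3 ((h.nd m).U_ext (fun y hy => by
    rw [(Submodule.disjoint_def.1 (h.nd j).isCompl.disjoint) y (by simpa using h2 _ (h4 y hy)) (h.orth m j e hy),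
      smul_zero, smul_zero]) fun y hy => (h.mem m y hy).trans (one_smul _ y).symm)
  exact ⟨l, h4, h2⟩

theorem Geo.split [Fintype J] (hn : ∀ j, ∀ x ∈ D j, n • x ∈ D j) : n ∈ ⨆ j, GD H (D j) := by
  classical
  suffices ∀ (s : Finset J) (n : H.U), (∀ j, ∀ x ∈ D j, n • x ∈ D j) → (∀ j ∉ s, ∀ x ∈ D j, n • x = x) →
      n ∈ ⨆ j, GD H (D j) from this .univ n hn fun j hj => (hj (Finset.mem_univ j)).elim
  intro s
  induction s using Finset.induction_on with
  | empty => exact fun n _ h2 => h.eq_one (fun j => h2 j (Finset.notMem_empty j)) ▸ one_mem _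
  | insert i s hi ih =>
    intro n h1 h2
    obtain ⟨c, hc, h3⟩ := exists_res_GD (h.nd i) n (h1 i)
    have h4 : ∀ j, j ≠ i → ∀ x ∈ D j, c⁻¹ • x = x := fun j hj x hx => inv_mem hc x (h.orth j i hj hx)
    rw [← mul_inv_cancel_left c n]
    refine mul_mem (mem_iSup_of_mem i hc) (ih _ (fun j x hx => ?_) fun j hj x hx => ?_) <;> rw [mul_smul]
    · by_cases e : j = i
      · exact e ▸ smul_mem_of_GD (h.nd i) (inv_mem hc) (h1 i x (e ▸ hx))
      · rw [h4 j e _ (h1 j x hx)]; exact h1 j x hx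
    · by_cases e : j = i
      · rw [← h3 x (e ▸ hx), inv_smul_smul]
      · rw [h2 j (by simp [e, hj]) x hx, h4 j e x hx]

theorem Geo.gs [Fintype J] {N : Subgroup H.U} (hN : H.S ≤ N) : GS N (fun j => GD H (D j)) u where
  mem := h.mem
  comm := fun i j hij _ _ hx hy => commute_perp (h.nd i) hx (GD_le_perp (h.nd i) (h.orth i j hij) hy)
  indep := fun i => Subgroup.disjoint_def.2 fun hx hy => (h.nd i).U_ext (by
    simpa using (mem_GD_perp (h.nd i)).1 (iSup₂_le (fun j hj => GD_le_perp (h.nd i) (h.orth i j hj.symm)) hy))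
    fun y hy => (hx y hy).trans (one_smul _ y).symm
  one := h.one
  perm := fun n hn j => by
    have h1 := fun g => (mem_normalizer_iff.1 hn g).1
    have h2 := fun g => (mem_normalizer_iff.1 (inv_mem hn) g).1
    obtain ⟨l, m⟩ := h.exists_mp h1 h2 j
    exact ⟨l, m.conj, conj_eq_of (fun _ => h.conj_mem h1 m) fun _ => h.conj_mem h2 m.symm⟩
  split := fun n hn => h.split fun j => (Mp.of_conj (h.nd j) (h.nd j) (hn j)).1
  swap := fun n i j hij hn => by
    obtain ⟨s, h1, h2, h3, c, hc, h4, h5⟩ := (Mp.of_conj (h.nd i) (h.nd j) hn).swap (h.nd i) (h.nd j) (h.orth i j hij)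
    refine ⟨s, h1, fun x hx => ?_, fun l hi hj x hx => (commute_perp (h.nd l) hx ((mem_GD_perp (h.nd l)).2
      fun y hy => h3 y (h.orth l i hi hy) (h.orth l j hj hy))).symm, c, hc, fun x hx => (h.nd i).U_ext
      (fun y hy => ?_) fun y hy => ?_, hN h5⟩
    · have := commute_perp (h.nd i) hx ((mem_GD_perp (g := n⁻¹ * s) (h.nd i)).2 fun y hy => by
        rw [mul_smul, h2 y hy, inv_smul_smul])
      calc _ = n * (n⁻¹ * s * x) * s⁻¹ := by group
        _ = _ := by rw [← this.eq]; group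
    · rw [mul_smul, mul_smul, h4 y hy, h4 _ (smul_mem_of_GD (h.nd i) hx hy), smul_neg]
    · rw [mul_smul, mul_smul, hx y hy, hc y hy, hx y hy]

end

theorem locG_realise_eqns : True := by
  have := @Mp.eq_1.{0, 0}
  trivial

end GUL
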