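import Cfsg.Agent.Lib.GU.OrbF
import Cfsg.Agent.Lib.GL.DefB

/-!
# S4537: eigenvalues of isometries
-/

set_option autoImplicit false
set_option linter.unusedSectionVars false

namespace GUH

open Finset Polynomial Cfsg UW GUW Module GT
open scoped Classical

universe u

variable {F : Type u} [Field F] [Fintype F] {K : Type} [Field K] [Fintype K] [Algebra F K]
  {V : Type*} [AddCommGroup V] [Module F V] [Fintype V]

/-- spectral mapping -/
theorem exists_spec (K : Type) [Field K] [Algebra F K] : ∃ φ : End F V →+* Matrix (Fin (finrank F V)) (Fin (finrank F V)) K,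
    ∀ (T : End F V) (y : K), aeval y T.charpoly = 0 → ∀ a : F[X], aeval y a ∈ spectrum K (φ (aeval T a)) := by
  let φ : End F V →ₐ[F] Matrix (Fin (finrank F V)) (Fin (finrank F V)) K :=
    (Algebra.ofId F K).mapMatrix.comp (LinearMap.toMatrixAlgEquiv (Module.finBasis F V)).toAlgHom
  refine ⟨φ, fun T y hy a => ?_⟩
  have h1 : (φ T).charpoly = T.charpoly.map (algebraMap F K) :=
    (Matrix.charpoly_map _ (algebraMap F K)).trans (congrArg _ (LinearMap.charpoly_toMatrix T _))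
  have := spectrum.subset_polynomial_aeval (φ T) (a.map (algebraMap F K))
    ⟨y, Matrix.mem_spectrum_iff_isRoot_charpoly.2 (by rwa [h1, IsRoot, eval_map_algebraMap]), rfl⟩
  simp only [eval_map_algebraMap, aeval_map_algebraMap, aeval_algHom_apply] at this
  exact this

theorem aeval_ne_zero_of_isUnit {T : End F V} {a : F[X]} (h : IsUnit (aeval T a)) {y : K}
    (hy : aeval y T.charpoly = 0) : aeval y a ≠ 0 := fun e => by
  obtain ⟨φ, hφ⟩ := exists_spec (F := F) (V := V) K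
  exact (spectrum.zero_notMem_iff K).2 (h.map φ) (e ▸ hφ T y hy a)

theorem aeval_eq_zero_of_nilpotent {T : End F V} {a : F[X]} (h : IsNilpotent (aeval T a)) {y : K}
    (hy : aeval y T.charpoly = 0) : aeval y a = 0 := by
  obtain ⟨φ, hφ⟩ := exists_spec (F := F) (V := V) K
  obtain ⟨k, hk⟩ := h
  have := hφ T y hy (a ^ k)
  rw [map_pow (aeval T), hk, map_zero, spectrum.mem_iff, sub_zero, map_pow] at this
  by_contra e
  exact this ((IsUnit.mk0 _ (pow_ne_zero _ e)).map _)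

variable [StarRing F] [HF F]

theorem pow_eq_one_of_root (H : HS F V) {g : H.U} {m : ℕ} (h : g ^ m = 1) {x : Kˣ}
    (hx : aeval (x : K) (H.lin g).charpoly = 0) : x ^ m = 1 := by
  have := aeval_eq_zero_of_nilpotent (a := X ^ m - 1) (by
    rw [map_sub, map_pow, aeval_X, ← map_pow, h, map_one, map_one, sub_self]; exact IsNilpotent.zero) hx
  rw [map_sub, map_pow, aeval_X, map_one, sub_eq_zero] at this
  exact Units.ext (by simpa using this)

theorem isPElt_of_nilpotent (H : HS F V) {g : H.U} (h : IsNilpotent (H.lin g - 1)) :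
    ∃ k, g ^ ringChar F ^ k = 1 := by
  rcases subsingleton_or_nontrivial (End F V) with hs | hs
  · exact ⟨0, HS.U_ext fun y => congrArg (· y) (Subsingleton.elim (H.lin _) (H.lin 1))⟩
  have : Fact (ringChar F).Prime := ⟨CharP.prime_ringChar F⟩
  have : CharP (End F V) (ringChar F) := charP_of_injective_algebraMap (algebraMap F (End F V)).injective _
  obtain ⟨n, hn⟩ := h
  have h1 := pow_eq_zero_of_le (Nat.lt_pow_self (CharP.prime_ringChar F).one_lt).le hn
  rw [sub_pow_char_pow_of_commute _ _ (Commute.one_right _), one_pow, sub_eq_zero, ← map_pow] at h1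
  exact ⟨n, HS.U_ext fun y => congrArg (· y) h1⟩

theorem eq_one_of_nilpotent (H : HS F V) {p : ℕ} [Fact p.Prime] (hF : p ≠ ringChar F) {g : H.U}
    (hg : IsPElt p g) (h : IsNilpotent (H.lin g - 1)) : g = 1 := by
  have : Fact (ringChar F).Prime := ⟨CharP.prime_ringChar F⟩
  obtain ⟨k, hk⟩ := isPElt_of_nilpotent H h
  exact hg.eq_one_of_isPRegular ((isPElt_of_pow_eq_one hk).isPRegular_of_ne hF)

namespace UC

variable (C : UC F K)

theorem dvd_pow_of_roots {f a : F[X]} (hf : f.Monic) (h : f.natDegree ≤ C.N)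
    (h0 : ∀ y : K, aeval y f = 0 → aeval y a = 0) : f ∣ a ^ f.natDegree := by
  rw [← map_dvd_map' (algebraMap F K), ← C.splits h, Polynomial.map_pow,
    (C.splits' h).eq_prod_roots_of_monic (hf.map _), ← Multiset.prod_replicate, ← Multiset.map_const']
  refine Multiset.prod_dvd_prod_of_dvd _ _ fun y hy => ?_
  rw [dvd_iff_isRoot, IsRoot, eval_map_algebraMap]
  exact h0 y (mem_aroots.1 hy).2

theorem coprime_of_roots {f a : F[X]} (hf : f.Monic) (h : f.natDegree ≤ C.N)
    (h0 : ∀ y : K, aeval y f = 0 → aeval y a ≠ 0) : IsCoprime f a := by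
  rw [← isCoprime_map (algebraMap F K), (C.splits' h).eq_prod_roots_of_monic (hf.map _),
    prod_multiset_map_count]
  refine IsCoprime.prod_left fun y hy => ((irreducible_X_sub_C _).coprime_iff_not_dvd.2 ?_).pow_left
  rw [dvd_iff_isRoot, IsRoot, eval_map_algebraMap]
  exact h0 y (mem_aroots.1 (Multiset.mem_toFinset.1 hy)).2

variable (hV : finrank F V ≤ C.N)
include hV

theorem nilpotent_aeval_iff {T : End F V} {a : F[X]} :
    IsNilpotent (aeval T a) ↔ ∀ y : K, aeval y T.charpoly = 0 → aeval y a = 0 := by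
  refine ⟨fun h y => aeval_eq_zero_of_nilpotent h, fun h => ?_⟩
  obtain ⟨b, hb⟩ := C.dvd_pow_of_roots T.charpoly_monic (by rwa [T.charpoly_natDegree]) h
  exact ⟨_, by rw [← map_pow, hb, map_mul, T.aeval_self_charpoly, zero_mul]⟩

theorem isUnit_aeval_iff {T : End F V} {a : F[X]} :
    IsUnit (aeval T a) ↔ ∀ y : K, aeval y T.charpoly = 0 → aeval y a ≠ 0 := by
  refine ⟨fun h y => aeval_ne_zero_of_isUnit h, fun h => ?_⟩
  obtain ⟨b, c, e⟩ := C.coprime_of_roots T.charpoly_monic (by rwa [T.charpoly_natDegree]) h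
  have h2 := congrArg (aeval T) e
  rw [map_add, map_mul, T.aeval_self_charpoly, mul_zero, zero_add, map_mul, map_one] at h2
  exact IsUnit.of_mul_eq_one _ (mul_eq_one_comm.1 h2)

variable (H : HS F V)

omit hV in
theorem exists_unit_of_root (g : H.U) {y : K} (hy : aeval y (H.lin g).charpoly = 0) : ∃ x : Kˣ, (x : K) = y :=
  ⟨Units.mk0 y (by
    simpa using aeval_ne_zero_of_isUnit (a := X) (by rw [aeval_X]; exact (Group.isUnit g).map _) hy), rfl⟩

theorem nilpotent_aeval_iff' {g : H.U} {a : F[X]} : IsNilpotent (aeval (H.lin g) a) ↔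
    ∀ x : Kˣ, aeval (x : K) (H.lin g).charpoly = 0 → aeval (x : K) a = 0 :=
  (C.nilpotent_aeval_iff hV).trans ⟨fun h _ => h _, fun h y hy => by
    obtain ⟨x, rfl⟩ := exists_unit_of_root H g hy
    exact h x hy⟩

theorem isUnit_aeval_iff' {g : H.U} {a : F[X]} : IsUnit (aeval (H.lin g) a) ↔
    ∀ x : Kˣ, aeval (x : K) (H.lin g).charpoly = 0 → aeval (x : K) a ≠ 0 :=
  (C.isUnit_aeval_iff hV).trans ⟨fun h _ => h _, fun h y hy => by
    obtain ⟨x, rfl⟩ := exists_unit_of_root H g hy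
    exact h x hy⟩

/-- powers of an isometry are unipotent iff the eigenvalues are roots of unity -/
theorem nilpotent_pow_iff {g : H.U} {m : ℕ} : IsNilpotent (H.lin (g ^ m) - 1) ↔
    ∀ x : Kˣ, aeval (x : K) (H.lin g).charpoly = 0 → x ^ m = 1 := by
  have := C.nilpotent_aeval_iff' hV H (g := g) (a := X ^ m - 1)
  simpa only [map_sub, map_pow, aeval_X, map_one, sub_eq_zero, ← Units.val_pow_eq_pow_val, Units.val_eq_one]
    using this

theorem isUnit_pow_iff {g : H.U} {m : ℕ} : IsUnit (H.lin (g ^ m) - 1) ↔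
    ∀ x : Kˣ, aeval (x : K) (H.lin g).charpoly = 0 → x ^ m ≠ 1 := by
  have := C.isUnit_aeval_iff' hV H (g := g) (a := X ^ m - 1)
  simpa only [map_sub, map_pow, aeval_X, map_one, sub_ne_zero, ne_eq, sub_eq_zero,
    ← Units.val_pow_eq_pow_val, Units.val_eq_one] using this

omit hV in
theorem exists_pPart_pow (g : H.U) : ∃ e : ℕ, g ^ e = pPart C.p g ∧ ∀ x : Kˣ, x ^ e = pPart C.p x := by
  obtain ⟨e, h1, h2⟩ := GLH.Df.exists_common_pow C.p g C.g
  refine ⟨e, h1, fun x => ?_⟩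
  obtain ⟨k, rfl⟩ := mem_powers_iff_mem_zpowers.2 (C.gen x)
  simp only [pPart_pow, ← h2]
  exact pow_right_comm ..

/-- powers of the `p`-part -/
theorem pPart_pow_eq_one_iff {g : H.U} {j : ℕ} : pPart C.p g ^ j = 1 ↔
    ∀ x : Kˣ, aeval (x : K) (H.lin g).charpoly = 0 → pPart C.p x ^ j = 1 := by
  obtain ⟨e, h1, h2⟩ := C.exists_pPart_pow H g
  simp only [← h2, ← pow_mul, ← C.nilpotent_pow_iff hV H]
  rw [pow_mul, h1]
  refine ⟨fun h => ?_, eq_one_of_nilpotent H C.p_ne' ((isPElt_pPart _ g).pow j)⟩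
  rw [h, map_one, sub_self]
  exact IsNilpotent.zero

theorem isUnit_pPart_pow_iff {g : H.U} {j : ℕ} : IsUnit (H.lin (pPart C.p g ^ j) - 1) ↔
    ∀ x : Kˣ, aeval (x : K) (H.lin g).charpoly = 0 → pPart C.p x ^ j ≠ 1 := by
  obtain ⟨e, h1, h2⟩ := C.exists_pPart_pow H g
  simp only [← h2, ← h1, ← pow_mul, C.isUnit_pow_iff hV H]

theorem reg_iff' (g : H.U) : IsPRegular C.p g ↔
    ∀ x : Kˣ, aeval (x : K) (H.lin g).charpoly = 0 → IsPRegular C.p x := by
  simpa only [pow_one, pPart_eq_one_iff] using C.pPart_pow_eq_one_iff hV H (g := g) (j := 1)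

omit hV

theorem aeval_prod_P {m : C.Th → ℕ} {x : Kˣ} :
    aeval (x : K) (∏ θ, C.P θ ^ m θ) = 0 ↔ m (C.cl x) ≠ 0 := by
  rw [map_prod, prod_eq_zero_iff]
  simp only [map_pow, pow_eq_zero_iff', aeval_P', mem_univ, true_and]
  exact ⟨fun ⟨_, h, e⟩ => h ▸ e, fun h => ⟨_, rfl, h⟩⟩

theorem P_dvd_prod {m : C.Th → ℕ} {θ : C.Th} : C.P θ ∣ ∏ θ, C.P θ ^ m θ ↔ m θ ≠ 0 := by
  rw [P_dvd]
  simp only [aeval_prod_P]
  exact ⟨fun h => by simpa [OD.mk_rep] using h _ (C.mk_rep θ), fun h x e => e ▸ h⟩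

theorem aroots_prod_P (m : C.Th → ℕ) :
    (∏ θ, C.P θ ^ m θ).aroots K = ∑ θ, m θ • (C.orb θ).val.map Units.val := by
  rw [aroots_def, Polynomial.map_prod, roots_prod _ _ (prod_ne_zero_iff.2 fun θ _ =>
    (((C.monic_P θ).pow _).map _).ne_zero), ← Multiset.sum_map_singleton (Multiset.bind _ _),
    Multiset.map_bind, Multiset.sum_bind]
  refine sum_congr rfl fun θ _ => ?_
  rw [Multiset.sum_map_singleton, Polynomial.map_pow, roots_pow, ← aroots_P]

theorem prod_aroots {A : Type*} [CommMonoid A] (f : K → A) (m : C.Th → ℕ) :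
    (((∏ θ, C.P θ ^ m θ).aroots K).map f).prod = ∏ θ, (∏ x ∈ C.orb θ, f x) ^ m θ := by
  rw [aroots_prod_P, ← Multiset.coe_mapAddMonoidHom, map_sum, Multiset.prod_sum]
  refine prod_congr rfl fun θ _ => ?_
  rw [Multiset.coe_mapAddMonoidHom, Multiset.map_nsmul, Multiset.prod_nsmul, Multiset.map_map]
  rfl

theorem nm_rep (θ : C.Th) : C.nm (C.deg θ) (C.rep θ) = ∏ x ∈ C.orb θ, x := by
  have := OD.prod_orb (D := C.toOD) (fun x => x) (C.rep θ)
  rw [OD.mk_rep] at this
  rw [this, OD.nm_eq]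

theorem δ_eq (hV : finrank F V ≤ C.N) {g : H.U} {m : C.Th → ℕ} (h : (H.lin g).charpoly = ∏ θ, C.P θ ^ m θ) :
    (C.δ H g : Kˣ) = ∏ θ, C.nm (C.deg θ) (C.rep θ) ^ m θ := by
  refine Units.ext ?_
  have := C.prod_aroots (fun x => x) m
  rw [Multiset.map_id'] at this
  simp only [C.δ_eq_prod H hV, h, this, nm_rep, Units.coe_prod, Units.val_pow_eq_pow_val]

theorem reg_iff_of_charpoly (hV : finrank F V ≤ C.N) {g : H.U} {m : C.Th → ℕ}
    (h : (H.lin g).charpoly = ∏ θ, C.P θ ^ m θ) : IsPRegular C.p g ↔ ∀ θ, m θ ≠ 0 → C.par θ = θ := by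
  rw [C.reg_iff' hV, h]
  simp only [aeval_prod_P, ← OD.par_eq_iff]
  exact ⟨fun h => OD.ind h, fun h x => h _⟩

end UC

end GUH
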