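import Cfsg.Agent.Lib.GU.WallB

/-!
# Conjugacy classes and centralizer orders in finite unitary groups (Wall)
-/

set_option autoImplicit false
set_option linter.unusedSectionVars false

namespace GUW

open Polynomial Module Finset UW
open scoped Classical

universe u v v' w

variable {F : Type u} [Field F] [Fintype F] [StarRing F] [HF F] {ι : Type w} [Fintype ι] {P : ι → F[X]} {d : ι → ℕ}
  {τ : ι → Multiset ℕ}

section Emb
variable {V V' W : Type*} [AddCommGroup V] [Module F V] [Fintype V] [AddCommGroup V'] [Module F V'] [Fintype V']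
  [AddCommGroup W] [Module F W] {H₀ : HS F W} {T₀ : End F W} {H : HS F V} {H' : HS F V'} {g : H.U} {g' : H'.U}
  {L : W →ₗ[F] V} {L' : W →ₗ[F] V'}

theorem iso_inj (h : ∀ x y, H.b (L x) (L y) = H₀.b x y) : Function.Injective L :=
  LinearMap.ker_eq_bot.1 (LinearMap.ker_eq_bot'.2 fun x hx => H₀.nondeg x fun y => by rw [← h, hx, H.zero_left])

theorem iso_nd (h : ∀ x y, H.b (L x) (L y) = H₀.b x y) : H.Nd (LinearMap.range L) := by
  rintro _ ⟨x, rfl⟩ hx
  rw [H₀.nondeg x fun y => (h x y).symm.trans (hx _ ⟨y, rfl⟩), map_zero]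

theorem iso_decomp (h : ∀ x y, H.b (L x) (L y) = H₀.b x y) (v : V) :
    ∃ (x : W) (y : H.perp (LinearMap.range L)), v = L x + y := by
  obtain ⟨_, ⟨x, rfl⟩, z, hz, rfl⟩ := (iso_nd h).decomp v
  exact ⟨x, ⟨z, hz⟩, rfl⟩

theorem iso_finrank (h : ∀ x y, H.b (L x) (L y) = H₀.b x y) :
    finrank F W + finrank F (H.perp (LinearMap.range L)) = finrank F V := by
  rw [← (iso_nd h).finrank_add, LinearMap.finrank_range_of_inj (iso_inj h)]

theorem glue (h : ∀ x y, H.b (L x) (L y) = H₀.b x y) (h' : ∀ x y, H'.b (L' x) (L' y) = H₀.b x y)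
    (e₀ : H.perp (LinearMap.range L) →ₗ[F] V') (h2 : ∀ x y, H'.b (e₀ x) (e₀ y) = H.b x y)
    (h3 : ∀ x y, H'.b (e₀ y) (L' x) = 0) :
    ∃ e : V →ₗ[F] V', (∀ x y, H'.b (e x) (e y) = H.b x y) ∧ ∀ x y, e (L x + y.1) = L' x + e₀ y := by
  obtain ⟨E, hE⟩ := exists_equiv (iso_inj h) (H.perp (LinearMap.range L)).injective_subtype
    (by rw [Submodule.range_subtype]; exact (iso_nd h).isCompl)
  have key : ∀ x y, (L'.coprod e₀ ∘ₗ E.symm.toLinearMap) (L x + y.1) = L' x + e₀ y := fun x y => by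
    rw [LinearMap.comp_apply, ← Submodule.subtype_apply, ← hE, LinearEquiv.coe_coe, E.symm_apply_apply,
      LinearMap.coprod_apply]
  refine ⟨_, fun v v' => ?_, key⟩
  obtain ⟨x, y, rfl⟩ := iso_decomp h v
  obtain ⟨x', y', rfl⟩ := iso_decomp h v'
  simp only [key, HS.add_left, HS.add_right, h, h', h2, h3, H'.symm_zero (h3 _ _), y.2 _ ⟨x', rfl⟩,
    H.symm_zero (y'.2 _ ⟨x, rfl⟩)]

/-- the orthogonal complement of the image -/
abbrev Emb.pp {T : End F V} (e : Emb H₀ T₀ H T L) : HS F (H.perp (LinearMap.range L)) := H.sub _ (iso_nd e.iso).perp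

theorem Emb.res (e : Emb H₀ T₀ H (H.lin g) L) :
    ∃ g₁ : e.pp.U, (H.perp (LinearMap.range L)).subtype ∈ Hom (e.pp.lin g₁) (H.lin g) :=
  (iso_nd e.iso).perp.exists_res g (HS.perp_invariant g (by rintro _ ⟨x, rfl⟩; exact ⟨T₀ x, e.hom x⟩))

theorem Emb.spl {f : F[X]} {H₀ : HS F (AdjoinRoot f)} {L : AdjoinRoot f →ₗ[F] V} {T : End F V}
    (e : Emb H₀ (mr f) H T L) {S : End F (H.perp (LinearMap.range L))}
    (r : (H.perp (LinearMap.range L)).subtype ∈ Hom S T) : Spl T f L _ S :=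
  ⟨iso_inj e.iso, e.hom, (iso_nd e.iso).isCompl, r⟩

theorem Emb.glue {T : End F V} {T' : End F V'} (e : Emb H₀ T₀ H T L) (e' : Emb H₀ T₀ H' T' L') {S S'}
    (r : (H.perp (LinearMap.range L)).subtype ∈ Hom S T) (r' : (H'.perp (LinearMap.range L')).subtype ∈ Hom S' T')
    {X} (h : Emb e.pp S e'.pp S' X) : ∃ Y, Emb H T H' T' Y ∧ ∀ x, Y (L x) = L' x := by
  obtain ⟨Y, h1, h2⟩ := GUW.glue e.iso e'.iso (Submodule.subtype _ ∘ₗ X) h.iso fun x y => (X y).2 _ ⟨x, rfl⟩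
  refine ⟨Y, ⟨fun v => ?_, h1⟩, fun x => by simpa using h2 x 0⟩
  obtain ⟨x, y, rfl⟩ := iso_decomp e.iso v
  rw [map_add T, ← e.hom, h2, map_add T', ← e'.hom, show T y = S y from (r y).symm, h2, LinearMap.comp_apply,
    h.hom, r', LinearMap.comp_apply]

theorem Cy.exists_emb {f f' : F[X]} (C : Cy f f') (hf : f.Monic) (hd : f' ∣ f)
    (hst : ∀ x, aeval (H.lin g) f (aeval (H.lin g) f x) = 0 → aeval (H.lin g) f x = 0)
    (hne : kd (H.lin g) f' ≠ kd (H.lin g) f) : ∃ L, Emb C.hs (mr f) H (H.lin g) L := by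
  by_contra! h
  have : IsEmpty {L // Emb C.hs (mr f) H (H.lin g) L} := ⟨fun L => h _ L.2⟩
  have h1 := C.card_emb hf hd hst
  rw [Nat.card_of_isEmpty, Nat.cast_zero, zero_mul, eq_comm, sub_eq_zero] at h1
  have h2 := congrArg Int.natAbs h1
  simp only [Int.natAbs_pow, Int.natAbs_neg, Int.natAbs_natCast] at h2
  have := Nat.pow_right_injective (two_le_qq F) h2
  omega

theorem HT.stab {T : End F V} (h : HT P d T τ) {θ : ι} {k : ℕ} (hk : ∀ j ∈ τ θ, j ≤ k) (x : V)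
    (hx : aeval T (P θ ^ k) (aeval T (P θ ^ k) x) = 0) : aeval T (P θ ^ k) x = 0 := by
  have : LinearMap.ker (aeval T (P θ ^ k)) = LinearMap.ker (aeval T (P θ ^ (k + k))) :=
    Submodule.eq_of_le_of_finrank_eq (fun x hx => by
      rw [LinearMap.mem_ker, pow_add, map_mul, End.mul_apply, LinearMap.mem_ker.1 hx, map_zero])
      (((h.ker θ k).trans (by rw [hk_of_le hk, hk_of_le fun j hj => (hk j hj).trans le_self_add])).trans
        (h.ker θ (k + k)).symm)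
  exact this.ge (by rwa [LinearMap.mem_ker, pow_add, map_mul])

theorem HT.jump {T : End F V} (h : HT P d T τ) {θ : ι} {k : ℕ} (hk : ∀ j ∈ τ θ, j ≤ k + 1) :
    kd T (P θ ^ (k + 1)) = d θ * (τ θ).sum ∧ kd T (P θ ^ k) + d θ * (τ θ).count (k + 1) = d θ * (τ θ).sum :=
  ⟨by rw [h.ker, hk_of_le hk], by rw [h.ker, ← mul_add, hk_top hk]⟩

theorem HT.exists_emb (p : Fam P d) (h : HT P d (H.lin g) τ) {θ : ι} {k : ℕ} (hk : k + 1 ∈ τ θ)
    (hle : ∀ j ∈ τ θ, j ≤ k + 1) (C : Cy (P θ ^ (k + 1)) (P θ ^ k)) : ∃ L, Emb C.hs (mr _) H (H.lin g) L :=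
  C.exists_emb ((p.monic θ).pow _) (pow_dvd_pow _ k.le_succ) (h.stab hle) (by
    have := h.jump hle
    have := Nat.mul_pos (p.pos θ) (Multiset.count_pos.2 hk)
    omega)

theorem exists_top (h : ∀ θ, 0 ∉ τ θ) (h0 : τ ≠ 0) : ∃ θ k, k + 1 ∈ τ θ ∧ ∀ j ∈ τ θ, j ≤ k + 1 := by
  obtain ⟨θ, hθ⟩ := Function.ne_iff.1 h0
  obtain ⟨k, hk, hle⟩ := (τ θ).toFinset.exists_max_image id (Multiset.toFinset_nonempty.2 hθ)
  rw [Multiset.mem_toFinset] at hk
  obtain ⟨k, rfl⟩ := Nat.exists_eq_succ_of_ne_zero (n := k) fun e => h θ (e ▸ hk)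
  exact ⟨θ, k, hk, fun j hj => hle j (Multiset.mem_toFinset.2 hj)⟩

theorem Fam.finrank_adj (p : Fam P d) (θ : ι) (k : ℕ) : finrank F (AdjoinRoot (P θ ^ k)) = d θ * k := by
  rw [GUW.finrank_adj ((p.monic _).pow _), (p.monic _).natDegree_pow, p.deg, mul_comm]

theorem Emb.lt (p : Fam P d) {θ : ι} {k : ℕ} {H₀ : HS F (AdjoinRoot (P θ ^ (k + 1)))} {T₀} {T : End F V} {L}
    (e : Emb H₀ T₀ H T L) : finrank F (H.perp (LinearMap.range L)) < finrank F V := by
  rw [← iso_finrank e.iso, p.finrank_adj]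
  exact lt_add_of_pos_left _ (Nat.mul_pos (p.pos θ) k.succ_pos)

end Emb

theorem dec_aux (p : FamU P d) (n : ℕ) : ∀ (V : Type v) [AddCommGroup V] [Module F V] [Fintype V] (H : HS F V)
    (g : H.U), finrank F V = n → Sp P (H.lin g) → ∃ τ, Dec P (H.lin g) τ := by
  induction n using Nat.strong_induction_on with
  | _ n ih =>
  intro V _ _ _ H g hn h
  cases subsingleton_or_nontrivial V
  · exact ⟨0, .nil _⟩
  obtain ⟨θ, hθ⟩ : ∃ θ, ¬Function.Injective (aeval (H.lin g) (P θ)) := by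
    by_contra! h'
    exact h.not_isUnit (prod_induction P (fun a => IsUnit (aeval (H.lin g) a))
      (fun a b ha hb => by rw [map_mul]; exact ha.mul hb) (by simp)
      fun θ _ => (LinearMap.isUnit_iff_ker_eq_bot _).2 (LinearMap.ker_eq_bot.2 (h' θ)))
  have hex : ∃ k, LinearMap.ker (aeval (H.lin g) (P θ) ^ k) = LinearMap.ker (aeval (H.lin g) (P θ) ^ (k + 1)) :=
    (End.exists_ker_pow_eq_ker_pow_succ _).imp fun _ => And.right
  obtain ⟨k, hk⟩ := Nat.exists_eq_succ_of_ne_zero (n := Nat.find hex) fun e => hθ (by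
    have := Nat.find_spec hex
    rw [e, pow_zero, zero_add, pow_one, End.one_eq_id, LinearMap.ker_id] at this
    exact LinearMap.ker_eq_bot.1 this.symm)
  have h1 := End.ker_pow_constant (hk ▸ Nat.find_spec hex) (k + 1)
  obtain ⟨C⟩ := exists_cy p θ k
  obtain ⟨L, e⟩ := C.exists_emb (g := g) ((p.monic θ).pow _) (pow_dvd_pow _ k.le_succ)
    (fun x hx => by rw [map_pow] at *; exact h1.ge (by rwa [LinearMap.mem_ker, pow_add]))
    fun e => Nat.find_min hex (hk ▸ k.lt_succ_self) (Submodule.eq_of_le_of_finrank_eq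
      (fun x hx => by rw [LinearMap.mem_ker, pow_succ', End.mul_apply, LinearMap.mem_ker.1 hx, map_zero])
      (by rwa [kd, kd, map_pow, map_pow] at e))
  obtain ⟨g₁, r⟩ := e.res
  obtain ⟨τ, hτ⟩ := ih _ (hn ▸ e.lt p.toFam) _ e.pp g₁ rfl (h.imp fun N hN => LinearMap.ext fun x => Subtype.ext (by
    rw [← map_pow] at *
    exact (Hom.aeval r _ x).trans (by rw [hN]; rfl)))
  exact ⟨_, .cons _ θ _ k.succ_pos L _ _ (e.spl r) τ hτ⟩

theorem conj_aux (p : FamU P d) (n : ℕ) : ∀ (V : Type v) [AddCommGroup V] [Module F V] [Fintype V] (V' : Type v')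
    [AddCommGroup V'] [Module F V'] [Fintype V'] (H : HS F V) (H' : HS F V') (g : H.U) (g' : H'.U) τ, finrank F V = n →
    HT P d (H.lin g) τ → HT P d (H'.lin g') τ → ∃ e, Emb H (H.lin g) H' (H'.lin g') e := by
  induction n using Nat.strong_induction_on with
  | _ n ih =>
  intro V _ _ _ V' _ _ _ H H' g g' τ hn h h'
  by_cases h0 : τ = 0
  · have : Subsingleton V := finrank_zero_iff.1 (by simpa [h0, tsz] using h.dim)
    exact ⟨0, Submodule.zero_mem _, fun x y => by simp [Subsingleton.elim x 0]⟩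
  obtain ⟨θ, k, hk, hle⟩ := exists_top h.pos h0
  obtain ⟨C⟩ := exists_cy p θ k
  obtain ⟨L, e⟩ := h.exists_emb p.toFam hk hle C
  obtain ⟨L', e'⟩ := h'.exists_emb p.toFam hk hle C
  obtain ⟨g₁, r⟩ := e.res
  obtain ⟨g₁', r'⟩ := e'.res
  obtain ⟨X, hX⟩ := ih _ (hn ▸ e.lt p.toFam) _ _ e.pp e'.pp g₁ g₁' _ rfl (h.spl p.toFam hk (e.spl r))
    (h'.spl p.toFam hk (e'.spl r'))
  exact (e.glue e' r r' hX).imp fun _ => And.left

section U
variable {V : Type v} {V' : Type v'} [AddCommGroup V] [Module F V] [Fintype V] [AddCommGroup V'] [Module F V']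
  [Fintype V'] {H : HS F V} {H' : HS F V'}

theorem U_dec (p : FamU P d) (g : H.U) (h : Sp P (H.lin g)) : ∃ τ, Dec P (H.lin g) τ := dec_aux p _ V H g rfl h

theorem U_conj (p : FamU P d) {g : H.U} {g' : H'.U} (h : HT P d (H.lin g) τ) (h' : HT P d (H'.lin g') τ) :
    ∃ e : V ≃ₗ[F] V', (∀ x y, H'.b (e x) (e y) = H.b x y) ∧ ∀ x, e (g • x) = g' • e x := by
  obtain ⟨e, he⟩ := conj_aux p _ V V' H H' g g' τ rfl h h'
  exact ⟨e.linearEquivOfInjective (iso_inj he.iso) (h.dim.trans h'.dim.symm), he.iso, he.hom⟩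

theorem U_isConj (p : FamU P d) {g g' : H.U} (h : HT P d (H.lin g) τ) (h' : HT P d (H.lin g') τ) : IsConj g g' := by
  obtain ⟨e, h1, h2⟩ := U_conj p h h'
  exact isConj_iff.2 ⟨⟨e, h1⟩, mul_inv_eq_iff_eq_mul.2 (HS.U_ext h2)⟩

theorem card_step (p : FamU P d) {g : H.U} (h : HT P d (H.lin g) τ) {θ : ι} {k : ℕ} (hk : k ∈ τ θ)
    {H₀ : HS F (AdjoinRoot (P θ ^ k))} {L} (e : Emb H₀ (mr _) H (H.lin g) L) {g₁ : e.pp.U}
    (r : (H.perp (LinearMap.range L)).subtype ∈ Hom (e.pp.lin g₁) (H.lin g)) :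
    Nat.card (Subgroup.centralizer ({g} : Set H.U)) =
      Nat.card {L // Emb H₀ (mr _) H (H.lin g) L} * Nat.card (Subgroup.centralizer ({g₁} : Set e.pp.U)) := by
  have hD := (iso_nd e.iso).perp
  have h1 : ∀ L' : {L // Emb H₀ (mr _) H (H.lin g) L}, ∃ c : Subgroup.centralizer ({g} : Set H.U),
      ∀ x, c.1 • L x = L'.1 x := fun L' => by
    obtain ⟨g₁', r'⟩ := L'.2.res
    obtain ⟨X, hX⟩ := conj_aux p _ _ _ e.pp L'.2.pp g₁ g₁' _ rfl (h.spl p.toFam hk (e.spl r))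
      (h.spl p.toFam hk (L'.2.spl r'))
    obtain ⟨Y, hY, hY'⟩ := e.glue L'.2 r r' hX
    exact ⟨⟨H.mkU Y hY.iso, Subgroup.mem_centralizer_singleton_iff.2 (HS.U_ext hY.hom)⟩, hY'⟩
  choose s hs using h1
  have h2 : ∀ c x, hD.ext c • L x = L x := fun c x => hD.ext_perp c fun y hy => H.symm_zero (hy _ ⟨x, rfl⟩)
  have h3 : ∀ c, hD.ext c * g = g * hD.ext c ↔ c * g₁ = g₁ * c := fun c => by
    have h4 : ∀ y : H.perp (LinearMap.range L), g • y.1 = (g₁ • y).1 := fun y => (r y).symm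
    refine ⟨fun h => HS.U_ext fun y => Subtype.ext ?_, fun h => HS.U_ext fun v => ?_⟩
    · rw [mul_smul, mul_smul, ← hD.ext_coe, ← h4, ← h4, ← hD.ext_coe, ← mul_smul, h, mul_smul]
    · obtain ⟨x, y, rfl⟩ := iso_decomp e.iso v
      simp only [mul_smul, smul_add, h2, h4, hD.ext_coe, show g • L x = _ from (e.hom x).symm]
      rw [← mul_smul, h, mul_smul]
  rw [← Nat.card_prod]
  refine (Nat.card_congr (Equiv.ofBijective (fun x => s x.1 * ⟨hD.ext x.2.1, Subgroup.mem_centralizer_singleton_iff.2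
    ((h3 _).2 (Subgroup.mem_centralizer_singleton_iff.1 x.2.2))⟩) ⟨fun x y h => ?_, fun c => ?_⟩)).symm
  · have h5 : x.1 = y.1 := Subtype.ext (LinearMap.ext fun z => by
      simpa only [Subgroup.coe_mul, mul_smul, h2, hs] using congrArg (·.1 • L z) h)
    simp only [h5, mul_right_inj, Subtype.mk.injEq] at h
    exact Prod.ext h5 (Subtype.ext (hD.ext_injective h))
  · have hc := Subgroup.mem_centralizer_singleton_iff.1 c.2
    let L' : {L // Emb H₀ (mr _) H (H.lin g) L} := ⟨H.lin c.1 ∘ₗ L, fun x => by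
      simp only [LinearMap.comp_apply, e.hom x, HS.lin_apply, ← mul_smul, hc], fun x y => by simp [e.iso]⟩
    obtain ⟨c', hc'⟩ := hD.exists_ext ((s L')⁻¹ * c).1 fun y hy => by
      obtain ⟨x, rfl⟩ := (iso_nd e.iso).perp_perp hy
      rw [Subgroup.coe_mul, mul_smul, Subgroup.coe_inv, inv_smul_eq_iff, hs]
      rfl
    refine ⟨(L', ⟨c', Subgroup.mem_centralizer_singleton_iff.2 ((h3 _).1 ?_)⟩), Subtype.ext ?_⟩
    · exact hc' ▸ Subgroup.mem_centralizer_singleton_iff.1 ((s L')⁻¹ * c).2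
    · simp [hc']

end U

theorem card_aux (p : FamU P d) (n : ℕ) : ∀ (V : Type v) [AddCommGroup V] [Module F V] [Fintype V] (H : HS F V)
    (g : H.U) τ, finrank F V = n → HT P d (H.lin g) τ → (Nat.card (Subgroup.centralizer ({g} : Set H.U)) : ℚ) =
      (-1) ^ n * ∏ θ, aa (τ θ) ((-(qq F : ℚ)) ^ d θ) := by
  induction n using Nat.strong_induction_on with
  | _ n ih =>
  intro V _ _ _ H g τ hn h
  by_cases h0 : τ = 0
  · have h1 : finrank F V = 0 := by simpa [h0, tsz] using h.dim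
    have : Subsingleton V := finrank_zero_iff.1 h1
    have : Subsingleton H.U := ⟨fun _ _ => HS.U_ext fun _ => Subsingleton.elim _ _⟩
    rw [Nat.card_unique]
    simp [← hn, h1, h0, aa_zero]
  obtain ⟨θ, k, hk, hle⟩ := exists_top h.pos h0
  obtain ⟨C⟩ := exists_cy p θ k
  obtain ⟨L, e⟩ := h.exists_emb p.toFam hk hle C
  obtain ⟨g₁, r⟩ := e.res
  have h1 := ih _ (hn ▸ e.lt p.toFam) _ e.pp g₁ _ rfl (h.spl p.toFam hk (e.spl r))
  have h2 := congrArg (Int.cast : ℤ → ℚ) (C.card_emb ((p.monic θ).pow _) (pow_dvd_pow _ k.le_succ) (h.stab hle))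
  have h3 := aa_erase hk hle ((-(qq F : ℚ)) ^ d θ)
  obtain ⟨h4, h5⟩ := h.jump hle
  have h6 := iso_finrank e.iso
  have hq : (qq F : ℚ) ≠ 0 := Nat.cast_ne_zero.2 (qq_pos F).ne'
  rw [p.finrank_adj, hn] at h6
  rw [(p.monic θ).natDegree_pow, p.deg, h4] at h2
  push_cast at h2
  have h7 : ∏ θ' ∈ univ.erase θ, aa (Function.update τ θ ((τ θ).erase (k + 1)) θ') ((-(qq F : ℚ)) ^ d θ') =
      ∏ θ' ∈ univ.erase θ, aa (τ θ') ((-(qq F : ℚ)) ^ d θ') :=
    prod_congr rfl fun a ha => by rw [Function.update_of_ne (ne_of_mem_erase ha)]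
  rw [card_step p h hk e r, Nat.cast_mul, h1, ← h6, ← mul_prod_erase _ _ (mem_univ θ),
    ← mul_prod_erase _ _ (mem_univ θ), h7, Function.update_self]
  have h8 : ((-(qq F : ℚ)) ^ d θ) ^ (2 * (τ θ).sum) * (1 - (((-(qq F : ℚ)) ^ d θ) ^ (τ θ).count (k + 1))⁻¹) =
      Nat.card {L // Emb C.hs (mr _) H (H.lin g) L} * (qq F : ℚ) ^ ((k + 1) * d θ) := by
    rw [h2, ← pow_mul, ← pow_mul, mul_left_comm, mul_sub, mul_one, two_mul, ← div_eq_mul_inv, ← h5, ← add_assoc,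
      pow_add _ _ (d θ * _), mul_div_cancel_right₀ _ (pow_ne_zero _ (neg_ne_zero.2 hq))]
  rw [h8, ← pow_mul, neg_pow _ (d θ * _), mul_comm (k + 1)] at h3
  refine mul_right_cancel₀ (pow_ne_zero (d θ * (k + 1)) hq) ?_
  rw [pow_add (-1 : ℚ)]
  linear_combination (-(-1) ^ finrank F (H.perp (LinearMap.range L)) *
    ∏ θ' ∈ univ.erase θ, aa (τ θ') ((-(qq F : ℚ)) ^ d θ')) * h3

theorem iso_aux (n : ℕ) : ∀ (W : Type v') [AddCommGroup W] [Module F W] [Fintype W] (V : Type v) [AddCommGroup V]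
    [Module F V] [Fintype V] (H₀ : HS F W) (H : HS F V), finrank F W = n → n ≤ finrank F V →
    ∃ L : W →ₗ[F] V, ∀ x y, H.b (L x) (L y) = H₀.b x y := by
  induction n with
  | zero =>
    intro W _ _ _ V _ _ _ H₀ H hn _
    have : Subsingleton W := finrank_zero_iff.1 hn
    exact ⟨0, fun x y => by simp [Subsingleton.elim x 0]⟩
  | succ n ih =>
    intro W _ _ _ V _ _ _ H₀ H hn h
    have : Nontrivial W := finrank_pos_iff.1 (n.succ_pos.trans_eq hn.symm)
    have : Nontrivial V := finrank_pos_iff.1 (n.succ_pos.trans_le h)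
    obtain ⟨w, hw⟩ := H₀.exists_norm_vec (star_one F)
    obtain ⟨v, hv⟩ := H.exists_norm_vec (star_one F)
    let H₁ : HS F F := ⟨fun x y => x * star y, fun _ _ _ => add_mul _ _ _, fun _ _ _ => mul_assoc _ _ _,
      fun x y => by simp [mul_comm], fun x h => by simpa using h 1⟩
    have h1 : ∀ x y, H₀.b (LinearMap.toSpanSingleton F W w x) (LinearMap.toSpanSingleton F W w y) = H₁.b x y :=
      fun x y => by simp [hw, H₁, mul_comm]
    have h2 : ∀ x y, H.b (LinearMap.toSpanSingleton F V v x) (LinearMap.toSpanSingleton F V v y) = H₁.b x y :=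
      fun x y => by simp [hv, H₁, mul_comm]
    have h3 := iso_finrank h1
    have h4 := iso_finrank h2
    rw [finrank_self] at h3 h4
    obtain ⟨X, hX⟩ := ih _ _ (H₀.sub _ (iso_nd h1).perp) (H.sub _ (iso_nd h2).perp) (by omega) (by omega)
    exact (glue h1 h2 (Submodule.subtype _ ∘ₗ X) hX fun x y => (X y).2 _ ⟨x, rfl⟩).imp fun _ => And.left

theorem exists_aux (p : FamU P d) (n : ℕ) : ∀ (V : Type v) [AddCommGroup V] [Module F V] [Fintype V] (H : HS F V) τ,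
    finrank F V = n → (∀ θ, 0 ∉ τ θ) → finrank F V = tsz d τ → ∃ g : H.U, HT P d (H.lin g) τ := by
  induction n using Nat.strong_induction_on with
  | _ n ih =>
  intro V _ _ _ H τ hn h0 h
  by_cases h1 : τ = 0
  · have : Subsingleton V := finrank_zero_iff.1 (by simpa [h1, tsz] using h)
    exact ⟨1, h1 ▸ (Dec.nil _).ht p.toFam⟩
  obtain ⟨θ, k, hk, -⟩ := exists_top h0 h1
  obtain ⟨C⟩ := exists_cy p θ k
  have := ((p.monic θ).pow (k + 1)).finite_adjoinRoot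
  have : Finite (AdjoinRoot (P θ ^ (k + 1))) := Module.finite_of_finite F
  let _ := Fintype.ofFinite (AdjoinRoot (P θ ^ (k + 1)))
  have h2 := update_add hk
  rw [← h2, tsz_add, tsz_single] at h
  obtain ⟨L, hL⟩ := iso_aux _ _ V C.hs H rfl (by rw [p.finrank_adj]; omega)
  have h3 := iso_finrank hL
  have h4 := Nat.mul_pos (p.pos θ) k.succ_pos
  rw [p.finrank_adj] at h3
  obtain ⟨g₁, hg⟩ := ih _ (hn ▸ h3 ▸ lt_add_of_pos_left _ h4) _ (H.sub _ (iso_nd hL).perp)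
    (Function.update τ θ ((τ θ).erase (k + 1))) rfl (fun θ' e => h0 θ' (h2 ▸ Multiset.mem_add.2 (.inl e))) (by omega)
  obtain ⟨Y, hY, hY'⟩ := glue (L' := L ∘ₗ mr _) hL (fun x y => (hL _ _).trans (C.isom x y))
    (Submodule.subtype _ ∘ₗ (H.sub _ (iso_nd hL).perp).lin g₁) (HS.b_smul_smul g₁) fun x y => (g₁ • y).2 _ ⟨_, rfl⟩
  have e : Emb C.hs (mr _) H (H.lin (H.mkU Y hY)) L := ⟨fun x => by simpa using (hY' x 0).symm, hL⟩
  obtain ⟨E, -, hE⟩ := (e.spl (S := e.pp.lin g₁) fun y => by simpa using (hY' 0 y).symm).equiv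
  exact ⟨_, (add_comm _ _).trans h2 ▸ ((p.ht_mr θ k.succ_pos).prod hg).congr E hE⟩

section U
variable {V : Type v} {V' : Type v'} [AddCommGroup V] [Module F V] [Fintype V] [AddCommGroup V'] [Module F V']
  [Fintype V'] {H : HS F V}

theorem U_exists (p : FamU P d) (H : HS F V) (h0 : ∀ θ, 0 ∉ τ θ) (h : finrank F V = tsz d τ) :
    ∃ g : H.U, HT P d (H.lin g) τ := exists_aux p _ V H τ rfl h0 h

theorem U_card (p : FamU P d) {g : H.U} (h : HT P d (H.lin g) τ) :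
    (Nat.card (Subgroup.centralizer ({g} : Set H.U)) : ℚ) =
      (-1) ^ finrank F V * ∏ θ, aa (τ θ) ((-(qq F : ℚ)) ^ d θ) := card_aux p _ V H g τ rfl h

theorem exists_isom (H : HS F V) (H' : HS F V') (h : finrank F V ≤ finrank F V') :
    ∃ L : V →ₗ[F] V', ∀ x y, H'.b (L x) (L y) = H.b x y := iso_aux _ V V' H H' rfl h

end U

end GUW
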