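import Cfsg.Agent.Lib.GU.DefA
import Cfsg.Agent.Lib.GU.OrbG
import Cfsg.Agent.Lib.GU.WallU
import Cfsg.Agent.Lib.GU.LocG

/-!
# S4537: orthogonal splittings and isometric embeddings of hermitian spaces
-/

set_option autoImplicit false
set_option linter.unusedSectionVars false

namespace GUH.Df

open Polynomial Cfsg GT UW Module GUL

universe u

variable {F : Type u} [Field F] [Fintype F] [StarRing F] [HF F]
variable {V V₁ V₂ V₃ : Type*} [AddCommGroup V] [Module F V] [Fintype V]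
  [AddCommGroup V₁] [Module F V₁] [Fintype V₁] [AddCommGroup V₂] [Module F V₂] [Fintype V₂]
  [AddCommGroup V₃] [Module F V₃] [Fintype V₃]

/-- an orthogonal splitting -/
structure Spt (H₁ : HS F V₁) (H₂ : HS F V₂) (H : HS F V) where
  /-- the identification -/
  e : (V₁ × V₂) ≃ₗ[F] V
  isom : ∀ x y, H.b (e x) (e y) = H₁.b x.1 y.1 + H₂.b x.2 y.2

/-- an isometric embedding with the extension of isometries -/
structure Eb (H₁ : HS F V₁) (H : HS F V) where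
  /-- the linear map -/
  L : V₁ →ₗ[F] V
  /-- the map of groups -/
  ι : H₁.U →* H.U
  isom : ∀ x y, H.b (L x) (L y) = H₁.b x y
  ι_L : ∀ g x, ι g • L x = L (g • x)
  ι_perp : ∀ g y, (∀ x, H.b y (L x) = 0) → ι g • y = y
  dt_ι : ∀ g, H.dt (ι g) = H₁.dt g

variable {H₁ : HS F V₁} {H₂ : HS F V₂} {H₃ : HS F V₃} {H : HS F V}

/-- transport of isometries -/
noncomputable def trU (e : V₁ ≃ₗ[F] V₂) (h : ∀ x y, H₂.b (e x) (e y) = H₁.b x y) : H₁.U ≃* H₂.U where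
  toFun g := H₂.mkU (e.conj (H₁.lin g)) fun x y => by
    simp [LinearEquiv.conj_apply, h, ← h (e.symm x)]
  invFun g := H₁.mkU (e.symm.conj (H₂.lin g)) fun x y => by
    simp [LinearEquiv.conj_apply, ← h]
  left_inv g := HS.U_ext fun y => by simp [LinearEquiv.conj_apply]
  right_inv g := HS.U_ext fun y => by simp [LinearEquiv.conj_apply]
  map_mul' g g' := HS.U_ext fun y => by simp [LinearEquiv.conj_apply, mul_smul]

theorem trU_smul (e : V₁ ≃ₗ[F] V₂) (h : ∀ x y, H₂.b (e x) (e y) = H₁.b x y) (g : H₁.U) (x : V₁) :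
    trU e h g • e x = e (g • x) := by
  change e.conj (H₁.lin g) (e x) = _
  simp [LinearEquiv.conj_apply]

theorem exists_equiv (H₁ : HS F V₁) (H₂ : HS F V₂) (h : finrank F V₁ = finrank F V₂) :
    ∃ e : V₁ ≃ₗ[F] V₂, ∀ x y, H₂.b (e x) (e y) = H₁.b x y := by
  obtain ⟨L, hL⟩ := GUW.exists_isom H₁ H₂ h.le
  exact ⟨LinearMap.linearEquivOfInjective L (GUW.iso_inj hL) h, hL⟩

theorem exists_hs (F : Type u) [Field F] [Fintype F] [StarRing F] [HF F] (n : ℕ) :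
    Nonempty (HS F (Fin n → F)) :=
  ⟨(exists_SU_equiv n (qq F) F star_eq_pow).choose⟩

theorem fpf_of_isUnit {g : H.U} (h : IsUnit (H.lin g - 1)) (x : V) (hx : g • x = x) : x = 0 :=
  ((Module.End.isUnit_iff _).1 h).1 (by simp [hx])

theorem isUnit_of_fpf {g : H.U} (h : ∀ x : V, g • x = x → x = 0) : IsUnit (H.lin g - 1) :=
  (LinearMap.isUnit_iff_ker_eq_bot _).2 (LinearMap.ker_eq_bot'.2 fun x hx => h x (by
    simpa [sub_eq_zero] using hx))

/-- a fixed point free involution is `-1` -/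
theorem smul_eq_neg {g : H.U} (h : ∀ x : V, g • x = x → x = 0) (h2 : g * g = 1) (x : V) :
    g • x = -x :=
  eq_neg_of_add_eq_zero_left (h _ (by rw [smul_add, ← mul_smul, h2, one_smul, add_comm]))

theorem mem_center_of_neg {g : H.U} (h : ∀ x : V, g • x = -x) : g ∈ Subgroup.center H.U :=
  Subgroup.mem_center_iff.2 fun k => HS.U_ext fun y => by simp [mul_smul, h]

namespace Spt

variable (s : Spt H₁ H₂ H)

/-- the block diagonal embedding -/
noncomputable def φ : H₁.U × H₂.U →* H.U where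
  toFun g := H.mkU (s.e.conj ((H₁.lin g.1).prodMap (H₂.lin g.2))) fun x y => by
    obtain ⟨x, rfl⟩ := s.e.surjective x
    obtain ⟨y, rfl⟩ := s.e.surjective y
    simp [LinearEquiv.conj_apply, s.isom]
  map_one' := HS.U_ext fun y => by simp [LinearEquiv.conj_apply]
  map_mul' g g' := HS.U_ext fun y => by simp [LinearEquiv.conj_apply, mul_smul, Prod.map]

theorem lin_φ (g : H₁.U × H₂.U) :
    H.lin (s.φ g) = s.e.conj ((H₁.lin g.1).prodMap (H₂.lin g.2)) := rfl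

theorem φ_e (g : H₁.U × H₂.U) (v : V₁ × V₂) : s.φ g • s.e v = s.e (g.1 • v.1, g.2 • v.2) := by
  rw [← HS.lin_apply, lin_φ]
  simp [LinearEquiv.conj_apply, Prod.map]

theorem inj : Function.Injective s.φ := fun g g' h => by
  have h1 := fun v => s.e.injective ((s.φ_e g v).symm.trans (h ▸ s.φ_e g' v))
  exact Prod.ext (HS.U_ext fun x => congrArg Prod.fst (h1 (x, 0)))
    (HS.U_ext fun x => congrArg Prod.snd (h1 (0, x)))

theorem charpoly (g : H₁.U × H₂.U) :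
    (H.lin (s.φ g)).charpoly = (H₁.lin g.1).charpoly * (H₂.lin g.2).charpoly := by
  rw [lin_φ, LinearEquiv.charpoly_conj, LinearMap.charpoly_prodMap]

theorem dt_φ (g : H₁.U × H₂.U) : H.dt (s.φ g) = H₁.dt g.1 * H₂.dt g.2 := by
  rw [HS.dt_apply, lin_φ, LinearEquiv.conj_apply, LinearMap.comp_assoc, LinearMap.det_conj,
    LinearMap.det_prodMap]
  rfl

include s in
theorem finrank_eq : finrank F V = finrank F V₁ + finrank F V₂ := by
  rw [← s.e.finrank_eq, finrank_prod]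

theorem φ_sc (z : unitary F) : s.φ (H₁.sc z, H₂.sc z) = H.sc z := HS.U_ext fun y => by
  obtain ⟨y, rfl⟩ := s.e.surjective y
  rw [φ_e, HS.sc_smul, HS.sc_smul, HS.sc_smul, ← map_smul]
  rfl

/-- the first summand -/
noncomputable def fst : Eb H₁ H where
  L := s.e.toLinearMap.comp (LinearMap.inl F V₁ V₂)
  ι := s.φ.comp (MonoidHom.inl _ _)
  isom x y := by simp [s.isom]
  ι_L g x := by simp [φ_e]
  ι_perp g y hy := by
    obtain ⟨y, rfl⟩ := s.e.surjective y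
    have : y.1 = 0 := H₁.nondeg _ fun x => by simpa [s.isom] using hy x
    obtain ⟨y₁, y₂⟩ := y
    obtain rfl : y₁ = 0 := this
    simp [φ_e]
  dt_ι g := by simp [dt_φ]

/-- the second summand -/
noncomputable def snd : Eb H₂ H where
  L := s.e.toLinearMap.comp (LinearMap.inr F V₁ V₂)
  ι := s.φ.comp (MonoidHom.inr _ _)
  isom x y := by simp [s.isom]
  ι_L g x := by simp [φ_e]
  ι_perp g y hy := by
    obtain ⟨y, rfl⟩ := s.e.surjective y
    have : y.2 = 0 := H₂.nondeg _ fun x => by simpa [s.isom] using hy x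
    obtain ⟨y₁, y₂⟩ := y
    obtain rfl : y₂ = 0 := this
    simp [φ_e]
  dt_ι g := by simp [dt_φ]

theorem fst_L (x : V₁) : s.fst.L x = s.e (x, 0) := rfl

theorem snd_L (x : V₂) : s.snd.L x = s.e (0, x) := rfl

theorem fst_ι (g : H₁.U) : s.fst.ι g = s.φ (g, 1) := rfl

theorem snd_ι (g : H₂.U) : s.snd.ι g = s.φ (1, g) := rfl

end Spt

namespace Eb

variable (E : Eb H₁ H)

theorem L_inj : Function.Injective E.L := GUW.iso_inj E.isom

theorem nd : H.Nd (LinearMap.range E.L) := GUW.iso_nd E.isom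

theorem inj : Function.Injective E.ι := fun g g' h =>
  HS.U_ext fun x => E.L_inj (by rw [← E.ι_L, h, E.ι_L])

theorem ι_perp' (g : H₁.U) {y : V} (hy : y ∈ H.perp (LinearMap.range E.L)) : E.ι g • y = y :=
  E.ι_perp g y fun x => hy _ ⟨x, rfl⟩

/-- the identity -/
def refl (H : HS F V) : Eb H H where
  L := LinearMap.id
  ι := MonoidHom.id _
  isom _ _ := rfl
  ι_L _ _ := rfl
  ι_perp g y hy := by rw [H.nondeg y hy, smul_zero]
  dt_ι _ := rfl

/-- composition -/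
def comp (E : Eb H₂ H) (E' : Eb H₁ H₂) : Eb H₁ H where
  L := E.L.comp E'.L
  ι := E.ι.comp E'.ι
  isom x y := (E.isom _ _).trans (E'.isom x y)
  ι_L g x := (E.ι_L _ _).trans (congrArg E.L (E'.ι_L g x))
  ι_perp g y hy := by
    obtain ⟨x, z, rfl⟩ := GUW.iso_decomp E.isom y
    rw [MonoidHom.comp_apply, smul_add, E.ι_perp' _ z.2, E.ι_L, E'.ι_perp g x fun w => ?_]
    have := hy w
    rwa [LinearMap.comp_apply, HS.add_left, z.2 _ ⟨_, rfl⟩, add_zero, E.isom] at this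
  dt_ι g := (E.dt_ι _).trans (E'.dt_ι g)

theorem exists_pull (E' : Eb H₂ H) {g : H.U}
    (h : Mp g (LinearMap.range E.L) (LinearMap.range E'.L)) :
    ∃ (e : V₁ ≃ₗ[F] V₂) (he : ∀ x y, H₂.b (e x) (e y) = H₁.b x y), (∀ x, E'.L (e x) = g • E.L x) ∧
      ∀ a, E'.ι (trU e he a) = g * E.ι a * g⁻¹ := by
  let T : V₁ →ₗ[F] V₂ := (LinearEquiv.ofInjective E'.L E'.L_inj).symm.toLinearMap.comp
    (((H.lin g).comp E.L).codRestrict _ fun x => h.1 _ ⟨x, rfl⟩)
  have hT : ∀ x, E'.L (T x) = g • E.L x := fun x =>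
    LinearEquiv.ofInjective_symm_apply E'.L (h := E'.L_inj) _
  have h1 : ∀ x y, H₂.b (T x) (T y) = H₁.b x y := fun x y => by
    rw [← E'.isom, hT, hT, HS.b_smul_smul, E.isom]
  have h2 : Function.Surjective T := fun y => by
    obtain ⟨x, hx⟩ := h.2 _ ⟨y, rfl⟩
    exact ⟨x, E'.L_inj (by rw [hT, hx, smul_inv_smul])⟩
  refine ⟨LinearEquiv.ofBijective T ⟨GUW.iso_inj h1, h2⟩, h1, hT, fun a => E'.nd.U_ext ?_ ?_⟩
  · rintro _ ⟨y, rfl⟩
    obtain ⟨x, rfl⟩ := h2 y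
    rw [E'.ι_L, hT, mul_smul, inv_smul_smul, mul_smul, E.ι_L, ← hT]
    exact congrArg E'.L (trU_smul (LinearEquiv.ofBijective T ⟨GUW.iso_inj h1, h2⟩) h1 a x)
  · intro y hy
    rw [E'.ι_perp' _ hy, mul_smul, mul_smul, E.ι_perp' _ (h.perp.2 y hy), smul_inv_smul]

theorem range_ι : E.ι.range = GD H (LinearMap.range E.L) := by
  ext g
  refine ⟨?_, fun hg => ?_⟩
  · rintro ⟨a, rfl⟩ y hy
    exact E.ι_perp' a hy
  obtain ⟨e, he, h1, -⟩ := E.exists_pull E (g := g)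
    ⟨fun x hx => smul_mem_of_GD E.nd hg hx, fun x hx => smul_mem_of_GD E.nd (inv_mem hg) hx⟩
  refine ⟨H₁.mkU e.toLinearMap he, E.nd.U_ext ?_ fun y hy => ?_⟩
  · rintro _ ⟨x, rfl⟩
    rw [E.ι_L, ← h1]
    rfl
  · rw [E.ι_perp' _ hy, hg y hy]

end Eb

theorem Spt.mem_range (s : Spt H₁ H₂ H) {u : H₂.U} (hu : ∀ x : V₂, u • x = x → x = 0) (g : H.U)
    (hg : Commute (s.φ (1, u)) g) : g ∈ s.φ.range := by
  have h1 : ∀ g, Commute (s.φ (1, u)) g → ∀ x ∈ LinearMap.range s.fst.L,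
      g • x ∈ LinearMap.range s.fst.L := by
    rintro g hg _ ⟨x, rfl⟩
    obtain ⟨y, hy⟩ := s.e.surjective (g • s.fst.L x)
    have h2 : s.φ (1, u) • s.e y = s.e y := by
      rw [hy, ← mul_smul, hg.eq, mul_smul, s.fst_L, s.φ_e]
      simp
    rw [s.φ_e] at h2
    refine ⟨y.1, ?_⟩
    rw [← hy, s.fst_L, ← hu y.2 (congrArg Prod.snd (s.e.injective h2))]
  obtain ⟨c, hc, h2⟩ := exists_res_GD s.fst.nd g (h1 g hg)
  obtain ⟨a, rfl⟩ : c ∈ s.fst.ι.range := s.fst.range_ι ▸ hc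
  obtain ⟨b, hb⟩ : (s.fst.ι a)⁻¹ * g ∈ s.snd.ι.range := by
    rw [s.snd.range_ι]
    intro y hy
    obtain ⟨y, rfl⟩ := s.e.surjective y
    have h3 : y.2 = 0 := H₂.nondeg _ fun x => by
      simpa [s.snd_L, s.isom] using hy _ ⟨x, rfl⟩
    rw [mul_smul, inv_smul_eq_iff, h2 _ ⟨y.1, by rw [s.fst_L, ← h3]⟩]
  refine ⟨(a, b), ?_⟩
  rw [← mul_inv_cancel_left (s.fst.ι a) g, ← hb, s.fst_ι, s.snd_ι, ← map_mul]
  simp

theorem exists_spt {V : Type u} [AddCommGroup V] [Module F V] [Fintype V] (H : HS F V) {a b : ℕ}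
    (h : finrank F V = a + b) : ∃ (H₁ : HS F (Fin a → F)) (H₂ : HS F (Fin b → F)),
      Nonempty (Spt H₁ H₂ H) := by
  obtain ⟨H₁⟩ := exists_hs F a
  obtain ⟨H₂⟩ := exists_hs F b
  let H' : HS F ((Fin a → F) × (Fin b → F)) :=
    { b := fun x y => H₁.b x.1 y.1 + H₂.b x.2 y.2
      add_left := fun x y z => by simp only [Prod.fst_add, Prod.snd_add, HS.add_left]; ring
      smul_left := fun c x y => by simp only [Prod.smul_fst, Prod.smul_snd, HS.smul_left]; ring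
      herm := fun x y => by simp
      nondeg := fun x hx => Prod.ext (H₁.nondeg _ fun y => by simpa using hx (y, 0))
        (H₂.nondeg _ fun y => by simpa using hx (0, y)) }
  obtain ⟨e, he⟩ := exists_equiv H' H (by simp [h])
  exact ⟨H₁, H₂, ⟨e, he⟩⟩

variable {K : Type} [Field K] [Fintype K] [Algebra F K] (C : UC F K)

theorem δ_eq_of_dt {g : H₁.U} {g' : H₂.U} (h : H₁.dt g = H₂.dt g') : C.δ H₁ g = C.δ H₂ g' :=
  Subtype.ext (Units.ext (by rw [C.δ_val, C.δ_val, h]))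

theorem Eb.δ_ι (E : Eb H₁ H) (g : H₁.U) : C.δ H (E.ι g) = C.δ H₁ g := δ_eq_of_dt C (E.dt_ι g)

theorem Spt.δ_φ (s : Spt H₁ H₂ H) (g : H₁.U × H₂.U) :
    C.δ H (s.φ g) = C.δ H₁ g.1 * C.δ H₂ g.2 := by
  rw [← s.fst.δ_ι C, ← s.snd.δ_ι C, ← map_mul, s.fst_ι, s.snd_ι, ← map_mul]
  simp

theorem defB_realise_eqns : True := by
  have := @trU.eq_1.{0, 0, 0}
  have := @Spt.φ.eq_1.{0, 0, 0, 0}
  have := @Spt.fst.eq_1.{0, 0, 0, 0}
  have := @Spt.snd.eq_1.{0, 0, 0, 0}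
  have := @Eb.refl.eq_1.{0, 0}
  have := @Eb.comp.eq_1.{0, 0, 0, 0}
  trivial

end GUH.Df
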