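import Cfsg.Agent.Lib.GU.Orb
import Cfsg.Agent.Lib.GU.Cliff
import Cfsg.Agent.Lib.GL.AbsI
import Cfsg.Agent.Lib.GL.AbsT
import Cfsg.Agent.Lib.Block.Contrib

/-!
# S4537: the labelling of the irreducible characters of one group
-/

set_option autoImplicit false
set_option linter.unusedSectionVars false

namespace GUH

open Finset Cfsg GT SFock GLH CT
open scoped Classical ComplexConjugate Pointwise

universe u

variable {Γ : Type} [CommGroup Γ] [Fintype Γ] {A : Type u} [CommRing A] [Algebra ℂ A]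
  {G : Type*} [Group G] [Finite G]

/-- the characters of `G` are the degree `n` part of the algebra `A` -/
structure LD (D : OD Γ) (M : Ideal AlgInt) (S : PSH A) (π : D.Th → ℕ → A) (T : A →ₐ[ℂ] A) (n : ℕ)
    (δ : G →* D.XS 1) (ch : A →ₗ[ℂ] G → ℂ) : Prop where
  hM : IsPModular D.p M
  hn : n ≤ D.N
  sys : Sys S D.N D.deg π
  tsys : TSys S D.N D.deg π T D.par D.rho
  T_mem : ∀ x ∈ S.Hn n, T x ∈ S.Hn n
  ip_ch : ∀ x ∈ S.Hn n, ∀ y ∈ S.Hn n, S.ip n x y = ip (ch x) (ch y)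
  surj : ∀ f, IsClassFunction G f → ∃ x ∈ S.Hn n, ch x = f
  irr : ∀ Λ, D.Lab n Λ → ∃ ε : ℂ, (ε = 1 ∨ ε = -1) ∧ IsIrrCharacter G (ε • ch (sL D.N π Λ))
  T_ch : ∀ x ∈ S.Hn n, ch (T x) = pRegularPart D.p (ch x)
  twist : ∀ z : D.XS 1, ∃ Mz : A →ₐ[ℂ] A,
    (∀ x ∈ S.Hn n, ∀ g, ch (Mz x) g = (D.mu z (δ g) : ℂ) * ch x g) ∧
      ∀ θ k, 0 < k → k * D.deg θ ≤ D.N → Mz (π θ k) = π (D.act z θ) k

/-- `χ` has the label `Λ` -/
def IsL {ι : Type} [Fintype ι] (N : ℕ) (π : ι → ℕ → A) (ch : A →ₗ[ℂ] G → ℂ) (χ : IrrCharacter G)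
    (Λ : ι → Finset ℕ) : Prop := ∃ ε : ℂ, (ε = 1 ∨ ε = -1) ∧ χ.1 = ε • ch (sL N π Λ)

/-- the characters with a label in the class of `Λ₀` -/
def XL (D : OD Γ) (π : D.Th → ℕ → A) (n : ℕ) (ch : A →ₗ[ℂ] G → ℂ) (Λ₀ : D.Th → Finset ℕ) :
    Set (IrrCharacter G) := {ψ | ∃ Λ, D.Lab n Λ ∧ D.Cls Λ Λ₀ ∧ IsL D.N π ch ψ Λ}

/-- the characters with a `p'`-label in the class of `Λ₀` -/
def BL (D : OD Γ) (π : D.Th → ℕ → A) (n : ℕ) (ch : A →ₗ[ℂ] G → ℂ) (Λ₀ : D.Th → Finset ℕ) :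
    Set (IrrCharacter G) := {ψ | ∃ Λ, D.Lab n Λ ∧ D.PLab Λ ∧ D.Cls Λ Λ₀ ∧ IsL D.N π ch ψ Λ}

theorem lab_realise_eqns : True := by
  have := @IsL.eq_1.{0, 0}
  have := @XL.eq_1.{0, 0}
  have := @BL.eq_1.{0, 0}
  trivial

theorem IsL.symm {ι : Type} [Fintype ι] {N : ℕ} {π : ι → ℕ → A} {ch : A →ₗ[ℂ] G → ℂ}
    {χ : IrrCharacter G} {Λ : ι → Finset ℕ} (h : IsL N π ch χ Λ) :
    ∃ ε : ℂ, (ε = 1 ∨ ε = -1) ∧ χ.1 = ε • ch (sL N π Λ) ∧ ch (sL N π Λ) = ε • χ.1 := by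
  obtain ⟨ε, h1, h2⟩ := h
  refine ⟨ε, h1, h2, ?_⟩
  rw [h2, smul_smul]
  rcases h1 with rfl | rfl <;> simp

theorem sc_refl {ι : Type*} [Fintype ι] {N : ℕ} {par : ι → ι} {ρ e : ι → ℕ} (Λ : ι → Finset ℕ) :
    SameCls N par ρ e Λ Λ := fun _ _ => ⟨rfl, rfl⟩

theorem sc_symm {ι : Type*} [Fintype ι] {N : ℕ} {par : ι → ι} {ρ e : ι → ℕ}
    {Λ Λ' : ι → Finset ℕ} (h : SameCls N par ρ e Λ Λ') : SameCls N par ρ e Λ' Λ :=
  fun i hi => ⟨(h i hi).1.symm, (h i hi).2.symm⟩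

theorem sc_trans {ι : Type*} [Fintype ι] {N : ℕ} {par : ι → ι} {ρ e : ι → ℕ}
    {Λ Λ' Λ'' : ι → Finset ℕ} (h : SameCls N par ρ e Λ Λ') (h' : SameCls N par ρ e Λ' Λ'') :
    SameCls N par ρ e Λ Λ'' :=
  fun i hi => ⟨(h i hi).1.trans (h' i hi).1, (h i hi).2.trans (h' i hi).2⟩

theorem pRegularPart_smul' (p : ℕ) (c : ℂ) (f : G → ℂ) :
    pRegularPart p (c • f) = c • pRegularPart p f := funext fun g => by
  simp only [pRegularPart_apply, Pi.smul_apply, smul_eq_mul]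
  split_ifs <;> simp

namespace LD

variable {D : OD Γ} {M : Ideal AlgInt} {S : PSH A} {π : D.Th → ℕ → A} {T : A →ₐ[ℂ] A} {n : ℕ}
  {δ : G →* D.XS 1} {ch : A →ₗ[ℂ] G → ℂ} (L : LD D M S π T n δ ch)
  {Λ Λ' Λ₀ : D.Th → Finset ℕ} {χ χ' : IrrCharacter G}

include L

theorem sL_mem (h : D.Lab n Λ) : sL D.N π Λ ∈ S.Hn n := AbsA.sL_mem L.sys L.hn h

theorem ip_sL (h : D.Lab n Λ) (h' : D.Lab n Λ') :
    ip (ch (sL D.N π Λ)) (ch (sL D.N π Λ')) = if Λ = Λ' then 1 else 0 := by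
  rw [← L.ip_ch _ (L.sL_mem h) _ (L.sL_mem h'), AbsA.ip_sL L.sys L.hn h h']

theorem exists_chr (h : D.Lab n Λ) : ∃ χ, IsL D.N π ch χ Λ := by
  obtain ⟨ε, h1, h2⟩ := L.irr Λ h
  exact ⟨⟨_, h2⟩, ε, h1, rfl⟩

theorem eq_iff (h : D.Lab n Λ) (h' : D.Lab n Λ') (e : IsL D.N π ch χ Λ) (e' : IsL D.N π ch χ' Λ') :
    χ = χ' ↔ Λ = Λ' := by
  obtain ⟨ε, h1, h2⟩ := e
  obtain ⟨ε', h1', h2'⟩ := e'
  have h3 : ip χ.1 χ'.1 = ε * conj ε' * if Λ = Λ' then 1 else 0 := by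
    rw [h2, h2', ip_smul_left, ip_smul_right, L.ip_sL h h', mul_assoc]
  have h4 : ε * conj ε' ≠ 0 := by
    rcases h1 with rfl | rfl <;> rcases h1' with rfl | rfl <;> simp
  constructor
  · rintro rfl
    by_contra hne
    rw [ip_irr_self, if_neg hne, mul_zero] at h3
    exact one_ne_zero h3
  · intro e
    by_contra hne
    rw [ip_irr_ne hne, if_pos e, mul_one] at h3
    exact h4 h3.symm

theorem lab_unique (h : D.Lab n Λ) (h' : D.Lab n Λ') (e : IsL D.N π ch χ Λ)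
    (e' : IsL D.N π ch χ Λ') : Λ = Λ' := (L.eq_iff h h' e e').1 rfl

theorem chr_unique (h : D.Lab n Λ) (e : IsL D.N π ch χ Λ) (e' : IsL D.N π ch χ' Λ) : χ = χ' :=
  (L.eq_iff h h e e').2 rfl

theorem ch_inj {x : A} (hx : x ∈ S.Hn n) (h : ch x = 0) : x = 0 :=
  S.eq_zero n x hx (by rw [L.ip_ch x hx x hx, h, ip_zero_left])

omit L in
theorem ip_eq_zero_of_span {s : Set A} {x : A} (hx : x ∈ Submodule.span ℂ s) {f : G → ℂ}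
    (h : ∀ z ∈ s, ip (ch z) f = 0) : ip (ch x) f = 0 := by
  induction hx using Submodule.span_induction with
  | mem z hz => exact h z hz
  | zero => rw [map_zero, ip_zero_left]
  | add x y _ _ hx hy => rw [map_add, ip_add_left, hx, hy, add_zero]
  | smul c x _ hx => rw [map_smul, ip_smul_left, hx, mul_zero]

theorem all (χ : IrrCharacter G) : ∃ Λ, D.Lab n Λ ∧ IsL D.N π ch χ Λ := by
  by_contra! hc
  obtain ⟨x, hx, e⟩ := L.surj _ (irr_isClassFunction χ)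
  have := ip_eq_zero_of_span (ch := ch) (AbsA.span_sL L.sys L.hn hx) (f := χ.1) (by
    rintro _ ⟨Λ, h, rfl⟩
    obtain ⟨ψ, hψ⟩ := L.exists_chr h
    obtain ⟨ε, -, -, h2⟩ := hψ.symm
    rw [h2, ip_smul_left, ip_irr_ne fun e : ψ = χ => hc Λ h (e ▸ hψ), mul_zero])
  rw [e, ip_irr_self] at this
  exact one_ne_zero this

theorem cls_of_ip (h : D.Lab n Λ) (h' : D.Lab n Λ') (e : IsL D.N π ch χ Λ)
    (e' : IsL D.N π ch χ' Λ') (hne : ip (pRegularPart D.p χ.1) χ'.1 ≠ 0) : D.Cls Λ Λ' := by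
  obtain ⟨ε, -, h2⟩ := e
  obtain ⟨ε', -, h2'⟩ := e'
  refine AbsB.sameCls L.sys D.pdat L.tsys L.hn h h' fun h0 => hne ?_
  rw [L.ip_ch _ (L.T_mem _ (L.sL_mem h)) _ (L.sL_mem h'), L.T_ch _ (L.sL_mem h)] at h0
  rw [h2, h2', pRegularPart_smul', ip_smul_left, ip_smul_right, h0, mul_zero, mul_zero]

/-- characters in one block have labels in one class -/
theorem cls_of_sameBlock (h : D.Lab n Λ) (h' : D.Lab n Λ') (e : IsL D.N π ch χ Λ)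
    (e' : IsL D.N π ch χ' Λ') (hs : SameBlock M χ.1 χ'.1) : D.Cls Λ Λ' := by
  have h1 := BT.isInt_setIdem_of_ip_pRegularPart L.hM
    (A := {ξ : IrrCharacter G | ∃ Λ₁, D.Lab n Λ₁ ∧ IsL D.N π ch ξ Λ₁ ∧ D.Cls Λ Λ₁})
    (fun ξ hξ η hη => by
      by_contra hne
      obtain ⟨Λ₁, h₁, e₁, c₁⟩ := hξ
      obtain ⟨Λ₂, h₂, e₂⟩ := L.all η
      exact hη ⟨Λ₂, h₂, e₂, sc_trans c₁ (L.cls_of_ip h₁ h₂ e₁ e₂ hne)⟩)
  obtain ⟨Λ₁, h₁, e₁, c₁⟩ := BT.mem_of_isInt_setIdem L.hM h1 (χ := χ) (ψ := χ')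
    ⟨Λ, h, e, sc_refl _⟩ hs
  rwa [L.lab_unique h' h₁ e' e₁]

theorem cls_of_block {B : Set (IrrCharacter G)} (hB : IsPBlock M B) (hχ : χ ∈ B) (hχ' : χ' ∈ B)
    (h : D.Lab n Λ) (h' : D.Lab n Λ') (e : IsL D.N π ch χ Λ) (e' : IsL D.N π ch χ' Λ') :
    D.Cls Λ Λ' := L.cls_of_sameBlock h h' e e' ((BT.mem_block_iff_sameBlock L.hM hB hχ χ').1 hχ')

/-- the `p'`-labels of a class give a spanning set -/
theorem reg_mem_span (h : D.Lab n Λ) (e : IsL D.N π ch χ Λ) :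
    pRegularPart D.p χ.1 ∈ Submodule.span ℂ ((fun ψ : IrrCharacter G => pRegularPart D.p ψ.1) ''
      {ψ | ∃ Λ', D.Lab n Λ' ∧ D.PLab Λ' ∧ D.Cls Λ Λ' ∧ IsL D.N π ch ψ Λ'}) := by
  obtain ⟨ε, -, h2⟩ := e
  rw [h2, pRegularPart_smul', ← L.T_ch _ (L.sL_mem h)]
  refine Submodule.smul_mem _ _ ?_
  have := Submodule.mem_map_of_mem (f := ch) (AbsB.T_mem_span L.sys D.pdat L.tsys L.hn h)
  rw [Submodule.map_span] at this
  refine Submodule.span_le.2 ?_ this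
  rintro _ ⟨_, ⟨Λ', a1, a2, a3, rfl⟩, rfl⟩
  obtain ⟨ψ, hψ⟩ := L.exists_chr a1
  obtain ⟨ε', -, -, h3⟩ := hψ.symm
  rw [L.T_ch _ (L.sL_mem a1), h3, pRegularPart_smul']
  exact Submodule.smul_mem _ _ (Submodule.subset_span ⟨ψ, ⟨Λ', a1, a2, a3, hψ⟩, rfl⟩)

/-- every block contains a character with a `p'`-label -/
theorem exists_pl {B : Set (IrrCharacter G)} (hB : IsPBlock M B) :
    ∃ Λ, D.Lab n Λ ∧ D.PLab Λ ∧ ∃ χ ∈ B, IsL D.N π ch χ Λ := by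
  by_contra! hc
  obtain ⟨χ, hχ⟩ := BT.block_nonempty L.hM hB
  obtain ⟨Λ, h1, h2⟩ := L.all χ
  have h3 : ∀ f ∈ Submodule.span ℂ ((fun ψ : IrrCharacter G => pRegularPart D.p ψ.1) ''
      {ψ | ∃ Λ', D.Lab n Λ' ∧ D.PLab Λ' ∧ D.Cls Λ Λ' ∧ IsL D.N π ch ψ Λ'}),
      ip f (pRegularPart D.p χ.1) = 0 := by
    intro f hf
    induction hf using Submodule.span_induction with
    | mem z hz =>
      obtain ⟨ψ, ⟨Λ', a1, a2, -, a4⟩, rfl⟩ := hz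
      rw [BT.ip_pRegularPart_both, BT.ip_pRegularPart_left_eq_right,
        BT.pRegularPart_eq_sum_bset L.hM hB hχ, ip_sum_right]
      refine sum_eq_zero fun ξ hξ => ?_
      rw [ip_smul_right]
      refine mul_eq_zero_of_right _ (ip_irr_ne fun e => ?_)
      exact hc Λ' a1 a2 ξ (BT.mem_bset.1 hξ) (e ▸ a4)
    | zero => rw [ip_zero_left]
    | add x y _ _ hx hy => rw [ip_add_left, hx, hy, add_zero]
    | smul c x _ hx => rw [ip_smul_left, hx, mul_zero]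
  have h4 := congrFun (ip_self_eq_zero.1 (h3 _ (L.reg_mem_span h1 h2))) 1
  rw [pRegularPart_apply, orderOf_one, if_neg D.hp.not_dvd_one] at h4
  exact irr_apply_one_ne_zero χ h4

omit L in
theorem twist_sL {Mz : A →ₐ[ℂ] A} {z : D.XS 1}
    (hz : ∀ θ k, 0 < k → k * D.deg θ ≤ D.N → Mz (π θ k) = π (D.act z θ) k) (hn : n ≤ D.N)
    (h : D.Lab n Λ) : Mz (sL D.N π Λ) = sL D.N π (Λ ∘ D.act z⁻¹) := by
  rw [sL, sL, map_prod, ← Equiv.prod_comp (OD.actE z) fun O => ss D.N π O ((Λ ∘ D.act z⁻¹) O)]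
  refine prod_congr rfl fun O _ => ?_
  have : (Λ ∘ D.act z⁻¹) (OD.actE z O) = Λ O := congrArg Λ ((OD.actE z).left_inv O)
  rw [this, ss, ss, map_sum]
  refine sum_congr rfl fun ν hν => ?_
  obtain ⟨h1, h2⟩ := mem_Par.1 hν
  rw [map_smul, pp, pp, map_multiset_prod, Multiset.map_map]
  refine congrArg _ (congrArg _ (Multiset.map_congr rfl fun r hr => hz O r (h1 r hr) ?_))
  refine (Nat.mul_le_mul_right _ ?_).trans ((h.le O).trans hn)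
  rw [← h2]
  exact Multiset.single_le_sum (fun _ _ => Nat.zero_le _) r hr

/-- multiplication by a linear character -/
theorem isL_smul (z : D.XS 1) (h : D.Lab n Λ) (e : IsL D.N π ch χ Λ) :
    IsL D.N π ch ((D.mu z).comp δ • χ) (Λ ∘ D.act z⁻¹) := by
  obtain ⟨Mz, h1, h2⟩ := L.twist z
  obtain ⟨ε, h3, h4⟩ := e
  refine ⟨ε, h3, funext fun g => ?_⟩
  rw [← twist_sL h2 L.hn h, lin_smul_apply, h4, Pi.smul_apply, Pi.smul_apply,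
    h1 _ (L.sL_mem h), smul_eq_mul, smul_eq_mul, mul_left_comm]
  rfl

theorem fix_iff (z : D.XS 1) (h : D.Lab n Λ) (e : IsL D.N π ch χ Λ) :
    (D.mu z).comp δ • χ = χ ↔ ∀ θ, Λ (D.act z θ) = Λ θ := by
  rw [L.eq_iff (OD.lab_act z⁻¹ h) h (L.isL_smul z h e) e]
  constructor
  · intro hf θ
    rw [← congrFun hf (D.act z θ)]
    exact congrArg Λ ((OD.actE z).left_inv θ)
  · intro hf
    funext θ
    rw [Function.comp, ← hf]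
    exact congrArg Λ ((OD.actE z).right_inv θ)

omit L in
theorem plab_act {z : D.XS 1} (hz : IsPRegular D.p z) (h : D.PLab Λ) : D.PLab (Λ ∘ D.act z) :=
  fun θ hθ => h _ fun e => hθ ((OD.par_act_iff hz θ).1 e)

theorem block_sub {B₀ : Set (IrrCharacter G)} (hB₀ : IsPBlock M B₀) (h₀ : D.Lab n Λ₀)
    (hχ : χ ∈ B₀) (e : IsL D.N π ch χ Λ₀) : B₀ ⊆ XL D π n ch Λ₀ := fun ψ hψ => by
  obtain ⟨Λ, h1, h2⟩ := L.all ψ
  exact ⟨Λ, h1, L.cls_of_block hB₀ hψ hχ h1 h₀ h2 e, h2⟩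

theorem mem_XL_of_sameBlock (hχ : χ ∈ XL D π n ch Λ₀) (hs : SameBlock M χ.1 χ'.1) :
    χ' ∈ XL D π n ch Λ₀ := by
  obtain ⟨Λ, h1, h2, h3⟩ := hχ
  obtain ⟨Λ', a1, a2⟩ := L.all χ'
  exact ⟨Λ', a1, sc_trans (sc_symm (L.cls_of_sameBlock h1 a1 h3 a2 hs)) h2, a2⟩

theorem XL_span : ∀ ψ ∈ XL D π n ch Λ₀, pRegularPart D.p ψ.1 ∈ Submodule.span ℂ
    ((fun ψ : IrrCharacter G => pRegularPart D.p ψ.1) '' BL D π n ch Λ₀) := by
  rintro ψ ⟨Λ, h1, h2, h3⟩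
  refine Submodule.span_mono (Set.image_mono ?_) (L.reg_mem_span h1 h3)
  rintro ξ ⟨Λ', a1, a2, a3, a4⟩
  exact ⟨Λ', a1, a2, sc_trans (sc_symm a3) h2, a4⟩

theorem BL_closed (ν : D.XS 1 →* ℂˣ) (hν : ¬ D.p ∣ orderOf ν) : ∀ ψ ∈ BL D π n ch Λ₀,
    ν.comp δ • ψ ∈ XL D π n ch Λ₀ → ν.comp δ • ψ ∈ BL D π n ch Λ₀ := by
  rintro ψ ⟨Λ, h1, h2, -, h3⟩ ⟨Λ', a1, a2, a3⟩
  obtain ⟨z, rfl⟩ := D.mu_bij.2 ν
  rw [D.orderOf_mu] at hν
  have h4 := L.lab_unique a1 (OD.lab_act z⁻¹ h1) a3 (L.isL_smul z h1 h3)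
  refine ⟨Λ', a1, ?_, a2, a3⟩
  rw [h4]
  exact plab_act (by rwa [IsPRegular, orderOf_inv]) h2

theorem XL_order {P : ℕ} (hP : ∀ (z : D.XS 1) Λ, IsPElt D.p z → D.Lab n Λ → D.Cls Λ Λ₀ →
      (∀ θ, Λ (D.act z θ) = Λ θ) → orderOf z ≤ P) (μ : D.XS 1 →* ℂˣ)
    (hμ : ∃ a, orderOf μ = D.p ^ a) : ∀ ψ ∈ XL D π n ch Λ₀, μ.comp δ • ψ = ψ → orderOf μ ≤ P := by
  rintro ψ ⟨Λ, h1, h2, h3⟩ h4
  obtain ⟨z, rfl⟩ := D.mu_bij.2 μ
  rw [D.orderOf_mu] at hμ ⊢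
  exact hP z Λ hμ h1 h2 ((L.fix_iff z h1 h3).1 h4)

omit L in
theorem mem_regChars (ν : D.XS 1 →* ℂˣ) (hν : ¬ D.p ∣ orderOf ν) :
    ν ∈ (univ.filter fun z : D.XS 1 => IsPRegular D.p z).image D.mu := by
  obtain ⟨z, rfl⟩ := D.mu_bij.2 ν
  rw [D.orderOf_mu] at hν
  exact mem_image_of_mem _ (mem_filter.2 ⟨mem_univ _, hν⟩)

theorem card_fix_le (z : D.XS 1) (Q : IrrCharacter G → Prop)
    (hQ : ∀ ψ, Q ψ → ψ ∈ BL D π n ch Λ₀ ∧ (D.mu z).comp δ • ψ = ψ) : Nat.card {ψ // Q ψ} ≤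
      Nat.card {Λ // D.Lab n Λ ∧ D.PLab Λ ∧ D.Cls Λ Λ₀ ∧ ∀ θ, Λ (D.act z θ) = Λ θ} := by
  have hfin : Finite {Λ // D.Lab n Λ ∧ D.PLab Λ ∧ D.Cls Λ Λ₀ ∧ ∀ θ, Λ (D.act z θ) = Λ θ} :=
    Finite.of_injective (fun Λ => (L.exists_chr Λ.2.1).choose) fun Λ Λ' h => Subtype.ext
      ((L.eq_iff Λ.2.1 Λ'.2.1 (L.exists_chr Λ.2.1).choose_spec
        (L.exists_chr Λ'.2.1).choose_spec).1 h)
  have h := fun ψ : {ψ // Q ψ} => (hQ ψ.1 ψ.2).1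
  refine Nat.card_le_card_of_injective (fun ψ => ⟨(h ψ).choose, (h ψ).choose_spec.1,
    (h ψ).choose_spec.2.1, (h ψ).choose_spec.2.2.1,
    (L.fix_iff z (h ψ).choose_spec.1 (h ψ).choose_spec.2.2.2).1 (hQ ψ.1 ψ.2).2⟩) fun ψ ψ' e => ?_
  exact Subtype.ext ((L.eq_iff (h ψ).choose_spec.1 (h ψ').choose_spec.1
    (h ψ).choose_spec.2.2.2 (h ψ').choose_spec.2.2.2).2 (congrArg Subtype.val e))

/-- a character in the class of `Λ₀` whose label is fixed by `z` vanishes off the kernel -/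
theorem apply_eq_zero {z : D.XS 1} (h : D.Lab n Λ) (e : IsL D.N π ch χ Λ)
    (hz : ∀ θ, Λ (D.act z θ) = Λ θ) {g : G} (hg : g ∉ ((D.mu z).comp δ).ker) : χ.1 g = 0 := by
  have h1 := congrFun (congrArg Subtype.val ((L.fix_iff z h e).2 hz)) g
  rw [lin_smul_apply] at h1
  by_contra h0
  exact hg (Units.ext (mul_right_cancel₀ h0 (h1.trans (one_mul _).symm)))

end LD

end GUH
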