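import Cfsg.Agent.Lib.GU.OrbF
import Cfsg.Agent.Lib.GU.Lab
import Cfsg.Agent.Lib.Char.Prod

/-!
# S4537: the characters of the unitary groups (interface)
-/

set_option autoImplicit false
set_option linter.unusedSectionVars false

namespace GUH

open Finset Polynomial Cfsg UW GLH Module GT
open scoped Classical

universe u

variable {F : Type u} [Field F] [Fintype F] [StarRing F] [HF F] {K : Type} [Field K] [Fintype K]
  [Algebra F K]

/-- the character theory of the groups `H.U` of dimension at most `C.N` -/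
structure UB (C : UC F K) (A : Type) [CommRing A] [Algebra ℂ A] where
  /-- the graded structure -/
  S : PSH A
  /-- the primitives -/
  π : C.Th → ℕ → A
  /-- truncation -/
  T : A →ₐ[ℂ] A
  /-- the class function of an element -/
  ch : ∀ {V : Type u} [AddCommGroup V] [Module F V] [Fintype V] (H : HS F V), A →ₗ[ℂ] H.U → ℂ
  sys : Sys S C.N C.deg π
  tsys : TSys S C.N C.deg π T C.par C.rho
  T_mem : ∀ n, ∀ x ∈ S.Hn n, T x ∈ S.Hn n
  ld : ∀ {V : Type u} [AddCommGroup V] [Module F V] [Fintype V] (H : HS F V) {n : ℕ},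
    finrank F V = n → n ≤ C.N → LD C.toOD C.M S π T n (C.δ H) (ch H)
  cls : ∀ {V : Type u} [AddCommGroup V] [Module F V] [Fintype V] (H : HS F V), finrank F V ≤ C.N →
    ∀ x, IsClassFunction H.U (ch H x)
  iso : ∀ {V V' : Type u} [AddCommGroup V] [Module F V] [Fintype V] [AddCommGroup V'] [Module F V']
    [Fintype V'] (H : HS F V) (H' : HS F V'), finrank F V ≤ C.N → ∀ (e : V ≃ₗ[F] V') (g : H.U)
    (g' : H'.U), (∀ v, e (g • v) = g' • e v) → ∀ x, ch H x g = ch H' x g'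
  mulc : ∀ c : F[X] →* ℂ, ∃ Mc : A →ₐ[ℂ] A, (∀ n, ∀ x ∈ S.Hn n, Mc x ∈ S.Hn n) ∧
    (∀ n, ∀ x ∈ S.Pr n, Mc x ∈ S.Pr n) ∧
    ∀ {V : Type u} [AddCommGroup V] [Module F V] [Fintype V] (H : HS F V) {n : ℕ},
      finrank F V = n → n ≤ C.N → ∀ x ∈ S.Hn n, ∀ g, ch H (Mc x) g = c (H.lin g).charpoly * ch H x g
  supp : ∀ {V : Type u} [AddCommGroup V] [Module F V] [Fintype V] (H : HS F V) {n : ℕ},
    finrank F V = n → n ≤ C.N → 0 < n → ∀ x ∈ S.Pr n, ∀ g, ch H x g ≠ 0 →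
      ∃ y ∈ C.XX n, (H.lin g).charpoly = C.mp n y
  prod : ∀ {V₁ V₂ V : Type u} [AddCommGroup V₁] [Module F V₁] [Fintype V₁] [AddCommGroup V₂]
    [Module F V₂] [Fintype V₂] [AddCommGroup V] [Module F V] [Fintype V] (H₁ : HS F V₁)
    (H₂ : HS F V₂) (H : HS F V) {a b : ℕ}, finrank F V₁ = a → finrank F V₂ = b → a + b ≤ C.N →
    ∀ (e : (V₁ × V₂) ≃ₗ[F] V) (φ : H₁.U × H₂.U → H.U),
    (∀ g v, φ g • e v = e (g.1 • v.1, g.2 • v.2)) → ∀ f ∈ S.Hn a, ∀ g ∈ S.Hn b, ∀ y ∈ S.Hn (a + b),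
    (∀ g₁ g₂, ch H₁ f g₁ ≠ 0 → ch H₂ g g₂ ≠ 0 →
      IsCoprime (H₁.lin g₁).charpoly (H₂.lin g₂).charpoly) →
    S.ip (a + b) (f * g) y = CT.ip (CT.prodFun (ch H₁ f) (ch H₂ g)) fun x => ch H y (φ x)
  /-- primitives supported on one `p`-section -/
  sing : ∀ (θ : C.Th) (j : ℕ) (ζ : Kˣ), C.par θ = θ → 0 < j → j * C.deg θ ≤ C.N →
    ζ ∈ C.XX (j * C.deg θ) → IsPElt C.p ζ → ∃ ϖ ∈ S.Pr (j * C.deg θ),
      ϖ - π θ j ∈ Submodule.span ℂ
        {y | ∃ θ' k, C.par θ' ≠ θ' ∧ k * C.deg θ' = j * C.deg θ ∧ y = π θ' k} ∧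
      ∀ {V : Type u} [AddCommGroup V] [Module F V] [Fintype V] (H : HS F V),
        finrank F V = j * C.deg θ → ∀ g, ch H ϖ g ≠ 0 → ∃ x ∈ C.XX (j * C.deg θ),
          pPart C.p x = ζ ∧ (H.lin g).charpoly = C.mp (j * C.deg θ) x

end GUH
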