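import Cfsg.Agent.Lib.GU.DefB
import Cfsg.Agent.Lib.GU.Ub
import Cfsg.Agent.Lib.GU.Cn
import Cfsg.Agent.Lib.GL.DefD
import Cfsg.Agent.Lib.Block.DefZeroHat

/-!
# S4537: removing a hook
-/

set_option autoImplicit false
set_option linter.unusedSectionVars false

namespace GUH.Df

open Finset Polynomial Cfsg GT CT BT UW Module GLH SFock Subgroup
open scoped Classical ComplexConjugate MonoidAlgebra

universe u

section Alg
variable {A : Type} [CommRing A] [Algebra ℂ A] {ι : Type} [Fintype ι] {S : PSH A} {N : ℕ}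
  {deg : ι → ℕ} {π : ι → ℕ → A} (h : Sys S N deg π)
include h

theorem mem_span_ne {n : ℕ} (hn : n ≤ N) {x : A} (hx : x ∈ S.Hn n) : x ∈ Submodule.span ℂ
    {y | ∃ Λ, ALab N deg n Λ ∧ S.ip n x (sL N π Λ) ≠ 0 ∧ y = sL N π Λ} := by
  have h1 := h.span_sL hn hx
  rw [show {y | ∃ Λ, ALab N deg n Λ ∧ y = sL N π Λ} = sL N π '' {Λ | ALab N deg n Λ} from
    Set.ext fun y => exists_congr fun Λ => and_congr_right fun _ => eq_comm,
    Finsupp.mem_span_image_iff_linearCombination] at h1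
  obtain ⟨c, hc, e⟩ := h1
  rw [Finsupp.linearCombination_apply, Finsupp.sum] at e
  have h2 : ∀ Λ ∈ c.support, S.ip n x (sL N π Λ) ≠ 0 := fun Λ hΛ => by
    rw [← e, S.ip_sum, sum_eq_single Λ (fun Λ' h1 h2 => by
      rw [S.ip_smul, AbsA.ip_sL h hn (hc h1) (hc hΛ), if_neg h2, mul_zero]) fun h => absurd hΛ h,
      S.ip_smul, AbsA.ip_sL h hn (hc hΛ) (hc hΛ), if_pos rfl, mul_one]
    exact Finsupp.mem_support_iff.1 hΛ
  generalize S.ip n x = f at h2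
  rw [← e]
  exact Submodule.sum_mem _ fun Λ hΛ =>
    Submodule.smul_mem _ _ (Submodule.subset_span ⟨Λ, hc hΛ, h2 Λ hΛ, rfl⟩)

theorem exists_of_ne_zero {n : ℕ} (hn : n ≤ N) {x : A} (hx : x ∈ S.Hn n) (L : A →ₗ[ℂ] ℂ)
    (h0 : L x ≠ 0) : ∃ Λ, ALab N deg n Λ ∧ S.ip n x (sL N π Λ) ≠ 0 ∧ L (sL N π Λ) ≠ 0 := by
  by_contra! hc
  refine h0 ((Submodule.span_le.2 ?_ : _ ≤ LinearMap.ker L) (mem_span_ne h hn hx))
  rintro _ ⟨Λ, a1, a2, rfl⟩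
  exact hc Λ a1 a2

theorem exists_of_mul_ne {a n : ℕ} (ha : a ≤ N) {x : A} (hx : x ∈ S.Hn a) {y z : A}
    (h0 : S.ip n (x * y) z ≠ 0) : ∃ Λ, ALab N deg a Λ ∧ S.ip a x (sL N π Λ) ≠ 0 ∧
      S.ip n (y * sL N π Λ) z ≠ 0 := by
  simp only [mul_comm y]
  exact exists_of_ne_zero h ha hx ((S.ipl n z).comp (LinearMap.mulRight ℂ y)) h0

/-- the algebraic part of the removal of a hook -/
theorem hookA {T : A →ₐ[ℂ] A} {par : ι → ι} {ρ e : ι → ℕ} (hP : PDat deg par ρ e)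
    (hT : TSys S N deg π T par ρ) (hm : ∀ n, ∀ x ∈ S.Hn n, T x ∈ S.Hn n) {n j : ℕ} {θ : ι}
    (hn : n + j * deg θ ≤ N) {Λ : ι → Finset ℕ} (hΛ : ALab N deg (n + j * deg θ) Λ)
    (hPL : PL N par Λ) (hj : 0 < j) (hw : wt j (Λ θ) ≠ 0) {ϖ : A}
    (b2 : ϖ - π θ j ∈ Submodule.span ℂ
      {y | ∃ θ' k, par θ' ≠ θ' ∧ k * deg θ' = j * deg θ ∧ y = π θ' k}) :
    ∃ Λ₁, ALab N deg n Λ₁ ∧ (∀ i, i ≠ θ → Λ₁ i = Λ i) ∧ res j (Λ₁ θ) = res j (Λ θ) ∧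
      sz N (Λ θ) = sz N (Λ₁ θ) + j ∧
      S.ip (n + j * deg θ) (T (sL N π Λ₁) * ϖ) (sL N π Λ) ≠ 0 := by
  have hθ : par θ = θ := by
    by_contra h1
    exact hw (by rw [hPL θ h1, GLH.Df.wt_range])
  obtain ⟨n', Λ', e1, a1, -, a2⟩ := AbsA.exists_hook h hn hj hΛ hw
  obtain rfl : n = n' := by omega
  have hn' : n ≤ N := by omega
  have hk0 : 0 < j * deg θ := Nat.mul_pos hj (h.deg_pos θ)
  obtain ⟨Dr, d1, -, d2, -⟩ := S.der _ _ hk0 (h.prim θ j hj (by omega))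
  set z := Dr (sL N π Λ) with hz
  have hzm : z ∈ S.Hn n := d2 n _ (AbsA.sL_mem h hn hΛ)
  have hook' : ∀ Λ₁, ALab N deg n Λ₁ → S.ip n z (sL N π Λ₁) ≠ 0 →
      (∀ i, i ≠ θ → Λ₁ i = Λ i) ∧ res j (Λ₁ θ) = res j (Λ θ) ∧ sz N (Λ θ) = sz N (Λ₁ θ) + j := by
    intro Λ₁ h1 h2
    rw [Ne, S.ip_comm_zero, hz, ← d1 n _ _ (AbsA.sL_mem h hn' h1)] at h2
    exact AbsA.hook_res h hj hn h1 hΛ h2
  have hz0 : z ≠ 0 := fun h0 => a2 (by
    rw [d1 n _ _ (AbsA.sL_mem h hn' a1), ← hz, h0, S.ip_comm_zero, ← S.ipl_apply, map_zero])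
  have hTz : T z ≠ 0 := by
    intro h0
    refine hz0 (AbsB.T_inj h hP hT hn' (Submodule.span_mono ?_ (mem_span_ne h hn' hzm)) h0)
    rintro _ ⟨Λ₁, h1, h2, rfl⟩
    refine ⟨Λ₁, h1, fun i hi => ?_, rfl⟩
    rw [(hook' Λ₁ h1 h2).1 i (by rintro rfl; exact hi hθ), hPL i hi]
  obtain ⟨Λ₁, c1, c2, c3⟩ := exists_of_ne_zero h hn' hzm (S.ipl n (T z)) fun h0 =>
    hTz (S.eq_zero n _ (hm n z hzm) (by rw [hT.adj, hT.idem]; exact h0))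
  obtain ⟨c4, c5, c6⟩ := hook' Λ₁ c1 c2
  refine ⟨Λ₁, c1, c4, c5, c6, ?_⟩
  have hx := hm n _ (AbsA.sL_mem h hn' c1)
  have h5 : S.ip (n + j * deg θ) ((ϖ - π θ j) * T (sL N π Λ₁)) (sL N π Λ) = 0 := by
    refine (Submodule.span_le.2 ?_ : _ ≤ LinearMap.ker ((S.ipl _ _).comp
      (LinearMap.mulRight ℂ _))) b2
    rintro _ ⟨θ', k, e1, e2, rfl⟩
    by_contra h0
    obtain ⟨Λ₂, f1, -, f2⟩ := exists_of_mul_ne h hn' hx (y := π θ' k) (by rw [mul_comm]; exact h0)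
    rw [mul_comm (π θ' k), ← e2] at f2
    have hk1 : 0 < k := Nat.pos_of_ne_zero fun h => by rw [h] at e2; omega
    have := (AbsA.hook_res h hk1 (by rw [e2]; exact hn) f1 (by rw [e2]; exact hΛ) f2).2.2
    rw [hPL θ' e1, GLH.Df.sz_range] at this
    omega
  rw [mul_comm (ϖ - _), mul_sub, S.ip_sub, sub_eq_zero] at h5
  rw [h5, d1 n _ _ hx, hT.adj]
  exact c3

omit h in
theorem le_of_wt {n j : ℕ} {θ : ι} {Λ : ι → Finset ℕ} (h : Sys S N deg π) (hn : n ≤ N)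
    (hΛ : ALab N deg n Λ) (hj : 0 < j) (hw : wt j (Λ θ) ≠ 0) : j * deg θ ≤ n := by
  obtain ⟨n', -, e, -⟩ := AbsA.exists_hook h hn hj hΛ hw
  omega

/-- a label of size one is determined by its support -/
theorem eq_of_sz_one {θ : ι} (hd : deg θ ≤ N) {T T' : Finset ℕ} (hT : T.card = N)
    (hT' : T'.card = N) (h1 : sz N T = 1) (h2 : sz N T' = 1) : T = T' := by
  by_contra hne
  have a1 := h.ip_ss θ hT hT (by rwa [h1, one_mul]) (by rwa [h1, one_mul])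
  have a2 := h.ip_ss θ hT' hT' (by rwa [h2, one_mul]) (by rwa [h2, one_mul])
  have a3 := h.ip_ss θ hT hT' (by rwa [h1, one_mul]) (by rwa [h2, one_mul])
  have hp : Par 1 = {{1}} := by
    refine eq_singleton_iff_unique_mem.2 ⟨mem_Par.2 (by simp), fun ν hν => ?_⟩
    obtain ⟨b1, b2⟩ := mem_Par.1 hν
    induction ν using Multiset.induction_on with
    | empty => simp at b2
    | cons r ν =>
      have b3 := b1 r (Multiset.mem_cons_self _ _)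
      rw [Multiset.sum_cons] at b2
      rw [show r = 1 by omega, Multiset.eq_zero_of_forall_notMem (s := ν) fun t ht =>
        (b1 t (Multiset.mem_cons_of_mem ht)).ne' (Multiset.sum_eq_zero_iff.1 (by omega) t ht)]
      rfl
  simp only [ss, h1, h2, hp, sum_singleton, S.ip_smul, S.ip_smul', if_neg hne, if_true] at a1 a2 a3
  rcases mul_eq_zero.1 a3 with h0 | h0
  · rw [h0, zero_mul] at a1
    exact zero_ne_one a1
  · rw [h0, mul_zero] at a2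
    exact zero_ne_one a2

end Alg

theorem wt_row {N j m : ℕ} (hN : 0 < N) (hj : 0 < j) (h : j ≤ m) : wt j (row N m) ≠ 0 := by
  refine fun h0 => absurd (card_eq_zero.1 (sum_eq_zero_iff.1 h0 _ (mem_insert_self _ _)))
    (ne_empty_of_mem (a := N - 1 + m - j) (mem_filter.2 ⟨mem_range.2 (by omega), ?_, ?_⟩))
  · conv_rhs => rw [← Nat.sub_add_cancel (show j ≤ N - 1 + m by omega), Nat.add_mod_right]
  · rw [row, mem_insert, mem_range]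
    omega

section Blk
variable {p : ℕ} [hp : Fact p.Prime] {M : Ideal AlgInt} (hM : IsPModular p M)
variable {Γ : Type*} [Group Γ] [Finite Γ]

theorem sidem_eq_of_center {w : Γ} (hw : IsPElt p w) (hc : w ∈ center Γ)
    {b : Set (IrrCharacter (centralizer ({w} : Set Γ)))} (hb : IsPBlock M b)
    {B : Set (IrrCharacter Γ)} (hB : IsPBlock M B) (h : IsInducedBlock M _ b B) :
    sidem hM _ b = idem hM B := by
  have h0 : centralizer ({w} : Set Γ) = ⊤ := centralizer_eq_top_iff_subset.2 (by simpa using hc)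
  have h1 := (ind_iff hM hw hb hB).1 h
  have h2 := bIdem_sidem hM hb
  rw [br_eq_self_iff.2 (by rw [centralizer_zpowers_eq, h0]; exact fun _ _ => trivial)] at h1
  generalize sidem hM _ b = f at h1 h2
  rw [h0] at h2
  have h3 := (isCentral_iff_commute.1 (isCentral_idem hM B) f).eq
  rcases (bIdem_top_idem hM hB).prim f h2.toCIdem with h4 | h4
  · rw [← h1, h3, h4]
  · exact absurd (by rw [← h1, h3, h4]) h2.ne_zero

theorem block_eq_of_br {B B' : Set (IrrCharacter Γ)} (hB : IsPBlock M B) (hB' : IsPBlock M B')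
    {Q : Subgroup Γ} (hQ : IsPGroup p Q) {E : (ResF hM)[Γ]} (h0 : E ≠ 0)
    (h : br Q (idem hM B) * E = E) (h' : br Q (idem hM B') * E = E) : B = B' := by
  by_contra hne
  apply h0
  rw [← h, ← h', ← mul_assoc, ← br_mul hQ ((isCentral_idem hM B).isFixed _)
    ((isCentral_idem hM B').isFixed _), idem_mul_of_ne hM hB hB' hne, br_def, map_zero, zero_mul]

end Blk

variable {F : Type u} [Field F] [Fintype F] [StarRing F] [HF F] {K : Type} [Field K] [Fintype K]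
  [Algebra F K] {C : UC F K} {A : Type} [CommRing A] [Algebra ℂ A] (U : UB C A)
variable {V V₁ V₂ : Type u} [AddCommGroup V] [Module F V] [Fintype V]
  [AddCommGroup V₁] [Module F V₁] [Fintype V₁] [AddCommGroup V₂] [Module F V₂] [Fintype V₂]
  {H₁ : HS F V₁} {H₂ : HS F V₂} {H : HS F V}

theorem isUnit_pPart_sub (hV : finrank F V ≤ C.N) {k : ℕ} (hk : 0 < k) {a : H.U} {x : Kˣ}
    (hx : x ∈ C.XX k) (h : (H.lin a).charpoly = C.mp k x) (h1 : pPart C.p x ≠ 1) :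
    IsUnit (H.lin (pPart C.p a) - 1) := by
  rw [← pow_one (pPart C.p a), C.isUnit_pPart_pow_iff hV]
  intro y hy h0
  rw [h, UC.aeval_mp hk hx] at hy
  obtain ⟨z, h2, h3⟩ := hy
  obtain rfl : z = y := Units.ext h3
  obtain ⟨i, rfl⟩ := OD.mk_eq.1 h2
  exact h1 (by rw [pPart_pow, ← pow_one (pPart C.p z), h0, one_pow])

theorem coprime_of_reg (h₁ : finrank F V₁ ≤ C.N) (h₂ : finrank F V₂ ≤ C.N) {g₁ : H₁.U}
    (r : IsPRegular C.p g₁) {g₂ : H₂.U} (hu : IsUnit (H₂.lin (pPart C.p g₂) - 1)) :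
    IsCoprime (H₁.lin g₁).charpoly (H₂.lin g₂).charpoly := by
  refine C.coprime_of_roots (LinearMap.charpoly_monic _)
    (by rwa [LinearMap.charpoly_natDegree]) fun y hy h0 => ?_
  obtain ⟨x, rfl⟩ := UC.exists_unit_of_root H₁ g₁ hy
  rw [← pow_one (pPart C.p g₂), C.isUnit_pPart_pow_iff h₂] at hu
  exact hu x h0 (by rw [((C.reg_iff' h₁ H₁ g₁).1 r x hy).pPart_eq, one_pow])

/-- the product formula on `p`-regular times `p`-singular elements -/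
theorem ip_mul_eq (s : Spt H₁ H₂ H) {a b : ℕ} (h₁ : finrank F V₁ = a) (h₂ : finrank F V₂ = b)
    (hn : a + b ≤ C.N) {f g y : A} (hf : f ∈ U.S.Hn a) (hg : g ∈ U.S.Hn b)
    (hy : y ∈ U.S.Hn (a + b)) (h : ∀ v, U.ch H₂ g v ≠ 0 → IsUnit (H₂.lin (pPart C.p v) - 1)) :
    U.S.ip (a + b) (U.T f * g) y =
      ip (prodFun (pRegularPart C.p (U.ch H₁ f)) (U.ch H₂ g)) fun x => U.ch H y (s.φ x) := by
  have e := (U.ld H₁ h₁ (by omega)).T_ch f hf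
  rw [← e]
  refine U.prod H₁ H₂ H h₁ h₂ hn s.e s.φ s.φ_e _ (U.T_mem _ f hf) g hg y hy fun g₁ g₂ a1 a2 =>
    coprime_of_reg (by omega) (by omega) (fun hd => a1 ?_) (h g₂ a2)
  rw [e, pRegularPart_apply, if_pos hd]

section Hook
variable (s : Spt H₁ H₂ H) {n j : ℕ} {θ : C.Th} (h₁ : finrank F V₁ = n)
  (h₂ : finrank F V₂ = j * C.deg θ) (hn : n + j * C.deg θ ≤ C.N) {Λ : C.Th → Finset ℕ}
  (hΛ : C.Lab (n + j * C.deg θ) Λ) (hPL : C.PLab Λ) (hj : 0 < j) (hw : wt j (Λ θ) ≠ 0) {ζ : Kˣ}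
  (hζ : ζ ∈ C.XX (j * C.deg θ)) (hζp : IsPElt C.p ζ) (hζ1 : ζ ≠ 1)
include h₁ h₂ hn hΛ hPL hj hw hζ hζp hζ1

/-- removing a hook -/
theorem hook : ∃ Λ₁, C.Lab n Λ₁ ∧ (∀ i, i ≠ θ → Λ₁ i = Λ i) ∧ res j (Λ₁ θ) = res j (Λ θ) ∧
    sz C.N (Λ θ) = sz C.N (Λ₁ θ) + j ∧ ∃ (a : H₂.U) (x : Kˣ), x ∈ C.XX (j * C.deg θ) ∧
      pPart C.p x = ζ ∧ (H₂.lin a).charpoly = C.mp (j * C.deg θ) x ∧
      ip (pRegularPart C.p (U.ch H₁ (sL C.N U.π Λ₁)))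
        (fun D => U.ch H (sL C.N U.π Λ) (s.φ (D, a))) ≠ 0 := by
  have hθ : C.par θ = θ := by
    by_contra h1
    exact hw (by rw [hPL θ h1, GLH.Df.wt_range])
  obtain ⟨ϖ, b1, b2, b3⟩ := U.sing θ j ζ hθ hj (by omega) hζ hζp
  obtain ⟨Λ₁, a1, a2, a3, a4, a5⟩ := hookA U.sys C.pdat U.tsys U.T_mem hn hΛ hPL hj hw b2
  refine ⟨Λ₁, a1, a2, a3, a4, ?_⟩
  rw [ip_mul_eq U s h₁ h₂ hn (AbsA.sL_mem U.sys (by omega) a1) (U.S.Pr_le _ b1)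
    (AbsA.sL_mem U.sys hn hΛ) (fun v hv => by
      obtain ⟨x, e1, e2, e3⟩ := b3 H₂ h₂ v hv
      exact isUnit_pPart_sub (by omega) (Nat.mul_pos hj (OD.deg_pos θ)) e1 e3 (by rwa [e2])),
    GLH.Df.ip_prod, ip_def] at a5
  obtain ⟨a, -, ha⟩ := exists_ne_zero_of_sum_ne_zero (right_ne_zero_of_mul a5)
  obtain ⟨x, e1, e2, e3⟩ := b3 H₂ h₂ a (left_ne_zero_of_mul ha)
  refine ⟨a, x, e1, e2, e3, ?_⟩
  have := right_ne_zero_of_mul ha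
  rwa [conj_ip] at this

variable {B : Set (IrrCharacter H.U)} (hB : IsPBlock C.M B) {χ : IrrCharacter H.U} (hχ : χ ∈ B)
  (e : IsL C.N U.π (U.ch H) χ Λ)
include hB hχ e

/-- one step of the reduction, with labels -/
theorem stepL : ∃ (Λ₁ Λ₂ : C.Th → Finset ℕ) (χ₁ : IrrCharacter H₁.U) (χ₂ : IrrCharacter H₂.U)
    (a : H₂.U) (x : Kˣ) (β : Set (IrrCharacter (centralizer ({pPart C.p a} : Set H₂.U)))),
    C.Lab n Λ₁ ∧ (∀ i, i ≠ θ → Λ₁ i = Λ i) ∧ res j (Λ₁ θ) = res j (Λ θ) ∧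
    sz C.N (Λ θ) = sz C.N (Λ₁ θ) + j ∧ IsL C.N U.π (U.ch H₁) χ₁ Λ₁ ∧
    C.Lab (j * C.deg θ) Λ₂ ∧ (∀ i, i ≠ θ → Λ₂ i = range C.N) ∧ IsL C.N U.π (U.ch H₂) χ₂ Λ₂ ∧
    x ∈ C.XX (j * C.deg θ) ∧ pPart C.p x = ζ ∧ (H₂.lin a).charpoly = C.mp (j * C.deg θ) x ∧
    IsPBlock C.M β ∧ IsInducedBlock C.M _ β (blockOf C.M χ₂.1) ∧
    br (zpowers (s.φ (1, pPart C.p a))) (idem C.hM B) *
      gm s.φ (tens (idem C.hM (blockOf C.M χ₁.1)) (sidem C.hM _ β)) =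
      gm s.φ (tens (idem C.hM (blockOf C.M χ₁.1)) (sidem C.hM _ β)) := by
  obtain ⟨Λ₁, a1, a2, a3, a4, a, x, a5, a6, a7, a8⟩ := hook U s h₁ h₂ hn hΛ hPL hj hw hζ hζp hζ1
  have L₁ := U.ld H₁ h₁ (by omega)
  have L₂ := U.ld H₂ h₂ (by omega)
  have hθ : C.par θ = θ := by
    by_contra h1
    exact hw (by rw [hPL θ h1, GLH.Df.wt_range])
  obtain ⟨χ₁, e₁⟩ := L₁.exists_chr a1
  obtain ⟨ε, -, e3, e4⟩ := e.symm
  obtain ⟨ε₁, -, e5, e6⟩ := e₁.symm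
  have hu := isUnit_pPart_sub (H := H₂) (by omega) (Nat.mul_pos hj (OD.deg_pos θ)) a5 a7
    (by rwa [a6])
  obtain ⟨β, B₂, g, b1, b2, b3, b4, b5, b6, b7, b8⟩ := stepG C.hM s.inj
    (s.mem_range (fpf_of_isUnit hu)) hB hχ (χ' := χ₁) fun h0 => a8 (by
      rw [e6, e4, pRegularPart_smul', ip_smul_left]
      exact mul_eq_zero_of_right _ ((ip_smul_right _ _ fun D => χ.1 (s.φ (D, a))).trans
        (mul_eq_zero_of_right _ h0)))
  obtain ⟨y, y1, rfl⟩ := L₂.surj g b4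
  have h7 : U.S.ip (n + j * C.deg θ) (U.T (sL C.N U.π Λ₁) * y) (sL C.N U.π Λ) ≠ 0 := by
    rw [ip_mul_eq U s h₁ h₂ hn (L₁.sL_mem a1) y1 (AbsA.sL_mem U.sys hn hΛ) fun v hv => by
      obtain ⟨c, hc⟩ := isConj_iff.1 (b6 v hv)
      refine isUnit_of_fpf fun w hw => ?_
      rw [← hc, mul_smul, mul_smul, smul_eq_iff_eq_inv_smul] at hw
      rw [← smul_inv_smul c w, fpf_of_isUnit hu _ hw, smul_zero]]
    refine fun h0 => b7 ?_
    rw [e5, e3, pRegularPart_smul', show prodFun (ε₁ • pRegularPart C.p (U.ch H₁ (sL C.N U.π Λ₁)))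
      (U.ch H₂ y) = ε₁ • prodFun (pRegularPart C.p (U.ch H₁ (sL C.N U.π Λ₁))) (U.ch H₂ y) from
      funext fun z => mul_assoc .., ip_smul_left]
    exact mul_eq_zero_of_right _ ((ip_smul_right _ _ fun z => U.ch H _ (s.φ z)).trans
      (mul_eq_zero_of_right _ h0))
  obtain ⟨Λ₁', c1, c2, c3⟩ := exists_of_mul_ne U.sys L₁.hn (U.T_mem _ _ (L₁.sL_mem a1)) h7
  obtain ⟨Λ₂, c4, c5, c6⟩ := exists_of_mul_ne U.sys L₂.hn y1 c3
  have c7 := AbsA.sz_add U.sys hn c1 c4 hΛ c6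
  have c8 := OD.cls_plab a1 (fun i hi => by rw [a2 i (by rintro rfl; exact hi hθ), hPL i hi]) c1
    (fun i hi => (AbsA.sz_eq_zero.{0} (c1.1 i)).1 (by
      have := c7 i
      rw [hPL i hi, GLH.Df.sz_range] at this
      omega)) (sc_symm (AbsB.sameCls U.sys C.pdat U.tsys L₁.hn a1 c1 c2))
  obtain ⟨χ₂, e₂⟩ := L₂.exists_chr c4
  obtain ⟨ε₂, -, -, e7⟩ := e₂.symm
  have c9 : χ₂ ∈ B₂ := by
    by_contra hne
    apply c5
    rw [L₂.ip_ch _ y1 _ (L₂.sL_mem c4), e7, ip_smul_right, ← b5, ip_blockPart_of_not_mem _ hne,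
      mul_zero]
  refine ⟨Λ₁, Λ₂, χ₁, χ₂, a, x, β, a1, a2, a3, a4, e₁, c4, fun i hi =>
    (AbsA.sz_eq_zero.{0} (c4.1 i)).1 ?_, e₂, a5, a6, a7, b1, block_eq_blockOf C.hM b2 c9 ▸ b3, b8⟩
  have := c7 i
  rw [(c8 i).1, a2 i hi] at this
  omega

end Hook

theorem isPElt_neg_one (h2 : C.p = 2) : IsPElt C.p (-1 : Kˣ) :=
  isPElt_of_pow_eq_one (k := 1) (by rw [h2]; simp)

theorem neg_one_ne (h2 : C.p = 2) : (-1 : Kˣ) ≠ 1 := fun h =>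
  Ring.neg_one_ne_one_of_char_ne_two (R := F) (fun h' => C.p_ne' (h2.trans h'.symm))
    ((algebraMap F K).injective (by simpa using congrArg Units.val h))

theorem ee_eq_one (h2 : C.p = 2) (θ : C.Th) : C.ee θ = 1 :=
  Nat.dvd_one.1 (by simpa [h2] using OD.ee_dvd_sub_one θ)

theorem neg_one_mem (h2 : C.p = 2) (k : ℕ) : (-1 : Kˣ) ∈ C.XX k := by
  have h1 : C.p ∣ C.cX k := OD.dvd_cX.2 (by
    simpa [h2] using congrArg (· ^ k) (ZMod.pow_card_sub_one_eq_one (OD.t_ne (D := C.toOD))))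
  obtain ⟨c, hc⟩ := h1
  rw [OD.mem_XX'', hc, h2, pow_mul]
  simp

/-- the step with `-1` -/
theorem stepZ (h2 : C.p = 2) (s : Spt H₁ H₂ H) {n j : ℕ} {θ : C.Th} (h₁ : finrank F V₁ = n)
    (h₂ : finrank F V₂ = j * C.deg θ) (hn : n + j * C.deg θ ≤ C.N) {Λ : C.Th → Finset ℕ}
    (hΛ : C.Lab (n + j * C.deg θ) Λ) (hPL : C.PLab Λ) (hj : 0 < j) (hw : wt j (Λ θ) ≠ 0)
    {B : Set (IrrCharacter H.U)} (hB : IsPBlock C.M B) {χ : IrrCharacter H.U} (hχ : χ ∈ B)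
    (e : IsL C.N U.π (U.ch H) χ Λ) :
    ∃ (Λ₁ Λ₂ : C.Th → Finset ℕ) (χ₁ : IrrCharacter H₁.U) (χ₂ : IrrCharacter H₂.U),
      C.Lab n Λ₁ ∧ (∀ i, i ≠ θ → Λ₁ i = Λ i) ∧ res j (Λ₁ θ) = res j (Λ θ) ∧
      sz C.N (Λ θ) = sz C.N (Λ₁ θ) + j ∧ IsL C.N U.π (U.ch H₁) χ₁ Λ₁ ∧
      C.Lab (j * C.deg θ) Λ₂ ∧ (∀ i, i ≠ θ → Λ₂ i = range C.N) ∧ IsL C.N U.π (U.ch H₂) χ₂ Λ₂ ∧
      br (zpowers (s.φ (1, H₂.sc (-1)))) (idem C.hM B) *
        gm s.φ (tens (idem C.hM (blockOf C.M χ₁.1)) (idem C.hM (blockOf C.M χ₂.1))) =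
        gm s.φ (tens (idem C.hM (blockOf C.M χ₁.1)) (idem C.hM (blockOf C.M χ₂.1))) := by
  obtain ⟨Λ₁, Λ₂, χ₁, χ₂, a, x, β, a1, a2, a3, a4, a5, a6, a7, a8, a9, b1, b2, b3, b4, b5⟩ :=
    stepL U s h₁ h₂ hn hΛ hPL hj hw (neg_one_mem h2 _) (isPElt_neg_one h2) (neg_one_ne h2) hB hχ e
  have hk := Nat.mul_pos hj (OD.deg_pos (D := C.toOD) θ)
  have h3 := smul_eq_neg (fpf_of_isUnit (isUnit_pPart_sub (H := H₂) (by omega) hk a9 b2
    (by rw [b1]; exact neg_one_ne h2))) (by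
      rw [← sq, C.pPart_pow_eq_one_iff (by omega)]
      intro y hy
      rw [b2, UC.aeval_mp hk a9] at hy
      obtain ⟨z, c1, c2⟩ := hy
      obtain rfl : z = y := Units.ext c2
      obtain ⟨i, rfl⟩ := OD.mk_eq.1 c1.symm
      rw [pPart_pow, b1, pow_right_comm]
      simp)
  rw [sidem_eq_of_center C.hM (isPElt_pPart _ _) (mem_center_of_neg h3) b3 (isPBlock_blockOf _) b4,
    show pPart C.p a = H₂.sc (-1) from HS.U_ext fun y => by simp [h3, Unitary.coe_neg]] at b5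
  exact ⟨Λ₁, Λ₂, χ₁, χ₂, a1, a2, a3, a4, a5, a6, a7, a8, b5⟩

theorem isPElt_sc_neg (h2 : C.p = 2) : IsPElt C.p (H.sc (-1)) :=
  isPElt_of_pow_eq_one (k := 1) (by rw [h2, ← map_pow]; simp)

theorem sz_of_single {j : ℕ} {θ : C.Th} {Λ : C.Th → Finset ℕ} (h : C.Lab (j * C.deg θ) Λ)
    (h' : ∀ i, i ≠ θ → Λ i = range C.N) : sz C.N (Λ θ) = j :=
  Nat.eq_of_mul_eq_mul_left (OD.deg_pos θ) (by rw [← GLH.Df.eq_of_single h h', mul_comm])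

include U in
theorem eq_of_single_one {θ : C.Th} (hd : 1 * C.deg θ ≤ C.N) {Λ Λ' : C.Th → Finset ℕ}
    (h : C.Lab (1 * C.deg θ) Λ) (h' : C.Lab (1 * C.deg θ) Λ') (s : ∀ i, i ≠ θ → Λ i = range C.N)
    (s' : ∀ i, i ≠ θ → Λ' i = range C.N) : Λ = Λ' := funext fun i => by
  by_cases e : i = θ
  · rw [e]
    exact eq_of_sz_one U.sys (one_mul (C.deg θ) ▸ hd) (h.1 θ) (h'.1 θ) (sz_of_single h s)
      (sz_of_single h' s')
  · rw [s i e, s' i e]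

theorem plab_of_eq {Λ Λ₁ : C.Th → Finset ℕ} {θ : C.Th} {j : ℕ} (hPL : C.PLab Λ)
    (hw : wt j (Λ θ) ≠ 0) (h : ∀ i, i ≠ θ → Λ₁ i = Λ i) : C.PLab Λ₁ := fun i hi => by
  rw [h i (by rintro rfl; exact hw (by rw [hPL i hi, GLH.Df.wt_range])), hPL i hi]

/-- for `p = 2` the sizes determine the block -/
theorem same_block (h2 : C.p = 2) (n : ℕ) : ∀ {V : Type u} [AddCommGroup V] [Module F V]
    [Fintype V] (H : HS F V), finrank F V = n → n ≤ C.N → ∀ {Λ Λ' : C.Th → Finset ℕ}, C.Lab n Λ →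
    C.Lab n Λ' → C.PLab Λ → C.PLab Λ' → (∀ θ, sz C.N (Λ θ) = sz C.N (Λ' θ)) →
    ∀ {χ χ' : IrrCharacter H.U}, IsL C.N U.π (U.ch H) χ Λ → IsL C.N U.π (U.ch H) χ' Λ' →
    blockOf C.M χ.1 = blockOf C.M χ'.1 := by
  induction n using Nat.strong_induction_on with | _ n ih =>
  intro V _ _ _ H hV hn Λ Λ' h h' hp hp' hs χ χ' e e'
  by_cases h0 : ∀ θ, sz C.N (Λ θ) = 0
  · obtain rfl : Λ = Λ' := funext fun θ => by
      rw [(AbsA.sz_eq_zero.{0} (h.1 θ)).1 (h0 θ), (AbsA.sz_eq_zero.{0} (h'.1 θ)).1 (hs θ ▸ h0 θ)]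
    rw [(U.ld H hV hn).chr_unique h e e']
  obtain ⟨θ, hθ⟩ := not_forall.1 h0
  have hw : wt 1 (Λ θ) ≠ 0 := by rwa [GLH.Df.wt_one (h.1 θ)]
  have hw' : wt 1 (Λ' θ) ≠ 0 := by rwa [GLH.Df.wt_one (h'.1 θ), ← hs]
  obtain ⟨m, rfl⟩ := Nat.exists_eq_add_of_le' (le_of_wt U.sys hn h one_pos hw)
  obtain ⟨H₁, H₂, ⟨s⟩⟩ := exists_spt H hV
  obtain ⟨Λ₁, Λ₂, χ₁, χ₂, a1, a2, -, a4, a5, a6, a7, a8, a9⟩ := stepZ U h2 s (by simp) (by simp) hn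
    h hp one_pos hw (isPBlock_blockOf χ) (mem_blockOf_self C.hM χ) e
  obtain ⟨Λ₁', Λ₂', χ₁', χ₂', b1, b2, -, b4, b5, b6, b7, b8, b9⟩ := stepZ U h2 s (by simp) (by simp)
    hn h' hp' one_pos hw' (isPBlock_blockOf χ') (mem_blockOf_self C.hM χ') e'
  obtain rfl := eq_of_single_one U (by omega) a6 b6 a7 b7
  obtain rfl := (U.ld H₂ (by simp) (by omega)).chr_unique a6 a8 b8
  have := OD.deg_pos (D := C.toOD) θ
  rw [← ih m (by omega) H₁ (by simp) (by omega) a1 b1 (plab_of_eq hp hw a2) (plab_of_eq hp' hw' b2)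
    (fun i => by
      by_cases hi : i = θ
      · have := hs θ
        rw [hi]
        omega
      · rw [a2 i hi, b2 i hi, hs]) a5 b5] at b9
  refine block_eq_of_br C.hM (isPBlock_blockOf _) (isPBlock_blockOf _) (IsPElt.isPGroup_zpowers
    ((isPElt_sc_neg h2).map s.snd.ι)) (gm_ne_zero s.inj (tens_ne_zero ?_ ?_)) a9 b9 <;>
  exact idem_ne_zero C.hM (isPBlock_blockOf _)

/-- for `p = 2` one may choose one-row partitions -/
theorem exists_row (h2 : C.p = 2) {n : ℕ} (hV : finrank F V = n) (hn : n ≤ C.N)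
    {Λ : C.Th → Finset ℕ} (h : C.Lab n Λ) (hp : C.PLab Λ) {B : Set (IrrCharacter H.U)}
    (hB : IsPBlock C.M B) {χ : IrrCharacter H.U} (hχ : χ ∈ B) (e : IsL C.N U.π (U.ch H) χ Λ) :
    ∃ Λ', C.Lab n Λ' ∧ C.PLab Λ' ∧ C.Cls Λ' Λ ∧ (∀ θ, sz C.N (Λ' θ) = sz C.N (Λ θ)) ∧
      (∀ θ j, 0 < j → j ≤ sz C.N (Λ θ) → wt j (Λ' θ) ≠ 0) ∧
      ∃ χ' ∈ B, IsL C.N U.π (U.ch H) χ' Λ' := by
  have hs := fun θ => AbsA.row_spec.{0} C.N_pos (sz C.N (Λ θ))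
  have h' : C.Lab n fun θ => row C.N (sz C.N (Λ θ)) :=
    ⟨fun θ => (hs θ).1, by simp only [(hs _).2, h.2]⟩
  have hp' : C.PLab fun θ => row C.N (sz C.N (Λ θ)) := fun θ hθ => by
    simp only [hp θ hθ, GLH.Df.sz_range, AbsA.row_zero.{0} C.N_pos]
  obtain ⟨χ', e'⟩ := (U.ld H hV hn).exists_chr h'
  have hm : χ' ∈ B := by
    rw [block_eq_blockOf C.hM hB hχ, same_block U h2 n H hV hn h h' hp hp' (fun θ => (hs θ).2.symm)
      e e']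
    exact mem_blockOf_self C.hM χ'
  exact ⟨_, h', hp', (U.ld H hV hn).cls_of_block hB hm hχ h' h e' e, fun θ => (hs θ).2,
    fun θ j hj => wt_row C.N_pos hj, χ', hm, e'⟩

/-- weight zero means defect zero -/
theorem defect_zero {n : ℕ} (hV : finrank F V = n) (hn : n ≤ C.N) {Λ : C.Th → Finset ℕ}
    (h : C.Lab n Λ) (hp : C.PLab Λ) (hW : C.W Λ = 0) {B : Set (IrrCharacter H.U)}
    (hB : IsPBlock C.M B) {χ : IrrCharacter H.U} (hχ : χ ∈ B) (e : IsL C.N U.π (U.ch H) χ Λ) :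
    DefGrp C.p ⊤ (idem C.hM B) ⊥ := by
  have L := U.ld H hV hn
  refine (blockDefect_eq_zero_iff_defGrp_bot C.hM hB).1 ((block_eq_singleton_iff C.hM hB hχ).1
    (Set.eq_singleton_iff_unique_mem.2 ⟨hχ, fun ψ hψ => ?_⟩))
  obtain ⟨Λ', a1, a2⟩ := L.all ψ
  obtain rfl : Λ' = Λ := funext fun θ => OD.eq_of_cls h hp a1
    (L.cls_of_block hB hψ hχ a1 h a2 e) (sum_eq_zero_iff.1 hW _ (mem_univ _))
  exact L.chr_unique h a2 e

/-- a generator of the `p`-part of `XX k` -/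
theorem exists_gen (C : UC F K) {k : ℕ} (h0 : 0 < k) (hk : k ≤ C.N) : ∃ ζ ∈ C.XX k, IsPElt C.p ζ ∧
    (∀ y ∈ C.XX k, IsPElt C.p y → y ∈ zpowers ζ) ∧
      ∀ a, C.p ^ a ∣ orderOf ζ ↔ C.p ^ a ∣ C.cX k := by
  obtain ⟨e, he⟩ := exists_pPart_eq_pow C.p (C.γ k)
  have h1 : ∀ y ∈ C.XX k, IsPElt C.p y → y ∈ zpowers (pPart C.p (C.γ k)) := fun y hy hp => by
    rw [← hp.pPart_eq, ← C.γ_dl h0 hk hy, pPart_pow]
    exact pow_mem (mem_zpowers _) _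
  have h2 : pPart C.p (C.γ k) ∈ C.XX k := he ▸ OD.pow_mem_XX (C.γ_mem h0 hk) e
  refine ⟨_, h2, isPElt_pPart _ _, h1, fun a => ⟨fun h => h.trans
    (orderOf_dvd_of_pow_eq_one (OD.mem_XX''.1 h2)), fun h => ?_⟩⟩
  rw [← C.orderOf_γ h0 hk] at h
  have h3 := orderOf_pow_orderOf_div (orderOf_pos _).ne' h
  rw [← h3]
  exact orderOf_dvd_of_mem_zpowers (h1 _ (OD.pow_mem_XX (C.γ_mem h0 hk) _) ⟨a, h3⟩)

end GUH.Df
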