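import Cfsg.Agent.Lib.GU.WallD
import Cfsg.Agent.Lib.GL.Abs
import Mathlib.Algebra.MonoidAlgebra.Basic

/-!
# The Ennola model: an abstract algebra with values on the types (interface)
-/

set_option autoImplicit false
set_option linter.unusedSectionVars false

namespace GUH

open Finset GLH GUW
open scoped Classical ComplexConjugate

variable {ι : Type} [Fintype ι]

/-- the types of size `n` (for positive `d`) -/
noncomputable def Ty (d : ι → ℕ) (n : ℕ) : Finset (ι → Multiset ℕ) :=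
  (Fintype.piFinset fun _ => (range (n + 1)).biUnion Par).filter fun τ => tsz d τ = n

/-- the centraliser order with parameter `t` -/
noncomputable def aT (d : ι → ℕ) (t : ℂ) (τ : ι → Multiset ℕ) : ℂ := ∏ θ, aa (τ θ) (t ^ d θ)

/-- the dimension of the space of homomorphisms -/
def hT (d : ι → ℕ) (τ τ' : ι → Multiset ℕ) : ℕ := ∑ θ, d θ * hm (τ θ) (τ' θ)

/-- the order of the centraliser in the unitary group -/
noncomputable def aU (d : ι → ℕ) (q : ℕ) (τ : ι → Multiset ℕ) : ℂ :=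
  (-1) ^ tsz d τ * aT d (-(q : ℂ)) τ

/-- the algebra carrying the model -/
abbrev Al (ι : Type) : Type := AddMonoidAlgebra ℂ (ι → Multiset ℕ)

/-- the Ennola model of the class functions of the groups `U_n(q)`, `n ≤ N` -/
structure EM (d : ι → ℕ) (q N : ℕ) (A : Type) [CommRing A] [Algebra ℂ A] where
  /-- the graded structure -/
  S : PSH A
  /-- class primitives -/
  cv : ι → ℕ → A
  /-- values on types -/
  val : A →ₗ[ℂ] (ι → Multiset ℕ) → ℂ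
  /-- pointwise multiplication by a multiplicative function -/
  mu : (ι → ℂ) → A →ₐ[ℂ] A
  /-- the trivial characters -/
  h : ℕ → A
  prim : ∀ θ k, 0 < k → cv θ k ∈ S.Pr (k * d θ)
  orth : ∀ θ θ' k l, 0 < k → 0 < l → k * d θ = l * d θ' → S.ip (k * d θ) (cv θ k) (cv θ' l) =
    if θ = θ' then (k : ℂ) / ((q : ℂ) ^ (k * d θ) - (-1) ^ (k * d θ)) else 0
  span : ∀ n x, 0 < n → x ∈ S.Pr n →
    x ∈ Submodule.span ℂ {y | ∃ θ k, k * d θ = n ∧ y = cv θ k}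
  mu_cv : ∀ c θ k, mu c (cv θ k) = c θ ^ k • cv θ k
  mu_mu : ∀ c c' x, mu c (mu c' x) = mu (c * c') x
  mu_one : ∀ x, mu 1 x = x
  mu_mem : ∀ c n x, x ∈ S.Hn n → mu c x ∈ S.Hn n
  mu_pr : ∀ c n x, x ∈ S.Pr n → mu c x ∈ S.Pr n
  mu_adj : ∀ c n x y, S.ip n (mu c x) y = S.ip n x (mu (fun θ => conj (c θ)) y)
  h_rel : ExpRel (fun n => ∑ θ with d θ ∣ n, (d θ : ℂ) • cv θ (n / d θ)) h
  h_mem : ∀ n, h n ∈ S.Hn n
  aU_ne : ∀ τ, aU d q τ ≠ 0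
  ip_val : ∀ n ≤ N, ∀ x ∈ S.Hn n, ∀ y ∈ S.Hn n,
    S.ip n x y = ∑ τ ∈ Ty d n, val x τ * conj (val y τ) / aU d q τ
  surj : ∀ n ≤ N, ∀ f : (ι → Multiset ℕ) → ℂ, ∃ x ∈ S.Hn n, ∀ τ ∈ Ty d n, val x τ = f τ
  val_mu : ∀ c, ∀ n ≤ N, ∀ x ∈ S.Hn n, ∀ τ ∈ Ty d n,
    val (mu c x) τ = (∏ θ, c θ ^ (τ θ).sum) * val x τ
  val_h : ∀ n ≤ N, ∀ τ ∈ Ty d n, val (h n) τ = 1
  /-- the Weil kernel is `H H^⊥` up to signs -/
  theta : ∀ m ≤ N, ∀ n ≤ N, ∀ x ∈ S.Hn m, ∀ y ∈ S.Hn n, ∀ D E : ℕ → A,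
    (∀ r ≤ m, D r ∈ S.Hn r ∧ ∀ z ∈ S.Hn r, S.ip m (z * h (m - r)) x = S.ip r z (D r)) →
    (∀ r ≤ n, E r ∈ S.Hn r ∧ ∀ z ∈ S.Hn r, S.ip n (z * h (n - r)) y = S.ip r z (E r)) →
    ∑ τ ∈ Ty d m, ∑ τ' ∈ Ty d n, (-(q : ℂ)) ^ hT d τ τ' * val x τ * conj (val y τ') /
      (aU d q τ * aU d q τ') = ∑ r ∈ range (min m n + 1), (-1) ^ r * S.ip r (D r) (E r)
  /-- products of functions with disjoint spectra -/
  ip_mul : ∀ (R : ι → Prop) (a b : ℕ), a + b ≤ N → ∀ f ∈ S.Hn a, ∀ g ∈ S.Hn b, ∀ y ∈ S.Hn (a + b),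
    (∀ τ ∈ Ty d a, val f τ ≠ 0 → ∀ θ, τ θ ≠ 0 → R θ) →
    (∀ τ ∈ Ty d b, val g τ ≠ 0 → ∀ θ, τ θ ≠ 0 → ¬ R θ) →
    S.ip (a + b) (f * g) y = ∑ τ ∈ Ty d a, ∑ τ' ∈ Ty d b,
      val f τ * val g τ' * conj (val y (τ + τ')) / (aU d q τ * aU d q τ')

theorem em_realise_eqns : True := by
  have := @Ty.eq_1
  have := @aT.eq_1
  have := @hT.eq_1
  have := @aU.eq_1
  trivial

theorem mem_Par' {k : ℕ} {ν : Multiset ℕ} : ν ∈ Par k ↔ 0 ∉ ν ∧ ν.sum = k := by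
  simp only [Par, mem_image, mem_univ, true_and]
  exact ⟨fun ⟨P, h⟩ => h ▸ ⟨fun h0 => (P.parts_pos h0).false, P.parts_sum⟩,
    fun h => ⟨⟨ν, fun hi => Nat.pos_of_ne_zero fun e => h.1 (e ▸ hi), h.2⟩, rfl⟩⟩

theorem le_tsz {d : ι → ℕ} (τ : ι → Multiset ℕ) (θ : ι) : d θ * (τ θ).sum ≤ tsz d τ :=
  single_le_sum (f := fun θ => d θ * (τ θ).sum) (fun _ _ => Nat.zero_le _) (mem_univ θ)

theorem mem_Ty {d : ι → ℕ} (hd : ∀ θ, 0 < d θ) {n : ℕ} {τ : ι → Multiset ℕ} :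
    τ ∈ Ty d n ↔ (∀ θ, 0 ∉ τ θ) ∧ tsz d τ = n := by
  simp only [Ty, mem_filter, Fintype.mem_piFinset, mem_biUnion, mem_range, mem_Par']
  refine and_congr_left fun h => forall_congr' fun θ => ⟨fun ⟨_, _, h, _⟩ => h, fun h0 => ⟨_, ?_, h0, rfl⟩⟩
  exact Nat.lt_succ_of_le ((Nat.le_mul_of_pos_left _ (hd θ)).trans (h ▸ le_tsz τ θ))

theorem tsz_add (d : ι → ℕ) (τ τ' : ι → Multiset ℕ) : tsz d (τ + τ') = tsz d τ + tsz d τ' := by
  simp [tsz, mul_add, sum_add_distrib]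

theorem add_mem_Ty {d : ι → ℕ} (hd : ∀ θ, 0 < d θ) {a b : ℕ} {τ τ' : ι → Multiset ℕ}
    (h : τ ∈ Ty d a) (h' : τ' ∈ Ty d b) : τ + τ' ∈ Ty d (a + b) := by
  rw [mem_Ty hd] at h h' ⊢
  exact ⟨fun θ => by simp [h.1 θ, h'.1 θ], by rw [tsz_add, h.2, h'.2]⟩

theorem map_aa {K L : Type*} [Field K] [Field L] (f : K →+* L) (ν : Multiset ℕ) (t : K) :
    f (aa ν t) = aa ν (f t) := by
  simp [aa, map_prod]

theorem cast_aT (d : ι → ℕ) (t : ℚ) (τ : ι → Multiset ℕ) :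
    ((∏ θ, aa (τ θ) (t ^ d θ) : ℚ) : ℂ) = aT d t τ := by
  rw [aT, Rat.cast_prod]
  exact prod_congr rfl fun θ _ => (map_aa (Rat.castHom ℂ) _ _).trans (by simp)

theorem conj_aT (d : ι → ℕ) (t : ℂ) (τ : ι → Multiset ℕ) : conj (aT d t τ) = aT d (conj t) τ := by
  simp only [aT, map_prod, map_aa, map_pow]

/-- averages of class functions as sums over representatives -/
theorem avg_eq {Γ κ : Type*} [Group Γ] [Fintype Γ] (T : Finset κ) (r : κ → Γ) {f : Γ → ℂ}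
    (hf : ∀ g x, f (x * g * x⁻¹) = f g) (h1 : ∀ g, f g ≠ 0 → ∃ k ∈ T, IsConj (r k) g)
    (h2 : ∀ k ∈ T, ∀ l ∈ T, IsConj (r k) (r l) → k = l) :
    (Nat.card Γ : ℂ)⁻¹ * ∑ g, f g =
      ∑ k ∈ T, f (r k) / Nat.card (Subgroup.centralizer ({r k} : Set Γ)) := by
  have h0 : (Nat.card Γ : ℂ) ≠ 0 := Nat.cast_ne_zero.2 Nat.card_pos.ne'
  have a1 : ∀ g, f g = ∑ k ∈ T, if IsConj (r k) g then f (r k) else 0 := fun g => by
    by_cases e : ∃ k ∈ T, IsConj (r k) g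
    · obtain ⟨k, hk, e⟩ := e
      rw [sum_eq_single_of_mem k hk fun l hl hne => if_neg fun e' => hne (h2 l hl k hk (e'.trans e.symm)),
        if_pos e]
      obtain ⟨x, rfl⟩ := isConj_iff.1 e
      exact hf _ _
    · rw [sum_eq_zero fun k hk => if_neg fun e' => e ⟨k, hk, e'⟩]
      by_contra h
      exact e (h1 g h)
  rw [sum_congr rfl fun g _ => a1 g, sum_comm, mul_sum]
  refine sum_congr rfl fun k _ => ?_
  have a2 := MulAction.card_orbit_mul_card_stabilizer_eq_card_group (ConjAct Γ) (r k)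
  have a3 : Nat.card (Subgroup.centralizer ({r k} : Set Γ)) =
      Fintype.card (MulAction.stabilizer (ConjAct Γ) (r k)) := by
    rw [Subgroup.nat_card_centralizer_nat_card_stabilizer, Nat.card_eq_fintype_card]
  have a4 : (univ.filter fun g => IsConj (r k) g).card =
      Fintype.card (MulAction.orbit (ConjAct Γ) (r k)) := by
    rw [← Fintype.card_subtype]
    exact Fintype.card_congr (Equiv.subtypeEquivRight fun g => by
      rw [ConjAct.mem_orbit_conjAct, isConj_comm])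
  have a5 : (Fintype.card (MulAction.stabilizer (ConjAct Γ) (r k)) : ℂ) ≠ 0 :=
    Nat.cast_ne_zero.2 Fintype.card_ne_zero
  rw [← sum_filter, sum_const, nsmul_eq_mul, a4, a3, eq_div_iff a5, mul_assoc,
    inv_mul_eq_iff_eq_mul₀ h0, mul_right_comm, ← Nat.cast_mul, a2, Nat.card_eq_fintype_card]
  rfl

end GUH
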