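import Cfsg.Agent.Lib.GU.WallD
import Mathlib.LinearAlgebra.Charpoly.ToMatrix
import Mathlib.LinearAlgebra.Matrix.Charpoly.Minpoly
import Mathlib.RingTheory.Polynomial.Basic

/-!
# Types of linear operators: generic facts
-/

set_option autoImplicit false
set_option linter.unusedSectionVars false

namespace GUW

open Polynomial Module Finset
open scoped Classical

universe u v w

variable {F : Type u} [Field F] {ι : Type w} [Fintype ι] {P : ι → F[X]} {d : ι → ℕ} {τ τ' : ι → Multiset ℕ}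

section Comb

@[simp] theorem hk_zero (j : ℕ) : hk j 0 = 0 := by simp [hk]
@[simp] theorem hk_add (j : ℕ) (μ ν : Multiset ℕ) : hk j (μ + ν) = hk j μ + hk j ν := by simp [hk]
@[simp] theorem hk_single (j k : ℕ) : hk j {k} = min j k := by simp [hk]
@[simp] theorem hk_cons (j k : ℕ) (μ : Multiset ℕ) : hk j (k ::ₘ μ) = min j k + hk j μ := by simp [hk]
@[simp] theorem hm_zero (μ : Multiset ℕ) : hm 0 μ = 0 := by simp [hm]
@[simp] theorem hm_add (ν ν' μ : Multiset ℕ) : hm (ν + ν') μ = hm ν μ + hm ν' μ := by simp [hm]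
@[simp] theorem hm_single (k : ℕ) (μ : Multiset ℕ) : hm {k} μ = hk k μ := by simp [hm]
@[simp] theorem hm_cons (k : ℕ) (ν μ : Multiset ℕ) : hm (k ::ₘ ν) μ = hk k μ + hm ν μ := by simp [hm]

theorem hm_cons_right (k : ℕ) (ν μ : Multiset ℕ) : hm ν (k ::ₘ μ) = hk k ν + hm ν μ := by
  induction ν using Multiset.induction_on with
  | empty => simp
  | cons a ν ih => simp [ih, min_comm]; omega

theorem hm_comm (ν μ : Multiset ℕ) : hm ν μ = hm μ ν := by
  induction ν using Multiset.induction_on with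
  | empty => simp [hm]
  | cons a ν ih => rw [hm_cons, hm_cons_right, ih]

theorem hk_of_le {j : ℕ} {μ : Multiset ℕ} (h : ∀ b ∈ μ, b ≤ j) : hk j μ = μ.sum := by
  rw [hk, Multiset.map_congr rfl fun b hb => min_eq_right (h b hb), Multiset.map_id']

theorem hk_succ (j : ℕ) (μ : Multiset ℕ) : hk (j + 1) μ = hk j μ + μ.countP (j < ·) := by
  induction μ using Multiset.induction_on with
  | empty => simp
  | cons a ν ih => simp only [hk_cons, ih, Multiset.countP_cons]; split_ifs <;> omega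

theorem countP_succ (j : ℕ) (μ : Multiset ℕ) : μ.countP (j < ·) = μ.count (j + 1) + μ.countP (j + 1 < ·) := by
  induction μ using Multiset.induction_on with
  | empty => simp
  | cons a ν ih => simp only [ih, Multiset.countP_cons, Multiset.count_cons]; split_ifs <;> omega

theorem eq_of_hk {μ ν : Multiset ℕ} (h0 : 0 ∉ μ) (h0' : 0 ∉ ν) (h : ∀ j, hk j μ = hk j ν) : μ = ν := by
  have h1 : ∀ j, μ.countP (j < ·) = ν.countP (j < ·) := fun j => by
    have := hk_succ j μ
    have := hk_succ j ν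
    have := h j
    have := h (j + 1)
    omega
  ext (_ | j)
  · rw [Multiset.count_eq_zero.2 h0, Multiset.count_eq_zero.2 h0']
  · have := countP_succ j μ
    have := countP_succ j ν
    have := h1 j
    have := h1 (j + 1)
    omega

theorem hk_top {k : ℕ} {μ : Multiset ℕ} (h : ∀ b ∈ μ, b ≤ k + 1) : hk k μ + μ.count (k + 1) = μ.sum := by
  rw [← hk_of_le h, hk_succ, countP_succ, Multiset.countP_eq_zero.2 fun b hb => not_lt.2 (h b hb), add_zero]

theorem aa_erase {K : Type*} [Field K] {ν : Multiset ℕ} {k : ℕ} (hk : k ∈ ν) (hle : ∀ j ∈ ν, j ≤ k) (t : K) :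
    aa ν t * t ^ k = aa (ν.erase k) t * (t ^ (2 * ν.sum) * (1 - (t ^ ν.count k)⁻¹)) := by
  obtain ⟨μ, rfl⟩ := Multiset.exists_cons_of_mem hk
  have h1 : hm (k ::ₘ μ) (k ::ₘ μ) + k = hm μ μ + 2 * (k ::ₘ μ).sum := by
    rw [hm_cons, hm_cons_right, hk_cons, hk_of_le fun b hb => hle b (Multiset.mem_cons_of_mem hb), Multiset.sum_cons]
    omega
  have h2 : ∀ s : Finset ℕ, μ.toFinset ⊆ s → ∏ a ∈ μ.toFinset, ∏ j ∈ range (μ.count a), (1 - (t ^ (j + 1))⁻¹) =
      ∏ a ∈ s, ∏ j ∈ range (μ.count a), (1 - (t ^ (j + 1))⁻¹) := fun s hs =>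
    prod_subset hs fun a _ ha => by rw [Multiset.count_eq_zero.2 (by simpa using ha), range_zero, prod_empty]
  have h3 : ∏ a ∈ (insert k μ.toFinset).erase k, ∏ j ∈ range ((k ::ₘ μ).count a), (1 - (t ^ (j + 1))⁻¹) =
      ∏ a ∈ (insert k μ.toFinset).erase k, ∏ j ∈ range (μ.count a), (1 - (t ^ (j + 1))⁻¹) :=
    prod_congr rfl fun a ha => by rw [Multiset.count_cons_of_ne (ne_of_mem_erase ha)]
  rw [Multiset.erase_cons_head, aa, aa, h2 (insert k μ.toFinset) (subset_insert _ _), Multiset.toFinset_cons,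
    ← mul_prod_erase _ _ (mem_insert_self k _), ← mul_prod_erase _ _ (mem_insert_self k _), Multiset.count_cons_self,
    prod_range_succ, h3]
  linear_combination ((∏ j ∈ range (μ.count k), (1 - (t ^ (j + 1))⁻¹)) * (1 - (t ^ (μ.count k + 1))⁻¹) *
    ∏ a ∈ (insert k μ.toFinset).erase k, ∏ j ∈ range (μ.count a), (1 - (t ^ (j + 1))⁻¹)) *
    ((pow_add t _ _).symm.trans ((congrArg (t ^ ·) h1).trans (pow_add t _ _)))

theorem aa_zero {K : Type*} [Field K] (t : K) : aa 0 t = 1 := by simp [aa]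

theorem tsz_add (d : ι → ℕ) (τ τ' : ι → Multiset ℕ) : tsz d (τ + τ') = tsz d τ + tsz d τ' := by
  simp [tsz, mul_add, sum_add_distrib]

theorem tsz_single (d : ι → ℕ) (θ : ι) (k : ℕ) : tsz d (Pi.single θ {k}) = d θ * k := by
  rw [tsz, sum_eq_single θ (fun b _ hb => by simp [hb]) (by simp)]
  simp

theorem update_add {θ : ι} {k : ℕ} (hk : k ∈ τ θ) :
    Function.update τ θ ((τ θ).erase k) + Pi.single θ {k} = τ := by
  ext1 θ'
  by_cases h : θ' = θ
  · subst h
    rw [Pi.add_apply, Function.update_self, Pi.single_eq_same, add_comm, Multiset.singleton_add, Multiset.cons_erase hk]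
  · simp [h]

end Comb

section Lin
variable {V V' W : Type*} [AddCommGroup V] [Module F V] [AddCommGroup V'] [Module F V'] [AddCommGroup W] [Module F W]
  {T : End F V} {T' : End F V'} {S : End F W}

theorem mem_Hom {X : V →ₗ[F] V'} : X ∈ Hom T T' ↔ ∀ v, X (T v) = T' (X v) := Iff.rfl

theorem Hom.aeval {X : V →ₗ[F] V'} (h : X ∈ Hom T T') (a : F[X]) (v : V) : X (aeval T a v) = aeval T' a (X v) := by
  induction a using Polynomial.induction_on' with
  | add a b ha hb => simp [ha, hb]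
  | monomial n c =>
    have : ∀ v, X ((T ^ n) v) = (T' ^ n) (X v) := by
      induction n with
      | zero => simp
      | succ n ih => intro v; rw [pow_succ, pow_succ, End.mul_apply, End.mul_apply, ih, h]
    simp [aeval_monomial, this]

theorem kd_congr (e : V ≃ₗ[F] W) (he : ∀ v, e (T v) = S (e v)) (a : F[X]) : kd T a = kd S a := by
  have : (LinearMap.ker (aeval T a)).map e.toLinearMap = LinearMap.ker (aeval S a) := by
    ext x
    obtain ⟨x, rfl⟩ := e.surjective x
    have := Hom.aeval (X := e.toLinearMap) he a x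
    simp only [LinearEquiv.coe_coe] at this
    simp [← this]
  rw [kd, kd, ← this, e.finrank_map_eq]

theorem HT.congr (h : HT P d T τ) (e : V ≃ₗ[F] W) (he : ∀ v, e (T v) = S (e v)) : HT P d S τ :=
  ⟨h.pos, e.finrank_eq ▸ h.dim, fun θ j => kd_congr e he _ ▸ h.ker θ j⟩

theorem aeval_prodMap (a : F[X]) : aeval (T.prodMap T' : End F (V × V')) a = (aeval T a).prodMap (aeval T' a) :=
  LinearMap.ext fun x => Prod.ext (Hom.aeval (X := LinearMap.fst F V V') (fun _ => rfl) a x)
    (Hom.aeval (X := LinearMap.snd F V V') (fun _ => rfl) a x)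

theorem kd_prod [FiniteDimensional F V] [FiniteDimensional F V'] (a : F[X]) :
    kd (T.prodMap T' : End F (V × V')) a = kd T a + kd T' a := by
  rw [kd, aeval_prodMap, LinearMap.ker_prodMap, kd, kd, ← finrank_prod]
  exact LinearEquiv.finrank_eq
    { toFun := fun x => (⟨x.1.1, x.2.1⟩, ⟨x.1.2, x.2.2⟩), invFun := fun x => ⟨(x.1, x.2), x.1.2, x.2.2⟩
      map_add' := fun _ _ => rfl, map_smul' := fun _ _ => rfl }

theorem HT.prod [FiniteDimensional F V] [FiniteDimensional F V'] (h : HT P d T τ) (h' : HT P d T' τ') :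
    HT P d (T.prodMap T' : End F (V × V')) (τ + τ') :=
  ⟨fun θ e => (Multiset.mem_add.1 e).elim (h.pos θ) (h'.pos θ), by rw [finrank_prod, h.dim, h'.dim, tsz_add],
    fun θ j => by rw [kd_prod, h.ker, h'.ker, Pi.add_apply, hk_add, mul_add]⟩

theorem exists_equiv {i : V →ₗ[F] W} {j : V' →ₗ[F] W} (hi : Function.Injective i) (hj : Function.Injective j)
    (c : IsCompl (LinearMap.range i) (LinearMap.range j)) : ∃ e : (V × V') ≃ₗ[F] W, ∀ x y, e (x, y) = i x + j y :=
  ⟨((LinearEquiv.ofInjective i hi).prodCongr (LinearEquiv.ofInjective j hj)).trans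
    (Submodule.prodEquivOfIsCompl _ _ c), fun _ _ => rfl⟩

theorem HT.of_compl [FiniteDimensional F V] {D D' : Submodule F V} (c : IsCompl D D') {S : End F D} {S' : End F D'}
    (r : D.subtype ∈ Hom S T) (r' : D'.subtype ∈ Hom S' T) (h : HT P d S τ) (h' : HT P d S' τ') :
    HT P d T (τ + τ') :=
  (h.prod h').congr (Submodule.prodEquivOfIsCompl _ _ c) fun x =>
    (congrArg₂ (· + ·) (r x.1) (r' x.2)).trans (map_add T _ _).symm

theorem HT.unique (p : Fam P d) (h : HT P d T τ) (h' : HT P d T τ') : τ = τ' :=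
  funext fun θ => eq_of_hk (h.pos θ) (h'.pos θ) fun j =>
    Nat.eq_of_mul_eq_mul_left (p.pos θ) ((h.ker θ j).symm.trans (h'.ker θ j))

theorem kd_mul [FiniteDimensional F V] {a b : F[X]} (h : IsCoprime a b) : kd T (a * b) = kd T a + kd T b := by
  rw [kd, kd, kd, ← sup_ker_aeval_eq_ker_aeval_mul_of_coprime T h, ← Submodule.finrank_sup_add_finrank_inf_eq,
    (disjoint_ker_aeval_of_isCoprime T h).eq_bot, finrank_bot, add_zero]

theorem HT.sp [FiniteDimensional F V] (p : Fam P d) (h : HT P d T τ) : Sp P T := by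
  obtain ⟨N, hN⟩ : ∃ N, ∀ θ, ∀ b ∈ τ θ, b ≤ N :=
    ⟨∑ θ, (τ θ).sum, fun θ b hb => (Multiset.single_le_sum (by simp) b hb).trans
      (single_le_sum (f := fun θ => (τ θ).sum) (by simp) (mem_univ θ))⟩
  have key : ∀ s : Finset ι, kd T (∏ θ ∈ s, P θ ^ N) = ∑ θ ∈ s, d θ * (τ θ).sum := fun s => by
    induction s using Finset.induction_on with
    | empty => rw [prod_empty, kd, map_one, End.one_eq_id, LinearMap.ker_id, finrank_bot, sum_empty]
    | insert a s ha ih =>
      rw [prod_insert ha, sum_insert ha, kd_mul (IsCoprime.prod_right fun b hb =>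
        (p.cop a b fun e => ha (e ▸ hb)).pow), ih, h.ker, hk_of_le (hN a)]
  refine ⟨N, ?_⟩
  rw [← map_pow, ← prod_pow, ← LinearMap.ker_eq_top]
  exact Submodule.eq_top_of_finrank_eq ((key univ).trans h.dim.symm)

theorem finrank_adj {f : F[X]} (hf : f.Monic) : finrank F (AdjoinRoot f) = f.natDegree :=
  (AdjoinRoot.powerBasis' hf).finrank

theorem aeval_mr (f a : F[X]) (x : AdjoinRoot f) : aeval (mr f) a x = AdjoinRoot.mk f a * x := by
  rw [← AdjoinRoot.aeval_eq]
  exact LinearMap.congr_fun (aeval_algHom_apply (Algebra.lmul F (AdjoinRoot f)) (AdjoinRoot.root f) a) x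

theorem kd_mr_dvd {f g : F[X]} (hf : f.Monic) (hg : g.Monic) (h : g ∣ f) : kd (mr f) g = g.natDegree := by
  have := hf.finite_adjoinRoot
  let π := (AdjoinRoot.algHomOfDvd F f g h).toLinearMap
  have hπ : ∀ a, π (AdjoinRoot.mk f a) = AdjoinRoot.mk g a := fun a => by
    rw [← AdjoinRoot.aeval_eq, ← AdjoinRoot.aeval_eq, ← AdjoinRoot.algHomOfDvd_root (R := F) f g h, aeval_algHom_apply]
    rfl
  have h1 : LinearMap.ker π = LinearMap.range (aeval (mr f) g) := by
    ext x
    obtain ⟨a, rfl⟩ := AdjoinRoot.mk_surjective x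
    rw [LinearMap.mem_ker, hπ, AdjoinRoot.mk_eq_zero]
    constructor
    · rintro ⟨c, rfl⟩
      exact ⟨AdjoinRoot.mk f c, by rw [aeval_mr, map_mul]⟩
    · rintro ⟨y, hy⟩
      obtain ⟨c, rfl⟩ := AdjoinRoot.mk_surjective y
      rw [aeval_mr, ← map_mul, AdjoinRoot.mk_eq_mk] at hy
      exact (dvd_sub_right (dvd_mul_right g c)).1 (h.trans hy)
  have h2 : LinearMap.range π = ⊤ := LinearMap.range_eq_top.2 fun x => by
    obtain ⟨a, rfl⟩ := AdjoinRoot.mk_surjective x
    exact ⟨_, hπ a⟩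
  have h3 := π.finrank_range_add_finrank_ker
  have h4 := (aeval (mr f) g).finrank_range_add_finrank_ker
  rw [h1, h2, finrank_top, finrank_adj hg] at h3
  rw [kd]
  omega

theorem Fam.kd_mr (p : Fam P d) (θ θ' : ι) (k j : ℕ) :
    kd (mr (P θ ^ k)) (P θ' ^ j) = d θ' * hk j ((Pi.single θ {k} : ι → Multiset ℕ) θ') := by
  by_cases h : θ' = θ
  · subst h
    rw [Pi.single_eq_same, hk_single]
    rcases le_total j k with e | e
    · rw [kd_mr_dvd ((p.monic _).pow _) ((p.monic _).pow _) (pow_dvd_pow _ e), (p.monic _).natDegree_pow, p.deg,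
        min_eq_left e, mul_comm]
    · have : aeval (mr (P θ' ^ k)) (P θ' ^ j) = 0 := LinearMap.ext fun x => by
        rw [aeval_mr, AdjoinRoot.mk_eq_zero.2 (pow_dvd_pow _ e), zero_mul, LinearMap.zero_apply]
      rw [kd, this, LinearMap.ker_zero, finrank_top, finrank_adj ((p.monic _).pow _), (p.monic _).natDegree_pow, p.deg,
        min_eq_right e, mul_comm]
  · obtain ⟨a, b, e⟩ := (p.cop θ' θ h).pow (m := j) (n := k)
    have : LinearMap.ker (aeval (mr (P θ ^ k)) (P θ' ^ j)) = ⊥ := LinearMap.ker_eq_bot'.2 fun x hx => by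
      have e' := congrArg (AdjoinRoot.mk (P θ ^ k)) e
      rw [map_add, map_mul, map_mul, AdjoinRoot.mk_self, mul_zero, add_zero, map_one] at e'
      rw [aeval_mr] at hx
      rw [← one_mul x, ← e', mul_assoc, hx, mul_zero]
    rw [Pi.single_eq_of_ne h, hk_zero, mul_zero, kd, this, finrank_bot]

theorem Fam.ht_mr (p : Fam P d) (θ : ι) {k : ℕ} (hk : 0 < k) : HT P d (mr (P θ ^ k)) (Pi.single θ {k}) :=
  ⟨fun θ' h => by
    by_cases e : θ' = θ
    · subst e
      rw [Pi.single_eq_same, Multiset.mem_singleton] at h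
      omega
    · simp [e] at h,
    by rw [finrank_adj ((p.monic _).pow _), (p.monic _).natDegree_pow, p.deg, tsz_single, mul_comm], (p.kd_mr θ · k)⟩

/-- the map `a ↦ a(T) v` -/
theorem exists_L {f : F[X]} {v : V} (h : aeval T f v = 0) :
    ∃ L : AdjoinRoot f →ₗ[F] V, ∀ a, L (AdjoinRoot.mk f a) = aeval T a v := by
  obtain ⟨s, hs⟩ := (AdjoinRoot.mkₐ f).toLinearMap.exists_rightInverse_of_surjective
    (LinearMap.range_eq_top.2 AdjoinRoot.mk_surjective)
  refine ⟨LinearMap.applyₗ v ∘ₗ (aeval T).toLinearMap ∘ₗ s, fun a => ?_⟩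
  obtain ⟨c, hc⟩ := AdjoinRoot.mk_eq_mk.1 (LinearMap.congr_fun hs (AdjoinRoot.mk f a))
  change aeval T (s (AdjoinRoot.mk f a)) v = _
  rw [eq_add_of_sub_eq hc, map_add, mul_comm, map_mul, LinearMap.add_apply, End.mul_apply, h, map_zero, zero_add]

theorem mr_apply (f : F[X]) (x : AdjoinRoot f) : mr f x = AdjoinRoot.root f * x := rfl

theorem hom_of_L {f : F[X]} {v : V} {L : AdjoinRoot f →ₗ[F] V} (h : ∀ a, L (AdjoinRoot.mk f a) = aeval T a v) :
    L ∈ Hom (mr f) T := fun x => by
  obtain ⟨a, rfl⟩ := AdjoinRoot.mk_surjective x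
  rw [mr_apply, ← AdjoinRoot.mk_X, ← map_mul, h, h, map_mul, aeval_X, End.mul_apply]

theorem Hom.mr_mk {f : F[X]} {L : AdjoinRoot f →ₗ[F] V} (h : L ∈ Hom (mr f) T) (a : F[X]) :
    L (AdjoinRoot.mk f a) = Polynomial.aeval T a (L 1) := by
  rw [← Hom.aeval h, aeval_mr, mul_one]

theorem Spl.equiv {f : F[X]} {L : AdjoinRoot f →ₗ[F] V} {D : Submodule F V} {S : End F D} (s : Spl T f L D S) :
    ∃ e : (AdjoinRoot f × D) ≃ₗ[F] V, (∀ x y, e (x, y) = L x + y) ∧
      ∀ x, e (((mr f).prodMap S : End F (AdjoinRoot f × D)) x) = T (e x) := by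
  obtain ⟨e, he⟩ := exists_equiv s.inj D.injective_subtype (by rw [D.range_subtype]; exact s.compl)
  refine ⟨e, he, fun x => ?_⟩
  rw [LinearMap.prodMap_apply, he, he, map_add, s.hom, s.res]

theorem finrank_hom_mr [FiniteDimensional F V'] (f : F[X]) : finrank F (Hom (mr f) T') = kd T' f := by
  refine LinearEquiv.finrank_eq (LinearEquiv.ofBijective
    (LinearMap.codRestrict _ (LinearMap.applyₗ 1 ∘ₗ (Hom (mr f) T').subtype) fun L => ?_) ⟨fun L L' e => ?_, fun v => ?_⟩)
  · exact (Hom.mr_mk L.2 f).symm.trans (by rw [AdjoinRoot.mk_self, map_zero])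
  · refine Subtype.ext (LinearMap.ext fun x => ?_)
    obtain ⟨a, rfl⟩ := AdjoinRoot.mk_surjective x
    rw [Hom.mr_mk L.2, Hom.mr_mk L'.2]
    exact congrArg _ (congrArg Subtype.val e)
  · obtain ⟨L, hL⟩ := exists_L (T := T') v.2
    exact ⟨⟨L, hom_of_L hL⟩, Subtype.ext (show L 1 = v by simpa using hL 1)⟩

theorem finrank_hom_congr (e : V ≃ₗ[F] W) (he : ∀ v, e (T v) = S (e v)) :
    finrank F (Hom S T') = finrank F (Hom T T') :=
  LinearEquiv.finrank_eq
    { toFun := fun X => ⟨X.1 ∘ₗ e.toLinearMap, fun v => by simpa [he] using X.2 (e v)⟩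
      invFun := fun X => ⟨X.1 ∘ₗ e.symm.toLinearMap, fun w => by
        obtain ⟨v, rfl⟩ := e.surjective w
        simpa [← he] using X.2 v⟩
      map_add' := fun _ _ => rfl, map_smul' := fun _ _ => rfl
      left_inv := fun X => by ext; simp
      right_inv := fun X => by ext; simp }

theorem finrank_hom_prod [FiniteDimensional F V] [FiniteDimensional F V'] [FiniteDimensional F W] :
    finrank F (Hom (T.prodMap S : End F (V × W)) T') = finrank F (Hom T T') + finrank F (Hom S T') := by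
  rw [← finrank_prod]
  exact LinearEquiv.finrank_eq
    { toFun := fun X => (⟨X.1 ∘ₗ LinearMap.inl F V W, fun v => by simpa using X.2 (v, 0)⟩,
        ⟨X.1 ∘ₗ LinearMap.inr F V W, fun v => by simpa using X.2 (0, v)⟩)
      invFun := fun X => ⟨X.1.1.coprod X.2.1, fun w => by simp [X.1.2 w.1, X.2.2 w.2]⟩
      map_add' := fun _ _ => rfl, map_smul' := fun _ _ => rfl
      left_inv := fun X => by ext <;> simp
      right_inv := fun X => by ext <;> simp }

theorem charpoly_mr {f : F[X]} (hf : f.Monic) [FiniteDimensional F (AdjoinRoot f)] : (mr f).charpoly = f := by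
  rw [← LinearMap.charpoly_toMatrix _ (AdjoinRoot.powerBasis' hf).basis]
  have := charpoly_leftMulMatrix (AdjoinRoot.powerBasis' hf)
  rw [AdjoinRoot.powerBasis'_gen, AdjoinRoot.minpoly_root hf.ne_zero, hf.leadingCoeff, inv_one, map_one, mul_one] at this
  exact this

theorem exists_frob {f : F[X]} (hf : f.Monic) :
    ∃ l : AdjoinRoot f →ₗ[F] F, ∀ a, (∀ b, l (a * b) = 0) → a = 0 := by
  refine ⟨lcoeff F (f.natDegree - 1) ∘ₗ AdjoinRoot.modByMonicHom hf, fun a h => ?_⟩
  obtain ⟨a, rfl⟩ := AdjoinRoot.mk_surjective a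
  by_contra h0
  have h1 : a %ₘ f ≠ 0 := fun e => h0 (AdjoinRoot.mk_eq_zero.2 ((modByMonic_eq_zero_iff_dvd hf).1 e))
  have h2 : (a %ₘ f).natDegree < f.natDegree := natDegree_lt_natDegree h1 (degree_modByMonic_lt a hf)
  have h3 := h (AdjoinRoot.mk f (X ^ (f.natDegree - 1 - (a %ₘ f).natDegree)))
  have h4 : AdjoinRoot.mk f a = AdjoinRoot.mk f (a %ₘ f) := by
    rw [← AdjoinRoot.modByMonicHom_mk hf, AdjoinRoot.mk_leftInverse hf]
  have h5 : (a %ₘ f * X ^ (f.natDegree - 1 - (a %ₘ f).natDegree)).natDegree = f.natDegree - 1 := by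
    rw [natDegree_mul_X_pow _ h1]
    omega
  rw [h4, ← map_mul, LinearMap.comp_apply, AdjoinRoot.modByMonicHom_mk, (modByMonic_eq_self_iff hf).2
    (degree_lt_degree (by omega)), lcoeff_apply] at h3
  exact h1 (leadingCoeff_eq_zero.1 ((leadingCoeff_mul_X_pow).symm.trans ((congrArg (coeff _) h5).trans h3)))

end Lin

section Dec
variable {V : Type v} {V' : Type*} [AddCommGroup V] [Module F V] [AddCommGroup V'] [Module F V'] {T : End F V} {T' : End F V'}

theorem Dec.fin (p : Fam P d) (h : Dec P T τ) : FiniteDimensional F V := by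
  induction h with
  | nil T => infer_instance
  | cons T θ k hk L D T' s τ h ih =>
    have := ((p.monic θ).pow k).finite_adjoinRoot
    obtain ⟨e, -⟩ := s.equiv
    exact e.finiteDimensional

theorem Dec.ht (p : Fam P d) (h : Dec P T τ) : HT P d T τ := by
  induction h with
  | nil T => exact ⟨by simp, by simp [tsz, finrank_zero_of_subsingleton], by simp [kd, finrank_zero_of_subsingleton]⟩
  | cons T θ k hk L D T' s τ h ih =>
    have := ((p.monic θ).pow k).finite_adjoinRoot
    have := h.fin p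
    obtain ⟨e, -, he⟩ := s.equiv
    rw [add_comm]
    exact ((p.ht_mr θ hk).prod ih).congr e he

theorem Dec.charpoly (p : Fam P d) (h : Dec P T τ) [i : FiniteDimensional F V] :
    LinearMap.charpoly T = ∏ θ, P θ ^ (τ θ).sum := by
  revert i
  induction h with
  | nil T =>
    intro
    simpa using (LinearMap.charpoly_monic T).natDegree_eq_zero.1
      ((LinearMap.charpoly_natDegree T).trans finrank_zero_of_subsingleton)
  | cons T θ k hk L D T' s τ h ih =>
    have := ((p.monic θ).pow k).finite_adjoinRoot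
    have := h.fin p
    intro
    obtain ⟨e, -, he⟩ := s.equiv
    have h1 : T = e.conj ((mr (P θ ^ k)).prodMap T') := LinearMap.ext fun x => by
      rw [LinearEquiv.conj_apply_apply, he, e.apply_symm_apply]
    rw [h1, LinearEquiv.charpoly_conj, LinearMap.charpoly_prodMap, ih, charpoly_mr ((p.monic θ).pow k)]
    simp only [Pi.add_apply, Multiset.sum_add, pow_add, prod_mul_distrib]
    rw [mul_comm, prod_eq_single (f := fun x => P x ^ ((Pi.single θ {k} : ι → Multiset ℕ) x).sum) θ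
      (fun b _ hb => by simp [hb]) (by simp)]
    simp

theorem Dec.hom [FiniteDimensional F V'] (p : Fam P d) (h : Dec P T τ) (h' : HT P d T' τ') :
    finrank F (Hom T T') = ∑ θ, d θ * hm (τ θ) (τ' θ) := by
  induction h with
  | nil T => simp [finrank_zero_of_subsingleton]
  | cons T θ k hk L D S s τ h ih =>
    have := ((p.monic θ).pow k).finite_adjoinRoot
    have := h.fin p
    obtain ⟨e, -, he⟩ := s.equiv
    rw [finrank_hom_congr e he, finrank_hom_prod, ih, finrank_hom_mr, h'.ker]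
    simp only [Pi.add_apply, hm_add, mul_add, sum_add_distrib]
    rw [add_comm, sum_eq_single (f := fun x => d x * hm ((Pi.single θ {k} : ι → Multiset ℕ) x) (τ' x)) θ
      (fun b _ hb => by simp [hb]) (by simp)]
    simp

end Dec

/-- the complement of a cyclic summand -/
theorem HT.spl {V : Type*} [AddCommGroup V] [Module F V] [FiniteDimensional F V] {T : End F V} (p : Fam P d)
    (h : HT P d T τ) {θ : ι} {k : ℕ} (hk : k ∈ τ θ) {L : AdjoinRoot (P θ ^ k) →ₗ[F] V}
    {D : Submodule F V} {S : End F D} (s : Spl T (P θ ^ k) L D S) :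
    HT P d S (Function.update τ θ ((τ θ).erase k)) := by
  have := ((p.monic θ).pow k).finite_adjoinRoot
  obtain ⟨e, -, he⟩ := s.equiv
  have h1 := p.ht_mr θ (Nat.pos_of_ne_zero fun e => h.pos θ (e ▸ hk))
  have h2 := update_add hk
  refine ⟨fun θ' e => h.pos θ' (h2 ▸ Multiset.mem_add.2 (.inl e)), ?_, fun θ' j => ?_⟩
  · have h3 := h.dim
    rw [← e.finrank_eq, finrank_prod, h1.dim, ← h2, tsz_add] at h3
    omega
  · have h3 := h.ker θ' j
    rw [← kd_congr e he, kd_prod, h1.ker, ← h2, Pi.add_apply, hk_add, mul_add] at h3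
    omega

end GUW
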