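import Cfsg.Agent.Lib.GU.Em
import Cfsg.Agent.Lib.GU.WallA
import Cfsg.Agent.Lib.GL.GrB
import Cfsg.Agent.Lib.GL.AbsP

/-!
# The free algebra on class primitives and models with parameter `t`
-/

set_option autoImplicit false
set_option linter.unusedSectionVars false

namespace GUH

open Finset GLH GUW SFock
open scoped Classical ComplexConjugate

variable {ι : Type} [Fintype ι]

/-- monomials -/
noncomputable def mo (τ : ι → Multiset ℕ) : Al ι := AddMonoidAlgebra.single τ 1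

/-- generators -/
noncomputable def cvA (θ : ι) (k : ℕ) : Al ι := mo (Pi.single θ {k})

/-- the norm of a monomial -/
noncomputable def zT (g : ι → ℕ → ℂ) (τ : ι → Multiset ℕ) : ℂ :=
  ∏ θ, (zz (τ θ) : ℂ) * ((τ θ).map (g θ)).prod

/-- the form in degree `n` -/
noncomputable def ipA (d : ι → ℕ) (g : ι → ℕ → ℂ) (n : ℕ) (x y : Al ι) : ℂ :=
  ∑ τ ∈ Ty d n, x.coeff τ * conj (y.coeff τ) * zT g τ

/-- homogeneous elements -/
noncomputable def HnA (d : ι → ℕ) (n : ℕ) : Submodule ℂ (Al ι) :=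
  AddMonoidAlgebra.supported ℂ ℂ (Ty d n : Set (ι → Multiset ℕ))

/-- primitives -/
noncomputable def PrA (d : ι → ℕ) (n : ℕ) : Submodule ℂ (Al ι) :=
  Submodule.span ℂ {y | ∃ θ k, 0 < k ∧ k * d θ = n ∧ y = cvA θ k}

/-- the algebra map with `cvA θ k ↦ f θ k` -/
noncomputable def lfA {B : Type*} [CommRing B] [Algebra ℂ B] (f : ι → ℕ → B) : Al ι →ₐ[ℂ] B :=
  AddMonoidAlgebra.lift ℂ B (ι → Multiset ℕ)
    { toFun := fun τ => ∏ θ, (((Multiplicative.toAdd τ) θ).map (f θ)).prod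
      map_one' := by simp
      map_mul' := fun a b => by simp [prod_mul_distrib] }

/-- rescaling of the generators -/
noncomputable def muA (c : ι → ℂ) : Al ι →ₐ[ℂ] Al ι := lfA fun θ k => c θ ^ k • cvA θ k

/-- the logarithmic derivative of the trivial characters -/
noncomputable def piA (d : ι → ℕ) (n : ℕ) : Al ι := ∑ θ with d θ ∣ n, (d θ : ℂ) • cvA θ (n / d θ)

/-- the trivial characters -/
noncomputable def hA (d : ι → ℕ) : ℕ → Al ι := (Gr.exists_expRel (piA d)).choose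

/-- the norms of the generators with parameter `t` -/
noncomputable def gT (d : ι → ℕ) (t : ℂ) (θ : ι) (k : ℕ) : ℂ := (t ^ (k * d θ) - 1)⁻¹

/-- a model with parameter `t` -/
structure VM (d : ι → ℕ) (N : ℕ) (t : ℂ) (val : Al ι →ₗ[ℂ] (ι → Multiset ℕ) → ℂ) : Prop where
  ip_val : ∀ n ≤ N, ∀ x ∈ HnA d n, ∀ y ∈ HnA d n,
    ipA d (gT d t) n x y = ∑ τ ∈ Ty d n, val x τ * conj (val y τ) / aT d t τ
  val_mu : ∀ c, ∀ n ≤ N, ∀ x ∈ HnA d n, ∀ τ ∈ Ty d n,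
    val (muA c x) τ = (∏ θ, c θ ^ (τ θ).sum) * val x τ
  val_h : ∀ n ≤ N, ∀ τ ∈ Ty d n, val (hA d n) τ = 1
  theta : ∀ m ≤ N, ∀ n ≤ N, ∀ x ∈ HnA d m, ∀ y ∈ HnA d n, ∀ D E : ℕ → Al ι,
    (∀ r ≤ m, D r ∈ HnA d r ∧ ∀ z ∈ HnA d r,
      ipA d (gT d t) m (z * hA d (m - r)) x = ipA d (gT d t) r z (D r)) →
    (∀ r ≤ n, E r ∈ HnA d r ∧ ∀ z ∈ HnA d r,
      ipA d (gT d t) n (z * hA d (n - r)) y = ipA d (gT d t) r z (E r)) →
    ∑ τ ∈ Ty d m, ∑ τ' ∈ Ty d n, t ^ hT d τ τ' * val x τ * conj (val y τ') /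
      (aT d t τ * aT d t τ') = ∑ r ∈ range (min m n + 1), ipA d (gT d t) r (D r) (E r)
  ip_mul : ∀ (R : ι → Prop) (a b : ℕ), a + b ≤ N → ∀ f ∈ HnA d a, ∀ g ∈ HnA d b, ∀ y ∈ HnA d (a + b),
    (∀ τ ∈ Ty d a, val f τ ≠ 0 → ∀ θ, τ θ ≠ 0 → R θ) →
    (∀ τ ∈ Ty d b, val g τ ≠ 0 → ∀ θ, τ θ ≠ 0 → ¬ R θ) →
    ipA d (gT d t) (a + b) (f * g) y = ∑ τ ∈ Ty d a, ∑ τ' ∈ Ty d b,
      val f τ * val g τ' * conj (val y (τ + τ')) / (aT d t τ * aT d t τ')

variable {d : ι → ℕ} {g : ι → ℕ → ℂ} {n : ℕ} {x y : Al ι} {τ : ι → Multiset ℕ} {t : ℂ}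

/-- admissible parameters -/
structure Adm (t : ℂ) : Prop where
  real : conj t = t
  ne : t ≠ 0
  pow : ∀ k, 0 < k → t ^ k ≠ 1

theorem adm_of_norm (h : conj t = t) (h1 : 1 < ‖t‖) : Adm t :=
  ⟨h, fun e => by rw [e, norm_zero] at h1; linarith, fun k hk e => by
    have := one_lt_pow₀ h1 hk.ne'
    rw [← norm_pow, e, norm_one] at this
    exact this.false⟩

theorem adm_nat {q : ℕ} (hq : 2 ≤ q) : Adm (q : ℂ) :=
  adm_of_norm (by simp) (by rw [Complex.norm_natCast]; exact_mod_cast hq)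

theorem adm_neg {q : ℕ} (hq : 2 ≤ q) : Adm (-(q : ℂ)) :=
  adm_of_norm (by simp) (by rw [norm_neg, Complex.norm_natCast]; exact_mod_cast hq)

theorem Adm.aT_ne (h : Adm t) (hd : ∀ θ, 0 < d θ) (τ : ι → Multiset ℕ) : aT d t τ ≠ 0 := by
  refine prod_ne_zero_iff.2 fun θ _ => mul_ne_zero (pow_ne_zero _ (pow_ne_zero _ h.ne)) ?_
  refine prod_ne_zero_iff.2 fun k _ => prod_ne_zero_iff.2 fun j _ => sub_ne_zero.2 fun e => ?_
  rw [eq_comm, inv_eq_one, ← pow_mul] at e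
  exact h.pow _ (Nat.mul_pos (hd θ) j.succ_pos) e

theorem Adm.conj_aT (h : Adm t) (τ : ι → Multiset ℕ) : conj (aT d t τ) = aT d t τ := by
  rw [GUH.conj_aT, h.real]

theorem zz_ne {ν : Multiset ℕ} (h : 0 ∉ ν) : (zz ν : ℂ) ≠ 0 :=
  Nat.cast_ne_zero.2 (mul_ne_zero (Multiset.prod_ne_zero h)
    (prod_ne_zero_iff.2 fun _ _ => Nat.factorial_ne_zero _))

theorem zT_ne (h0 : ∀ θ, 0 ∉ τ θ) (hg : ∀ θ k, 0 < k → g θ k ≠ 0) : zT g τ ≠ 0 := by
  refine prod_ne_zero_iff.2 fun θ _ => mul_ne_zero (zz_ne (h0 θ)) (Multiset.prod_ne_zero fun e => ?_)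
  obtain ⟨k, hk, e⟩ := Multiset.mem_map.1 e
  exact hg θ k (Nat.pos_of_ne_zero fun e => h0 θ (e ▸ hk)) e

theorem conj_zT (hg : ∀ θ k, conj (g θ k) = g θ k) (τ : ι → Multiset ℕ) : conj (zT g τ) = zT g τ := by
  simp only [zT, map_prod, map_mul, map_natCast, map_multiset_prod, Multiset.map_map, Function.comp_def, hg]

theorem Adm.zT_ne (h : Adm t) (hd : ∀ θ, 0 < d θ) (hτ : τ ∈ Ty d n) : zT (gT d t) τ ≠ 0 :=
  GUH.zT_ne ((mem_Ty hd).1 hτ).1 fun θ _ hk =>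
    inv_ne_zero (sub_ne_zero.2 (h.pow _ (Nat.mul_pos hk (hd θ))))

theorem Adm.conj_zT (h : Adm t) (τ : ι → Multiset ℕ) : conj (zT (gT d t) τ) = zT (gT d t) τ :=
  GUH.conj_zT (fun θ k => by simp [gT, h.real]) τ

theorem mo_add (τ τ' : ι → Multiset ℕ) : mo (τ + τ') = mo τ * mo τ' := by
  simp [mo, AddMonoidAlgebra.single_mul_single]

theorem mo_zero : mo (0 : ι → Multiset ℕ) = 1 := rfl

theorem mo_single (θ : ι) (ν : Multiset ℕ) : mo (Pi.single θ ν : ι → Multiset ℕ) = (ν.map (cvA θ)).prod := by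
  induction ν using Multiset.induction_on with
  | empty => simp [mo_zero]
  | cons k ν ih => rw [← Multiset.singleton_add, Pi.single_add, mo_add, ih]; simp [cvA]

theorem mo_sum {κ : Type*} (s : Finset κ) (f : κ → ι → Multiset ℕ) :
    mo (∑ k ∈ s, f k) = ∏ k ∈ s, mo (f k) := by
  induction s using Finset.induction_on with
  | empty => simp [mo_zero]
  | insert k s hk ih => rw [sum_insert hk, prod_insert hk, mo_add, ih]

theorem mo_eq (τ : ι → Multiset ℕ) : mo τ = ∏ θ, ((τ θ).map (cvA θ)).prod := by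
  conv_lhs => rw [← univ_sum_single τ, mo_sum]
  exact prod_congr rfl fun θ _ => mo_single θ _

theorem coeff_mo (τ σ : ι → Multiset ℕ) : (mo τ).coeff σ = if τ = σ then 1 else 0 := by
  simp [mo, Finsupp.single_apply]

theorem mem_HnA : x ∈ HnA d n ↔ ∀ τ ∉ Ty d n, x.coeff τ = 0 := AddMonoidAlgebra.mem_supported'

theorem mo_mem (h : τ ∈ Ty d n) : mo τ ∈ HnA d n :=
  mem_HnA.2 fun σ hσ => by rw [coeff_mo, if_neg fun e : τ = σ => hσ (e ▸ h)]

theorem coeff_sum_mo (s : Finset (ι → Multiset ℕ)) (c : (ι → Multiset ℕ) → ℂ) (σ : ι → Multiset ℕ) :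
    (∑ τ ∈ s, c τ • mo τ).coeff σ = if σ ∈ s then c σ else 0 := by
  simp [coeff_mo]

theorem eq_sum_mo (h : x ∈ HnA d n) : x = ∑ τ ∈ Ty d n, x.coeff τ • mo τ := by
  ext σ
  rw [coeff_sum_mo]
  split_ifs with e
  exacts [rfl, mem_HnA.1 h σ e]

theorem HnA_eq : HnA d n = Submodule.span ℂ (mo '' (Ty d n : Set (ι → Multiset ℕ))) :=
  AddMonoidAlgebra.supported_eq_span_single _ _

theorem mul_mem_HnA (hd : ∀ θ, 0 < d θ) {a b : ℕ} (hx : x ∈ HnA d a) (hy : y ∈ HnA d b) :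
    x * y ∈ HnA d (a + b) := by
  rw [HnA_eq] at hx hy
  refine mul_mem_span hx hy ?_
  rintro _ ⟨τ, h, rfl⟩ _ ⟨τ', h', rfl⟩
  rw [← mo_add]
  exact mo_mem (add_mem_Ty hd h h')

theorem Ty_zero (hd : ∀ θ, 0 < d θ) : Ty d 0 = {0} := by
  ext τ
  rw [mem_Ty hd, mem_singleton]
  refine ⟨fun h => funext fun θ => Multiset.eq_zero_of_forall_notMem fun k hk => ?_, ?_⟩
  · have a1 := le_tsz (d := d) τ θ
    rw [h.2, Nat.le_zero, mul_eq_zero, or_iff_right (hd θ).ne'] at a1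
    have a2 := Multiset.single_le_sum (fun _ _ => Nat.zero_le _) k hk
    rw [a1, Nat.le_zero] at a2
    exact h.1 θ (a2 ▸ hk)
  · rintro rfl
    simp [tsz]

theorem one_mem_HnA (hd : ∀ θ, 0 < d θ) : (1 : Al ι) ∈ HnA d 0 :=
  mo_mem (τ := 0) (by simp [Ty_zero hd])

theorem single_mem_Ty (hd : ∀ θ, 0 < d θ) (θ : ι) {k : ℕ} (hk : 0 < k) :
    (Pi.single θ {k} : ι → Multiset ℕ) ∈ Ty d (k * d θ) := by
  refine (mem_Ty hd).2 ⟨fun θ' => ?_, by rw [tsz_single, mul_comm]⟩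
  by_cases e : θ' = θ
  · subst e; simpa using hk.ne
  · simp [e]

theorem cvA_mem (hd : ∀ θ, 0 < d θ) (θ : ι) {k : ℕ} (hk : 0 < k) : cvA θ k ∈ HnA d (k * d θ) :=
  mo_mem (single_mem_Ty hd θ hk)

theorem lfA_mo {B : Type*} [CommRing B] [Algebra ℂ B] (f : ι → ℕ → B) (τ : ι → Multiset ℕ) :
    lfA f (mo τ) = ∏ θ, ((τ θ).map (f θ)).prod := by
  simp [lfA, mo]

theorem lfA_cvA {B : Type*} [CommRing B] [Algebra ℂ B] (f : ι → ℕ → B) (θ : ι) (k : ℕ) :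
    lfA f (cvA θ k) = f θ k := by
  rw [cvA, lfA_mo, prod_eq_single θ (fun θ' _ e => by simp [e]) (by simp)]
  simp

theorem ind_mo {p : Al ι → Prop} (h0 : p 0) (ha : ∀ x y, p x → p y → p (x + y))
    (h : ∀ (c : ℂ) τ, p (c • mo τ)) (x : Al ι) : p x :=
  AddMonoidAlgebra.induction_linear x h0 ha fun τ c => by simpa [mo] using h c τ

theorem algHom_ext {B : Type*} [CommRing B] [Algebra ℂ B] {f f' : Al ι →ₐ[ℂ] B}
    (h : ∀ θ k, f (cvA θ k) = f' (cvA θ k)) : f = f' := by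
  refine AlgHom.ext (ind_mo (by simp) (fun x y a b => by rw [map_add, map_add, a, b]) fun c τ => ?_)
  simp only [map_smul, mo_eq, map_prod, map_multiset_prod, Multiset.map_map, Function.comp_def, h]

theorem muA_cvA (c : ι → ℂ) (θ : ι) (k : ℕ) : muA c (cvA θ k) = c θ ^ k • cvA θ k := lfA_cvA _ _ _

theorem muA_mo (c : ι → ℂ) (τ : ι → Multiset ℕ) : muA c (mo τ) = (∏ θ, c θ ^ (τ θ).sum) • mo τ := by
  rw [muA, lfA_mo, mo_eq, ← prod_smul]
  refine prod_congr rfl fun θ _ => ?_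
  induction τ θ using Multiset.induction_on with
  | empty => simp
  | cons k ν ih => simp [ih, pow_add, smul_smul, mul_comm]

theorem coeff_muA (c : ι → ℂ) (x : Al ι) (τ : ι → Multiset ℕ) :
    (muA c x).coeff τ = (∏ θ, c θ ^ (τ θ).sum) * x.coeff τ := by
  induction x using ind_mo with
  | h0 => simp
  | ha x y a b => simp [a, b, mul_add]
  | h a σ => by_cases e : σ = τ <;> simp [muA_mo, coeff_mo, e, mul_comm]

theorem muA_muA (c c' : ι → ℂ) (x : Al ι) : muA c (muA c' x) = muA (c * c') x := by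
  ext τ
  simp [coeff_muA, mul_pow, prod_mul_distrib, mul_assoc]

theorem muA_one (x : Al ι) : muA 1 x = x := by
  ext τ
  simp [coeff_muA]

theorem muA_mem (c : ι → ℂ) (h : x ∈ HnA d n) : muA c x ∈ HnA d n :=
  mem_HnA.2 fun τ e => by rw [coeff_muA, mem_HnA.1 h τ e, mul_zero]

theorem hA_rel (d : ι → ℕ) : ExpRel (piA d) (hA d) := (Gr.exists_expRel (piA d)).choose_spec

theorem piA_mem (hd : ∀ θ, 0 < d θ) (hn : 0 < n) : piA d n ∈ HnA d n := by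
  refine Submodule.sum_mem _ fun θ h => Submodule.smul_mem _ _ ?_
  have e := (mem_filter.1 h).2
  have := cvA_mem hd θ (Nat.div_pos (Nat.le_of_dvd hn e) (hd θ))
  rwa [Nat.div_mul_cancel e] at this

theorem hA_mem (hd : ∀ θ, 0 < d θ) (n : ℕ) : hA d n ∈ HnA d n := by
  induction n using Nat.strong_induction_on with
  | _ n ih =>
  rcases n.eq_zero_or_pos with rfl | hn
  · rw [(hA_rel d).1]; exact one_mem_HnA hd
  have a1 : hA d n = (n : ℂ)⁻¹ • ((n : Al ι) * hA d n) := by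
    rw [← nsmul_eq_mul, ← Nat.cast_smul_eq_nsmul ℂ, inv_smul_smul₀ (Nat.cast_ne_zero.2 hn.ne')]
  rw [a1, (hA_rel d).2]
  refine Submodule.smul_mem _ _ (Submodule.sum_mem _ fun k hk => ?_)
  have := mem_range.1 hk
  have a2 := mul_mem_HnA hd (piA_mem hd k.succ_pos) (ih (n - 1 - k) (by omega))
  rwa [show k.succ + (n - 1 - k) = n by omega] at a2

theorem ipA_add (x y z : Al ι) : ipA d g n (x + y) z = ipA d g n x z + ipA d g n y z := by
  simp [ipA, add_mul, sum_add_distrib]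

theorem ipA_smul (c : ℂ) (x y : Al ι) : ipA d g n (c • x) y = c * ipA d g n x y := by
  simp [ipA, mul_sum, mul_assoc]

theorem ipA_add' (x y z : Al ι) : ipA d g n x (y + z) = ipA d g n x y + ipA d g n x z := by
  simp [ipA, add_mul, mul_add, sum_add_distrib]

theorem ipA_smul' (c : ℂ) (x y : Al ι) : ipA d g n x (c • y) = conj c * ipA d g n x y := by
  simp [ipA, mul_sum, mul_assoc, mul_left_comm]

theorem ipA_mo (h : τ ∈ Ty d n) (y : Al ι) : ipA d g n (mo τ) y = conj (y.coeff τ) * zT g τ := by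
  simp [ipA, coeff_mo, h]

theorem ipA_mo' (h : τ ∈ Ty d n) (x : Al ι) : ipA d g n x (mo τ) = x.coeff τ * zT g τ := by
  simp [ipA, coeff_mo, h, apply_ite conj]

/-- Riesz -/
theorem exists_riesz (hz : ∀ τ ∈ Ty d n, zT g τ ≠ 0) (φ : Al ι →ₗ[ℂ] ℂ) :
    ∃ D ∈ HnA d n, ∀ z ∈ HnA d n, φ z = ipA d g n z D := by
  refine ⟨∑ τ ∈ Ty d n, conj (φ (mo τ) / zT g τ) • mo τ,
    Submodule.sum_mem _ fun τ h => Submodule.smul_mem _ _ (mo_mem h), fun z h => ?_⟩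
  conv_lhs => rw [eq_sum_mo h, map_sum]
  refine sum_congr rfl fun τ e => ?_
  rw [coeff_sum_mo, if_pos e, Complex.conj_conj, mul_assoc, div_mul_cancel₀ _ (hz τ e), map_smul,
    smul_eq_mul]

theorem exists_perp (hz : ∀ τ ∈ Ty d n, zT g τ ≠ 0) (m : ℕ) (w x : Al ι) :
    ∃ D ∈ HnA d n, ∀ z ∈ HnA d n, ipA d g m (z * w) x = ipA d g n z D :=
  exists_riesz hz ⟨⟨fun z => ipA d g m (z * w) x, fun a b => by rw [add_mul, ipA_add]⟩,
    fun c a => by simp [ipA_smul]⟩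

/-- the form in terms of the pairings with monomials -/
theorem ipA_eq_sum (hz : ∀ τ ∈ Ty d n, zT g τ ≠ 0) (hc : ∀ τ, conj (zT g τ) = zT g τ) (x y : Al ι) :
    ipA d g n x y = ∑ σ ∈ Ty d n, conj (ipA d g n (mo σ) x) * ipA d g n (mo σ) y / zT g σ := by
  refine sum_congr rfl fun σ h => ?_
  have := hz σ h
  rw [ipA_mo h, ipA_mo h, map_mul, hc, Complex.conj_conj]
  field_simp

theorem eq_of_ipA (hz : ∀ τ ∈ Ty d n, zT g τ ≠ 0) (hx : x ∈ HnA d n) (hy : y ∈ HnA d n)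
    (e : ∀ τ ∈ Ty d n, ipA d g n x (mo τ) = ipA d g n y (mo τ)) : x = y := by
  ext τ
  by_cases h : τ ∈ Ty d n
  · have := e τ h
    rw [ipA_mo' h, ipA_mo' h] at this
    exact mul_right_cancel₀ (hz τ h) this
  · rw [mem_HnA.1 hx τ h, mem_HnA.1 hy τ h]

theorem inj_of_ip (hz : ∀ τ ∈ Ty d n, zT g τ ≠ 0) {val : Al ι →ₗ[ℂ] (ι → Multiset ℕ) → ℂ}
    {a : (ι → Multiset ℕ) → ℂ} (h : ∀ x ∈ HnA d n, ∀ y ∈ HnA d n,
      ipA d g n x y = ∑ τ ∈ Ty d n, val x τ * conj (val y τ) / a τ) (hx : x ∈ HnA d n)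
    (hy : y ∈ HnA d n) (e : ∀ τ ∈ Ty d n, val x τ = val y τ) : x = y :=
  eq_of_ipA hz hx hy fun τ hτ => by
    rw [h x hx _ (mo_mem hτ), h y hy _ (mo_mem hτ)]
    exact sum_congr rfl fun σ hσ => by rw [e σ hσ]

theorem finrank_HnA : Module.finrank ℂ (HnA d n) = (Ty d n).card := by
  rw [HnA, (AddMonoidAlgebra.supportedEquivFinsupp _).finrank_eq]
  simp

instance fin_HnA : FiniteDimensional ℂ (HnA d n) :=
  (AddMonoidAlgebra.supportedEquivFinsupp _).symm.finiteDimensional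

theorem surj_of_ip (hz : ∀ τ ∈ Ty d n, zT g τ ≠ 0) {val : Al ι →ₗ[ℂ] (ι → Multiset ℕ) → ℂ}
    {a : (ι → Multiset ℕ) → ℂ} (h : ∀ x ∈ HnA d n, ∀ y ∈ HnA d n,
      ipA d g n x y = ∑ τ ∈ Ty d n, val x τ * conj (val y τ) / a τ) (f : (ι → Multiset ℕ) → ℂ) :
    ∃ x ∈ HnA d n, ∀ τ ∈ Ty d n, val x τ = f τ := by
  let L : HnA d n →ₗ[ℂ] (Ty d n → ℂ) :=
    (LinearMap.funLeft ℂ ℂ Subtype.val).comp (val.comp (HnA d n).subtype)
  have a1 : Function.Injective L := fun x y e =>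
    Subtype.ext (inj_of_ip hz h x.2 y.2 fun τ hτ => congrFun e ⟨τ, hτ⟩)
  obtain ⟨x, hx⟩ := (LinearMap.injective_iff_surjective_of_finrank_eq_finrank
    (by rw [finrank_HnA]; simp)).1 a1 fun τ => f τ
  exact ⟨x, x.2, fun τ hτ => congrFun hx ⟨τ, hτ⟩⟩

theorem emA_realise_eqns : True := by
  have := @mo.eq_1
  have := @cvA.eq_1
  have := @zT.eq_1
  have := @ipA.eq_1
  have := @HnA.eq_1
  have := @PrA.eq_1
  have := @lfA.eq_1.{0}
  have := @muA.eq_1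
  have := @piA.eq_1
  have := @hA.eq_1
  have := @gT.eq_1
  trivial

end GUH
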