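import Mathlib.RingTheory.AdjoinRoot
import Mathlib.LinearAlgebra.Charpoly.Basic
import Mathlib.Algebra.Polynomial.Reverse
import Mathlib.Algebra.Squarefree.Basic
import Mathlib.LinearAlgebra.FiniteDimensional.Lemmas

/-!
# Types of linear operators with respect to a family of pairwise coprime polynomials (vocabulary)
-/

set_option autoImplicit false
set_option linter.unusedSectionVars false

namespace GUW

open Polynomial Module Finset
open scoped Classical

universe u v w

variable {F : Type u} [Field F] {ι : Type w} [Fintype ι]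

/-- `∑ min j b` -/
def hk (j : ℕ) (μ : Multiset ℕ) : ℕ := (μ.map (min j)).sum

/-- `∑ min a b` -/
def hm (ν μ : Multiset ℕ) : ℕ := (ν.map fun a => hk a μ).sum

/-- the size of a type -/
def tsz (d : ι → ℕ) (τ : ι → Multiset ℕ) : ℕ := ∑ θ, d θ * (τ θ).sum

/-- the order of the automorphism group of a module of type `ν` -/
noncomputable def aa {K : Type*} [Field K] (ν : Multiset ℕ) (t : K) : K :=
  t ^ hm ν ν * ∏ k ∈ ν.toFinset, ∏ j ∈ range (ν.count k), (1 - (t ^ (j + 1))⁻¹)

/-- pairwise coprime monic polynomials with non-zero constant term -/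
structure Fam (P : ι → F[X]) (d : ι → ℕ) : Prop where
  monic : ∀ θ, (P θ).Monic
  deg : ∀ θ, (P θ).natDegree = d θ
  pos : ∀ θ, 0 < d θ
  zero : ∀ θ, (P θ).coeff 0 ≠ 0
  cop : ∀ θ θ', θ ≠ θ' → IsCoprime (P θ) (P θ')

/-- the linear case -/
structure FamG (P : ι → F[X]) (d : ι → ℕ) : Prop extends Fam P d where
  irr : ∀ θ, Irreducible (P θ)

/-- the polynomial whose roots are the `x ^ (-q)` -/
noncomputable def du [StarRing F] (a : F[X]) : F[X] := (a.map (starRingEnd F)).reverse

/-- the unitary case: minimal self-dual polynomials -/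
structure FamU [StarRing F] (P : ι → F[X]) (d : ι → ℕ) : Prop extends Fam P d where
  dual : ∀ θ, P θ ∣ du (P θ)
  sqf : ∀ θ, Squarefree (P θ)
  loc : ∀ θ a, IsCoprime a (P θ) ∨ P θ ∣ a * du a

variable {V V' : Type*} [AddCommGroup V] [Module F V] [AddCommGroup V'] [Module F V']

/-- dimension of the kernel of `a(T)` -/
noncomputable def kd (T : End F V) (a : F[X]) : ℕ := finrank F (LinearMap.ker (aeval T a))

/-- `T` has type `τ` -/
structure HT (P : ι → F[X]) (d : ι → ℕ) (T : End F V) (τ : ι → Multiset ℕ) : Prop where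
  pos : ∀ θ, 0 ∉ τ θ
  dim : finrank F V = tsz d τ
  ker : ∀ θ j, kd T (P θ ^ j) = d θ * hk j (τ θ)

/-- all eigenvalues are roots of members of the family -/
def Sp (P : ι → F[X]) (T : End F V) : Prop := IsNilpotent (aeval T (∏ θ, P θ))

/-- intertwining maps -/
def Hom (T : End F V) (T' : End F V') : Submodule F (V →ₗ[F] V') where
  carrier := {X | ∀ v, X (T v) = T' (X v)}
  add_mem' h1 h2 v := by simp [h1 v, h2 v]
  zero_mem' v := by simp
  smul_mem' c X h v := by simp [h v]

/-- multiplication by the root -/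
noncomputable def mr (f : F[X]) : End F (AdjoinRoot f) := LinearMap.mulLeft F (AdjoinRoot.root f)

/-- a cyclic summand of type `f` with complement `D` -/
structure Spl (T : End F V) (f : F[X]) (L : AdjoinRoot f →ₗ[F] V) (D : Submodule F V) (T' : End F D) : Prop where
  inj : Function.Injective L
  hom : L ∈ Hom (mr f) T
  compl : IsCompl (LinearMap.range L) D
  res : D.subtype ∈ Hom T' T

/-- decomposition into cyclic summands -/
inductive Dec (P : ι → F[X]) : ∀ {V : Type v} [AddCommGroup V] [Module F V], End F V → (ι → Multiset ℕ) → Prop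
  | nil {V : Type v} [AddCommGroup V] [Module F V] [Subsingleton V] (T : End F V) : Dec P T 0
  | cons {V : Type v} [AddCommGroup V] [Module F V] (T : End F V) (θ : ι) (k : ℕ) (hk : 0 < k)
      (L : AdjoinRoot (P θ ^ k) →ₗ[F] V) (D : Submodule F V) (T' : End F D) (s : Spl T (P θ ^ k) L D T')
      (τ : ι → Multiset ℕ) (h : Dec P T' τ) : Dec P T (τ + Pi.single θ {k})

theorem wallD_realise_eqns : True := by
  have := @hk.eq_1
  have := @hm.eq_1
  have := @tsz.eq_1.{0}
  have := @aa.eq_1.{0}
  have := @du.eq_1.{0}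
  have := @kd.eq_1.{0, 0}
  have := @Sp.eq_1.{0, 0, 0}
  have := @mr.eq_1.{0}
  trivial

end GUW
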