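import Cfsg.Agent.Lib.GU.ThetaG
import Cfsg.Agent.Lib.GU.WallD
import Cfsg.Agent.Lib.UW.Weil
import Cfsg.Agent.Lib.UW.Sub
import Cfsg.Agent.Lib.Char.Prod

/-!
# The Weil kernel on `U(V) × U(V')`
-/

set_option autoImplicit false
set_option linter.unusedSectionVars false

namespace GUH

open Finset Module Cfsg UW CT
open scoped Classical ComplexConjugate

section Ker
variable {G G' : Type*} [Group G] [Group G'] [Fintype G] [Fintype G']

/-- the operator with kernel `Θ` -/
noncomputable def kerOp (Θ : G × G' → ℂ) (f : G' → ℂ) : G → ℂ :=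
  fun g => (Nat.card G' : ℂ)⁻¹ * ∑ h, Θ (g, h) * f h

theorem kerOp_class {Θ : G × G' → ℂ} (hΘ : IsClassFunction (G × G') Θ) (f : G' → ℂ) :
    IsClassFunction G (kerOp Θ f) := fun g x => by
  simp only [kerOp]
  congr 1
  refine sum_congr rfl fun h _ => ?_
  rw [← hΘ (g, h) (x, 1)]
  simp

theorem ip_kerOp (Θ : G × G' → ℂ) (f : G' → ℂ) (χ : G → ℂ) :
    ip (kerOp Θ f) χ = ip (Θ * prodFun 1 f) (prodFun χ 1) := by
  rw [ip_def, ip_def, Nat.card_prod, Fintype.sum_prod_type, Nat.cast_mul, mul_inv, mul_assoc,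
    mul_sum _ _ (Nat.card G' : ℂ)⁻¹]
  congr 1
  refine sum_congr rfl fun g _ => ?_
  simp only [kerOp, mul_assoc, sum_mul, Pi.mul_apply, prodFun_apply, Pi.one_apply, one_mul, mul_one]

theorem kerOp_gen {Θ : G × G' → ℂ} (hΘ : IsGeneralizedCharacter (G × G') Θ) {f : G' → ℂ}
    (hf : IsGeneralizedCharacter G' f) : IsGeneralizedCharacter G (kerOp Θ f) := by
  refine (isGen_iff_ip_int (kerOp_class hΘ.isClassFunction f)).2 fun χ => ?_
  rw [ip_kerOp]
  exact (hΘ.mul (isCharacter_one.isGen.prodFun hf)).exists_int_ip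
    ((irr_isCharacter χ).isGen.prodFun isCharacter_one.isGen)

/-- the adjoint of a map that preserves virtual characters preserves virtual characters -/
theorem gen_of_adj {A : (G' → ℂ) → G → ℂ}
    (hA : ∀ f, IsGeneralizedCharacter G' f → IsGeneralizedCharacter G (A f))
    {y : G → ℂ} (hy : IsGeneralizedCharacter G y) {z : G' → ℂ} (hz : IsClassFunction G' z)
    (h : ∀ χ : IrrCharacter G', ip χ.1 z = ip (A χ.1) y) : IsGeneralizedCharacter G' z := by
  refine (isGen_iff_ip_int hz).2 fun χ => ?_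
  obtain ⟨n, hn⟩ := (hA _ (irr_isCharacter χ).isGen).exists_int_ip hy
  exact ⟨n, by rw [← conj_ip, h, hn, map_intCast]⟩

end Ker

section Weil
variable {F V V' : Type*} [Field F] [Fintype F] [StarRing F] [HF F] [AddCommGroup V] [Module F V]
  [Fintype V] [AddCommGroup V'] [Module F V'] [Fintype V'] (H : HS F V) (H' : HS F V')

/-- a pair of dual families -/
structure DP {ι : Type*} [Fintype ι] (e f : ι → V) : Prop where
  l : ∀ v, ∑ i, H.b v (f i) • e i = v
  r : ∀ v, ∑ i, H.b v (e i) • f i = v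

theorem exists_DP : ∃ e f : Fin (finrank F V) → V, DP H e f := by
  let b := Module.finBasis F V
  choose f hf using fun i => H.exists_dual (b.coord i)
  have hl : ∀ v, ∑ i, H.b v (f i) • b i = v := fun v => by
    simp only [hf, Basis.coord_apply]
    exact b.sum_repr v
  refine ⟨b, f, hl, fun v => H.eq_of_b fun y => ?_⟩
  conv_rhs => rw [← hl y, ← H.herm, H.sum_left]
  rw [H.sum_left, star_sum]
  simp only [HS.smul_left, star_mul', HS.herm, mul_comm]

variable {H}

theorem DP.gsmul {ι : Type*} [Fintype ι] {e f : ι → V} (h : DP H e f) (g : H.U) :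
    DP H (fun i => g • e i) fun i => g • f i := by
  constructor <;> intro v
  · conv_rhs => rw [← smul_inv_smul g v, ← h.l (g⁻¹ • v), smul_sum]
    simp only [HS.gsmul, HS.b_gsmul_right]
  · conv_rhs => rw [← smul_inv_smul g v, ← h.r (g⁻¹ • v), smul_sum]
    simp only [HS.gsmul, HS.b_gsmul_right]

theorem DP.sum_eq {ι κ : Type*} [Fintype ι] [Fintype κ] {e f : ι → V} {e' f' : κ → V}
    (h : DP H e f) (h' : DP H e' f') (X Y : V →ₗ[F] V') :
    ∑ i, H'.b (X (e' i)) (Y (f' i)) = ∑ i, H'.b (X (e i)) (Y (f i)) := by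
  have h1 : ∀ i, H'.b (X (e' i)) (Y (f' i)) =
      ∑ j, H.b (e' i) (f j) * H'.b (X (e j)) (Y (f' i)) := fun i => by
    conv_lhs => rw [← h.l (e' i), map_sum, H'.sum_left]
    simp only [map_smul, HS.smul_left]
  have h2 : ∀ j, H'.b (X (e j)) (Y (f j)) =
      ∑ i, H.b (e' i) (f j) * H'.b (X (e j)) (Y (f' i)) := fun j => by
    conv_lhs => rw [← h'.r (f j), map_sum, ← H'.herm, H'.sum_left, star_sum]
    simp only [map_smul, HS.smul_left, star_mul', HS.herm]
  simp only [h1, h2]
  exact sum_comm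

/-- the hermitian space of linear maps -/
noncomputable def homHS {ι : Type*} [Fintype ι] {e f : ι → V} (h : DP H e f) :
    HS F (V →ₗ[F] V') where
  b X Y := ∑ i, H'.b (X (e i)) (Y (f i))
  add_left X Y Z := by simp only [LinearMap.add_apply, HS.add_left, sum_add_distrib]
  smul_left a X Y := by simp only [LinearMap.smul_apply, HS.smul_left, mul_sum]
  herm X Y := by
    rw [star_sum, ← h.sum_eq H' (e' := f) (f' := e) ⟨h.r, h.l⟩]
    simp only [HS.herm]
  nondeg X hX := LinearMap.ext fun u => H'.nondeg _ fun w => by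
    have := hX ((H.bl u).smulRight w)
    simp only [LinearMap.smulRight_apply, HS.bl_apply, HS.smul_right, HS.herm] at this
    rw [← this]
    conv_lhs => rw [← h.l u, map_sum, H'.sum_left]
    simp only [map_smul, HS.smul_left]

variable (H)

/-- the Weil kernel (intertwiners from the second space to the first one, as in `dh`) -/
noncomputable def thU (x : H.U × H'.U) : ℂ := (-1) ^ (finrank F V * finrank F V') *
  (-(qq F : ℂ)) ^ finrank F (GUW.Hom (H'.lin x.2) (H.lin x.1))

theorem isCharacter_thU' : IsCharacter (H.U × H'.U) fun x => (-1) ^ (finrank F V * finrank F V') *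
    (-(qq F : ℂ)) ^ finrank F (GUW.Hom (H.lin x.1) (H'.lin x.2)) := by
  obtain ⟨e, f, h⟩ := exists_DP H
  have : Finite (V →ₗ[F] V') := Finite.of_injective _ DFunLike.coe_injective
  have := Fintype.ofFinite (V →ₗ[F] V')
  let L : H.U × H'.U → (V →ₗ[F] V') →ₗ[F] (V →ₗ[F] V') := fun x =>
    { toFun := fun X => H'.lin x.2 ∘ₗ X ∘ₗ H.lin x.1⁻¹
      map_add' := fun X Y => by ext; simp
      map_smul' := fun c X => by ext; simp }
  have hL : ∀ x X Y, (homHS H' h).b (L x X) (L x Y) = (homHS H' h).b X Y := fun x X Y => by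
    change ∑ i, H'.b (x.2 • X (x.1⁻¹ • e i)) (x.2 • Y (x.1⁻¹ • f i)) = _
    simp only [HS.b_smul_smul]
    exact h.sum_eq H' (h.gsmul x.1⁻¹) X Y
  let ρ : H.U × H'.U →* (homHS H' h).U :=
    { toFun := fun x => (homHS H' h).mkU (L x) (hL x)
      map_one' := HS.U_ext fun X => LinearMap.ext fun v => by
        change (1 : H'.U) • X ((1 : H.U)⁻¹ • v) = _
        simp
      map_mul' := fun x y => HS.U_ext fun X => LinearMap.ext fun v => by
        change (x.2 * y.2) • X ((x.1 * y.1)⁻¹ • v) = x.2 • y.2 • X (y.1⁻¹ • x.1⁻¹ • v)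
        simp only [mul_smul, mul_inv_rev] }
  obtain ⟨Ω, hΩ⟩ := (homHS H' h).exists_weil
  have hc : IsCharacter (homHS H' h).U (homHS H' h).ω := ⟨_, Ω, funext hΩ⟩
  have := hc.comp ρ
  convert this using 2 with x
  have e1 : (homHS H' h).fx (ρ x) = GUW.Hom (H.lin x.1) (H'.lin x.2) := by
    ext X
    rw [HS.mem_fx]
    refine ⟨fun hX v => ?_, fun hX => LinearMap.ext fun v => ?_⟩
    · have := LinearMap.congr_fun hX (x.1 • v)
      change x.2 • X (x.1⁻¹ • x.1 • v) = _ at this
      rw [inv_smul_smul] at this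
      exact this.symm
    · have := hX (x.1⁻¹ • v)
      change X (x.1 • x.1⁻¹ • v) = _ at this
      rw [smul_inv_smul] at this
      exact this.symm
  rw [HS.ω, HS.kk, e1, Module.finrank_linearMap]

theorem isCharacter_thU : IsCharacter (H.U × H'.U) (thU H H') := by
  have := (isCharacter_thU' H' H).comp (MulEquiv.prodComm (M := H.U) (N := H'.U)).toMonoidHom
  rw [mul_comm] at this
  exact this

/-- the operator of the Weil kernel preserves virtual characters -/
theorem thU_gen {f : H'.U → ℂ} (hf : IsGeneralizedCharacter H'.U f) :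
    IsGeneralizedCharacter H.U (kerOp (thU H H') f) := kerOp_gen (isCharacter_thU H H').isGen hf

end Weil

section Mat
universe u
variable {F : Type u} [Field F] {n m : ℕ}

theorem dh_eq (g : GLH.Mat F n) (h : GLH.Mat F m) :
    dh g h = finrank F (GUW.Hom (Matrix.toLin' h) (Matrix.toLin' g)) := by
  have : homS g h = (GUW.Hom (Matrix.toLin' h) (Matrix.toLin' g)).comap
      (Matrix.toLin' : Matrix (Fin n) (Fin m) F ≃ₗ[F] _).toLinearMap := by
    ext X
    rw [mem_homS, ← Matrix.toLin'.injective.eq_iff, Matrix.toLin'_mul, Matrix.toLin'_mul, eq_comm,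
      LinearMap.ext_iff]
    rfl
  rw [dh, this, Submodule.comap_equiv_eq_map_symm, LinearEquiv.finrank_map_eq]

open GLH in
/-- the form of the `LDL` factorisation used for the Ennola transfer -/
theorem theta_form [Fintype F] (x y : H (1 : Fˣ →* ℂˣ)) (D E : ℕ → H (1 : Fˣ →* ℂˣ))
    (hD : ∀ r ≤ min m n, D r ∈ Hn 1 r)
    (hx : ∀ r ≤ min m n, ∀ z ∈ Hn 1 r, ipH m (z * h1 F (m - r)) x = ipH r z (D r))
    (hy : ∀ r ≤ min m n, ∀ z ∈ Hn 1 r, ipH n (z * h1 F (n - r)) y = ipH r z (E r)) :
    ((Nat.card (G F m) : ℂ) * Nat.card (G F n))⁻¹ * ∑ h : G F m, ∑ g : G F n,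
      (Fintype.card F : ℂ) ^ finrank F (GUW.Hom (Matrix.toLin' h.1) (Matrix.toLin' g.1)) *
        H.cf x m h * conj (H.cf y n g) = ∑ r ∈ range (min m n + 1), ipH r (D r) (E r) := by
  have h1' : ipH n (thetaOp n m x) y = ∑ r ∈ range (min m n + 1), ipH r (D r) (E r) := by
    have h2 : ∀ s : Finset ℕ, ipH n (∑ r ∈ s, hperp (m - r) r x * h1 F (n - r)) y =
        ∑ r ∈ s, ipH n (hperp (m - r) r x * h1 F (n - r)) y := fun s => by
      induction s using Finset.induction_on with
      | empty => exact CT.ip_zero_left _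
      | insert a s ha ih =>
        rw [sum_insert ha, sum_insert ha, ← ih]
        exact CT.ip_add_left _ _ _
    rw [thetaOp_eq, h2, min_comm]
    refine sum_congr rfl fun r hr => ?_
    have hr' : r ≤ min m n := Nat.le_of_lt_succ (mem_range.1 hr)
    rw [hy r hr' _ (hperp_mem _ _ _)]
    congr 1
    refine Ha.eq_of_ip' (hperp_mem _ _ _) (hD r hr') fun w => ?_
    have e : ∀ z : H (1 : Fˣ →* ℂˣ), ipH r z w = conj (ipH r (Mk.hc r w) z) := fun z => by
      rw [ipH, ipH, CT.conj_ip]
      congr 1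
      exact funext fun g => (Ha.hc_val w g.1).symm
    rw [e, e, ← ip_hperp (Ha.hc_mem' r w), ← hx r hr' _ (Ha.hc_mem' r w), HallB.mul_comm,
      Nat.sub_add_cancel (le_min_iff.1 hr').1]
  rw [← h1', ipH, ip_def, mul_inv, mul_comm (_ : ℂ)⁻¹, mul_assoc, sum_comm, mul_sum]
  congr 1
  refine sum_congr rfl fun g _ => ?_
  rw [thetaOp_cf, mul_assoc, sum_mul]
  simp only [dh_eq]

end Mat

theorem thetaU_realise_eqns : True := by
  have := @kerOp.eq_1.{0, 0}
  have := @thU.eq_1.{0, 0, 0}
  have := @homHS.eq_1.{0, 0, 0, 0}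
  trivial

end GUH
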