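import Cfsg.Agent.Lib.GU.WallA
import Mathlib.LinearAlgebra.Matrix.GeneralLinearGroup.Defs
import Mathlib.LinearAlgebra.Dual.Lemmas
import Mathlib.FieldTheory.Finiteness
import Mathlib.GroupTheory.Coset.Basic

/-!
# Classes and centraliser orders of the general linear groups
-/

set_option autoImplicit false
set_option linter.unusedSectionVars false

namespace GUW

open Polynomial Module Finset
open scoped Classical

universe u v w

variable {F : Type u} [Field F] {ι : Type w} [Fintype ι] {P : ι → F[X]} {d : ι → ℕ} {τ τ' : ι → Multiset ℕ}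

section basic
variable {V V' : Type*} [AddCommGroup V] [Module F V] [AddCommGroup V'] [Module F V'] {T : End F V} {T' : End F V'}
  {f : F[X]}

theorem g_finite (hf : f.Monic) : FiniteDimensional F (AdjoinRoot f) := (AdjoinRoot.powerBasis' hf).finite

/-- the cyclic submodule of `v` -/
noncomputable def gL (T : End F V) (hf : f.Monic) (v : V) : AdjoinRoot f →ₗ[F] V :=
  LinearMap.applyₗ v ∘ₗ (aeval T).toLinearMap ∘ₗ AdjoinRoot.modByMonicHom hf

theorem gL_mk (hf : f.Monic) (v : V) (a : F[X]) :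
    gL T hf v (AdjoinRoot.mk f a) = aeval T a v - aeval T f (aeval T (a /ₘ f) v) := by
  change aeval T (a %ₘ f) v = _
  rw [modByMonic_eq_sub_mul_div, map_sub, map_mul]; rfl

theorem g_aeval_swap (a b : F[X]) (v : V) : aeval T a (aeval T b v) = aeval T b (aeval T a v) := by
  rw [← End.mul_apply, ← map_mul, mul_comm, map_mul, End.mul_apply]

theorem gL_mk' (hf : f.Monic) {v : V} (hv : aeval T f v = 0) (a : F[X]) :
    gL T hf v (AdjoinRoot.mk f a) = aeval T a v := by
  rw [gL_mk, g_aeval_swap, hv, map_zero, sub_zero]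

theorem g_dvd {π a : F[X]} (hπ : Irreducible π) {k : ℕ} {v : V} (h1 : aeval T (π ^ (k + 1)) v = 0)
    (h2 : aeval T (π ^ k) v ≠ 0) (h : aeval T a v = 0) : π ^ (k + 1) ∣ a := by
  by_contra ha
  obtain ⟨j, hj, h4⟩ := (dvd_prime_pow hπ.prime _).1 (EuclideanDomain.gcd_dvd_left (π ^ (k + 1)) a)
  obtain ⟨c, hc⟩ := h4.symm.dvd_iff_dvd_left.1 (pow_dvd_pow π (show j ≤ k from Nat.le_of_lt_succ
    (hj.lt_of_ne fun e => ha (e ▸ h4.symm.dvd.trans (EuclideanDomain.gcd_dvd_right _ _)))))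
  apply h2
  rw [hc, EuclideanDomain.gcd_eq_gcd_ab, mul_comm, map_mul, End.mul_apply, mul_comm, mul_comm a, map_add, map_mul,
    map_mul, LinearMap.add_apply, End.mul_apply, End.mul_apply, h1, h, map_zero, map_zero, add_zero, map_zero]

/-- the invariant kernel of `φ` -/
def gD (T : End F V) (φ : Dual F V) : Submodule F V where
  carrier := {w | ∀ a : F[X], φ (aeval T a w) = 0}
  add_mem' h1 h2 a := by rw [map_add, map_add, h1, h2, add_zero]
  zero_mem' a := by simp
  smul_mem' c w h a := by rw [map_smul, map_smul, h, smul_zero]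

/-- the restriction to the invariant kernel -/
noncomputable def gS (T : End F V) (φ : Dual F V) : End F (gD T φ) :=
  T.restrict fun w hw a => by
    have := hw (a * X)
    rwa [map_mul, aeval_X] at this

/-- splitting data -/
structure GX (T : End F V) (hf : f.Monic) (l : Dual F (AdjoinRoot f)) (x : V × Dual F V) : Prop where
  vec : aeval T f x.1 = 0
  cov : ∀ w, x.2 (aeval T f w) = 0
  val : ∀ a, x.2 (gL T hf x.1 a) = l a

variable {hf : f.Monic} {l : Dual F (AdjoinRoot f)}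

theorem gL_mul {v : V} (hv : aeval T f v = 0) (a : F[X]) (b : AdjoinRoot f) :
    gL T hf v (AdjoinRoot.mk f a * b) = aeval T a (gL T hf v b) := by
  obtain ⟨b, rfl⟩ := AdjoinRoot.mk_surjective b
  rw [← map_mul, gL_mk' hf hv, gL_mk' hf hv, map_mul, End.mul_apply]

theorem GX.spl (hl : ∀ a, (∀ b, l (a * b) = 0) → a = 0) {x : V × Dual F V} (h : GX T hf l x) :
    Spl T f (gL T hf x.1) (gD T x.2) (gS T x.2) := by
  have h1 : ∀ a, gL T hf x.1 a ∈ gD T x.2 → a = 0 := fun a ha => hl a fun b => by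
    obtain ⟨b, rfl⟩ := AdjoinRoot.mk_surjective b
    rw [← h.val, mul_comm, gL_mul h.vec, ha]
  refine ⟨(injective_iff_map_eq_zero _).2 fun a ha => h1 a (ha ▸ zero_mem _), fun b => ?_,
    ⟨Submodule.disjoint_def.2 ?_, codisjoint_iff_le_sup.2 fun w _ => ?_⟩, fun _ => rfl⟩
  · exact (gL_mul (hf := hf) h.vec X b).trans (by rw [aeval_X])
  · rintro _ ⟨a, rfl⟩ ha
    rw [h1 a ha, map_zero]
  · haveI := g_finite hf
    obtain ⟨a, ha⟩ := (LinearMap.injective_iff_surjective_of_finrank_eq_finrank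
      (f := (LinearMap.mul F (AdjoinRoot f)).compr₂ l) Subspace.dual_finrank_eq.symm).1
      ((injective_iff_map_eq_zero _).2 fun a ha => hl a fun b => LinearMap.congr_fun ha b) (x.2 ∘ₗ gL T hf w)
    rw [← add_sub_cancel (gL T hf x.1 a) w]
    refine Submodule.add_mem_sup ⟨a, rfl⟩ fun b => ?_
    have := LinearMap.congr_fun ha (AdjoinRoot.mk f b)
    rw [LinearMap.comp_apply, gL_mk, map_sub, h.cov, sub_zero] at this
    rw [map_sub, map_sub, ← gL_mul h.vec, h.val, ← this, mul_comm]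
    exact sub_self _

/-- intertwining isomorphisms -/
def Iso (T : End F V) (T' : End F V') : Type _ := {e : V ≃ₗ[F] V' // ∀ x, e (T x) = T' (e x)}

/-- composition with an isomorphism -/
def Iso.congr {W W' : Type*} [AddCommGroup W] [Module F W] [AddCommGroup W'] [Module F W'] {S : End F W} {S' : End F W'}
    (a : Iso T S) (b : Iso T' S') : Iso T T' ≃ Iso S S' where
  toFun e := ⟨a.1.symm ≪≫ₗ e.1 ≪≫ₗ b.1, fun x => by
    obtain ⟨y, rfl⟩ := a.1.surjective x
    simp [← a.2, e.2, b.2]⟩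
  invFun e := ⟨a.1 ≪≫ₗ e.1 ≪≫ₗ b.1.symm, fun x => b.1.injective (by simp [a.2, e.2, b.2])⟩
  left_inv e := Subtype.ext (LinearEquiv.ext fun x => by simp)
  right_inv e := Subtype.ext (LinearEquiv.ext fun x => by simp)

/-- the identity -/
def Iso.refl (T : End F V) : Iso T T := ⟨.refl F V, fun _ => rfl⟩

/-- the isomorphism given by a splitting -/
noncomputable def Spl.iso {L : AdjoinRoot f →ₗ[F] V} {D : Submodule F V} {S : End F D} (s : Spl T f L D S)
    (e : Iso T' S) : Iso ((mr f).prodMap T') T :=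
  ⟨(LinearEquiv.ofInjective L s.inj).prodCongr e.1 ≪≫ₗ Submodule.prodEquivOfIsCompl _ _ s.compl, fun x => by
    simpa [e.2] using congrArg₂ (· + ·) (s.hom x.1) (s.res (e.1 x.2))⟩

theorem Spl.iso_apply {L : AdjoinRoot f →ₗ[F] V} {D : Submodule F V} {S : End F D} (s : Spl T f L D S)
    (e : Iso T' S) (a : AdjoinRoot f) (y : V') : (s.iso e).1 (a, y) = L a + e.1 y := rfl

theorem card_iso_prod (hl : ∀ a, (∀ b, l (a * b) = 0) → a = 0) :
    Nat.card (Iso ((mr f).prodMap T') T) = Nat.card (Σ x : {x // GX T hf l x}, Iso T' (gS T x.1.2)) := by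
  refine (Nat.card_congr (Equiv.ofBijective (fun y => (y.1.2.spl hl).iso y.2) ⟨?_, fun e => ?_⟩)).symm
  · rintro ⟨⟨⟨v, φ⟩, h⟩, e⟩ ⟨⟨⟨v', φ'⟩, h'⟩, e'⟩ he
    have h1 : ∀ a y, gL T hf v a + e.1 y = gL T hf v' a + e'.1 y := fun a y =>
      LinearEquiv.congr_fun (congrArg Subtype.val he) (a, y)
    obtain rfl : v = v' := by
      have := h1 (AdjoinRoot.mk f 1) 0
      rw [gL_mk' hf h.vec, gL_mk' hf h'.vec] at this
      simpa using this
    obtain rfl : φ = φ' := LinearMap.ext fun w => by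
      obtain ⟨⟨a, y⟩, rfl⟩ := ((h.spl hl).iso e).1.surjective w
      have h2 := (e.1 y).2 1
      have h3 := (e'.1 y).2 1
      rw [map_one, End.one_apply] at h2 h3
      rw [Spl.iso_apply]
      nth_rw 2 [h1]
      rw [map_add, map_add, h2, h3, h.val, h'.val]
    have h2 : e = e' := Subtype.ext (LinearEquiv.ext fun y => Subtype.ext (by
      have := h1 0 y
      rwa [add_right_inj] at this))
    subst h2
    rfl
  · have h1 : ∀ a x, aeval T a (e.1 x) = e.1 (AdjoinRoot.mk f a * x.1, aeval T' a x.2) := fun a x => by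
      rw [← aeval_mr]
      exact (Hom.aeval (X := e.1.toLinearMap) e.2 a x).symm.trans (congrArg e.1 (LinearMap.congr_fun (aeval_prodMap a) x))
    have h3 : ∀ a b, aeval T a (e.1 (b, 0)) = e.1 (AdjoinRoot.mk f a * b, 0) := fun a b => by rw [h1, map_zero]
    have h4 : aeval T f (e.1 (1, 0)) = 0 := by rw [h3, AdjoinRoot.mk_self, zero_mul]; exact map_zero _
    have h5 : ∀ a, gL T hf (e.1 (1, 0)) a = e.1 (a, 0) := fun a => by
      obtain ⟨a, rfl⟩ := AdjoinRoot.mk_surjective a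
      rw [gL_mk' hf h4, h3, mul_one]
    let φ : Dual F V := l ∘ₗ LinearMap.fst F _ V' ∘ₗ e.1.symm.toLinearMap
    have h6 : ∀ a x, φ (aeval T a (e.1 x)) = l (AdjoinRoot.mk f a * x.1) := fun a x => by simp [φ, h1]
    have hx : GX T hf l (e.1 (1, 0), φ) := ⟨h4, fun w => by
      obtain ⟨x, rfl⟩ := e.1.surjective w
      rw [h6, AdjoinRoot.mk_self, zero_mul, map_zero], fun a => by simp [h5, φ]⟩
    let s : V' →ₗ[F] gD T φ := (e.1.toLinearMap ∘ₗ LinearMap.inr F _ V').codRestrict _ fun y a =>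
      (h6 a (0, y)).trans (by simp)
    refine ⟨⟨⟨_, hx⟩, LinearEquiv.ofBijective s ⟨fun y y' h => ?_, fun w => ?_⟩, fun y => Subtype.ext ?_⟩,
      Subtype.ext (LinearEquiv.ext fun x => ?_)⟩
    · exact congrArg Prod.snd (e.1.injective (congrArg Subtype.val h))
    · obtain ⟨⟨a, y⟩, h⟩ := e.1.surjective w
      obtain rfl : a = 0 := hl a fun b => by
        obtain ⟨b, rfl⟩ := AdjoinRoot.mk_surjective b
        rw [mul_comm, ← h6 b (a, y), h]
        exact w.2 b
      exact ⟨y, Subtype.ext h⟩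
    · exact (congrArg (fun a => e.1 (a, T' y)) (map_zero (mr f)).symm).trans (e.2 (0, y))
    · change gL T hf (e.1 (1, 0)) x.1 + e.1 (0, x.2) = e.1 x
      rw [h5, ← map_add]; simp

end basic

variable [Fintype F] {V V' : Type v} [AddCommGroup V] [Module F V] [Fintype V] [AddCommGroup V'] [Module F V']
  [Fintype V']

theorem g_card (W : Type*) [AddCommGroup W] [Module F W] [FiniteDimensional F W] :
    Nat.card W = Fintype.card F ^ finrank F W := by
  rw [← Nat.card_eq_fintype_card]; exact Module.natCard_eq_pow_finrank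

theorem card_ext {U : Type*} [AddCommGroup U] [Module F U] [FiniteDimensional F U] {i : U →ₗ[F] V}
    (hi : Function.Injective i) (ψ : Dual F U) :
    Nat.card {φ : Dual F V // φ ∘ₗ i = ψ} * Fintype.card F ^ finrank F U = Fintype.card F ^ finrank F V := by
  have h1 := LinearMap.dualMap_surjective_of_injective hi
  have h2 := LinearMap.finrank_range_add_finrank_ker i.dualMap
  rw [LinearMap.range_eq_top.2 h1, finrank_top, Subspace.dual_finrank_eq, Subspace.dual_finrank_eq] at h2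
  rw [← h2, add_comm, pow_add, ← g_card (F := F) (LinearMap.ker i.dualMap)]
  exact congrArg (· * _) (Nat.card_congr (AddMonoidHom.fiberEquivKerOfSurjective (f := i.dualMap.toAddMonoidHom) h1 ψ))

variable {T : End F V} {T' : End F V'}

theorem card_GX {π : F[X]} (hπ : Irreducible π) {k : ℕ} (hf : (π ^ (k + 1)).Monic)
    {l : Dual F (AdjoinRoot (π ^ (k + 1)))} (hl : ∀ a, (∀ b, l (a * b) = 0) → a = 0)
    (hs : LinearMap.ker (aeval T π ^ (k + 1)) = LinearMap.ker (aeval T π ^ (k + 2))) :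
    Nat.card {x // GX T hf l x} * Fintype.card F ^ (π ^ (k + 1)).natDegree =
      (Fintype.card F ^ kd T (π ^ (k + 1)) - Fintype.card F ^ kd T (π ^ k)) * Fintype.card F ^ kd T (π ^ (k + 1)) := by
  haveI := g_finite hf
  haveI : Finite (Dual F V) := Module.finite_of_finite F
  let N := LinearMap.range (aeval T (π ^ (k + 1)))
  let Y := {v : V // aeval T (π ^ (k + 1)) v = 0 ∧ aeval T (π ^ k) v ≠ 0}
  have h1 : Nat.card {x // GX T hf l x} =
      ∑ v : Y, Nat.card {φ : Dual F V // φ ∘ₗ (gL T hf v.1).coprod N.subtype = l ∘ₗ LinearMap.fst F _ N} := by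
    rw [← Nat.card_sigma]
    refine Nat.card_congr
      { toFun := fun x => ⟨⟨x.1.1, x.2.vec, fun h => ?_⟩, x.1.2, LinearMap.ext ?_⟩
        invFun := fun y => ⟨(y.1.1, y.2.1), y.1.2.1, fun w => ?_, fun a => ?_⟩
        left_inv := fun _ => rfl
        right_inv := fun _ => rfl }
    · have := (x.2.spl hl).inj ((gL_mk' hf x.2.vec _).trans (h.trans (map_zero _).symm))
      exact hπ.not_isUnit (isUnit_of_dvd_one ((mul_dvd_mul_iff_left (pow_ne_zero k hπ.ne_zero)).1
        (by rw [mul_one, ← pow_succ]; exact AdjoinRoot.mk_eq_zero.1 this)))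
    · rintro ⟨a, _, w, rfl⟩
      simp [x.2.val, -map_pow, x.2.cov]
    · simpa using LinearMap.congr_fun y.2.2 (0, ⟨_, w, rfl⟩)
    · simpa using LinearMap.congr_fun y.2.2 (a, 0)
  have h2 : ∀ v : Y, Function.Injective ((gL T hf v.1).coprod N.subtype) := fun v =>
    (injective_iff_map_eq_zero _).2 fun ⟨a, _, w, rfl⟩ h => by
      obtain ⟨a, rfl⟩ := AdjoinRoot.mk_surjective a
      replace h : aeval T a v.1 + aeval T (π ^ (k + 1)) w = 0 := by rw [← gL_mk' hf v.2.1]; exact h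
      have h3 : aeval T (π ^ (k + 1)) w = 0 := by
        have := congrArg (aeval T (π ^ (k + 1))) h
        rw [map_add, g_aeval_swap, v.2.1, map_zero, zero_add, map_zero, map_pow] at this
        rw [map_pow]
        exact (End.ker_pow_constant hs (k + 1)).ge (by rw [LinearMap.mem_ker, pow_add]; exact this)
      rw [h3, add_zero] at h
      exact Prod.ext (AdjoinRoot.mk_eq_zero.2 (g_dvd hπ v.2.1 v.2.2 h)) (Subtype.ext h3)
  have h3 := LinearMap.finrank_range_add_finrank_ker (aeval T (π ^ (k + 1)))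
  have h4 : Nat.card Y = Fintype.card F ^ kd T (π ^ (k + 1)) - Fintype.card F ^ kd T (π ^ k) := by
    rw [kd, kd, ← g_card, ← g_card, ← SetLike.coe_sort_coe, ← SetLike.coe_sort_coe, Nat.card_coe_set_eq,
      Nat.card_coe_set_eq, ← Set.ncard_sdiff (fun v hv => by
        rw [SetLike.mem_coe, LinearMap.mem_ker] at hv ⊢
        rw [pow_succ', map_mul, End.mul_apply, hv, map_zero])]
    rfl
  refine Nat.eq_of_mul_eq_mul_right (pow_pos (Fintype.card_pos (α := F)) (finrank F N)) ?_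
  rw [h1, mul_assoc, mul_assoc, ← pow_add, ← pow_add, sum_mul, ← finrank_adj hf, ← finrank_prod,
    sum_congr rfl fun v _ => card_ext (h2 v) _, sum_const, card_univ, ← Nat.card_eq_fintype_card, h4, ← h3,
    add_comm (kd _ _)]
  rfl

theorem card_iso {f : F[X]} {hf : f.Monic} {l : Dual F (AdjoinRoot f)} (hl : ∀ a, (∀ b, l (a * b) = 0) → a = 0)
    {x : V × Dual F V} (hx : GX T hf l x) (h : ∀ y, GX T hf l y → Nonempty (Iso (gS T x.2) (gS T y.2))) :
    Nat.card (Iso T T) = Nat.card {x // GX T hf l x} * Nat.card (Iso (gS T x.2) (gS T x.2)) := by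
  haveI : Finite (Dual F V) := Module.finite_of_finite F
  rw [← Nat.card_congr (Iso.congr ((hx.spl hl).iso (.refl _)) (.refl T)), card_iso_prod (hf := hf) hl, ← Nat.card_prod]
  exact Nat.card_congr ((Equiv.sigmaCongrRight fun y : {x // GX T hf l x} =>
    (Iso.congr (.refl (gS T x.2)) (h y.1 y.2).some).symm).trans (Equiv.sigmaEquivProd _ _))

theorem exists_GX {π : F[X]} (hπ : Irreducible π) {k : ℕ} (hf : (π ^ (k + 1)).Monic)
    {l : Dual F (AdjoinRoot (π ^ (k + 1)))} (hl : ∀ a, (∀ b, l (a * b) = 0) → a = 0)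
    (hs : LinearMap.ker (aeval T π ^ (k + 1)) = LinearMap.ker (aeval T π ^ (k + 2)))
    (hk : kd T (π ^ k) < kd T (π ^ (k + 1))) : ∃ x, GX T hf l x := by
  have h1 := card_GX hπ hf hl hs
  obtain ⟨x⟩ := (Nat.card_ne_zero.1 (left_ne_zero_of_mul (h1 ▸ mul_ne_zero (Nat.sub_ne_zero_of_lt
    (Nat.pow_lt_pow_right Fintype.one_lt_card hk)) (pow_ne_zero _ Fintype.card_ne_zero)))).1
  exact ⟨x.1, x.2⟩

theorem Spl.finrank_lt (p : Fam P d) {θ : ι} {k : ℕ} {L : AdjoinRoot (P θ ^ (k + 1)) →ₗ[F] V} {D : Submodule F V}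
    {S : End F D} (s : Spl T (P θ ^ (k + 1)) L D S) : finrank F D < finrank F V := by
  rw [← Submodule.finrank_add_eq_of_isCompl s.compl, LinearMap.finrank_range_of_inj s.inj,
    finrank_adj ((p.monic θ).pow _), (p.monic θ).natDegree_pow, p.deg]
  exact Nat.lt_add_of_pos_left (Nat.mul_pos k.succ_pos (p.pos θ))

theorem G_dec (p : FamG P d) {T : End F V} (h : Sp P T) : ∃ τ, Dec P T τ := by
  induction hn : finrank F V using Nat.strong_induction_on generalizing V with | _ n ih => ?_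
  rcases subsingleton_or_nontrivial V with hV | hV
  · exact ⟨0, .nil T⟩
  obtain ⟨θ, hθ⟩ : ∃ θ, ¬ IsUnit (aeval T (P θ)) := by
    by_contra! h1
    refine h.not_isUnit (Finset.prod_induction _ (fun a => IsUnit (aeval T a)) (fun a b ha hb => ?_) ?_ fun θ _ => h1 θ)
    · rw [map_mul]; exact ha.mul hb
    · rw [map_one]; exact isUnit_one
  have h1 : ∃ k, LinearMap.ker (aeval T (P θ) ^ k) = LinearMap.ker (aeval T (P θ) ^ (k + 1)) :=
    (End.exists_ker_pow_eq_ker_pow_succ _).imp fun _ h => h.2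
  obtain ⟨k, hk⟩ := Nat.exists_eq_succ_of_ne_zero (n := Nat.find h1) fun e => hθ (by
    have := Nat.find_spec h1
    rw [e, pow_zero, zero_add, pow_one] at this
    rw [LinearMap.isUnit_iff_ker_eq_bot, ← this]
    exact LinearMap.ker_id)
  obtain ⟨l, hl⟩ := exists_frob ((p.monic θ).pow (k + 1))
  obtain ⟨x, hx⟩ := exists_GX (T := T) (p.irr θ) ((p.monic θ).pow (k + 1)) hl (by simpa [hk] using Nat.find_spec h1)
    (Submodule.finrank_lt_finrank_of_lt (by
      rw [map_pow, map_pow]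
      exact lt_of_le_of_ne (by rw [pow_succ']; exact LinearMap.ker_le_ker_comp _ _) (Nat.find_min h1 (by omega))))
  have s := hx.spl hl
  obtain ⟨m, hm⟩ := h
  obtain ⟨τ, hτ⟩ := ih _ (hn ▸ s.finrank_lt p.toFam) (T := gS T x.2) ⟨m, LinearMap.ext fun v => Subtype.ext (by
    rw [← map_pow] at hm ⊢
    exact (Hom.aeval s.res _ v).trans (by rw [hm]; rfl))⟩ rfl
  exact ⟨_, .cons T θ _ k.succ_pos _ _ _ s τ hτ⟩

theorem HT.cases (h : HT P d T τ) : τ = 0 ∨ ∃ θ k, k + 1 ∈ τ θ ∧ ∀ b ∈ τ θ, b ≤ k + 1 := by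
  refine or_iff_not_imp_left.2 fun h0 => ?_
  obtain ⟨θ, hθ⟩ := Function.ne_iff.1 h0
  obtain ⟨k, h1, h2⟩ := exists_max_image (τ θ).toFinset id (Multiset.toFinset_nonempty.2 hθ)
  rw [Multiset.mem_toFinset] at h1
  obtain ⟨k, rfl⟩ := Nat.exists_eq_succ_of_ne_zero (n := k) fun e => h.pos θ (e ▸ h1)
  exact ⟨θ, k, h1, fun b hb => h2 b (Multiset.mem_toFinset.2 hb)⟩

theorem HT.ker_eq (h : HT P d T τ) {θ : ι} {k : ℕ} (h2 : ∀ b ∈ τ θ, b ≤ k + 1) :
    LinearMap.ker (aeval T (P θ) ^ (k + 1)) = LinearMap.ker (aeval T (P θ) ^ (k + 2)) := by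
  refine Submodule.eq_of_le_of_finrank_eq (by rw [pow_succ' _ (k + 1)]; exact LinearMap.ker_le_ker_comp _ _) ?_
  rw [← map_pow, ← map_pow]
  exact (h.ker θ _).trans (by rw [hk_of_le h2, ← hk_of_le fun b hb => (h2 b hb).trans (k + 1).le_succ, ← h.ker]; rfl)

theorem HT.exists_GX (p : FamG P d) (h : HT P d T τ) {θ : ι} {k : ℕ} (h1 : k + 1 ∈ τ θ) (h2 : ∀ b ∈ τ θ, b ≤ k + 1)
    {l : Dual F (AdjoinRoot (P θ ^ (k + 1)))} (hl : ∀ a, (∀ b, l (a * b) = 0) → a = 0) :
    ∃ x, GX T ((p.monic θ).pow (k + 1)) l x := by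
  refine GUW.exists_GX (p.irr θ) _ hl (h.ker_eq h2) ?_
  rw [h.ker, h.ker, hk_of_le h2, ← hk_top h2]
  exact Nat.mul_lt_mul_of_pos_left (Nat.lt_add_of_pos_right (Multiset.count_pos.2 h1)) (p.pos θ)

theorem HT.subsingleton (h : HT P d T 0) : Subsingleton V :=
  finrank_zero_iff.1 (h.dim.trans (by simp [tsz]))

theorem G_iso (p : FamG P d) {T : End F V} {T' : End F V'} (h : HT P d T τ) (h' : HT P d T' τ) :
    Nonempty (Iso T T') := by
  induction hn : finrank F V using Nat.strong_induction_on generalizing V V' τ with | _ n ih => ?_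
  rcases h.cases with rfl | ⟨θ, k, h1, h2⟩
  · haveI := h.subsingleton
    haveI := h'.subsingleton
    exact ⟨⟨LinearEquiv.ofSubsingleton V V', fun _ => Subsingleton.elim _ _⟩⟩
  obtain ⟨l, hl⟩ := exists_frob ((p.monic θ).pow (k + 1))
  obtain ⟨x, hx⟩ := h.exists_GX p h1 h2 hl
  obtain ⟨x', hx'⟩ := h'.exists_GX p h1 h2 hl
  obtain ⟨e⟩ := ih _ (hn ▸ (hx.spl hl).finrank_lt p.toFam) (h.spl p.toFam h1 (hx.spl hl))
    (h'.spl p.toFam h1 (hx'.spl hl)) rfl
  exact ⟨Iso.congr ((hx.spl hl).iso (.refl _)) ((hx'.spl hl).iso e) (.refl _)⟩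

theorem G_conj (p : FamG P d) {T : End F V} {T' : End F V'} (h : HT P d T τ) (h' : HT P d T' τ) :
    ∃ e : V ≃ₗ[F] V', ∀ x, e (T x) = T' (e x) :=
  (G_iso p h h').elim fun e => ⟨e.1, e.2⟩

theorem G_card_iso (p : FamG P d) {T : End F V} (h : HT P d T τ) :
    (Nat.card (Iso T T) : ℚ) = ∏ θ, aa (τ θ) ((Fintype.card F : ℚ) ^ d θ) := by
  induction hn : finrank F V using Nat.strong_induction_on generalizing V τ with | _ n ih => ?_
  rcases h.cases with rfl | ⟨θ, k, h1, h2⟩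
  · haveI := h.subsingleton
    haveI : Unique (Iso T T) := ⟨⟨.refl T⟩, fun _ => Subtype.ext (LinearEquiv.ext fun _ => Subsingleton.elim _ _)⟩
    simp [aa_zero]
  obtain ⟨l, hl⟩ := exists_frob ((p.monic θ).pow (k + 1))
  obtain ⟨x, hx⟩ := h.exists_GX p h1 h2 hl
  have h3 := card_GX (p.irr θ) ((p.monic θ).pow (k + 1)) hl (h.ker_eq h2)
  have h4 := congrArg (Nat.cast (R := ℚ)) h3
  have hq : (Fintype.card F : ℚ) ^ d θ ≠ 0 := pow_ne_zero _ (Nat.cast_ne_zero.2 Fintype.card_ne_zero)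
  rw [h.ker, h.ker, hk_of_le h2, (p.monic θ).natDegree_pow, p.deg, Nat.cast_mul, Nat.cast_mul,
    Nat.cast_sub (Nat.pow_le_pow_right Fintype.card_pos (Nat.mul_le_mul_left _ (hk_top h2 ▸ Nat.le_add_right _ _))),
    mul_comm (k + 1)] at h4
  simp only [Nat.cast_pow, pow_mul] at h4
  rw [card_iso hl hx fun y hy => G_iso p (h.spl p.toFam h1 (hx.spl hl)) (h.spl p.toFam h1 (hy.spl hl)), Nat.cast_mul,
    ih _ (hn ▸ (hx.spl hl).finrank_lt p.toFam) (h.spl p.toFam h1 (hx.spl hl)) rfl,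
    ← mul_prod_erase _ _ (mem_univ θ), ← mul_prod_erase univ _ (mem_univ θ), Function.update_self, ← mul_assoc,
    prod_congr rfl fun θ' h => by rw [Function.update_of_ne (ne_of_mem_erase h)]]
  congr 1
  refine mul_right_cancel₀ (pow_ne_zero (k + 1) hq) ?_
  rw [aa_erase h1 h2, mul_right_comm, h4, mul_comm, ← hk_top h2]
  field_simp
  ring

theorem Sp.isUnit (p : Fam P d) (h : Sp P T) : IsUnit T := by
  obtain ⟨m, hm⟩ := h
  refine (LinearMap.isUnit_iff_ker_eq_bot T).2 (LinearMap.ker_eq_bot'.2 fun v hv => ?_)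
  have h1 := LinearMap.congr_fun hm v
  rw [← map_pow, ← divX_mul_X_add ((∏ θ, P θ) ^ m), map_add, map_mul, aeval_X, aeval_C, LinearMap.add_apply,
    End.mul_apply, hv, map_zero, zero_add, algebraMap_end_apply, coeff_zero_eq_eval_zero, eval_pow, eval_prod] at h1
  exact (smul_eq_zero.1 h1).resolve_left (pow_ne_zero _ (prod_ne_zero_iff.2 fun θ _ =>
    coeff_zero_eq_eval_zero (P θ) ▸ p.zero θ))

theorem exists_HT (p : Fam P d) (h0 : ∀ θ, 0 ∉ τ θ) {W : Type*} [AddCommGroup W] [Module F W] [FiniteDimensional F W]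
    (h : finrank F W = tsz d τ) : ∃ T : End F W, HT P d T τ := by
  suffices ∀ n τ, (∀ θ, 0 ∉ τ θ) → n = tsz d τ → ∃ T : End F (Fin n → F), HT P d T τ by
    obtain ⟨T, hT⟩ := this _ τ h0 h
    let e := LinearEquiv.ofFinrankEq (R := F) (Fin (finrank F W) → F) W (by simp)
    exact ⟨e.conj T, hT.congr e fun v => by simp⟩
  intro n
  induction n using Nat.strong_induction_on with | _ n ih => ?_
  rintro τ h0 rfl
  by_cases h1 : τ = 0
  · subst h1
    haveI : Subsingleton (Fin (tsz d 0) → F) := finrank_zero_iff.1 (show finrank F _ = 0 by rw [finrank_fin_fun]; simp [tsz])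
    exact ⟨0, (Dec.nil 0).ht p⟩
  obtain ⟨θ, hθ⟩ := Function.ne_iff.1 h1
  obtain ⟨k, hk⟩ := Multiset.exists_mem_of_ne_zero hθ
  have h2 : 0 < k := Nat.pos_of_ne_zero fun e => h0 θ (e ▸ hk)
  have h3 := congrArg (tsz d) (update_add hk)
  rw [tsz_add, tsz_single] at h3
  obtain ⟨T, hT⟩ := ih _ (h3 ▸ Nat.lt_add_of_pos_right (Nat.mul_pos (p.pos θ) h2)) _ (fun θ' h => by
    by_cases e : θ' = θ
    · subst e
      rw [Function.update_self] at h
      exact h0 _ (Multiset.mem_of_mem_erase h)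
    · rw [Function.update_of_ne e] at h
      exact h0 _ h) rfl
  haveI := g_finite ((p.monic θ).pow k)
  have h4 := update_add hk ▸ hT.prod (p.ht_mr θ h2)
  let e := LinearEquiv.ofFinrankEq (R := F) _ (Fin (tsz d τ) → F) (h4.dim.trans (by simp))
  exact ⟨e.conj (T.prodMap (mr (P θ ^ k))), h4.congr e fun v => by simp⟩

theorem G_exists (p : FamG P d) (h0 : ∀ θ, 0 ∉ τ θ) (h : finrank F V = tsz d τ) :
    ∃ g : (End F V)ˣ, HT P d g.1 τ := by
  obtain ⟨T, hT⟩ := exists_HT p.toFam h0 h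
  exact ⟨((hT.sp p.toFam).isUnit p.toFam).unit, hT⟩

theorem G_card (p : FamG P d) {g : (End F V)ˣ} (h : HT P d g.1 τ) :
    (Nat.card (Subgroup.centralizer ({g} : Set (End F V)ˣ)) : ℚ) = ∏ θ, aa (τ θ) ((Fintype.card F : ℚ) ^ d θ) := by
  rw [← G_card_iso p h]
  refine congrArg _ (Nat.card_congr ((LinearMap.GeneralLinearGroup.generalLinearEquiv F V).toEquiv.subtypeEquiv
    fun c => ?_))
  rw [Subgroup.mem_centralizer_singleton_iff, Units.ext_iff, LinearMap.ext_iff]
  rfl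

theorem GL_isConj (p : FamG P d) {n : ℕ} {g g' : GL (Fin n) F} (h : HT P d (Matrix.toLin' g.1) τ)
    (h' : HT P d (Matrix.toLin' g'.1) τ) : IsConj g g' := by
  obtain ⟨e, he⟩ := G_conj p h h'
  refine isConj_iff.2 ⟨Matrix.GeneralLinearGroup.toLin.symm (.ofLinearEquiv e), mul_inv_eq_iff_eq_mul.2
    (Matrix.GeneralLinearGroup.toLin.injective (Units.ext (LinearMap.ext fun x => ?_)))⟩
  simpa using he x

theorem GL_card (p : FamG P d) {n : ℕ} {g : GL (Fin n) F} (h : HT P d (Matrix.toLin' g.1) τ) :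
    (Nat.card (Subgroup.centralizer ({g} : Set (GL (Fin n) F))) : ℚ) =
      ∏ θ, aa (τ θ) ((Fintype.card F : ℚ) ^ d θ) := by
  rw [← G_card p (g := Matrix.GeneralLinearGroup.toLin g) h]
  refine congrArg _ (Nat.card_congr (Matrix.GeneralLinearGroup.toLin.toEquiv.subtypeEquiv fun c => ?_))
  rw [Subgroup.mem_centralizer_singleton_iff, Subgroup.mem_centralizer_singleton_iff,
    ← Matrix.GeneralLinearGroup.toLin.injective.eq_iff, map_mul, map_mul]
  rfl

theorem wallG_realise_eqns : True := by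
  have := @gL.eq_1.{0, 0}
  have := @gS.eq_1.{0, 0}
  have := @Iso.refl.eq_1.{0, 0}
  trivial

end GUW
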