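import Cfsg.Agent.Lib.GU.EmA
import Cfsg.Agent.Lib.GU.WallG
import Cfsg.Agent.Lib.GU.ThetaU
import Mathlib.Combinatorics.Hall.Basic
import Mathlib.FieldTheory.Finite.Extension
import Mathlib.FieldTheory.PrimitiveElement

/-!
# Classes of `GL_n` with prescribed spectrum
-/

set_option autoImplicit false
set_option linter.unusedSectionVars false

namespace GUH

open Finset GLH GUW Polynomial Matrix Module
open scoped Classical ComplexConjugate

variable {ι : Type} [Fintype ι] {d : ι → ℕ} {F : Type} [Field F] [Fintype F] {P : ι → F[X]}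
  {n a b : ℕ} {τ τ' : ι → Multiset ℕ}

theorem exists_irr (F : Type) [Field F] [Fintype F] (hn : 0 < n) :
    ∃ f : F[X], f.Monic ∧ Irreducible f ∧ f.natDegree = n := by
  have : Fact (ringChar F).Prime := ⟨CharP.prime_ringChar F⟩
  have : NeZero n := ⟨hn.ne'⟩
  let pb := Field.powerBasisOfFiniteOfSeparable F (FiniteField.Extension F (ringChar F) n)
  exact ⟨_, minpoly.monic pb.isIntegral_gen, minpoly.irreducible pb.isIntegral_gen, by
    rw [pb.natDegree_minpoly, ← pb.finrank, FiniteField.finrank_extension]⟩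

theorem exists_famG (hd : ∀ θ, 0 < d θ) (h : ∀ θ, d θ * (Fintype.card ι + 1) < Fintype.card F) :
    ∃ P : ι → F[X], FamG P d := by
  choose f f1 f2 f3 using fun θ => exists_irr F (hd θ)
  have a1 : ∀ θ, Fintype.card ι ≤ ((univ.image fun c => (f θ).eval c).erase 0).card := fun θ => by
    have a2 : Fintype.card F ≤ d θ * (univ.image fun c => (f θ).eval c).card := by
      refine card_le_mul_card_image _ _ fun s _ => ?_
      have a3 : f θ - C s ≠ 0 := fun e => (hd θ).ne' (by rw [← f3, sub_eq_zero.1 e, natDegree_C])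
      refine (card_le_degree_of_subset_roots (p := f θ - C s) fun c hc => ?_).trans
        (by rw [natDegree_sub_C, f3])
      simpa [a3, sub_eq_zero] using hc
    have a3 := Nat.lt_of_mul_lt_mul_left ((h θ).trans_le a2)
    have a4 := pred_card_le_card_erase (s := univ.image fun c => (f θ).eval c) (a := 0)
    omega
  obtain ⟨v, v1, v2⟩ := (all_card_le_biUnion_card_iff_exists_injective
    fun θ => (univ.image fun c => (f θ).eval c).erase 0).1 fun s => by
      rcases s.eq_empty_or_nonempty with rfl | ⟨θ, e⟩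
      · simp
      · exact (card_le_univ s).trans ((a1 θ).trans (card_le_card (subset_biUnion_of_mem
          (fun θ => (univ.image fun c => (f θ).eval c).erase 0) e)))
  choose c c1 c2 using fun θ => mem_image.1 (mem_of_mem_erase (v2 θ))
  have m : ∀ θ, (taylor (c θ) (f θ)).Monic := fun θ => (leadingCoeff_taylor _ _).trans (f1 θ)
  have i : ∀ θ, Irreducible (taylor (c θ) (f θ)) := fun θ => (f2 θ).map (taylorEquiv (c θ))
  refine ⟨fun θ => taylor (c θ) (f θ), ⟨m, fun θ => by rw [natDegree_taylor, f3], hd, fun θ => ?_,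
    fun θ θ' e => (i θ).coprime_iff_not_dvd.2 fun e' => e (v1 ?_)⟩, i⟩
  · rw [taylor_coeff_zero, c2]
    exact ne_of_mem_erase (v2 θ)
  · rw [← c2, ← c2, ← taylor_coeff_zero, ← taylor_coeff_zero,
      eq_of_monic_of_associated (m θ) (m θ') ((i θ).associated_of_dvd (i θ') e')]

/-- the spectrum consists of roots of the family -/
def Su (P : ι → F[X]) {n : ℕ} (M : Mat F n) : Prop := ∃ k, M.charpoly ∣ (∏ θ, P θ) ^ k

theorem Su.sp {M : Mat F n} (h : Su P M) : GUW.Sp P (toLin' M) := by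
  obtain ⟨k, u, h⟩ := h
  exact ⟨k, by rw [← map_pow, h, map_mul, ← charpoly_toLin', LinearMap.aeval_self_charpoly, zero_mul]⟩

theorem ht_dec (p : FamG P d) {M : Mat F n} (h : HT P d (toLin' M) τ) : GUW.Dec P (toLin' M) τ := by
  obtain ⟨σ, e⟩ := G_dec p (h.sp p.toFam)
  rwa [h.unique p.toFam (e.ht p.toFam)]

theorem ht_charpoly (p : FamG P d) {M : Mat F n} (h : HT P d (toLin' M) τ) :
    M.charpoly = ∏ θ, P θ ^ (τ θ).sum := by
  rw [← charpoly_toLin', (ht_dec p h).charpoly p.toFam]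

theorem ht_mem (p : FamG P d) {M : Mat F n} (h : HT P d (toLin' M) τ) : τ ∈ Ty d n :=
  (mem_Ty p.pos).2 ⟨h.pos, h.dim.symm.trans (by simp)⟩

theorem ht_conj {g g' : G F n} (e : IsConj g g') (h : HT P d (toLin' g.1) τ) :
    HT P d (toLin' g'.1) τ := by
  obtain ⟨x, rfl⟩ := isConj_iff.1 e
  refine h.congr (toLin'OfInv x.inv_mul x.mul_inv) fun v => ?_
  change x.1 *ᵥ g.1 *ᵥ v = (x * g * x⁻¹).1 *ᵥ x.1 *ᵥ v
  rw [mulVec_mulVec, mulVec_mulVec, ← Units.val_mul, ← Units.val_mul, inv_mul_cancel_right]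

/-- representatives of the classes -/
def Rep (P : ι → F[X]) (d : ι → ℕ) (r : ∀ n, (ι → Multiset ℕ) → G F n) : Prop :=
  ∀ n, ∀ τ ∈ Ty d n, HT P d (toLin' (r n τ).1) τ

theorem exists_rep (p : FamG P d) : ∃ r, Rep P d r := by
  have : ∀ n τ, ∃ g : G F n, τ ∈ Ty d n → HT P d (toLin' g.1) τ := fun n τ => by
    by_cases h : τ ∈ Ty d n
    · rw [mem_Ty p.pos] at h
      obtain ⟨g, hg⟩ := G_exists (V := Fin n → F) p h.1 (by simp [h.2])
      obtain ⟨g, rfl⟩ := GeneralLinearGroup.toLin.surjective g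
      exact ⟨g, fun _ => hg⟩
    · exact ⟨1, fun e => absurd e h⟩
  choose r hr using this
  exact ⟨r, hr⟩

variable {r : ∀ n, (ι → Multiset ℕ) → G F n}

theorem Rep.conj (hr : Rep P d r) (p : FamG P d) {g : G F n} (h : Su P g.1) :
    ∃ τ ∈ Ty d n, IsConj (r n τ) g := by
  obtain ⟨τ, e⟩ := G_dec p h.sp
  have e' := e.ht p.toFam
  exact ⟨τ, ht_mem p e', GL_isConj p (hr n τ (ht_mem p e')) e'⟩

theorem Rep.avg (hr : Rep P d r) (p : FamG P d) {f : G F n → ℂ}
    (hf : ∀ g x, f (x * g * x⁻¹) = f g) (h : ∀ g, f g ≠ 0 → Su P g.1) :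
    (Nat.card (G F n) : ℂ)⁻¹ * ∑ g, f g = ∑ τ ∈ Ty d n, f (r n τ) / aT d (Fintype.card F) τ := by
  rw [avg_eq (Ty d n) (r n) hf (fun g e => hr.conj p (h g e))
    fun k hk l hl e => (ht_conj e (hr n k hk)).unique p.toFam (hr n l hl)]
  refine sum_congr rfl fun τ hτ => ?_
  rw [← Rat.cast_natCast, GL_card p (hr n τ hτ), cast_aT, Rat.cast_natCast]

theorem Rep.avg2 (hr : Rep P d r) (p : FamG P d) {f : G F a → G F b → ℂ}
    (hf : ∀ g g' x x', f (x * g * x⁻¹) (x' * g' * x'⁻¹) = f g g')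
    (h : ∀ g g', f g g' ≠ 0 → Su P g.1 ∧ Su P g'.1) :
    ((Nat.card (G F a) : ℂ) * Nat.card (G F b))⁻¹ * ∑ g, ∑ g', f g g' = ∑ τ ∈ Ty d a, ∑ τ' ∈ Ty d b,
      f (r a τ) (r b τ') / (aT d (Fintype.card F) τ * aT d (Fintype.card F) τ') := by
  have a1 : ∀ g, (Nat.card (G F b) : ℂ)⁻¹ * ∑ g', f g g' = _ := fun g =>
    hr.avg p (fun g' x => by simpa using hf g g' 1 x) fun g' e => (h g g' e).2
  rw [mul_inv, mul_assoc, mul_sum (a := (Nat.card (G F b) : ℂ)⁻¹), sum_congr rfl fun g _ => a1 g,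
    hr.avg p (fun g x => sum_congr rfl fun τ _ => by
      rw [← hf g (r b τ) x 1]; simp) fun g e => ?_]
  · exact sum_congr rfl fun τ _ => by
      rw [sum_div]; exact sum_congr rfl fun τ' _ => by rw [div_div, mul_comm]
  · obtain ⟨τ, -, e⟩ := exists_ne_zero_of_sum_ne_zero e
    exact (h _ _ fun e' => e (by rw [e', zero_div])).1

/-- Sylvester -/
theorem cop_coprime (y : H (1 : Fˣ →* ℂˣ)) {A : Mat F a} {D : Mat F b}
    (h : IsCoprime A.charpoly D.charpoly) : cop y.1 A D = y.1 (a + b) (cat A 0 D) := by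
  let L : Matrix (Fin a) (Fin b) F →+ Matrix (Fin a) (Fin b) F :=
    { toFun := fun Y => A * Y - Y * D
      map_zero' := by simp
      map_add' := fun Y Z => by simp only [Matrix.mul_add, Matrix.add_mul]; abel }
  have hL : Function.Injective L := by
    rw [injective_iff_map_eq_zero]
    intro Y hY
    have h1 : toLin' Y ∈ GUW.Hom (toLin' D) (toLin' A) := fun v => by
      simp [(sub_eq_zero.1 hY : A * Y = Y * D)]
    obtain ⟨u, w, e⟩ := h
    refine toLin'.injective (LinearMap.ext fun v => ?_)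
    have h2 := Hom.aeval h1 (w * D.charpoly) v
    rw [eq_sub_of_add_eq' e] at h2
    nth_rw 1 [← eq_sub_of_add_eq' e] at h2
    rw [map_sub, map_mul, map_mul, ← charpoly_toLin' A, ← charpoly_toLin' D,
      LinearMap.aeval_self_charpoly, LinearMap.aeval_self_charpoly] at h2
    simpa using h2.symm
  have h : ∀ B, y.1 (a + b) (cat A B D) = y.1 (a + b) (cat A 0 D) := by
    intro B
    obtain ⟨Y, rfl⟩ := Finite.surjective_of_injective hL B
    let h : G F (a + b) := ⟨cat 1 Y 1, cat 1 (-Y) 1, by rw [cat_mul]; simp [cat_one],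
      by rw [cat_mul]; simp [cat_one]⟩
    rw [← val_cnj y h (cat A 0 D)]
    refine congrArg (y.1 (a + b)) ?_
    change cat A (A * Y - Y * D) D = cat 1 (-Y) 1 * cat A 0 D * cat 1 Y 1
    rw [cat_mul, cat_mul]
    simp [sub_eq_add_neg]
  rw [cop, sum_congr rfl fun B _ => h B, sum_const, card_univ, nsmul_eq_mul,
    inv_mul_cancel_left₀ (Nat.cast_ne_zero.2 Fintype.card_ne_zero)]

theorem ht_cat {A : Mat F a} {D : Mat F b} (h : HT P d (toLin' A) τ) (h' : HT P d (toLin' D) τ') :
    HT P d (toLin' (cat A 0 D)) (τ + τ') := by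
  refine (h.prod h').congr ((LinearEquiv.sumArrowLequivProdArrow _ _ F F).symm ≪≫ₗ
    LinearEquiv.funCongrLeft F F finSumFinEquiv.symm) fun v => ?_
  funext i
  obtain ⟨i, rfl⟩ := finSumFinEquiv.surjective i
  cases i <;> simp [cat, fromBlocks_mulVec, Function.comp_def] <;> rfl

theorem exists_mf (p : FamG P d) (c : ι → ℂ) : ∃ w : F[X] →* ℂ, ∀ θ, w (P θ) = c θ := by
  refine ⟨{ toFun := fun φ => if φ = 0 then 0 else
              ∏ θ, c θ ^ (UniqueFactorizationMonoid.normalizedFactors φ).count (P θ)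
            map_one' := by simp
            map_mul' := fun x y => ?_ }, fun θ => ?_⟩
  · by_cases hx : x = 0
    · simp [hx]
    by_cases hy : y = 0
    · simp [hy]
    simp [hx, hy, UniqueFactorizationMonoid.normalizedFactors_mul hx hy, pow_add, prod_mul_distrib]
  · simp only [MonoidHom.coe_mk, OneHom.coe_mk, (p.irr θ).ne_zero, if_false,
      UniqueFactorizationMonoid.normalizedFactors_irreducible (p.irr θ), (p.monic θ).normalize_eq_self]
    rw [prod_eq_single θ (fun θ' _ e => ?_) (by simp)]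
    · simp
    · rw [Multiset.count_eq_zero.2 fun e' => ?_, pow_zero]
      have := p.cop _ _ e
      rw [Multiset.mem_singleton.1 e', isCoprime_self] at this
      exact (p.irr θ).not_isUnit this

theorem emC_realise_eqns : True := by
  have := @Su.eq_1
  have := @Rep.eq_1
  trivial

end GUH
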