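import Cfsg.Agent.Lib.GU.EmC
import Cfsg.Agent.Lib.GL.ClC
import Cfsg.Agent.Lib.GL.MkD
import Cfsg.Agent.Lib.GL.OrbB
import Cfsg.Agent.Lib.GL.AbsI
import Mathlib.NumberTheory.LegendreSymbol.Complex

/-!
# The model with parameter `q` given by the Hall algebra of the groups `GL_n(q)`
-/

set_option autoImplicit false
set_option linter.unusedSectionVars false

namespace GUH

open Finset GLH GLH.Cl GUW Polynomial Matrix Module SFock
open scoped Classical ComplexConjugate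

attribute [local irreducible] hmul

variable {ι : Type} [Fintype ι] {d : ι → ℕ} {F : Type} [Field F] [Fintype F] {P : ι → F[X]}
  {n a b : ℕ} {τ τ' : ι → Multiset ℕ} {K : Type} [Field K] [Fintype K] [Algebra F K] {j : ι → Kˣ}
  {x y : Al ι}

variable (F) in
/-- the class primitives of the family -/
noncomputable def cq (d : ι → ℕ) (j : ι → Kˣ) (θ : ι) (k : ℕ) : H (1 : Fˣ →* ℂˣ) :=
  if k = 0 then 0 else cp F (k * d θ) (j θ)

theorem mulOp_cp (c : F[X] →* ℂ) (hn : 0 < n) (x : Kˣ) :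
    mulOp (.ofPoly c) (cp F n x) = c (mp F n x) • cp F n x := by
  refine H.ext fun k M => ?_
  rw [mulOp_val, H.smul_val]
  by_cases e : (cp F n x).1 k M = 0
  · simp [e]
  obtain rfl : k = n := by_contra fun h => e ((cp_mem hn x).1 k h M)
  rw [← cp_supp hn e]
  rfl

theorem dv_pow {f g : F[X]} (hf : Irreducible f) {k : ℕ} (hk : 0 < k) :
    dv g (f ^ k) = if f ∣ g then 1 else 0 := by
  rw [dv_apply]
  exact if_congr ⟨fun ⟨_, h⟩ => hf.prime.dvd_of_dvd_pow ((dvd_pow_self f hk.ne').trans h),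
    fun h => ⟨k, pow_dvd_pow_of_dvd h k⟩⟩ rfl rfl

theorem dv_prod (p : FamG P d) {f : F[X]} (hf : Irreducible f) {k : ℕ} (hk : 0 < k) :
    dv (∏ θ, P θ) (f ^ k) = ∑ θ, dv (P θ) (f ^ k) := by
  simp only [dv_pow hf hk, hf.prime.dvd_finsetProd_iff]
  split_ifs with h
  · obtain ⟨θ, -, h⟩ := h
    rw [sum_eq_single θ (fun θ' _ e => if_neg fun h' =>
      hf.not_isUnit ((p.cop _ _ e).isUnit_of_dvd' h' h)) (by simp), if_pos h]
  · exact (sum_eq_zero fun θ _ => if_neg fun e => h ⟨θ, mem_univ _, e⟩).symm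

theorem dv_P (θ : ι) : dv (∏ θ, P θ) (P θ) = 1 :=
  if_pos ⟨1, by simpa using dvd_prod_of_mem _ (mem_univ θ)⟩

theorem ip_mulOp_dv (f : F[X]) (u v : H (1 : Fˣ →* ℂˣ)) :
    ipH n (mulOp (.ofPoly (dv f)) u) v = ipH n u (mulOp (.ofPoly (dv f)) v) := by
  rw [ipH, ipH, CT.ip_def, CT.ip_def]
  refine congrArg _ (sum_congr rfl fun g _ => ?_)
  change dv f _ * _ * _ = _ * conj (dv f _ * _)
  rw [dv_apply]
  split_ifs <;> simp [H.cf]

section
variable (p : FamG P d) (hj : ∀ θ, minpoly F (j θ : K) = P θ)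
include p hj

theorem mp_j (θ : ι) (k : ℕ) : mp F (k * d θ) (j θ) = P θ ^ k := by
  rw [mp, hj, p.deg, Nat.mul_div_cancel _ (p.pos θ)]

theorem mulOp_lf (c : F[X] →* ℂ) (x : Al ι) :
    mulOp (.ofPoly c) (lfA (cq F d j) x) = lfA (cq F d j) (muA (fun θ => c (P θ)) x) := by
  refine DFunLike.congr_fun (algHom_ext (f := (mulOp (.ofPoly c)).comp (lfA (cq F d j)))
    (f' := (lfA (cq F d j)).comp (muA fun θ => c (P θ))) fun θ k => ?_) x
  rw [AlgHom.comp_apply, AlgHom.comp_apply, muA_cvA, map_smul, lfA_cvA, cq]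
  split_ifs with e
  · simp
  · rw [mulOp_cp c (Nat.mul_pos (Nat.pos_of_ne_zero e) (p.pos θ)), mp_j p hj, map_pow]

theorem mulOp_dv (x : Al ι) :
    mulOp (.ofPoly (dv (∏ θ, P θ))) (lfA (cq F d j) x) = lfA (cq F d j) x := by
  rw [mulOp_lf p hj, show (fun θ => dv (∏ θ, P θ) (P θ)) = 1 from funext dv_P, muA_one]

theorem su_of_ne {M : Mat F n} (h : (lfA (cq F d j) x).1 n M ≠ 0) : Su P M := by
  rw [← mulOp_dv p hj, mulOp_val] at h
  by_contra e
  exact left_ne_zero_of_mul h (if_neg e)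

theorem of_cq (N : ℕ) :
    OF (psh (1 : Fˣ →* ℂˣ)) N d (fun _ => True) (cq F d j) (gT d (Fintype.card F)) where
  deg_pos := p.pos
  prim θ k _ hk _ := by rw [cq, if_neg hk.ne']; exact cp_mem (Nat.mul_pos hk (p.pos θ)) _
  orth θ θ' k l _ _ hk hl _ e := by
    have h0 := Nat.mul_pos hk (p.pos θ)
    rw [cq, cq, if_neg hk.ne', if_neg hl.ne', ← e]
    refine (ip_cp h0 (mem_XX'.2 (by rw [hj, p.deg]; exact dvd_mul_left _ _)) _).trans ?_
    refine if_congr ⟨fun a => by_contra fun a' => ?_, fun a => by rw [a]⟩ ?_ rfl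
    · have := p.cop _ _ a'
      rw [← hj, ← hj, (Ob.minpoly_eq _ _).2 a, isCoprime_self] at this
      exact (mi _).not_isUnit this
    · rw [Ob.deg_one, hj, p.deg, Nat.mul_div_cancel _ (p.pos θ), gT, div_eq_mul_inv,
        Nat.cast_sub (Nat.one_le_pow _ _ Fintype.card_pos)]
      simp

theorem lf_mo_mem (h : τ ∈ Ty d n) (θ : ι) :
    pp (cq F d j) θ (τ θ) ∈ GLH.Sp d (cq F d j) (· = θ) ((τ θ).sum * d θ) :=
  pp_mem_Sp _ _ _ (mem_Par'.2 ⟨((mem_Ty p.pos).1 h).1 θ, rfl⟩)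

omit hj in
theorem sum_eq_of_Ty (h : τ ∈ Ty d n) : ∑ θ, (τ θ).sum * d θ = n :=
  (sum_congr rfl fun _ _ => mul_comm _ _).trans ((mem_Ty p.pos).1 h).2

theorem lf_mem (hx : x ∈ HnA d n) : lfA (cq F d j) x ∈ Hn 1 n := by
  rw [eq_sum_mo hx, map_sum]
  refine Submodule.sum_mem _ fun τ h => ?_
  rw [map_smul, lfA_mo, ← sum_eq_of_Ty p h]
  exact Submodule.smul_mem _ _ ((psh 1).prod_mem _ _ _ fun θ _ =>
    (of_cq p hj _).Sp_le (fun _ _ => trivial) le_rfl (lf_mo_mem p hj h θ))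

theorem ip_lf_mo (h : τ ∈ Ty d n) (h' : τ' ∈ Ty d n) :
    ipH n (lfA (cq F d j) (mo τ)) (lfA (cq F d j) (mo τ')) =
      if τ = τ' then zT (gT d (Fintype.card F)) τ else 0 := by
  have le : ∀ {τ}, τ ∈ Ty d n → ∀ θ, (τ θ).sum * d θ ≤ n := fun h θ => by
    rw [← ((mem_Ty p.pos).1 h).2, mul_comm]; exact le_tsz _ _
  have ps : ∀ {τ}, τ ∈ Ty d n → ∀ θ, ∀ r ∈ τ θ, 0 < r := fun h θ r hr =>
    Nat.pos_of_ne_zero fun e => ((mem_Ty p.pos).1 h).1 θ (e ▸ hr)
  have a1 := (of_cq p hj n).ip_prod univ (fun _ _ => trivial) (fun θ _ => lf_mo_mem p hj h θ)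
    (fun θ _ => lf_mo_mem p hj h' θ) (sum_eq_of_Ty p h).le (sum_eq_of_Ty p h').le
  rw [sum_eq_of_Ty p h, prod_congr rfl fun θ _ => (of_cq p hj n).ip_pp trivial (ps h θ) (ps h' θ)
    (le h θ) (le h' θ)] at a1
  rw [lfA_mo, lfA_mo]
  refine a1.trans ?_
  split_ifs with e
  · simp [e, zT]
  · obtain ⟨θ, e⟩ := Function.ne_iff.1 e
    exact prod_eq_zero (mem_univ θ) (if_neg e)

theorem ip_lf (hx : x ∈ HnA d n) (hy : y ∈ HnA d n) :
    ipH n (lfA (cq F d j) x) (lfA (cq F d j) y) = ipA d (gT d (Fintype.card F)) n x y := by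
  conv_lhs => rw [eq_sum_mo hx, eq_sum_mo hy, map_sum, map_sum]
  refine ((psh 1).ip_sum _ _ _ _).trans (sum_congr rfl fun τ h => ?_)
  rw [(psh 1).ip_sum', sum_eq_single_of_mem τ h fun τ' h' e => ?_] <;>
    rw [map_smul, map_smul, (psh 1).ip_smul, (psh 1).ip_smul']
  · exact (congrArg _ (congrArg _ ((ip_lf_mo p hj h h).trans (if_pos rfl)))).trans (mul_assoc _ _ _).symm
  · exact (congrArg _ (congrArg _ ((ip_lf_mo p hj h h').trans (if_neg e.symm)))).trans (by simp)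

theorem lf_hA (C : Ctx F K) (hn : n ≤ C.N) :
    lfA (cq F d j) (hA d n) = (MF.ofPoly (dv (∏ θ, P θ))).gl n := by
  refine (((hA_rel d).map (lfA (cq F d j)).toRingHom).to C.N).unique ((pf_rel _).to C.N)
    (fun k h0 hk => ?_) n hn
  have a1 : ∀ x ∈ XX F K k, 0 < k / (minpoly F (x : K)).natDegree := fun x hx =>
    Nat.div_pos (Nat.le_of_dvd h0 (mem_XX'.1 hx)) (md x)
  calc _ = ∑ θ, pf (.ofPoly (dv (P θ))) k := ?_
    _ = _ := ?_
  · change lfA _ _ = _
    rw [piA, map_sum, sum_filter]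
    refine sum_congr rfl fun θ _ => ?_
    split_ifs with e
    · rw [map_smul, lfA_cvA, cq, if_neg (Nat.div_pos (Nat.le_of_dvd h0 e) (p.pos θ)).ne',
        Nat.div_mul_cancel e, cp, hj, p.deg, smul_inv_smul₀ (Nat.cast_ne_zero.2 (p.pos θ).ne')]
    · rw [pf_eq C h0 hk]
      refine (sum_eq_zero fun x hx => ?_).symm
      rw [dv_apply, if_neg, zero_smul]
      rintro ⟨l, hl⟩
      rw [← hj] at hl
      exact e (by rw [← p.deg, ← hj, ← minpoly_eq_of_dvd h0 hx hl]; exact mem_XX'.1 hx)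
  · simp only [pf_eq C h0 hk]
    rw [sum_comm]
    exact sum_congr rfl fun x hx => by rw [← sum_smul, mp, dv_prod p (mi x) (a1 x hx)]

end

theorem cf_conj (u : H (1 : Fˣ →* ℂˣ)) (g x : G F n) : u.1 n (x * g * x⁻¹).1 = u.1 n g.1 := by
  rw [← val_cnj u x⁻¹ g.1, Ha.cnj_val, inv_inv]

theorem vm_of_ctx (p : FamG P d) (hj : ∀ θ, minpoly F (j θ : K) = P θ) (C : Ctx F K) {N : ℕ}
    (hN : N ≤ C.N) : ∃ val, VM d N (Fintype.card F) val := by
  obtain ⟨r, hr⟩ := exists_rep p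
  let val : Al ι →ₗ[ℂ] (ι → Multiset ℕ) → ℂ :=
    { toFun := fun x τ => (lfA (cq F d j) x).1 (tsz d τ) (r (tsz d τ) τ).1
      map_add' := fun x y => funext fun τ => by simp
      map_smul' := fun c x => funext fun τ => by simp }
  have v : ∀ {n τ} (x), τ ∈ Ty d n → val x τ = (lfA (cq F d j) x).1 n (r n τ).1 := fun x h => by
    obtain rfl := ((mem_Ty p.pos).1 h).2
    rfl
  have ht : Adm (Fintype.card F : ℂ) := adm_nat Fintype.one_lt_card
  have a1 : ∀ n, ∀ x ∈ HnA d n, ∀ y ∈ HnA d n, ipA d (gT d (Fintype.card F)) n x y =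
      ∑ τ ∈ Ty d n, val x τ * conj (val y τ) / aT d (Fintype.card F) τ := fun n x hx y hy => by
    rw [← ip_lf p hj hx hy, ipH, CT.ip_def, hr.avg p ?_ ?_]
    · exact sum_congr rfl fun τ h => by rw [v x h, v y h]; rfl
    · exact fun g x => by simp only [H.cf, cf_conj]
    · exact fun g e => su_of_ne p hj (left_ne_zero_of_mul e)
  have a2 : ∀ n, ∀ z ∈ Hn (1 : Fˣ →* ℂˣ) n, ∃ x ∈ HnA d n,
      mulOp (.ofPoly (dv (∏ θ, P θ))) z = lfA (cq F d j) x := fun n z hz => by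
    obtain ⟨x, hx, e⟩ := surj_of_ip (fun τ => ht.zT_ne p.pos) (a1 n) fun τ => z.1 n (r n τ).1
    refine ⟨x, hx, ?_⟩
    rw [← mulOp_dv p hj]
    refine H.ext fun k M => ?_
    rw [mulOp_val, mulOp_val]
    by_cases e1 : k = n
    swap
    · rw [hz k e1, lf_mem p hj hx k e1]
    subst e1
    by_cases e2 : IsUnit M
    swap
    · rw [z.2.1 _ _ e2, (lfA (cq F d j) x).2.1 _ _ e2]
    obtain ⟨g, rfl⟩ := e2
    by_cases e3 : Su P g.1
    swap
    · simp [show (MF.ofPoly (dv (∏ θ, P θ))).c k g.1 = 0 from if_neg e3]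
    obtain ⟨τ, h, e4⟩ := hr.conj p e3
    obtain ⟨w, rfl⟩ := isConj_iff.1 e4
    rw [cf_conj, cf_conj, ← v x h, e τ h]
  have a3 : ∀ m ≤ N, ∀ x ∈ HnA d m, ∀ D : ℕ → Al ι, (∀ s ≤ m, D s ∈ HnA d s ∧ ∀ z ∈ HnA d s,
      ipA d (gT d (Fintype.card F)) m (z * hA d (m - s)) x = ipA d (gT d (Fintype.card F)) s z (D s)) →
      ∀ s ≤ m, ∀ z ∈ Hn (1 : Fˣ →* ℂˣ) s, ipH m (z * h1 F (m - s)) (lfA (cq F d j) x) =
        ipH s z (lfA (cq F d j) (D s)) := fun m hm x hx D hD s hs z hz => by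
    obtain ⟨w, hw, e⟩ := a2 s z hz
    have b1 : mulOp (.ofPoly (dv (∏ θ, P θ))) (h1 F (m - s)) = lfA (cq F d j) (hA d (m - s)) := by
      rw [lf_hA p hj C (by omega)]
      exact H.ext fun k M => by simp [mulOp_val, h1, MF.gl, MF.ofPoly]
    have b2 := mul_mem_HnA p.pos hw (hA_mem p.pos (m - s))
    rw [Nat.add_sub_cancel' hs] at b2
    rw [← mulOp_dv p hj x, ← ip_mulOp_dv, map_mul, e, b1, ← map_mul, ip_lf p hj b2 hx, (hD s hs).2 w hw,
      ← ip_lf p hj hw (hD s hs).1, ← e, ip_mulOp_dv, mulOp_dv p hj]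
  refine ⟨val, fun n _ => a1 n, fun c n _ x _ τ h => ?_, fun n hn τ h => ?_,
    fun m hm n hn x hx y hy D E hD hE => ?_, fun R a b _ f hf g hg y hy h1 h2 => ?_⟩
  · obtain ⟨w, hw⟩ := exists_mf p c
    rw [v _ h, v _ h, ← funext hw, ← mulOp_lf p hj, mulOp_val]
    change w _ * _ = _
    simp only [ht_charpoly p (hr n τ h), map_prod, map_pow]
  · rw [v _ h, lf_hA p hj C (hn.trans hN), Ha.gl_val, if_pos (r n τ).isUnit]
    change dv _ _ = _
    simp only [ht_charpoly p (hr n τ h), map_prod (dv _), map_pow, dv_P, one_pow, prod_const_one]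
  · have b1 := theta_form _ _ (fun s => lfA (cq F d j) (D s)) (fun s => lfA (cq F d j) (E s))
      (fun s hs => lf_mem p hj (hD s (hs.trans (min_le_left _ _))).1)
      (fun s hs => a3 m hm x hx D hD s (hs.trans (min_le_left _ _)))
      fun s hs => a3 n hn y hy E hE s (hs.trans (min_le_right _ _))
    rw [hr.avg2 p (fun g g' x x' => ?_) ?_] at b1
    · refine (sum_congr rfl fun τ h => sum_congr rfl fun τ' h' => ?_).trans (b1.trans
        (sum_congr rfl fun s hs => ip_lf p hj (hD s ?_).1 (hE s ?_).1))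
      · rw [v x h, v y h', (ht_dec p (hr m τ h)).hom p.toFam (hr n τ' h')]
        rfl
      all_goals have := mem_range.1 hs; omega
    · exact fun g g' e => ⟨su_of_ne p hj (right_ne_zero_of_mul (left_ne_zero_of_mul e)),
        su_of_ne p hj ((_root_.map_ne_zero _).1 (right_ne_zero_of_mul e))⟩
    · simp only [H.cf, cf_conj, ← dh_eq]
      rw [← dh_cnj g'.1 g.1 x'⁻¹ x⁻¹, Ha.cnj_val, Ha.cnj_val, inv_inv, inv_inv]
  · rw [← ip_lf p hj (mul_mem_HnA p.pos hf hg) hy, map_mul, Ha.adj1 (lf_mem p hj hf) (lf_mem p hj hg),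
      hr.avg2 p (fun g g' x x' => ?_) fun g g' e => ⟨su_of_ne p hj (left_ne_zero_of_mul
      (left_ne_zero_of_mul e)), su_of_ne p hj (right_ne_zero_of_mul (left_ne_zero_of_mul e))⟩]
    · refine sum_congr rfl fun τ h => sum_congr rfl fun τ' h' => ?_
      rw [← v f h, ← v g h']
      by_cases e : val f τ = 0
      · simp [e]
      by_cases e' : val g τ' = 0
      · simp [e']
      have b1 : IsCoprime (r a τ).1.charpoly (r b τ').1.charpoly := by
        rw [ht_charpoly p (hr a τ h), ht_charpoly p (hr b τ' h')]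
        refine IsCoprime.prod_left fun θ _ => IsCoprime.prod_right fun θ' _ => ?_
        by_cases c1 : τ θ = 0
        · simp [c1, isCoprime_one_left]
        by_cases c2 : τ' θ' = 0
        · simp [c2, isCoprime_one_right]
        exact (p.cop _ _ fun c : θ = θ' => h2 τ' h' e' θ' c2 (c ▸ h1 τ h e θ c1)).pow
      have b2 := add_mem_Ty p.pos h h'
      obtain ⟨u, hu⟩ := (isUnit_cat _ 0 _).2 ⟨(r a τ).isUnit, (r b τ').isUnit⟩
      obtain ⟨w, b3⟩ := isConj_iff.1 (GL_isConj p (hr _ _ b2)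
        (g' := u) (hu ▸ ht_cat (hr a τ h) (hr b τ' h')))
      rw [cop_coprime _ b1, v y b2, ← hu, ← b3, cf_conj]
    · simp only [cf_conj]
      rw [Ha.cop_cnj' _ x⁻¹ x'⁻¹ g.1, Ha.cnj_val, Ha.cnj_val, inv_inv, inv_inv, Ha.dt_one', Ha.dt_one',
        one_mul, one_mul]

theorem exists_vm (hd : ∀ θ, 0 < d θ) (N : ℕ) (F : Type) [Field F] [Fintype F]
    (h : ∀ θ, d θ * (Fintype.card ι + 1) < Fintype.card F) :
    ∃ val, VM d N (Fintype.card F) val := by
  obtain ⟨P, p⟩ := exists_famG hd h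
  have : Fact (ringChar F).Prime := ⟨CharP.prime_ringChar F⟩
  obtain ⟨l, h1, h2⟩ := Nat.exists_infinite_primes (ringChar F + 1)
  obtain ⟨M, hM⟩ := BT.exists_isPModular h2
  let n := N + ∑ θ, d θ + 1
  have : NeZero n.factorial := ⟨n.factorial_ne_zero⟩
  let K := FiniteField.Extension F (ringChar F) n.factorial
  let _ : Fintype K := Fintype.ofFinite K
  obtain ⟨g, hg⟩ := IsCyclic.exists_generator (α := Kˣ)
  obtain ⟨ω, hω⟩ := CT.exists_injective_units_hom (G := Kˣ)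
  let C : Ctx F K := ⟨n, Nat.succ_pos _, fun d h0 hd => by
      rw [FiniteField.finrank_extension]
      exact Nat.dvd_factorial h0 hd, g, hg, ω, hω, AddChar.FiniteField.primitiveChar_to_Complex F,
    by simpa using AddChar.FiniteField.primitiveChar_to_Complex_isPrimitive F one_ne_zero,
    l, h2, by omega, M, hM⟩
  choose j hj using fun θ => Ob.exists_root C (p.monic θ) (p.irr θ)
    (fun e => p.zero θ (by simp [e])) (by
      rw [p.deg]
      exact ((single_le_sum (fun _ _ => Nat.zero_le _) (mem_univ θ)).trans (Nat.le_add_left _ _)).trans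
        (Nat.le_succ _))
  exact vm_of_ctx p hj C ((Nat.le_add_right _ _).trans (Nat.le_succ _))

theorem emG_realise_eqns : True := by
  have := @cq.eq_1
  trivial

end GUH
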