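import Cfsg.Agent.Lib.GU.EmA

/-!
# The graded structure on the free algebra; the Ennola model from a model with parameter `-q`
-/

set_option autoImplicit false
set_option linter.unusedSectionVars false

namespace GUH

open Finset GLH GUW SFock
open scoped Classical ComplexConjugate

variable {ι : Type} [Fintype ι] {d : ι → ℕ} {g : ι → ℕ → ℂ} {n : ℕ} {x y : Al ι} {τ : ι → Multiset ℕ}

theorem zT_add_single (σ : ι → Multiset ℕ) (θ : ι) (j : ℕ) :
    zT g (σ + Pi.single θ {j}) = ((σ θ).count j + 1) * (j * g θ j) * zT g σ := by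
  rw [zT, zT, ← mul_prod_erase _ _ (mem_univ θ), ← mul_prod_erase _ _ (mem_univ θ), ← mul_assoc]
  congr 1
  · simp only [Pi.add_apply, Pi.single_eq_same, add_comm (σ θ), Multiset.singleton_add, zz_cons,
      Multiset.map_cons, Multiset.prod_cons]
    push_cast
    ring
  · exact prod_congr rfl fun θ' h => by simp [ne_of_mem_erase h]

theorem zT_zero : zT g 0 = 1 := by simp [zT, zz]

theorem zT_single (θ : ι) (j : ℕ) : zT g (Pi.single θ {j}) = j * g θ j := by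
  simpa [zT_zero] using zT_add_single (g := g) 0 θ j

/-- removal of a part -/
noncomputable def er (θ : ι) (j : ℕ) (τ : ι → Multiset ℕ) : ι → Multiset ℕ :=
  Function.update τ θ ((τ θ).erase j)

theorem er_add (θ : ι) (j : ℕ) (σ : ι → Multiset ℕ) : er θ j (σ + Pi.single θ {j}) = σ := by
  funext θ'
  by_cases e : θ' = θ
  · subst e; simp [er, add_comm (σ θ')]
  · simp [er, e]

theorem exists_er {θ : ι} {j : ℕ} (h : j ∈ τ θ) : ∃ σ : ι → Multiset ℕ, τ = σ + Pi.single θ {j} :=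
  ⟨_, (update_add h).symm⟩

/-- the adjoint of the multiplication by a generator -/
noncomputable def dA (c : ℂ) (θ : ι) (j : ℕ) : Al ι →ₗ[ℂ] Al ι :=
  (AddMonoidAlgebra.basis _ _).constr ℂ fun τ => (((τ θ).count j : ℂ) * c) • mo (er θ j τ)

theorem dA_mo (c : ℂ) (θ : ι) (j : ℕ) (τ : ι → Multiset ℕ) :
    dA c θ j (mo τ) = (((τ θ).count j : ℂ) * c) • mo (er θ j τ) :=
  (AddMonoidAlgebra.basis _ _).constr_basis ℂ _ τ

theorem dA_mul (c : ℂ) (θ : ι) (j : ℕ) (y z : Al ι) :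
    dA c θ j (y * z) = dA c θ j y * z + y * dA c θ j z := by
  have a1 : ∀ τ τ' : ι → Multiset ℕ, (((τ θ).count j : ℂ) * c) • mo (er θ j (τ + τ')) =
      (((τ θ).count j : ℂ) * c) • (mo (er θ j τ) * mo τ') := fun τ τ' => by
    by_cases h : j ∈ τ θ
    · obtain ⟨σ, rfl⟩ := exists_er h
      rw [add_right_comm, er_add, er_add, mo_add]
    · simp [Multiset.count_eq_zero.2 h]
  induction y using ind_mo with
  | h0 => simp
  | ha x y a b => simp only [add_mul, map_add, a, b]; abel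
  | h a τ =>
  induction z using ind_mo with
  | h0 => simp
  | ha x y a b => simp only [mul_add, map_add, a, b]; abel
  | h b τ' =>
    simp only [smul_mul_assoc, mul_smul_comm, map_smul, ← smul_add]
    rw [← mo_add, dA_mo, dA_mo, dA_mo, Pi.add_apply, Multiset.count_add, Nat.cast_add, add_mul,
      add_smul, a1, add_comm τ, a1, smul_mul_assoc, mul_smul_comm, mul_comm (mo τ)]

@[elab_as_elim]
theorem ind_HnA {p : Al ι → Prop} (hx : x ∈ HnA d n) (h0 : p 0) (ha : ∀ x y, p x → p y → p (x + y))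
    (h : ∀ (c : ℂ), ∀ τ ∈ Ty d n, p (c • mo τ)) : p x := by
  rw [eq_sum_mo hx]
  exact sum_induction _ p ha h0 fun τ hτ => h _ τ hτ

theorem dA_adj (hd : ∀ θ, 0 < d θ) (hc : ∀ θ k, conj (g θ k) = g θ k) (θ : ι) {j : ℕ} (hj : 0 < j)
    (hx : x ∈ HnA d n) (y : Al ι) :
    ipA d g (n + j * d θ) (x * cvA θ j) y = ipA d g n x (dA (j * g θ j) θ j y) := by
  refine ind_HnA hx (by simp [ipA]) (fun x y a b => by simp only [add_mul, ipA_add, a, b])
    fun c σ hσ => ?_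
  rw [smul_mul_assoc, ipA_smul, ipA_smul, cvA, ← mo_add,
    ipA_mo (add_mem_Ty hd hσ (single_mem_Ty hd θ hj)), ipA_mo hσ, zT_add_single]
  congr 1
  induction y using ind_mo with
  | h0 => simp
  | ha x y a b =>
    simp only [map_add, AddMonoidAlgebra.coeff_add, Finsupp.add_apply]
    linear_combination a + b
  | h b τ =>
    by_cases h : j ∈ τ θ
    · obtain ⟨σ', rfl⟩ := exists_er h
      by_cases e : σ' = σ <;> simp [dA_mo, er_add, coeff_mo, e, hc, mul_assoc]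
    · have : τ ≠ σ + Pi.single θ {j} := fun e => h (by simp [e])
      simp [dA_mo, Multiset.count_eq_zero.2 h, coeff_mo, this]

theorem Ty_ne {k : ℕ} (hd : ∀ θ, 0 < d θ) (h : τ ∈ Ty d n) (e : k ≠ n) : τ ∉ Ty d k := fun h' =>
  e (((mem_Ty hd).1 h').2.symm.trans ((mem_Ty hd).1 h).2)

theorem mem_Ty_of_add (hd : ∀ θ, 0 < d θ) {σ : ι → Multiset ℕ} {θ : ι} {j : ℕ}
    (h : σ + Pi.single θ {j} ∈ Ty d n) : 0 < j ∧ j * d θ ≤ n ∧ σ ∈ Ty d (n - j * d θ) := by
  rw [mem_Ty hd, GUH.tsz_add, tsz_single, mul_comm] at h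
  refine ⟨Nat.pos_of_ne_zero fun e => h.1 θ (by simp [e]), by omega,
    (mem_Ty hd).2 ⟨fun θ' e => h.1 θ' (by simp [e]), by omega⟩⟩

theorem dA_mem (hd : ∀ θ, 0 < d θ) (c : ℂ) (θ : ι) (j : ℕ) {m : ℕ} (hy : y ∈ HnA d m) :
    dA c θ j y ∈ HnA d (m - j * d θ) ∧ (m < j * d θ → dA c θ j y = 0) := by
  refine ind_HnA hy (by simp) (fun x y a b => ⟨?_, fun h => ?_⟩) fun b τ hτ => ?_
  · rw [map_add]; exact add_mem a.1 b.1
  · rw [map_add, a.2 h, b.2 h, add_zero]
  by_cases h : j ∈ τ θ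
  · obtain ⟨σ, rfl⟩ := exists_er h
    have := mem_Ty_of_add hd hτ
    rw [map_smul, dA_mo, er_add]
    exact ⟨Submodule.smul_mem _ _ (Submodule.smul_mem _ _ (mo_mem this.2.2)), fun e => by omega⟩
  · simp [dA_mo, Multiset.count_eq_zero.2 h]

theorem PrA_le (hd : ∀ θ, 0 < d θ) (n : ℕ) : PrA d n ≤ HnA d n := by
  refine Submodule.span_le.2 ?_
  rintro _ ⟨θ, k, hk, rfl, rfl⟩
  exact cvA_mem hd θ hk

theorem exists_part (hd : ∀ θ, 0 < d θ) (h : τ ∈ Ty d n) (hn : 0 < n) :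
    ∃ (σ : ι → Multiset ℕ) (θ : ι) (j : ℕ), τ = σ + Pi.single θ {j} := by
  have a1 : τ ≠ 0 := fun e => Ty_ne hd h hn.ne (by simp [Ty_zero hd, e])
  obtain ⟨θ, a2⟩ := Function.ne_iff.1 a1
  obtain ⟨j, hj⟩ := Multiset.exists_mem_of_ne_zero a2
  obtain ⟨σ, e⟩ := exists_er hj
  exact ⟨σ, θ, j, e⟩

theorem mem_PrA (hd : ∀ θ, 0 < d θ) (hg : ∀ θ k, 0 < k → g θ k ≠ 0) (hn : 0 < n) (hx : x ∈ HnA d n) :
    (∀ a b y z, 0 < a → 0 < b → a + b = n → y ∈ HnA d a → z ∈ HnA d b → ipA d g n (y * z) x = 0) ↔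
      x ∈ PrA d n := by
  refine ⟨fun h => ?_, fun h a b y z ha hb e hy hz => ?_⟩
  · rw [eq_sum_mo hx]
    refine Submodule.sum_mem _ fun τ hτ => ?_
    obtain ⟨σ, θ, j, rfl⟩ := exists_part hd hτ hn
    obtain ⟨a1, a2, a3⟩ := mem_Ty_of_add hd hτ
    rcases a2.eq_or_lt with e | e
    · rw [e, Nat.sub_self, Ty_zero hd, mem_singleton] at a3
      rw [a3, zero_add]
      exact Submodule.smul_mem _ _ (Submodule.subset_span ⟨θ, j, a1, e, rfl⟩)
    · have := h _ _ _ _ (by omega) (Nat.mul_pos a1 (hd θ)) (by omega) (mo_mem a3) (cvA_mem hd θ a1)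
      rw [cvA, ← mo_add, ipA_mo hτ, mul_eq_zero, or_iff_left (zT_ne ((mem_Ty hd).1 hτ).1 hg),
        map_eq_zero] at this
      simp [this]
  · refine ind_HnA (p := fun y => ipA d g n (y * z) x = 0) hy (by simp [ipA])
      (fun x y a b => by simp only [add_mul, ipA_add, a, b, add_zero]) fun c σ hσ => ?_
    refine ind_HnA (p := fun z => ipA d g n (c • mo σ * z) x = 0) hz (by simp [ipA])
      (fun x y a b => by simp only [mul_add, ipA_add, a, b, add_zero]) fun c' σ' hσ' => ?_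
    rw [smul_mul_assoc, mul_smul_comm, ipA_smul, ipA_smul, ← mo_add,
      ipA_mo (e ▸ add_mem_Ty hd hσ hσ')]
    suffices a1 : x.coeff (σ + σ') = 0 by simp [a1]
    refine Submodule.span_induction ?_ (by simp) (fun x y _ _ a b => by simp [a, b])
      (fun c x _ a => by simp [a]) h
    rintro _ ⟨θ, k, hk, -, rfl⟩
    obtain ⟨ρ, θ₁, j, rfl⟩ := exists_part hd hσ ha
    obtain ⟨ρ', θ₂, j', rfl⟩ := exists_part hd hσ' hb
    rw [cvA, coeff_mo, if_neg fun e => ?_]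
    have := congrArg (tsz fun _ => 1) (congrArg (fun τ θ => (τ θ).map fun _ => 1) e)
    simp [tsz, sum_add_distrib, Pi.single_apply, apply_ite Multiset.card] at this
    omega

/-- the graded structure -/
noncomputable def pshA (hd : ∀ θ, 0 < d θ) (hc : ∀ θ k, conj (g θ k) = g θ k)
    (hg : ∀ θ k, 0 < k → 0 < (g θ k).re) : PSH (Al ι) where
  Hn := HnA d
  Pr := PrA d
  ip := ipA d g
  ip_add _ := ipA_add
  ip_smul _ := ipA_smul
  ip_conj n x y := by simp [ipA, conj_zT hc, mul_comm]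
  eq_zero n x hx h := by
    have a1 : ∀ τ ∈ Ty d n, ∃ r : ℝ, 0 < r ∧ zT g τ = r := fun τ hτ => by
      refine prod_induction _ (fun z : ℂ => ∃ r : ℝ, 0 < r ∧ z = r) ?_ ⟨1, one_pos, rfl⟩ fun θ _ => ?_
      · rintro _ _ ⟨r, h, rfl⟩ ⟨s, h', rfl⟩
        exact ⟨r * s, mul_pos h h', by simp⟩
      have h0 := ((mem_Ty hd).1 hτ).1 θ
      obtain ⟨s, h', e⟩ : ∃ r : ℝ, 0 < r ∧ ((τ θ).map (g θ)).prod = r := by
        refine Multiset.prod_induction (fun z : ℂ => ∃ r : ℝ, 0 < r ∧ z = r) _ ?_ ⟨1, one_pos, rfl⟩ ?_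
        · rintro _ _ ⟨r, h, rfl⟩ ⟨s, h', rfl⟩
          exact ⟨r * s, mul_pos h h', by simp⟩
        · intro z hz
          obtain ⟨k, hk, rfl⟩ := Multiset.mem_map.1 hz
          exact ⟨_, hg θ k (Nat.pos_of_ne_zero fun e => h0 (e ▸ hk)),
            (Complex.conj_eq_iff_re.1 (hc θ k)).symm⟩
      exact ⟨zz (τ θ) * s, mul_pos (Nat.cast_pos.2 (Nat.pos_of_ne_zero fun e => zz_ne h0 (by simp [e]))) h',
        by simp [e]⟩
    choose! r hr using a1
    have a2 : ∑ τ ∈ Ty d n, Complex.normSq (x.coeff τ) * r τ = 0 := by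
      rw [← Complex.ofReal_eq_zero, ← h, Complex.ofReal_sum]
      exact sum_congr rfl fun τ hτ => by rw [Complex.mul_conj, (hr τ hτ).2, Complex.ofReal_mul]
    rw [sum_eq_zero_iff_of_nonneg fun τ hτ => mul_nonneg (Complex.normSq_nonneg _) (hr τ hτ).1.le] at a2
    rw [eq_sum_mo hx]
    exact sum_eq_zero fun τ hτ => by
      rw [Complex.normSq_eq_zero.1 ((mul_eq_zero.1 (a2 τ hτ)).resolve_right (hr τ hτ).1.ne'), zero_smul]
  ip_ne n k x y hx e := sum_eq_zero fun τ hτ => by rw [mem_HnA.1 hx τ (Ty_ne hd hτ e), zero_mul, zero_mul]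
  fin _ := fin_HnA
  one_mem := one_mem_HnA hd
  mul_mem _ _ _ _ := mul_mem_HnA hd
  ip_one := by rw [← mo_zero, ipA_mo (by simp [Ty_zero hd]), coeff_mo, zT_zero]; simp
  Hn_zero x hx := ⟨x.coeff 0, by simpa [Ty_zero hd, mo_zero] using eq_sum_mo hx⟩
  Pr_le := PrA_le hd
  mem_Pr n x hn hx := mem_PrA hd (fun θ k hk e => (hg θ k hk).ne' (by simp [e])) hn hx
  der k p hk hp := by
    refine Submodule.span_induction ?_ ⟨0, by simp [ipA]⟩ ?_ ?_ hp
    · rintro _ ⟨θ, j, hj, rfl, rfl⟩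
      exact ⟨dA (j * g θ j) θ j, fun n x y hx => dA_adj hd hc θ hj hx y,
        fun _ _ y z _ _ => dA_mul _ _ _ y z, fun n y hy => by simpa using (dA_mem hd _ θ j hy).1,
        fun _ y h hy => (dA_mem hd _ θ j hy).2 h⟩
    · rintro p p' - - ⟨D, a1, a2, a3, a4⟩ ⟨D', b1, b2, b3, b4⟩
      refine ⟨D + D', fun n x y hx => ?_, fun a b y z hy hz => ?_,
        fun n y hy => add_mem (a3 n y hy) (b3 n y hy), fun j y h hy => ?_⟩
      · rw [mul_add, ipA_add, a1 n x y hx, b1 n x y hx, LinearMap.add_apply, ipA_add']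
      · simp only [LinearMap.add_apply, a2 a b y z hy hz, b2 a b y z hy hz]; ring
      · simp [a4 j y h hy, b4 j y h hy]
    · rintro c p - ⟨D, a1, a2, a3, a4⟩
      refine ⟨conj c • D, fun n x y hx => ?_, fun a b y z hy hz => ?_,
        fun n y hy => Submodule.smul_mem _ _ (a3 n y hy), fun j y h hy => ?_⟩
      · rw [mul_smul_comm, ipA_smul, a1 n x y hx, LinearMap.smul_apply, ipA_smul', Complex.conj_conj]
      · simp [a2 a b y z hy hz]
      · simp [a4 j y h hy]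

/-- the norms in the unitary case -/
noncomputable def gU (d : ι → ℕ) (q : ℕ) (θ : ι) (k : ℕ) : ℂ :=
  ((q : ℂ) ^ (k * d θ) - (-1) ^ (k * d θ))⁻¹

theorem gU_eq (q : ℕ) (θ : ι) (k : ℕ) : gU d q θ k = (-1) ^ (d θ * k) * gT d (-(q : ℂ)) θ k := by
  rw [gU, gT, neg_pow (q : ℂ), mul_comm (d θ)]
  rcases neg_one_pow_eq_or ℂ (k * d θ) with e | e <;> rw [e]
  · simp
  · rw [neg_one_mul, neg_one_mul, ← inv_neg]; congr 1; ring

theorem gU_pos {q : ℕ} (hq : 2 ≤ q) (hd : ∀ θ, 0 < d θ) (θ : ι) (k : ℕ) (hk : 0 < k) :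
    0 < (gU d q θ k).re := by
  have a1 : gU d q θ k = (((q : ℝ) ^ (k * d θ) - (-1) ^ (k * d θ))⁻¹ : ℝ) := by simp [gU]
  have a2 : (1 : ℝ) < (q : ℝ) ^ (k * d θ) :=
    one_lt_pow₀ (by exact_mod_cast hq) (Nat.mul_pos hk (hd θ)).ne'
  rw [a1, Complex.ofReal_re, inv_pos, sub_pos]
  rcases neg_one_pow_eq_or ℝ (k * d θ) with e | e <;> rw [e] <;> linarith

theorem zT_gU (q : ℕ) (τ : ι → Multiset ℕ) :
    zT (gU d q) τ = (-1) ^ tsz d τ * zT (gT d (-(q : ℂ))) τ := by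
  rw [tsz, ← prod_pow_eq_pow_sum, zT, zT, ← prod_mul_distrib]
  refine prod_congr rfl fun θ _ => ?_
  rw [mul_left_comm]
  congr 1
  induction τ θ using Multiset.induction_on with
  | empty => simp
  | cons k ν ih =>
    rw [Multiset.map_cons, Multiset.prod_cons, ih, gU_eq, Multiset.sum_cons, Multiset.map_cons,
      Multiset.prod_cons]
    ring

theorem ipA_gU (hd : ∀ θ, 0 < d θ) (q n : ℕ) (x y : Al ι) :
    ipA d (gU d q) n x y = (-1) ^ n * ipA d (gT d (-(q : ℂ))) n x y := by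
  rw [ipA, ipA, mul_sum]
  exact sum_congr rfl fun τ h => by rw [zT_gU, ((mem_Ty hd).1 h).2]; ring

theorem aU_eq (hd : ∀ θ, 0 < d θ) (q : ℕ) (h : τ ∈ Ty d n) :
    aU d q τ = (-1) ^ n * aT d (-(q : ℂ)) τ := by rw [aU, ((mem_Ty hd).1 h).2]

theorem sgn_div (n : ℕ) (a b : ℂ) : a / ((-1) ^ n * b) = (-1) ^ n * (a / b) := by
  rcases neg_one_pow_eq_or ℂ n with e | e <;> rw [e] <;> simp [div_neg]

theorem em_of_vm (hd : ∀ θ, 0 < d θ) {q N : ℕ} (hq : 2 ≤ q) {val : Al ι →ₗ[ℂ] (ι → Multiset ℕ) → ℂ}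
    (h : VM d N (-(q : ℂ)) val) : Nonempty (EM d q N (Al ι)) := by
  have ht := adm_neg hq
  have s2 : ∀ n : ℕ, (-1 : ℂ) ^ n * (-1) ^ n = 1 := fun n => by rw [← mul_pow]; simp
  refine ⟨{
    S := pshA (g := gU d q) hd (fun θ k => by simp [gU]) (gU_pos hq hd)
    cv := cvA
    val := val
    mu := muA
    h := hA d
    prim := fun θ k hk => Submodule.subset_span ⟨θ, k, hk, rfl, rfl⟩
    orth := fun θ θ' k l hk hl e => ?_
    span := fun n x _ hx => Submodule.span_mono (by rintro y ⟨θ, k, -, a⟩; exact ⟨θ, k, a⟩) hx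
    mu_cv := muA_cvA
    mu_mu := muA_muA
    mu_one := muA_one
    mu_mem := fun c _ _ => muA_mem c
    mu_pr := fun c n x hx => ?_
    mu_adj := fun c n x y => ?_
    h_rel := hA_rel d
    h_mem := hA_mem hd
    aU_ne := fun τ => mul_ne_zero (by simp) (ht.aT_ne hd τ)
    ip_val := fun n hn x hx y hy => ?_
    surj := fun n hn => surj_of_ip (fun τ => ht.zT_ne hd) (h.ip_val n hn)
    val_mu := h.val_mu
    val_h := h.val_h
    theta := fun m hm n hn x hx y hy D E hD hE => ?_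
    ip_mul := fun R a b hN f hf g hg y hy h1 h2 => ?_ }⟩
  · change ipA d _ _ (mo _) _ = _
    rw [ipA_mo (single_mem_Ty hd θ hk), cvA, coeff_mo, zT_single]
    by_cases a : θ = θ'
    · subst a
      simp [Nat.eq_of_mul_eq_mul_right (hd θ) e, gU, div_eq_mul_inv]
    · rw [if_neg a, if_neg fun b => by simpa [a] using congrFun b θ]
      simp
  · refine Submodule.span_induction ?_ (by simp) (fun x y _ _ a b => by simpa using add_mem a b)
      (fun c x _ a => by simpa using Submodule.smul_mem _ c a) hx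
    rintro _ ⟨θ, k, hk, e, rfl⟩
    rw [muA_cvA]
    exact Submodule.smul_mem _ _ (Submodule.subset_span ⟨θ, k, hk, e, rfl⟩)
  · exact sum_congr rfl fun τ _ => by
      simp only [coeff_muA, map_mul, map_prod, map_pow, Complex.conj_conj]; ring
  · change ipA d _ _ _ _ = _
    rw [ipA_gU hd, h.ip_val n hn x hx y hy, mul_sum]
    exact sum_congr rfl fun τ a => by rw [aU_eq hd q a, sgn_div]
  · have a1 : ∀ (m : ℕ) (x : Al ι) (D : ℕ → Al ι), (∀ r ≤ m, D r ∈ HnA d r ∧ ∀ z ∈ HnA d r,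
        ipA d (gU d q) m (z * hA d (m - r)) x = ipA d (gU d q) r z (D r)) → ∀ r ≤ m,
        ((-1 : ℂ) ^ m * (-1) ^ r) • D r ∈ HnA d r ∧ ∀ z ∈ HnA d r,
          ipA d (gT d (-(q : ℂ))) m (z * hA d (m - r)) x =
            ipA d (gT d (-(q : ℂ))) r z (((-1 : ℂ) ^ m * (-1) ^ r) • D r) := fun m x D hD r hr => by
      refine ⟨Submodule.smul_mem _ _ (hD r hr).1, fun z hz => ?_⟩
      have := (hD r hr).2 z hz
      rw [ipA_gU hd, ipA_gU hd] at this
      simp only [ipA_smul', map_mul, map_pow, map_neg, map_one]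
      rw [mul_assoc, ← this, ← mul_assoc, s2, one_mul]
    have a2 := h.theta m hm n hn x hx y hy _ _ (a1 m x D hD) (a1 n y E hE)
    change _ = ∑ r ∈ _, _ * ipA d _ _ _ _
    calc _ = (-1) ^ (m + n) * _ := ?_
      _ = (-1) ^ (m + n) * _ := congrArg _ a2
      _ = _ := ?_
    · simp only [mul_sum]
      refine sum_congr rfl fun τ a => sum_congr rfl fun τ' b => ?_
      rw [aU_eq hd q a, aU_eq hd q b, mul_mul_mul_comm, ← pow_add, sgn_div]
    · rw [mul_sum]
      refine sum_congr rfl fun r _ => ?_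
      simp only [ipA_smul', ipA_smul, map_mul, map_pow, map_neg, map_one, ipA_gU hd, pow_add]
      linear_combination (ipA d (gT d (-(q : ℂ))) r (D r) (E r) * (-1) ^ r * (-1) ^ r) *
        ((-1) ^ n * (-1) ^ n * s2 m + s2 n)
  · change ipA d _ _ _ _ = _
    rw [ipA_gU hd, h.ip_mul R a b hN f hf g hg y hy h1 h2]
    simp only [mul_sum]
    refine sum_congr rfl fun τ a => sum_congr rfl fun τ' b => ?_
    rw [aU_eq hd q a, aU_eq hd q b, mul_mul_mul_comm, ← pow_add, sgn_div]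

theorem emP_realise_eqns : True := by
  have := @er.eq_1
  have := @dA.eq_1
  have := @pshA.eq_1
  have := @gU.eq_1
  trivial

end GUH
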