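import Cfsg.Agent.Lib.GU.EmA

/-!
# Transfer of the models with parameter `t` along rational functions
-/

set_option autoImplicit false
set_option linter.unusedSectionVars false

namespace GUH

open Finset GLH GUW SFock Polynomial
open scoped Classical ComplexConjugate

section Ev

variable {I : Type} {u : I → ℂ} {t : ℂ} {f g : I → ℂ} {c c' : ℂ}

/-- `f` is a rational function of `u` with value `c` at `t` -/
def Ev (u : I → ℂ) (t : ℂ) (f : I → ℂ) (c : ℂ) : Prop :=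
  ∃ A D : ℂ[X], D.eval t ≠ 0 ∧ (∀ i, D.eval (u i) * f i = A.eval (u i)) ∧ D.eval t * c = A.eval t

theorem Ev.const (c : ℂ) : Ev u t (fun _ => c) c := ⟨C c, 1, by simp, by simp, by simp⟩

theorem Ev.self : Ev u t u t := ⟨X, 1, by simp, by simp, by simp⟩

theorem Ev.congr (h : Ev u t f c) (e : ∀ i, f i = g i) : Ev u t g c := funext e ▸ h

theorem Ev.add (h : Ev u t f c) (h' : Ev u t g c') : Ev u t (fun i => f i + g i) (c + c') := by
  obtain ⟨A, D, h1, h2, h3⟩ := h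
  obtain ⟨A', D', h1', h2', h3'⟩ := h'
  refine ⟨A * D' + A' * D, D * D', by simp [h1, h1'], fun i => ?_, ?_⟩
  · simp only [eval_mul, eval_add, ← h2, ← h2']; ring
  · simp only [eval_mul, eval_add, ← h3, ← h3']; ring

theorem Ev.mul (h : Ev u t f c) (h' : Ev u t g c') : Ev u t (fun i => f i * g i) (c * c') := by
  obtain ⟨A, D, h1, h2, h3⟩ := h
  obtain ⟨A', D', h1', h2', h3'⟩ := h'
  refine ⟨A * A', D * D', by simp [h1, h1'], fun i => ?_, ?_⟩
  · simp only [eval_mul, ← h2, ← h2']; ring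
  · simp only [eval_mul, ← h3, ← h3']; ring

theorem Ev.sub (h : Ev u t f c) (h' : Ev u t g c') : Ev u t (fun i => f i - g i) (c - c') := by
  simpa [sub_eq_add_neg] using h.add ((Ev.const (-1)).mul h')

theorem Ev.pow (h : Ev u t f c) (n : ℕ) : Ev u t (fun i => f i ^ n) (c ^ n) := by
  induction n with
  | zero => simpa using Ev.const 1
  | succ n ih => simpa [pow_succ] using ih.mul h

theorem Ev.sum {κ : Type*} (s : Finset κ) {F : κ → I → ℂ} {a : κ → ℂ}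
    (h : ∀ k ∈ s, Ev u t (F k) (a k)) : Ev u t (fun i => ∑ k ∈ s, F k i) (∑ k ∈ s, a k) := by
  induction s using Finset.induction_on with
  | empty => simpa using Ev.const 0
  | insert k s hk ih =>
    simpa [sum_insert hk] using (h k (mem_insert_self _ _)).add
      (ih fun l hl => h l (mem_insert_of_mem hl))

theorem Ev.prod {κ : Type*} (s : Finset κ) {F : κ → I → ℂ} {a : κ → ℂ}
    (h : ∀ k ∈ s, Ev u t (F k) (a k)) : Ev u t (fun i => ∏ k ∈ s, F k i) (∏ k ∈ s, a k) := by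
  induction s using Finset.induction_on with
  | empty => simpa using Ev.const 1
  | insert k s hk ih =>
    simpa [prod_insert hk] using (h k (mem_insert_self _ _)).mul
      (ih fun l hl => h l (mem_insert_of_mem hl))

theorem Ev.mprod {κ : Type*} (s : Multiset κ) {F : κ → I → ℂ} {a : κ → ℂ}
    (h : ∀ k, Ev u t (F k) (a k)) :
    Ev u t (fun i => (s.map fun k => F k i).prod) (s.map a).prod := by
  induction s using Multiset.induction_on with
  | empty => simpa using Ev.const 1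
  | cons k s ih => simpa using (h k).mul ih

theorem Ev.inv (h : Ev u t f c) (hf : ∀ i, f i ≠ 0) (hc : c ≠ 0) :
    Ev u t (fun i => (f i)⁻¹) c⁻¹ := by
  obtain ⟨A, D, h1, h2, h3⟩ := h
  refine ⟨D, A, h3 ▸ mul_ne_zero h1 hc, fun i => ?_, ?_⟩
  · rw [← h2, mul_inv_cancel_right₀ (hf i)]
  · rw [← h3, mul_inv_cancel_right₀ hc]

theorem Ev.div (h : Ev u t f c) (h' : Ev u t g c') (hg : ∀ i, g i ≠ 0) (hc : c' ≠ 0) :
    Ev u t (fun i => f i / g i) (c / c') := by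
  simpa only [div_eq_mul_inv] using h.mul (h'.inv hg hc)

theorem Ev.conj (h : Ev u t f c) (hu : ∀ i, conj (u i) = u i) (ht : conj t = t) :
    Ev u t (fun i => conj (f i)) (conj c) := by
  obtain ⟨A, D, h1, h2, h3⟩ := h
  have key : ∀ (P : ℂ[X]) (x : ℂ), (starRingEnd ℂ) x = x →
      (P.map (starRingEnd ℂ)).eval x = (starRingEnd ℂ) (P.eval x) := fun P x hx => by
    rw [eval_map, ← eval₂_hom, hx]
  refine ⟨A.map (starRingEnd ℂ), D.map (starRingEnd ℂ), ?_, fun i => ?_, ?_⟩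
  · rw [key _ _ ht]; simpa using h1
  · rw [key _ _ (hu i), key _ _ (hu i), ← h2, map_mul]
  · rw [key _ _ ht, key _ _ ht, ← h3, map_mul]

theorem Ev.unique [Infinite I] (hu : Function.Injective u) (h : Ev u t f c) (h' : Ev u t g c')
    (e : ∀ i, f i = g i) : c = c' := by
  obtain ⟨A, D, h1, h2, h3⟩ := h
  obtain ⟨A', D', h1', h2', h3'⟩ := h'
  have h4 : A * D' - A' * D = 0 := eq_zero_of_infinite_isRoot _
    ((Set.infinite_range_of_injective hu).mono (by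
      rintro _ ⟨i, rfl⟩
      simp only [Set.mem_ofPred_eq, IsRoot, eval_sub, eval_mul, ← h2, ← h2', e]
      ring))
  have h5 := congrArg (eval t) h4
  simp only [eval_sub, eval_mul, ← h3, ← h3', eval_zero] at h5
  exact mul_left_cancel₀ (mul_ne_zero h1 h1') (by linear_combination h5)

end Ev

variable {ι : Type} [Fintype ι] {d : ι → ℕ} {I : Type} {u : I → ℂ} {t : ℂ}

theorem ev_aT (ha : ∀ i, Adm (u i)) (ht : Adm t) (τ : ι → Multiset ℕ) :
    Ev u t (fun i => aT d (u i) τ) (aT d t τ) :=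
  Ev.prod _ fun _ _ => ((Ev.self.pow _).pow _).mul (Ev.prod _ fun _ _ => Ev.prod _ fun _ _ =>
    (Ev.const 1).sub (((Ev.self.pow _).pow _).inv
      (fun i => pow_ne_zero _ (pow_ne_zero _ (ha i).ne)) (pow_ne_zero _ (pow_ne_zero _ ht.ne))))

theorem ev_gT (ha : ∀ i, Adm (u i)) (ht : Adm t) (θ : ι) (k : ℕ) :
    Ev u t (fun i => gT d (u i) θ k) (gT d t θ k) := by
  rcases Nat.eq_zero_or_pos (k * d θ) with h | h
  · simpa [gT, h] using Ev.const 0
  · exact ((Ev.self.pow _).sub (Ev.const 1)).inv (fun i => sub_ne_zero.2 ((ha i).pow _ h))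
      (sub_ne_zero.2 (ht.pow _ h))

theorem ev_zT (ha : ∀ i, Adm (u i)) (ht : Adm t) (τ : ι → Multiset ℕ) :
    Ev u t (fun i => zT (gT d (u i)) τ) (zT (gT d t) τ) :=
  Ev.prod _ fun θ _ => (Ev.const _).mul (Ev.mprod _ fun k => ev_gT ha ht θ k)

theorem ev_ipA (ha : ∀ i, Adm (u i)) (ht : Adm t) (n : ℕ) (x y : Al ι) :
    Ev u t (fun i => ipA d (gT d (u i)) n x y) (ipA d (gT d t) n x y) :=
  Ev.sum _ fun τ _ => (Ev.const _).mul (ev_zT ha ht τ)

section One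

variable {N : ℕ} {v : Al ι →ₗ[ℂ] (ι → Multiset ℕ) → ℂ}

theorem VM.exists_delta (h : VM d N t v) (hd : ∀ θ, 0 < d θ) (ht : Adm t) :
    ∃ δ : ℕ → (ι → Multiset ℕ) → Al ι, ∀ r ≤ N, ∀ ρ, δ r ρ ∈ HnA d r ∧
      ∀ τ ∈ Ty d r, v (δ r ρ) τ = if τ = ρ then 1 else 0 := by
  have : ∀ r ρ, ∃ x : Al ι, r ≤ N → x ∈ HnA d r ∧
      ∀ τ ∈ Ty d r, v x τ = if τ = ρ then 1 else 0 := fun r ρ => by
    by_cases hr : r ≤ N
    · obtain ⟨x, h1, h2⟩ := surj_of_ip (fun τ hτ => ht.zT_ne hd hτ) (h.ip_val r hr)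
        fun τ => if τ = ρ then 1 else 0
      exact ⟨x, fun _ => ⟨h1, h2⟩⟩
    · exact ⟨0, fun h => absurd h hr⟩
  choose δ hδ using this
  exact ⟨δ, fun r hr ρ => hδ r ρ hr⟩

variable {δ : ℕ → (ι → Multiset ℕ) → Al ι}

theorem VM.eq_sum_delta (h : VM d N t v) (hd : ∀ θ, 0 < d θ) (ht : Adm t)
    (hδ : ∀ r ≤ N, ∀ ρ, δ r ρ ∈ HnA d r ∧ ∀ τ ∈ Ty d r, v (δ r ρ) τ = if τ = ρ then 1 else 0)
    {r : ℕ} (hr : r ≤ N) {z : Al ι} (hz : z ∈ HnA d r) : z = ∑ ρ ∈ Ty d r, v z ρ • δ r ρ := by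
  refine inj_of_ip (fun τ hτ => ht.zT_ne hd hτ) (h.ip_val r hr) hz
    (sum_mem fun ρ _ => Submodule.smul_mem _ _ (hδ r hr ρ).1) fun τ hτ => ?_
  simp only [map_sum, map_smul, Finset.sum_apply, Pi.smul_apply, (hδ r hr _).2 τ hτ]
  simp [hτ]

theorem VM.ip_delta (h : VM d N t v)
    (hδ : ∀ r ≤ N, ∀ ρ, δ r ρ ∈ HnA d r ∧ ∀ τ ∈ Ty d r, v (δ r ρ) τ = if τ = ρ then 1 else 0)
    {r : ℕ} (hr : r ≤ N) {z : Al ι} (hz : z ∈ HnA d r) {ρ : ι → Multiset ℕ} (hρ : ρ ∈ Ty d r) :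
    ipA d (gT d t) r z (δ r ρ) = v z ρ / aT d t ρ ∧
      ipA d (gT d t) r (δ r ρ) z = conj (v z ρ) / aT d t ρ := by
  rw [h.ip_val r hr _ hz _ (hδ r hr ρ).1, h.ip_val r hr _ (hδ r hr ρ).1 _ hz,
    sum_eq_single_of_mem ρ hρ, sum_eq_single_of_mem ρ hρ, (hδ r hr ρ).2 ρ hρ]
  · simp
  · intro τ hτ hne
    simp [(hδ r hr ρ).2 τ hτ, hne]
  · intro τ hτ hne
    simp [(hδ r hr ρ).2 τ hτ, hne]

/-- the triangular factorisation of the kernel -/
theorem VM.ldl (h : VM d N t v) (hd : ∀ θ, 0 < d θ) (ht : Adm t)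
    (hδ : ∀ r ≤ N, ∀ ρ, δ r ρ ∈ HnA d r ∧ ∀ τ ∈ Ty d r, v (δ r ρ) τ = if τ = ρ then 1 else 0)
    {m n : ℕ} (hmn : m ≤ n) (hn : n ≤ N) {σ τ : ι → Multiset ℕ} (hσ : σ ∈ Ty d m)
    (hτ : τ ∈ Ty d n) : v (δ m σ * hA d (n - m)) τ = (t ^ hT d σ τ - ∑ r ∈ range m, ∑ ρ ∈ Ty d r,
      aT d t ρ * conj (v (δ r ρ * hA d (m - r)) σ) * v (δ r ρ * hA d (n - r)) τ) / aT d t σ := by
  have hm := hmn.trans hn
  choose D hD1 hD2 using fun r => exists_perp (fun τ (hτ : τ ∈ Ty d r) => ht.zT_ne hd hτ) m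
    (hA d (m - r)) (δ m σ)
  choose E hE1 hE2 using fun r => exists_perp (fun τ (hτ : τ ∈ Ty d r) => ht.zT_ne hd hτ) n
    (hA d (n - r)) (δ n τ)
  have h1 := h.theta m hm n hn _ (hδ m hm σ).1 _ (hδ n hn τ).1 D E (fun r _ => ⟨hD1 r, hD2 r⟩)
    fun r _ => ⟨hE1 r, hE2 r⟩
  have ha := fun ρ => ht.aT_ne hd ρ
  have h2 : ∀ r ≤ m, ipA d (gT d t) r (D r) (E r) = (∑ ρ ∈ Ty d r, aT d t ρ *
      conj (v (δ r ρ * hA d (m - r)) σ) * v (δ r ρ * hA d (n - r)) τ) /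
        (aT d t σ * aT d t τ) := fun r hr => by
    have hr' := hr.trans hm
    rw [h.ip_val r hr' _ (hD1 r) _ (hE1 r), sum_div]
    refine sum_congr rfl fun ρ hρ => ?_
    have a1 := hD2 r _ (hδ r hr' ρ).1
    have a2 := hE2 r _ (hδ r hr' ρ).1
    rw [(h.ip_delta hδ hm (by simpa [hr] using mul_mem_HnA hd (hδ r hr' ρ).1 (hA_mem hd (m - r)))
      hσ).1, (h.ip_delta hδ hr' (hD1 r) hρ).2] at a1
    rw [(h.ip_delta hδ hn (by
      simpa [hr.trans hmn] using mul_mem_HnA hd (hδ r hr' ρ).1 (hA_mem hd (n - r))) hτ).1,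
      (h.ip_delta hδ hr' (hE1 r) hρ).2] at a2
    have a3 := congrArg conj a1
    rw [map_div₀, map_div₀, ht.conj_aT, ht.conj_aT, Complex.conj_conj,
      div_eq_iff (ha σ)] at a3
    rw [div_eq_iff (ha τ)] at a2
    rw [a3, a2]
    have := ha ρ
    have := ha σ
    have := ha τ
    field_simp
  rw [min_eq_left hmn, sum_congr rfl fun r hr => h2 r (Nat.lt_succ_iff.1 (mem_range.1 hr)),
    ← sum_div, sum_range_succ, sum_eq_single_of_mem σ hσ, sum_eq_single_of_mem τ hτ,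
    sum_eq_single_of_mem σ hσ, (hδ m hm σ).2 σ hσ, (hδ n hn τ).2 τ hτ, Nat.sub_self,
    (hA_rel d).1, mul_one, (hδ m hm σ).2 σ hσ,
    div_left_inj' (mul_ne_zero (ha σ) (ha τ))] at h1
  · rw [eq_div_iff (ha σ)]
    simp only [if_true, map_one, mul_one] at h1
    rw [h1]
    ring
  · intro ρ hρ hne
    simp [(hA_rel d).1, (hδ m hm ρ).2 σ hσ, hne.symm]
  · intro ρ hρ hne
    simp [(hδ n hn τ).2 ρ hρ, hne]
  · intro ρ hρ hne
    simp [(hδ m hm σ).2 ρ hρ, hne]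

end One

variable {N : ℕ} {v : I → Al ι →ₗ[ℂ] (ι → Multiset ℕ) → ℂ}

variable (d u t v) in
/-- the elements whose values are rational functions -/
def RV (r : ℕ) : Submodule ℂ (Al ι) where
  carrier := {z | z ∈ HnA d r ∧ ∀ τ ∈ Ty d r, ∃ c, Ev u t (fun i => v i z τ) c}
  zero_mem' := ⟨zero_mem _, fun τ _ => ⟨0, by simpa using Ev.const 0⟩⟩
  add_mem' := fun {x y} hx hy => ⟨add_mem hx.1 hy.1, fun τ hτ => by
    obtain ⟨c, hc⟩ := hx.2 τ hτ
    obtain ⟨c', hc'⟩ := hy.2 τ hτ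
    exact ⟨_, (hc.add hc').congr fun i => by simp⟩⟩
  smul_mem' := fun a x hx => ⟨Submodule.smul_mem _ a hx.1, fun τ hτ => by
    obtain ⟨c, hc⟩ := hx.2 τ hτ
    exact ⟨_, ((Ev.const a).mul hc).congr fun i => by simp⟩⟩

variable (d u t v N) in
/-- the multipliers of `RV` -/
def MV (k : ℕ) : Submodule ℂ (Al ι) where
  carrier := {w | ∀ r, r + k ≤ N → ∀ z ∈ RV d u t v r, z * w ∈ RV d u t v (r + k)}
  zero_mem' := fun r _ z _ => by rw [mul_zero]; exact zero_mem _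
  add_mem' := fun {x y} hx hy r hr z hz => by
    rw [mul_add]; exact add_mem (hx r hr z hz) (hy r hr z hz)
  smul_mem' := fun a x hx r hr z hz => by
    rw [mul_smul_comm]; exact Submodule.smul_mem _ a (hx r hr z hz)

theorem MV.mul {k l : ℕ} {x y : Al ι} (hx : x ∈ MV d u t N v k) (hy : y ∈ MV d u t N v l) :
    x * y ∈ MV d u t N v (k + l) := fun r hr z hz => by
  rw [← mul_assoc, ← add_assoc]
  exact hy _ (by omega) _ (hx r (by omega) z hz)

section Fam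

variable (hd : ∀ θ, 0 < d θ) (ha : ∀ i, Adm (u i)) (ht : Adm t) (hv : ∀ i, VM d N (u i) (v i))
include hd ha ht hv

theorem hA_mem_MV (k : ℕ) : hA d k ∈ MV d u t N v k := by
  choose δ hδ using fun i => (hv i).exists_delta hd (ha i)
  have key : ∀ m n, m ≤ n → n ≤ N → ∀ σ ∈ Ty d m, ∀ τ ∈ Ty d n,
      ∃ c, Ev u t (fun i => v i (δ i m σ * hA d (n - m)) τ) c := by
    intro m
    induction m using Nat.strong_induction_on with
    | _ m ih =>
      intro n hmn hn σ hσ τ hτ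
      have h1 : ∀ r ρ, ∃ c, r ∈ range m → ρ ∈ Ty d r → Ev u t (fun i => aT d (u i) ρ *
          conj (v i (δ i r ρ * hA d (m - r)) σ) * v i (δ i r ρ * hA d (n - r)) τ) c := by
        intro r ρ
        by_cases h : r ∈ range m ∧ ρ ∈ Ty d r
        · have hr := mem_range.1 h.1
          obtain ⟨c, hc⟩ := ih r hr m hr.le (hmn.trans hn) ρ h.2 σ hσ
          obtain ⟨c', hc'⟩ := ih r hr n (hr.le.trans hmn) hn ρ h.2 τ hτ
          exact ⟨_, fun _ _ =>
            ((ev_aT ha ht ρ).mul (hc.conj (fun i => (ha i).real) ht.real)).mul hc'⟩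
        · exact ⟨0, fun h1 h2 => absurd ⟨h1, h2⟩ h⟩
      choose c hc using h1
      exact ⟨_, (((Ev.self.pow _).sub (Ev.sum _ fun r hr => Ev.sum _ fun ρ hρ =>
        hc r ρ hr hρ)).div (ev_aT ha ht σ) (fun i => (ha i).aT_ne hd σ) (ht.aT_ne hd σ)).congr
        fun i => ((hv i).ldl hd (ha i) (hδ i) hmn hn hσ hτ).symm⟩
  intro r hr z hz
  refine ⟨mul_mem_HnA hd hz.1 (hA_mem hd k), fun τ hτ => ?_⟩
  have h1 : ∀ ρ, ∃ c, ρ ∈ Ty d r →
      Ev u t (fun i => v i z ρ * v i (δ i r ρ * hA d (r + k - r)) τ) c := fun ρ => by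
    by_cases h : ρ ∈ Ty d r
    · obtain ⟨c, hc⟩ := hz.2 ρ h
      obtain ⟨c', hc'⟩ := key r (r + k) (by omega) hr ρ h τ hτ
      exact ⟨_, fun _ => hc.mul hc'⟩
    · exact ⟨0, fun h1 => absurd h1 h⟩
  choose c hc using h1
  refine ⟨_, (Ev.sum _ hc).congr fun i => ?_⟩
  conv_rhs => rw [(hv i).eq_sum_delta hd (ha i) (hδ i) (r := r) (by omega) hz.1]
  simp [sum_mul]

omit hd ha ht in
theorem muA_mem_RV (c : ι → ℂ) {r : ℕ} (hr : r ≤ N) {z : Al ι} (hz : z ∈ RV d u t v r) :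
    muA c z ∈ RV d u t v r := by
  refine ⟨muA_mem c hz.1, fun τ hτ => ?_⟩
  obtain ⟨a, h⟩ := hz.2 τ hτ
  exact ⟨_, ((Ev.const _).mul h).congr fun i => ((hv i).val_mu c r hr z hz.1 τ hτ).symm⟩

theorem muA_piA_mem_MV {c : ι → ℂ} (hc : ∀ θ, c θ ≠ 0) (k : ℕ) :
    muA c (piA d (k + 1)) ∈ MV d u t N v (k + 1) := by
  have h1 : ∀ k, muA c (hA d k) ∈ MV d u t N v k := fun k r hr z hz => by
    have := muA_mem_RV hv c hr (hA_mem_MV hd ha ht hv k r hr _ (muA_mem_RV hv c⁻¹ (by omega) hz))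
    rwa [map_mul, muA_muA, show c * c⁻¹ = 1 from funext fun θ => mul_inv_cancel₀ (hc θ),
      muA_one] at this
  have h2 := (hA_rel d).map (muA c).toRingHom
  induction k using Nat.strong_induction_on with
  | _ k ih =>
    have h3 := h2.2 (k + 1)
    rw [sum_range_succ, Nat.add_sub_cancel, Nat.sub_self, h2.1, mul_one, ← sub_eq_iff_eq_add',
      ← nsmul_eq_mul] at h3
    change _ = muA c (piA d (k + 1)) at h3
    rw [← h3]
    refine sub_mem (nsmul_mem (h1 _) _) (sum_mem fun j hj => ?_)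
    have := MV.mul (ih j (mem_range.1 hj)) (h1 (k - j))
    rwa [show j + 1 + (k - j) = k + 1 by have := mem_range.1 hj; omega] at this

theorem cvA_mem_MV (θ : ι) {k : ℕ} (hk : 0 < k) : cvA θ k ∈ MV d u t N v (k * d θ) := by
  obtain ⟨n, hn⟩ : ∃ n, k * d θ = n + 1 :=
    Nat.exists_eq_succ_of_ne_zero (Nat.mul_pos hk (hd θ)).ne'
  have h1 := sub_mem (muA_piA_mem_MV hd ha ht hv (c := Function.update 1 θ 2) (fun θ' => by
    by_cases h : θ' = θ <;> simp [h]) n) (muA_piA_mem_MV hd ha ht hv (c := 1) (by simp) n)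
  rw [← hn, muA_one, piA, map_sum, ← sum_sub_distrib, sum_eq_single_of_mem θ (by simp)
    fun θ' _ h => by simp [muA_cvA, h], map_smul, muA_cvA, Function.update_self,
    Nat.mul_div_cancel _ (hd θ), smul_smul, ← sub_smul] at h1
  refine (Submodule.smul_mem_iff _ ?_).1 h1
  rw [← mul_sub_one]
  exact mul_ne_zero (Nat.cast_ne_zero.2 (hd θ).ne')
    (sub_ne_zero.2 (by exact_mod_cast (Nat.one_lt_two_pow hk.ne').ne'))

theorem mo_mem_MV {ν : ι → Multiset ℕ} (hν : ∀ θ, 0 ∉ ν θ) : mo ν ∈ MV d u t N v (tsz d ν) := by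
  have h0 : mo (0 : ι → Multiset ℕ) ∈ MV d u t N v (tsz d 0) := fun r _ z hz => by
    simpa [mo_zero, tsz] using hz
  have h1 : ∀ a b : ι → Multiset ℕ, mo a ∈ MV d u t N v (tsz d a) → mo b ∈ MV d u t N v (tsz d b) →
      mo (a + b) ∈ MV d u t N v (tsz d (a + b)) := fun a b h h' => by
    rw [mo_add, tsz_add]; exact MV.mul h h'
  rw [← univ_sum_single ν]
  refine sum_induction _ (fun a => mo a ∈ MV d u t N v (tsz d a)) h1 h0 fun θ _ => ?_
  have h2 := hν θ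
  generalize ν θ = s at h2
  induction s using Multiset.induction_on with
  | empty => simpa using h0
  | cons k s ih =>
    rw [← Multiset.singleton_add, Pi.single_add]
    have hk : 0 < k := Nat.pos_of_ne_zero fun h => h2 (h ▸ Multiset.mem_cons_self _ _)
    refine h1 _ _ ?_ (ih fun h => h2 (Multiset.mem_cons_of_mem h))
    rw [((mem_Ty hd).1 (single_mem_Ty hd θ hk)).2]
    exact cvA_mem_MV hd ha ht hv θ hk

theorem mo_mem_RV {n : ℕ} (hn : n ≤ N) {ν : ι → Multiset ℕ} (hν : ν ∈ Ty d n) :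
    mo ν ∈ RV d u t v n := by
  obtain ⟨h1, rfl⟩ := (mem_Ty hd).1 hν
  have := mo_mem_MV hd ha ht hv h1 0 (by omega) 1 ⟨one_mem_HnA hd, fun τ hτ => ⟨1,
    (Ev.const 1).congr fun i => by rw [← (hA_rel d).1, (hv i).val_h 0 (by omega) τ hτ]⟩⟩
  rwa [one_mul, zero_add] at this

theorem exists_val : ∃ val : Al ι →ₗ[ℂ] (ι → Multiset ℕ) → ℂ, ∀ n ≤ N, ∀ z ∈ HnA d n,
    ∀ τ ∈ Ty d n, Ev u t (fun i => v i z τ) (val z τ) := by
  let w : (ι → Multiset ℕ) → (ι → Multiset ℕ) → ℂ := fun ν τ =>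
    if h : ∃ c, Ev u t (fun i => v i (mo ν) τ) c then h.choose else 0
  refine ⟨(AddMonoidAlgebra.basis (ι → Multiset ℕ) ℂ).constr ℂ w, fun n hn z hz τ hτ => ?_⟩
  have h1 : ∀ ν, (AddMonoidAlgebra.basis (ι → Multiset ℕ) ℂ).constr ℂ w (mo ν) = w ν := fun ν =>
    Module.Basis.constr_basis _ _ _ ν
  rw [eq_sum_mo hz]
  simp only [map_sum, map_smul, Finset.sum_apply, Pi.smul_apply, smul_eq_mul, h1]
  refine Ev.sum _ fun ν hν => (Ev.const _).mul ?_
  have h := (mo_mem_RV hd ha ht hv hn hν).2 τ hτ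
  simp only [w, dif_pos h]
  exact h.choose_spec

theorem vm_of_family [Infinite I] (hu : Function.Injective u) : ∃ val, VM d N t val := by
  obtain ⟨val, h⟩ := exists_val hd ha ht hv
  have hr := fun i => (ha i).real
  have hT' := ev_aT (d := d) ha ht
  have hne := fun τ i => (ha i).aT_ne hd τ
  have hne' := ht.aT_ne hd
  have h1 : ∀ n ≤ N, ∀ x ∈ HnA d n, ∀ y ∈ HnA d n,
      ipA d (gT d t) n x y = ∑ τ ∈ Ty d n, val x τ * conj (val y τ) / aT d t τ :=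
    fun n hn x hx y hy => (ev_ipA ha ht n x y).unique hu (Ev.sum _ fun τ hτ =>
      ((h n hn x hx τ hτ).mul ((h n hn y hy τ hτ).conj hr ht.real)).div (hT' τ) (hne τ) (hne' τ))
      fun i => (hv i).ip_val n hn x hx y hy
  have h2 : ∀ c, ∀ n ≤ N, ∀ x ∈ HnA d n, ∀ τ ∈ Ty d n,
      val (muA c x) τ = (∏ θ, c θ ^ (τ θ).sum) * val x τ := fun c n hn x hx τ hτ =>
    (h n hn _ (muA_mem c hx) τ hτ).unique hu ((Ev.const _).mul (h n hn x hx τ hτ))
      fun i => (hv i).val_mu c n hn x hx τ hτ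
  have h3 : ∀ (R : ι → Prop) (a : ℕ), a ≤ N → ∀ f ∈ HnA d a,
      (∀ τ ∈ Ty d a, val f τ ≠ 0 → ∀ θ, τ θ ≠ 0 → R θ) →
      ∀ i, ∀ τ ∈ Ty d a, v i f τ ≠ 0 → ∀ θ, τ θ ≠ 0 → R θ := fun R a haN f hf hs i τ hτ h0 θ hθ => by
    have e : muA (fun θ => if R θ then 1 else 0) f = f :=
      inj_of_ip (fun τ hτ => ht.zT_ne hd hτ) (h1 a haN) (muA_mem _ hf) hf fun σ hσ => by
        rw [h2 _ a haN f hf σ hσ]
        by_cases h4 : val f σ = 0
        · rw [h4, mul_zero]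
        · rw [prod_eq_one fun θ _ => ?_, one_mul]
          by_cases h5 : σ θ = 0
          · simp [h5]
          · simp [hs σ hσ h4 θ h5]
    by_contra hR
    refine h0 ?_
    rw [← e, (hv i).val_mu _ a haN f hf τ hτ, prod_eq_zero (mem_univ θ), zero_mul]
    rw [if_neg hR, zero_pow]
    obtain ⟨k, hk⟩ := Multiset.exists_mem_of_ne_zero hθ
    exact fun h6 => ((mem_Ty hd).1 hτ).1 θ ((Multiset.sum_eq_zero_iff.1 h6 k hk) ▸ hk)
  refine ⟨val, h1, h2, fun n hn τ hτ => (h n hn _ (hA_mem hd n) τ hτ).unique hu (Ev.const 1)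
    fun i => (hv i).val_h n hn τ hτ, fun m hm n hn x hx y hy D E hD hE => ?_,
    fun R a b hab f hf g hg y hy hs hs' => ?_⟩
  · have key : ∀ {s : ℂ}, Adm s → ∀ D E : ℕ → Al ι, (∀ r ≤ m, D r ∈ HnA d r ∧ ∀ z ∈ HnA d r,
        ipA d (gT d s) m (z * hA d (m - r)) x = ipA d (gT d s) r z (D r)) →
        (∀ r ≤ n, E r ∈ HnA d r ∧ ∀ z ∈ HnA d r,
          ipA d (gT d s) n (z * hA d (n - r)) y = ipA d (gT d s) r z (E r)) →
        ∑ r ∈ range (min m n + 1), ipA d (gT d s) r (D r) (E r) =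
          ∑ r ∈ range (min m n + 1), ∑ σ ∈ Ty d r,
            conj (ipA d (gT d s) m (mo σ * hA d (m - r)) x) *
              ipA d (gT d s) n (mo σ * hA d (n - r)) y / zT (gT d s) σ := by
      intro s hs D E hD hE
      refine sum_congr rfl fun r hr => ?_
      have hr := Nat.lt_succ_iff.1 (mem_range.1 hr)
      rw [ipA_eq_sum (fun τ hτ => hs.zT_ne hd hτ) hs.conj_zT]
      refine sum_congr rfl fun σ hσ => ?_
      rw [(hD r (hr.trans (min_le_left _ _))).2 _ (mo_mem hσ),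
        (hE r (hr.trans (min_le_right _ _))).2 _ (mo_mem hσ)]
    rw [key ht D E hD hE]
    refine (Ev.sum _ fun τ hτ => Ev.sum _ fun τ' hτ' => (((Ev.self.pow _).mul
      (h m hm x hx τ hτ)).mul ((h n hn y hy τ' hτ').conj hr ht.real)).div ((hT' τ).mul (hT' τ'))
      (fun i => mul_ne_zero (hne τ i) (hne τ' i)) (mul_ne_zero (hne' τ) (hne' τ'))).unique hu
      (Ev.sum _ fun r _ => Ev.sum _ fun σ hσ => (((ev_ipA ha ht _ _ _).conj hr ht.real).mul
        (ev_ipA ha ht _ _ _)).div (ev_zT ha ht σ) (fun i => (ha i).zT_ne hd hσ)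
        (ht.zT_ne hd hσ)) fun i => ?_
    choose D' hD1 hD2 using fun r => exists_perp
      (fun τ (hτ : τ ∈ Ty d r) => (ha i).zT_ne hd hτ) m (hA d (m - r)) x
    choose E' hE1 hE2 using fun r => exists_perp
      (fun τ (hτ : τ ∈ Ty d r) => (ha i).zT_ne hd hτ) n (hA d (n - r)) y
    rw [← key (ha i) D' E' (fun r _ => ⟨hD1 r, hD2 r⟩) fun r _ => ⟨hE1 r, hE2 r⟩]
    exact (hv i).theta m hm n hn x hx y hy D' E' (fun r _ => ⟨hD1 r, hD2 r⟩)
      fun r _ => ⟨hE1 r, hE2 r⟩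
  · exact (ev_ipA ha ht _ _ _).unique hu (Ev.sum _ fun τ hτ => Ev.sum _ fun τ' hτ' =>
      (((h a (by omega) f hf τ hτ).mul (h b (by omega) g hg τ' hτ')).mul
        ((h _ hab y hy _ (add_mem_Ty hd hτ hτ')).conj hr ht.real)).div ((hT' τ).mul (hT' τ'))
      (fun i => mul_ne_zero (hne τ i) (hne τ' i)) (mul_ne_zero (hne' τ) (hne' τ')))
      fun i => (hv i).ip_mul R a b hab f hf g hg y hy (h3 R a (by omega) f hf hs i)
        (h3 (fun θ => ¬ R θ) b (by omega) g hg hs' i)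

end Fam

/-- **Transfer** from the large primes to any admissible parameter. -/
theorem vm_neg (hd : ∀ θ, 0 < d θ) {N B : ℕ} (ht : Adm t)
    (H : ∀ p : ℕ, p.Prime → B < p → ∃ val, VM d N p val) : ∃ val, VM d N t val := by
  have : Infinite {p : ℕ // p.Prime ∧ B < p} := Set.infinite_coe_iff.2
    ((Nat.infinite_setOfPred_prime.sdiff (Set.finite_Iic B)).mono fun p hp =>
      ⟨hp.1, not_le.1 hp.2⟩)
  choose v hv using fun p : {p : ℕ // p.Prime ∧ B < p} => H p.1 p.2.1 p.2.2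
  exact vm_of_family (u := fun p : {p : ℕ // p.Prime ∧ B < p} => (p.1 : ℂ)) hd
    (fun p => adm_nat p.2.1.two_le) ht hv fun p p' h => Subtype.ext (Nat.cast_injective h)

end GUH
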