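import Cfsg.Agent.Lib.GU.EmG
import Cfsg.Agent.Lib.GU.EmP
import Cfsg.Agent.Lib.GU.EmR

/-!
# Existence of the Ennola model
-/

set_option autoImplicit false

namespace GUH

open Finset

theorem exists_em {ι : Type} [Fintype ι] (d : ι → ℕ) (hd : ∀ θ, 0 < d θ) (q N : ℕ) (hq : 2 ≤ q) :
    Nonempty (EM d q N (Al ι)) := by
  obtain ⟨val, h⟩ := vm_neg hd (N := N) (B := (∑ θ, d θ) * (Fintype.card ι + 1)) (adm_neg hq)
    fun p hp h => by
      have := Fact.mk hp
      have := exists_vm hd N (ZMod p) fun θ => by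
        rw [ZMod.card]
        exact (Nat.mul_le_mul_right _ (single_le_sum (fun _ _ => Nat.zero_le _) (mem_univ θ))).trans_lt h
      rwa [ZMod.card] at this
  exact em_of_vm hd hq h

end GUH
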