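import Cfsg.Agent.Lib.GU.MainA
import Cfsg.Agent.Lib.GU.Ub
import Cfsg.Agent.Lib.GU.Cn

/-!
# S4537: reduction to the existence of `UB`, to `DefB` and to `LocB`
-/

set_option autoImplicit false
set_option linter.unusedSectionVars false

namespace GUH

open Finset Cfsg GT UW Module
open scoped Classical

universe u

theorem OD.cnt {Γ : Type} [CommGroup Γ] [Fintype Γ] (D : OD Γ) {n : ℕ} (hn : 0 < n) : D.Cnt n :=
  fun _ _ h1 h2 hs S => OD.count h1 h2 hn hs S.s1 S.s2 S.s3 S.s4

theorem UB.goal {F : Type u} [Field F] [Fintype F] [StarRing F] [HF F] {K : Type} [Field K]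
    [Fintype K] [Algebra F K] {C : UC F K} {A : Type} [CommRing A] [Algebra ℂ A] (U : UB C A)
    {V : Type u} [AddCommGroup V] [Module F V] [Fintype V] (H : HS F V) (h0 : 0 < finrank F V)
    (hn : finrank F V ≤ C.N) (hd : DefB C.toOD C.M U.π (finrank F V) (C.δ H) (U.ch H))
    (hl : LocB C.toOD C.M U.π (finrank F V) (C.δ H) (U.ch H)) : Goal C H :=
  ⟨A, _, _, U.S, U.π, U.T, U.ch H, U.ld H rfl hn, C.cnt h0, hd, hl⟩

end GUH
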