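import Cfsg.Agent.Lib.GU.LocD
import Cfsg.Agent.Lib.Block.CycBridge
import Cfsg.Agent.Lib.Char.FullyRam
import Cfsg.Agent.Lib.Char.Gallagher

/-!
# One piece: blocks whose characters vanish outside a normal subgroup with cyclic quotient
-/

set_option autoImplicit false
set_option linter.unusedSectionVars false

namespace GUL

open Cfsg CT GT BT UW MulAction
open scoped MonoidAlgebra Pointwise ComplexConjugate ComplexOrder

variable {p : ℕ} [Fact p.Prime] {M : Ideal AlgInt} (hM : IsPModular p M)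
variable {G : Type*} [Group G] [Finite G]

include hM in
/-- Counting the characters of a covered block. -/
theorem relIndex_mul_card_le {N : Subgroup G} [N.Normal] [IsCyclic (G ⧸ N)]
    {B : Set (IrrCharacter G)} {b : Set (IrrCharacter N)} (hB : IsPBlock M B) (hb : IsPBlock M b)
    (hc : Covers N B b) (hv : ∀ χ ∈ B, ∀ g ∉ N, χ.1 g = 0) {S : Subgroup G}
    (hS : ∀ s ∈ S, s • b = b) : N.relIndex S * Nat.card B ≤ Nat.card b := by
  choose θ hθ hl using fun χ : B => hc.exists_liesUnder hM hB hb χ.2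
  have hst : ∀ χ : B, stabilizer G (θ χ) ≤ N := fun χ => by
    have := (vanish_off_iff_mult_sq_eq (hl χ)).1 (hv _ χ.2)
    rw [(hl χ).mult_eq_one_of_isCyclic, one_pow] at this
    exact Subgroup.relIndex_eq_one.1 this.symm
  rw [Subgroup.relIndex, Subgroup.index, ← Nat.card_prod]
  refine Nat.card_le_card_of_injective
    (fun x : (S ⧸ N.subgroupOf S) × B => (⟨(x.1.out : G) • θ x.2, by
      have := Set.smul_mem_smul_set (a := (x.1.out : G)) (hθ x.2)
      rwa [hS _ x.1.out.2] at this⟩ : b)) ?_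
  rintro ⟨q, χ⟩ ⟨q', χ'⟩ h
  have h1 : (q.out : G) • θ χ = (q'.out : G) • θ χ' := congrArg Subtype.val h
  have h2 : χ' = χ := by
    have h3 := (liesOver_conjSmul_iff (irr_isClassFunction χ.1) (q.out : G) _).2 (hl χ)
    have h4 := (liesOver_conjSmul_iff (irr_isClassFunction χ'.1) (q'.out : G) _).2 (hl χ')
    rw [← h1] at h4
    exact Subtype.ext ((vanish_off_iff_unique h3).1 (hv _ χ.2) _ h4)
  subst h2
  refine Prod.ext ?_ rfl
  change q = q'
  rw [← q.out_eq, ← q'.out_eq]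
  refine QuotientGroup.eq.2 (hst χ' ?_)
  change ((q.out : G)⁻¹ * q'.out) • θ χ' = θ χ'
  rw [mul_smul, ← h1, inv_smul_smul]

/-- The block of a Brauer pair of `B` is supported in `N`. -/
theorem suppIn_of_vanish {N : Subgroup G} [N.Normal] {u : G} (hu : IsPElt p u) (huN : u ∈ N)
    {f : ℂ[G]} (hf : LBlk hM (Subgroup.centralizer ({u} : Set G)) f) {B : Set (IrrCharacter G)}
    (hB : IsPBlock M B) (hv : ∀ χ ∈ B, ∀ g ∉ N, χ.1 g = 0)
    (hbr : br (Subgroup.zpowers u) (idem hM B) * redA hM f = redA hM f) :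
    SuppIn (N : Set G) f := by
  classical
  have := Fintype.ofFinite G
  set a : ℂ[G] := MonoidAlgebra.single u 1 * f with ha
  have h0 : ∑ χ : IrrCharacter G, ev χ.1 a * conj (ev χ.1 (trunc (N : Set G)ᶜ a)) = 0 := by
    refine Finset.sum_eq_zero fun χ _ => ?_
    by_cases hχ : χ ∈ B
    · rw [ev_eq_sum χ.1 (trunc _ a), Finset.sum_eq_zero fun g _ => ?_, map_zero, mul_zero]
      by_cases hg : g ∈ N
      · rw [coeff_trunc_of_not_mem _ (by simpa using hg), zero_mul]
      · rw [hv χ hχ g hg, mul_zero]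
    · rw [hf.ev_eq_zero (isPPart_iff.2 hu.pPart_eq) (isPBlock_blockOf χ) ?_
        (mem_blockOf_self hM χ), zero_mul]
      rw [← hbr, ← mul_assoc, ← br_mul hu.isPGroup_zpowers
        ((isCentral_idem hM _).isFixed _) ((isCentral_idem hM _).isFixed _),
        idem_mul_of_ne hM (isPBlock_blockOf χ) hB fun h => hχ (h ▸ mem_blockOf_self hM χ),
        map_zero, zero_mul]
  rw [sum_ev_mul_conj_ev] at h0
  have hn : ∀ g x : G, 0 ≤ a.coeff x * conj ((cj g (trunc (N : Set G)ᶜ a)).coeff x) := by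
    intro g x
    rw [coeff_cj, coeff_trunc]
    split_ifs with hx
    · by_cases h1 : a.coeff x = 0
      · rw [h1, zero_mul]
      by_cases h2 : a.coeff (g⁻¹ * x * g) = 0
      · rw [h2, map_zero, mul_zero]
      have h3 := hf.pPart_eq hu h1
      have h4 := hf.pPart_eq hu h2
      have h5 : g⁻¹ * u * g = u := by
        conv_lhs => rw [← h3]
        have := pPart_conj (p := p) x g⁻¹
        rw [inv_inv] at this
        rw [← this, h4]
      have h6 : g⁻¹ ∈ Subgroup.centralizer ({u} : Set G) := by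
        rw [Subgroup.mem_centralizer_singleton_iff]
        conv_rhs => rw [← h5]
        group
      have h7 : a.coeff (g⁻¹ * x * g) = a.coeff x := by
        rw [ha, coeff_single_one_mul, coeff_single_one_mul, ← hf.cidem.fixed _ h6 (u⁻¹ * x)]
        congr 1
        conv_lhs => rw [← h5]
        group
      rw [h7, Complex.mul_conj]
      exact Complex.zero_le_real.2 (Complex.normSq_nonneg _)
    · rw [map_zero, mul_zero]
  have h1 := (Finset.sum_eq_zero_iff_of_nonneg fun x _ => hn 1 x).1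
    ((Finset.sum_eq_zero_iff_of_nonneg fun g _ => Finset.sum_nonneg fun x _ => hn g x).1 h0 1
      (Finset.mem_univ _))
  intro y hy
  by_contra hyN
  have h2 := h1 (u * y) (Finset.mem_univ _)
  rw [cj_one, coeff_trunc_of_mem _ (by
    simpa using fun h => hyN ((N.mul_mem_cancel_left huN).1 h)), Complex.mul_conj, ha,
    coeff_single_one_mul, inv_mul_cancel_left] at h2
  exact hy (by simpa using h2)

include hM in
/-- A block with central defect group whose idempotent lies in `N`. -/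
theorem vanish_of_central {N Z : Subgroup G} (hZ : Z ≤ Subgroup.center G) (hZN : Z ≤ N)
    {B : Set (IrrCharacter G)} (hB : IsPBlock M B) (hD : IsDefectGroup p M B Z)
    (hs : SuppIn (N : Set G) (setIdem B)) : ∀ χ ∈ B, ∀ g ∉ N, χ.1 g = 0 := by
  have : Z.Normal := ⟨fun z hz g => by
    rw [Subgroup.mem_center_iff.1 (hZ hz) g, mul_inv_cancel_right]; exact hz⟩
  have h0 : ∀ χ ∈ B, ∀ g, pPart p g ∉ Z → χ.1 g = 0 := fun χ hχ g hg =>
    apply_eq_zero_of_normal_defect hM hB hD hχ hg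
  have hp := isPGroup_of_isDefectGroup hD
  intro χ hχ g hg
  by_cases h1 : pPart p g ∈ Z
  swap
  · exact h0 χ hχ g h1
  have h2 : pRegPart p g ∉ N := fun h =>
    hg (pPart_mul_pRegPart p g ▸ N.mul_mem (hZN h1) h)
  have h3 : ¬ p ∣ orderOf (pRegPart p g) := isPRegular_pRegPart p g
  rw [← pPart_mul_pRegPart p g, CT.irr_apply_central_mul χ (hZ h1)]
  refine mul_eq_zero_of_right _ ?_
  have h4 : blockCoeff B (pRegPart p g) = 0 := by
    rw [← coeff_setIdem]
    by_contra h
    exact h2 (hs _ h)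
  rw [blockCoeff_eq_sum_bset, Finset.sum_congr rfl
    (g := fun _ => χ.1 1 * conj (χ.1 (pRegPart p g))) fun ψ hψ => by
      have := pRegularPart_eq_of_central hM hB hp hZ h0 (mem_bset.1 hψ) hχ
      rw [← pRegularPart_apply_one (p := p) ψ.1, ← pRegularPart_of_not_dvd ψ.1 h3, this,
        pRegularPart_apply_one, pRegularPart_of_not_dvd _ h3],
    Finset.sum_const, nsmul_eq_mul] at h4
  have h5 : ((bset B).card : ℂ) ≠ 0 :=
    Nat.cast_ne_zero.2 (Finset.card_ne_zero_of_mem (mem_bset.2 hχ))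
  simpa [h5, irr_apply_one_ne_zero χ, Nat.card_pos.ne'] using h4

include hM in
theorem card_eq_of_central {Z : Subgroup G} (hZ : Z ≤ Subgroup.center G)
    {B : Set (IrrCharacter G)} (hB : IsPBlock M B) (hD : IsDefectGroup p M B Z) :
    Nat.card B = Nat.card Z := by
  have : Z.Normal := ⟨fun z hz g => by
    rw [Subgroup.mem_center_iff.1 (hZ hz) g, mul_inv_cancel_right]; exact hz⟩
  have h0 : ∀ χ ∈ B, ∀ g, pPart p g ∉ Z → χ.1 g = 0 := fun χ hχ g hg =>
    apply_eq_zero_of_normal_defect hM hB hD hχ hg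
  have hp := isPGroup_of_isDefectGroup hD
  rw [(blockRank_eq_one_and_card_of_central hM hB hp hZ h0).2,
    (card_eq_and_cm_self_of_central hM hB hp hZ h0).1]

theorem mem_of_central_top {N Z : Subgroup G} [N.Normal] [IsCyclic (G ⧸ N)]
    (hZ : Z ≤ Subgroup.center G) (hZN : Z ≤ N) {f γ : (ResF hM)[G]} (hf : BIdem ⊤ f)
    (hD : DefGrp p ⊤ f Z) (hs : SuppIn (N : Set G) f) (hγ : BIdem N γ) (h0 : f * γ ≠ 0) {x : G}
    (hx : cj x γ = γ) : x ∈ N := by
  obtain ⟨P, hP, -, -, hP'⟩ := hf.exists_defGrp_cover hM le_top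
    (Subgroup.normalizer_eq_top N).ge hγ h0
  obtain ⟨B, hB, rfl⟩ := hf.exists_block_top hM
  obtain ⟨b, hb, rfl⟩ := hγ.exists_block hM
  have hZn : Z.Normal := ⟨fun z hz g => by
    rw [Subgroup.mem_center_iff.1 (hZ hz) g, mul_inv_cancel_right]; exact hz⟩
  obtain ⟨h, -, rfl⟩ := hD.exists_conj hP
  rw [map_conj_eq_of_mem_normalizer ((Subgroup.normalizer_eq_top Z).ge trivial),
    inf_eq_left.2 hZN] at hP'
  have hD' := (isDefectGroup_iff_defGrp hM hB Z).2 hD
  have h1 := relIndex_mul_card_le hM hB hb ((covers_iff_mul hM hB hb).2 h0)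
    (vanish_of_central hM hZ hZN hB hD' (suppIn_setIdem_of_suppIn_idem hM N hB hs))
    (S := stabilizer G b) fun s hs => hs
  rw [card_eq_of_central hM hZ hB hD', card_eq_of_central hM (Z := Z.subgroupOf N)
    (fun z hz => Subgroup.mem_center_iff.2 fun g =>
      Subtype.ext (Subgroup.mem_center_iff.1 (hZ hz) g)) hb
    ((isDefectGroup_subgroupOf_iff_defGrp hM hb hZN).2 hP'),
    Nat.card_congr (Subgroup.subgroupOfEquivOfLe hZN).toEquiv] at h1
  have h2 : N.relIndex (stabilizer G b) = 1 := by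
    have h3 : N.relIndex (stabilizer G b) ≠ 0 := Subgroup.index_ne_zero_of_finite
    have h4 : 0 < Nat.card Z := Nat.card_pos
    have := Nat.le_of_mul_le_mul_right (h1.trans (one_mul _).ge) h4
    omega
  exact Subgroup.relIndex_eq_one.1 h2 ((cj_sidem_eq_iff hM hb x).1 hx)

omit [Finite G] in
theorem isCyclic_quotient_subgroupOf (N L : Subgroup G) [N.Normal] [IsCyclic (G ⧸ N)] :
    IsCyclic (L ⧸ N.subgroupOf L) :=
  isCyclic_quotient_of_eq_ker (f := (QuotientGroup.mk' N).comp L.subtype)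
    (by rw [← MonoidHom.comap_ker, QuotientGroup.ker_mk']; rfl)

theorem mem_of_central {N L Z : Subgroup G} [N.Normal] [IsCyclic (G ⧸ N)]
    (hZ : L ≤ Subgroup.centralizer (Z : Set G)) (hZN : Z ≤ N) {f γ : (ResF hM)[G]}
    (hf : BIdem L f) (hD : DefGrp p L f Z) (hs : SuppIn (N : Set G) f) (hγ : BIdem (N ⊓ L) γ)
    (h0 : f * γ ≠ 0) {x : G} (hxL : x ∈ L) (hx : cj x γ = γ) : x ∈ N := by
  have := isCyclic_quotient_subgroupOf N L
  obtain ⟨f, rfl⟩ : ∃ a, emb L a = f := ⟨_, emb_proj_of_suppIn L hf.supp⟩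
  obtain ⟨γ, rfl⟩ : ∃ a, emb L a = γ :=
    ⟨_, emb_proj_of_suppIn L (SuppIn.mono' inf_le_right hγ.supp)⟩
  refine mem_of_central_top hM (N := N.subgroupOf L) (Z := Z.subgroupOf L) (f := f) (γ := γ)
    (fun z hz => Subgroup.mem_center_iff.2 fun g => Subtype.ext (hZ g.2 _ hz).symm)
    (Subgroup.comap_mono hZN) (bIdem_emb_iff.1 (by rwa [map_subtype_top]))
    (defGrp_emb_iff.1 (by rwa [map_subtype_top, Subgroup.map_subgroupOf_eq_of_le hD.le]))
    (fun g hg => hs g (by rwa [coeff_emb_coe]))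
    (bIdem_emb_iff.1 (by rwa [Subgroup.subgroupOf_map_subtype]))
    (fun h => h0 (by rw [← map_mul, h, map_zero])) (x := ⟨x, hxL⟩)
    (emb_injective L (by rw [← cj_emb]; exact hx))

theorem map_NP_subtype {R : Type*} [CommRing R] {H : Subgroup G} (S : Subgroup H) (a : R[H]) :
    (NP ⊤ S a).map H.subtype = NP H (S.map H.subtype) (emb H a) := by
  ext x
  constructor
  · rintro ⟨y, hy, rfl⟩
    have := coe_mem_NP_iff.2 hy
    rwa [map_subtype_top] at this
  · intro hx
    refine ⟨⟨x, NP_le hx⟩, coe_mem_NP_iff.1 ?_, rfl⟩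
    rwa [map_subtype_top]

/-- The case of a cyclic defect group. -/
theorem NP_le_of_maxBP {N U : Subgroup G} [N.Normal] [IsCyclic (G ⧸ N)] (hU : IsCyclic U)
    (hU0 : U ≠ ⊥) (hUN : U ≤ N) {f γ : (ResF hM)[G]} (hf : MaxBP p ⊤ U f)
    (hs : SuppIn (N : Set G) f) {B : Set (IrrCharacter G)} (hB : IsPBlock M B)
    (hv : ∀ χ ∈ B, ∀ g ∉ N, χ.1 g = 0) (hbr : br U (idem hM B) * f = f)
    (hγ : BIdem (N ⊓ Subgroup.centralizer (U : Set G)) γ) (h0 : f * γ ≠ 0)
    (hC : ∀ x ∈ Subgroup.centralizer (U : Set G), cj x γ = γ → x ∈ N) : NP ⊤ U γ ≤ N := by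
  obtain ⟨A, _, _, _, ι, hι, rfl⟩ := exists_cyc_param hU
  have := nontrivial_of_range_ne_bot hU0
  set C := Subgroup.centralizer (ι.range : Set G) with hCdef
  have hfC : BIdem C f := hf.bp.bidem_top
  have hfγ : f * γ = γ := (hγ.prim f ⟨fun g hg => ⟨hs g hg, hfC.supp g hg⟩,
    hfC.fixed.mono inf_le_right, hfC.idem⟩).resolve_right h0
  have hNn : ∀ x : G, x ∈ Subgroup.normalizer (N : Set G) := fun x =>
    (Subgroup.normalizer_eq_top N).ge trivial
  have hγp : BP p N ι.range γ := ⟨hf.bp.pgroup, fun x _ => hNn x, hγ⟩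
  obtain ⟨b', hb', hbγ⟩ := hγp.exists_block hM hUN
  obtain ⟨b, hb, rfl⟩ := hb'.exists_block hM
  have hcov : idem hM B * sidem hM N b ≠ 0 := fun h => hγ.ne_zero (by
    have h1 := br_mul hf.bp.pgroup ((isCentral_idem hM B).isFixed ι.range) (hb'.fixed.mono hUN)
    rw [← hfγ, ← hbr, mul_assoc, hfγ, ← hbγ, ← mul_assoc, ← h1, h, map_zero, zero_mul])
  have hD : DefGrp p N (sidem hM N b) ι.range := by
    have := (hf.defGrp hM (bIdem_top_idem hM hB) hbr).inf_of_br_ne_zero hM le_top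
      (fun x _ => hNn x) (bIdem_top_idem hM hB).toCIdem hb' hcov
      (by rw [inf_eq_left.2 hUN]; exact left_ne_zero_of_mul (hbγ.symm ▸ hγ.ne_zero))
    rwa [inf_eq_left.2 hUN] at this
  have hγe : emb N (proj N γ) = γ := emb_proj_of_suppIn N (SuppIn.mono' inf_le_left hγ.supp)
  have SB : AbSet hM B ι f := ⟨hB, hι, hf, hbr⟩
  have Sb : AbSet hM b (subHom ι hUN) (proj N γ) := by
    have h1 : BP p ⊤ (subHom ι hUN).range (proj N γ) := by
      rw [← bp_emb_iff, map_subtype_top, map_range_subHom, hγe]; exact hγp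
    have h2 : br (subHom ι hUN).range (idem hM b) * proj N γ = proj N γ := by
      rw [← br_emb_mul_emb_iff, map_range_subHom, hγe]; exact hbγ
    refine ⟨hb, fun u v huv => hι (congrArg Subtype.val huv),
      (maxBP_iff_defGrp hM (bIdem_top_idem hM hb) h1 h2).2 ?_, h2⟩
    rw [← defGrp_emb_iff, map_subtype_top, map_range_subHom]; exact hD
  set S := NP ⊤ ι.range γ with hS
  have hST : S ≤ NP ⊤ ι.range f := fun x hx => by
    obtain ⟨-, h1, h2⟩ := mem_NP.1 hx
    refine mem_NP.2 ⟨trivial, h1, ((hfC.cj_of_mem_normalizer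
      (normalizer_le_normalizer_centralizer _ h1)).eq_or_mul_eq_zero hfC).resolve_right
      fun h => hγ.ne_zero ?_⟩
    have h3 : cj x f * γ = γ := by conv_lhs => rw [← h2, ← map_mul, hfγ, h2]
    rw [← h3, ← hfγ, ← mul_assoc, h, zero_mul]
  have hCT : C ≤ NP ⊤ ι.range f := by
    have := hf.bp.inf_centralizer_le_NP
    rwa [top_inf_eq] at this
  have h1 : C.relIndex S = C.relIndex (NP ⊤ ι.range f) := by
    refine relIndex_eq_relIndex_of_forall_exists_mul_eq hCT hST fun g hg => ?_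
    obtain ⟨-, h1, h2⟩ := mem_NP.1 (inv_mem hg)
    obtain ⟨c, hc, h3⟩ := hfC.exists_cj_eq_of_mul_ne_zero inf_le_right
      (fun x hx => normalizer_inf_le_normalizer_inf_centralizer N ι.range
        ⟨hNn x, Subgroup.centralizer_le_normalizer _ hx⟩)
      (hγ.cj_of_mem_normalizer (normalizer_inf_le_normalizer_inf_centralizer N ι.range
        ⟨hNn _, h1⟩)) hγ ((mul_cj_ne_zero_iff h2).2 h0) h0
    refine ⟨(c * g⁻¹)⁻¹, inv_mem (mem_NP.2 ⟨trivial, mul_mem
      (Subgroup.centralizer_le_normalizer _ hc) h1, by rw [cj_mul, h3]⟩), c, hc, by group⟩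
  have h2 : Nat.card (inert (subHom ι hUN) (proj N γ)) = C.relIndex (S ⊓ N) := by
    rw [card_inert Sb.inj, ← Subgroup.relIndex_map_map_of_injective _ _ N.subtype_injective,
      map_NP_subtype, ← top_inf_eq (Subgroup.centralizer _), map_subtype_inf_centralizer,
      map_subtype_top, map_range_subHom, hγe]
    have : NP N ι.range γ = S ⊓ N := by
      ext x; simp only [hS, mem_NP, Subgroup.mem_inf, Subgroup.mem_top]; tauto
    rw [this, ← Subgroup.inf_relIndex_right, ← Subgroup.inf_relIndex_right C]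
    congr 1
    ext x; simp only [Subgroup.mem_inf, hCdef]; tauto
  have h3 : Nat.card (inert ι f) = Nat.card (inert (subHom ι hUN) (proj N γ)) * N.relIndex S := by
    rw [card_inert hι, h2, ← h1, ← Subgroup.inf_relIndex_right C S,
      ← Subgroup.inf_relIndex_right N S, ← Subgroup.relIndex_mul_relIndex (C ⊓ S) (N ⊓ S) S
        (fun x hx => ⟨hC x hx.1 (mem_NP.1 hx.2).2.2, hx.2⟩) inf_le_right, inf_comm N S,
      ← Subgroup.inf_relIndex_right C (S ⊓ N), ← Subgroup.inf_relIndex_right (C ⊓ S) (S ⊓ N)]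
    congr 2
    ext x; simp only [Subgroup.mem_inf]; tauto
  have h4 := relIndex_mul_card_le hM hB hb ((covers_iff_mul hM hB hb).2 hcov) hv (S := S)
    fun x hx => by
      obtain ⟨-, h1, h2⟩ := mem_NP.1 hx
      refine (cj_sidem_eq_iff hM hb x).1
        (hγp.block_unique hUN (hb'.cj_of_mem_normalizer (hNn x)) hb' ?_ hbγ)
      conv_lhs => rw [← h2, ← conj_smul_eq_of_mem_normalizer h1, ← cj_br', ← map_mul, hbγ, h2]
  obtain ⟨X, Y, δ, δ₀, c, T⟩ := SB.exists_cycStr
  obtain ⟨X', Y', δ', δ₀', c', T'⟩ := Sb.exists_cycStr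
  have h5 := T.card_range_mul SB
  have h6 := T'.card_range_mul Sb
  rw [T.card_eq SB, T'.card_eq Sb, ← T.card_range SB, ← T'.card_range Sb, h3] at h4
  rw [h3, ← h6] at h5
  have h7 : 0 < Nat.card (inert (subHom ι hUN) (proj N γ)) := Nat.card_pos
  have h8 : N.relIndex S ≠ 0 := Subgroup.index_ne_zero_of_finite
  refine Subgroup.relIndex_eq_one.1 ?_
  generalize N.relIndex S = s at *
  generalize Nat.card (inert (subHom ι hUN) (proj N γ)) = e at *
  generalize Nat.card (Set.range Y) = y at *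
  generalize Nat.card (Set.range Y') = y' at *
  have h9 : y' = y * s := Nat.eq_of_mul_eq_mul_right h7 (by rw [← h5]; ring)
  subst h9
  by_contra hne
  have : 2 ≤ s := by omega
  nlinarith [Nat.mul_le_mul this this]

/-- For a cyclic `2`-subgroup the normaliser acts as a `2`-group. -/
theorem exists_pow_mem_centralizer {U : Subgroup G} (hU : IsCyclic U) (hp : IsPGroup 2 U) {x : G}
    (hx : x ∈ Subgroup.normalizer (U : Set G)) :
    ∃ k, x ^ 2 ^ k ∈ Subgroup.centralizer (U : Set G) := by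
  obtain ⟨n, hn⟩ := IsPGroup.iff_card.1 hp
  have h1 : Nat.card (MulAut U) ∣ 2 ^ n := by
    rw [IsCyclic.card_mulAut, hn]
    rcases n with _ | n
    · simp
    · rw [Nat.totient_prime_pow_succ Nat.prime_two]
      simp [pow_succ]
  refine ⟨n, ?_⟩
  have h2 : (⟨x, hx⟩ : Subgroup.normalizer (U : Set G)) ^ 2 ^ n ∈ U.normalizerMonoidHom.ker := by
    rw [MonoidHom.mem_ker, map_pow, ← orderOf_dvd_iff_pow_eq_one]
    exact (orderOf_dvd_natCard _).trans h1
  rwa [Subgroup.normalizerMonoidHom_ker] at h2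

theorem one_top {N : Subgroup G} [N.Normal] [IsCyclic (G ⧸ N)] (hp : ¬ p ∣ N.index) {u : G}
    {f : (ResF hM)[G]} (bp : BP p ⊤ (Subgroup.zpowers u) f)
    (dfg : DefGrp p (Subgroup.centralizer (Subgroup.zpowers u : Set G)) f (Subgroup.zpowers u))
    {B : Set (IrrCharacter G)} (hB : IsPBlock M B) (hv : ∀ χ ∈ B, ∀ g ∉ N, χ.1 g = 0)
    (hbr : br (Subgroup.zpowers u) (idem hM B) * f = f)
    (kind : MaxBP p ⊤ (Subgroup.zpowers u) f ∨ p = 2) : SuppIn (N : Set G) f ∧
      ∀ γ : (ResF hM)[G], BIdem (N ⊓ Subgroup.centralizer (Subgroup.zpowers u : Set G)) γ →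
        f * γ ≠ 0 → NP ⊤ (Subgroup.zpowers u) γ ≤ N := by
  have hu : IsPElt p u := isPElt_iff_isPGroup_zpowers.2 bp.pgroup
  have hco := (Nat.Prime.coprime_iff_not_dvd Fact.out).2 hp
  have huN : u ∈ N := hu.mem_of_coprime_index N hco
  have hs : SuppIn (N : Set G) f := by
    have h1 := bp.bidem_top
    rw [centralizer_zpowers_eq] at h1
    obtain ⟨f, hf, rfl⟩ := h1.exists_lBlk
    exact fun g hg => suppIn_of_vanish hM hu huN hf hB hv hbr g fun h =>
      hg (by rw [coeff_redA, h, red_zero])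
  refine ⟨hs, fun γ hγ h0 => ?_⟩
  have hC : ∀ x ∈ Subgroup.centralizer (Subgroup.zpowers u : Set G), cj x γ = γ → x ∈ N :=
    fun x hx => mem_of_central hM le_rfl (Subgroup.zpowers_le.2 huN) bp.bidem_top dfg hs hγ h0 hx
  rcases kind with h | rfl
  · by_cases h1 : Subgroup.zpowers u = ⊥
    · exact fun x hx => hC x (by rw [h1]; simp [Subgroup.mem_centralizer_iff]) (mem_NP.1 hx).2.2
    · exact NP_le_of_maxBP hM inferInstance h1 (Subgroup.zpowers_le.2 huN) h hs hB hv hbr hγ h0 hC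
  · intro x hx
    obtain ⟨k, hk⟩ := exists_pow_mem_centralizer inferInstance bp.pgroup (mem_NP.1 hx).2.1
    have h1 := hC _ hk (mem_NP.1 (pow_mem hx _)).2.2
    rw [← QuotientGroup.eq_one_iff] at h1 ⊢
    rw [QuotientGroup.mk_pow, ← orderOf_dvd_iff_pow_eq_one] at h1
    exact orderOf_eq_one_iff.1
      (Nat.eq_one_of_dvd_coprimes (hco.pow_left k) h1 (orderOf_dvd_natCard _))

variable {hM} in
theorem Pc.one {N K : Subgroup G} [N.Normal] [IsCyclic (G ⧸ N)] (hp : ¬ p ∣ N.index) {u : G}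
    {f : (ResF hM)[G]} (h : Pc hM N K u f) : SuppIn (N : Set G) f ∧
      ∀ γ : (ResF hM)[G], BIdem (N ⊓ (K ⊓ Subgroup.centralizer (Subgroup.zpowers u : Set G))) γ →
        f * γ ≠ 0 → NP K (Subgroup.zpowers u) γ ≤ N := by
  have := isCyclic_quotient_subgroupOf N K
  obtain ⟨hu, bp, dfg, ⟨B, hB, hv, hbr⟩, kind⟩ := h
  obtain ⟨f, rfl⟩ : ∃ a, emb K a = f := ⟨_, emb_proj_of_suppIn K bp.suppIn⟩
  obtain ⟨u, rfl⟩ : ∃ a : K, (a : G) = u := ⟨⟨u, hu⟩, rfl⟩
  have hz : Subgroup.zpowers (u : G) = (Subgroup.zpowers u).map K.subtype :=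
    (MonoidHom.map_zpowers K.subtype u).symm
  have hc : K ⊓ Subgroup.centralizer (Subgroup.zpowers (u : G) : Set G) =
      (Subgroup.centralizer (Subgroup.zpowers u : Set K)).map K.subtype := by
    rw [← top_inf_eq (Subgroup.centralizer (Subgroup.zpowers u : Set K)),
      map_subtype_inf_centralizer, map_subtype_top, hz]
  have bp' : BP p ⊤ (Subgroup.zpowers u) f := bp_emb_iff.1 (by rwa [map_subtype_top, ← hz])
  have hbr' : br (Subgroup.zpowers u) (idem hM B) * f = f :=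
    br_emb_mul_emb_iff.1 (by rw [← hz]; exact hbr)
  obtain ⟨h1, h2⟩ := one_top hM (N := N.subgroupOf K)
    (fun h => hp (h.trans (Subgroup.relIndex_dvd_index_of_normal N K))) bp'
    (defGrp_emb_iff.1 (by rwa [← hz, ← hc])) hB hv hbr'
    (kind.imp (fun h => (maxBP_iff_defGrp hM (bIdem_top_idem hM hB) bp' hbr').2
      (defGrp_emb_iff.1 (by
        rw [map_subtype_top, ← hz]; exact h.defGrp hM (bIdem_sidem hM hB) hbr))) And.left)
  refine ⟨fun g hg => ?_, fun γ hγ h0 => ?_⟩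
  · exact h1 ⟨g, bp.suppIn g hg⟩ (by rwa [← coeff_emb_of_mem])
  · obtain ⟨γ, rfl⟩ : ∃ a, emb K a = γ :=
      ⟨_, emb_proj_of_suppIn K (SuppIn.mono' (inf_le_right.trans inf_le_left) hγ.supp)⟩
    intro x hx
    rw [hz, ← map_NP_subtype] at hx
    obtain ⟨x, hx, rfl⟩ := hx
    refine h2 γ (bIdem_emb_iff.1 ?_) (fun h => h0 (by rw [← map_mul, h, map_zero])) hx
    rwa [Subgroup.map_inf _ _ _ K.subtype_injective, ← hc, Subgroup.subgroupOf_map_subtype,
      inf_assoc, ← inf_assoc K, inf_idem]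

end GUL
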