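import Cfsg.Agent.Lib.GU.LocF
import Cfsg.Agent.Lib.GU.One

/-!
# The local theorem: a block covered by a block with a system of pieces has stabilizer `N`
-/

set_option autoImplicit false
set_option linter.unusedSectionVars false

namespace GUL

open Cfsg CT GT BT
open scoped MonoidAlgebra Pointwise

variable {p : ℕ} [Fact p.Prime] {M : Ideal AlgInt} {hM : IsPModular p M}
variable {G : Type*} [Group G] [Finite G]

theorem PS.mem_of_cj {N : Subgroup G} [N.Normal] [IsCyclic (G ⧸ N)] (hp : ¬ p ∣ N.index)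
    {J : Type*} [Fintype J] {K : J → Subgroup G} {u : J → G} {f : J → (ResF hM)[G]}
    (h : PS hM N K u f) {e E : (ResF hM)[G]} (he : BIdem ⊤ e) (h0 : E ≠ 0)
    (hbr : br (⨆ j, Subgroup.zpowers (u j)) e * E = E) (hf : ∀ j, f j * E = E)
    {b : (ResF hM)[G]} (hb : BIdem N b) (heb : e * b ≠ 0) {g : G} (hg : cj g b = b) : g ∈ N :=
  h.mem_of_cj' hp (fun j => ((h.pc j).one hp).1) (fun j => ((h.pc j).one hp).2) he h0 hbr hf hb
    heb hg

theorem PS.mem_of_smul {N : Subgroup G} [N.Normal] [IsCyclic (G ⧸ N)] (hp : ¬ p ∣ N.index)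
    {J : Type*} [Fintype J] {K : J → Subgroup G} {u : J → G} {f : J → (ResF hM)[G]}
    (h : PS hM N K u f) {B : Set (IrrCharacter G)} (hB : IsPBlock M B) {E : (ResF hM)[G]}
    (h0 : E ≠ 0) (hbr : br (⨆ j, Subgroup.zpowers (u j)) (idem hM B) * E = E)
    (hf : ∀ j, f j * E = E) {b : Set (IrrCharacter N)} (hb : IsPBlock M b) (hc : Covers N B b)
    {g : G} (hg : g • b = b) : g ∈ N :=
  h.mem_of_cj hp (bIdem_top_idem hM hB) h0 hbr hf (bIdem_sidem hM hb)
    ((covers_iff_mul hM hB hb).1 hc) ((cj_sidem_eq_iff hM hb g).2 hg)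

end GUL
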