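import Cfsg.Agent.Lib.Block.PairsLoc

/-!
# A Frattini argument for weakly closed Brauer pairs; eigen-elements of blocks
-/

set_option autoImplicit false
set_option linter.unusedSectionVars false

namespace GUL

open Cfsg CT GT BT
open scoped MonoidAlgebra Pointwise

variable {p : ℕ} [Fact p.Prime] {M : Ideal AlgInt} {hM : IsPModular p M}
variable {G : Type*} [Group G] [Finite G]

section Frattini

/-- An abelian centric Brauer pair without quadratic elements. -/
structure WP (N Q : Subgroup G) (c : (ResF hM)[G]) : Prop where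
  bp : BP p N Q c
  le : Q ≤ N
  ab : ∀ x ∈ Q, ∀ y ∈ Q, Commute x y
  nq : ∀ v ∈ NP N Q c, IsPElt p v → (∀ w ∈ Q, Commute v (v * w * v⁻¹ * w⁻¹)) →
    br (Subgroup.zpowers v) c ≠ 0 → v ∈ Q

variable {N Q P R : Subgroup G} [N.Normal] {b c e : (ResF hM)[G]}

theorem mem_normalizer_normal (N : Subgroup G) [N.Normal] (x : G) :
    x ∈ Subgroup.normalizer (N : Set G) := Subgroup.le_normalizer_of_normal (Subgroup.mem_top x)

theorem WP.conj (h : WP N Q c) (x : G) : WP N (MulAut.conj x • Q) (cj x c) where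
  bp := h.bp.conj (mem_normalizer_normal N x)
  le := conj_smul_le_iff.2 fun y hy => Subgroup.Normal.conj_mem ‹_› y (h.le hy) x
  ab := fun y hy z hz => by
    obtain ⟨y', hy', rfl⟩ := mem_conj_smul'.1 hy
    obtain ⟨z', hz', rfl⟩ := mem_conj_smul'.1 hz
    exact (h.ab y' hy' z' hz').map (MulAut.conj x)
  nq := fun v hv hp hc hb => by
    rw [← conj_smul_NP_of_mem (mem_normalizer_normal N x)] at hv
    obtain ⟨v', hv', rfl⟩ := mem_conj_smul'.1 hv
    rw [← conj_smul_zpowers, br_conj_ne_zero_iff] at hb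
    refine conj_mem_conj_smul.2 (h.nq v' hv' ((isPElt_conj x).1 hp) (fun w hw => ?_) hb)
    have := (hc _ (conj_mem_conj_smul.2 hw)).map (MulAut.conj x⁻¹)
    simp only [MulAut.conj_apply] at this
    convert this using 1 <;> group

theorem WP.le_of (h : WP N Q c) (hP : PLe p N Q c P e) (hPN : P ≤ N) (hR : R ≤ P)
    (hab : ∀ x ∈ R, ∀ y ∈ R, Commute x y) (h1 : R ≤ Subgroup.normalizer (Q : Set G))
    (h2 : Q ≤ Subgroup.normalizer (R : Set G)) : R ≤ Q := fun v hv => by
  refine h.nq v (mem_NP.2 ⟨hPN (hR hv), h1 hv, ?_⟩) (isPElt_of_mem hP.right.pgroup (hR hv))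
    (fun w hw => hab v hv _ ?_) (hP.br_ne_zero hM (by simpa using hR hv) (by simpa using h1 hv))
  · exact isFixed_iff_cj.1 (hP.isFixed hM) v ⟨hR hv, h1 hv⟩
  · have := mul_mem hv (conj_mem_of_mem_normalizer (h2 hw) (inv_mem hv))
    convert this using 1
    group

theorem WP.le_normalizer (h : WP N Q c) (hP : PLe p N Q c P e) (hPN : P ≤ N) :
    P ≤ Subgroup.normalizer (Q : Set G) := by
  by_contra hne
  have hlt : P ⊓ Subgroup.normalizer (Q : Set G) < P :=
    lt_of_le_of_ne inf_le_left fun h' => hne (h' ▸ inf_le_right)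
  obtain ⟨x, ⟨hxP, hxn⟩, hx⟩ := SetLike.exists_of_lt (lt_inf_normalizer_of_lt hP.right.pgroup hlt)
  have e1 := conj_smul_eq_of_mem_normalizer hxn
  have hQ : Q ≤ P ⊓ Subgroup.normalizer (Q : Set G) := le_inf hP.le Subgroup.le_normalizer
  have hQ' : MulAut.conj x • Q ≤ P ⊓ Subgroup.normalizer (Q : Set G) := e1 ▸ conj_smul_mono x hQ
  have := h.le_of hP hPN (hQ'.trans inf_le_left) (h.conj x).ab (hQ'.trans inf_le_right) (by
    rw [← conj_smul_normalizer]
    exact hQ.trans (e1 ▸ conj_smul_mono x inf_le_right))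
  exact hx ⟨hxP, conj_smul_eq_iff_mem_normalizer.1
    (Subgroup.eq_of_le_of_card_ge this (card_conj_smul x Q).ge)⟩

/-- The Frattini argument. -/
theorem WP.frattini (h : WP N Q c) (hb : BIdem N b) (hbc : br Q b * c = c) {g : G}
    (hg : cj g b = b) : ∃ n ∈ N, n * g ∈ NP ⊤ Q c := by
  obtain ⟨P, e, hm, hP⟩ := h.bp.exists_maxBP_ge h.le
  have hbe := (hP.br_block_iff hb.toCIdem hm.le).1 hbc
  have h' := h.conj g
  obtain ⟨n, hn, hP'⟩ := hm.exists_conj_ple hM hb hbe h'.bp h'.le (br_mul_cj_of_isFixed hg hbc)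
  have h'' := h'.conj n
  rw [conj_smul_conj_smul, ← cj_mul] at hP' h''
  have n1 := h.le_normalizer hP hm.le
  have n2 := h''.le_normalizer hP' hm.le
  have e1 : MulAut.conj (n * g) • Q = Q := Subgroup.eq_of_le_of_card_ge
    (h.le_of hP hm.le hP'.le h''.ab (hP'.le.trans n1) (hP.le.trans n2)) (card_conj_smul _ Q).ge
  rw [e1] at hP'
  exact ⟨n, hn, mem_NP.2 ⟨trivial, conj_smul_eq_iff_mem_normalizer.1 e1, hP'.unique hM hP⟩⟩

end Frattini

section Eigen
variable {H : Subgroup G} {e z : (ResF hM)[G]}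

theorem BIdem.exists_mul_eq_smul (he : BIdem H e) (hs : SuppIn (H : Set G) z) (hz : IsFixed H z)
    {r : ℕ} (hr : ¬ p ∣ r) (h : z ^ r * e = e) : ∃ ω : ResF hM, z * e = ω • e := by
  have hp : p.Prime := Fact.out
  obtain ⟨ω, n, hn⟩ : ∃ ω : ResF hM, IsNilpotent (z * e - ω • e) := by
    obtain ⟨b, hb, rfl⟩ := he.exists_block hM
    obtain ⟨χ, hχ⟩ := block_nonempty hM hb
    refine ⟨lam hM χ.1 (proj H z), ?_⟩
    have h1 : IsCentral (proj H z - lam hM χ.1 (proj H z) • 1) :=
      hz.isCentral_proj.sub (isCentral_one.smul _)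
    have := ((isNilpotent_mul_idem_iff hM hb hχ h1).2 (by
      rw [map_sub, map_smul, lam_one, smul_eq_mul, mul_one, sub_self])).map (emb H)
    rwa [map_mul, map_sub, map_smul, map_one, emb_proj_of_suppIn H hs, sub_mul, smul_mul_assoc,
      one_mul] at this
  have hc : Commute z e := hz.commute_of_suppIn he.supp
  have hi : IsIdempotentElem e := he.idem
  have r0 : 0 < r := Nat.pos_of_ne_zero fun h0 => hr (h0 ▸ dvd_zero p)
  have : CharP (ResF hM)[G] p := charP_of_injective_algebraMap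
    (FaithfulSMul.algebraMap_injective (ResF hM) (ResF hM)[G]) p
  have hm : p ^ (r.totient * n) ≡ 1 [MOD r] := by
    rw [pow_mul]
    simpa using (Nat.ModEq.pow_totient ((Nat.Prime.coprime_iff_not_dvd hp).2 hr)).pow n
  have hle : n ≤ p ^ (r.totient * n) := (Nat.lt_pow_self hp.one_lt).le.trans
    (Nat.pow_le_pow_right hp.pos (Nat.le_mul_of_pos_left n (Nat.totient_pos.2 r0)))
  obtain ⟨t, ht⟩ := (Nat.modEq_iff_dvd' (Nat.one_le_pow _ _ hp.pos)).1 hm.symm
  have e1 : (z * e) ^ r = e := by rw [hc.mul_pow, hi.pow_eq r0.ne', h]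
  have e2 : (z * e) ^ p ^ (r.totient * n) = z * e := by
    have : p ^ (r.totient * n) = 1 + r * t := by
      rw [← ht, Nat.add_sub_cancel' (Nat.one_le_pow _ _ hp.pos)]
    rw [this, pow_add, pow_one, pow_mul, e1]
    rcases t with _ | t
    · rw [pow_zero, mul_one]
    · rw [hi.pow_succ_eq, mul_assoc, hi]
  have c2 : Commute (z * e - ω • e) (ω • e) :=
    ((hc.mul_left (Commute.refl e)).smul_right ω).sub_left (Commute.refl _)
  have e3 := add_pow_char_pow_of_commute p (r.totient * n) c2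
  rw [sub_add_cancel, e2, pow_eq_zero_of_le hle hn, zero_add, smul_pow,
    hi.pow_eq (pow_pos hp.pos _).ne'] at e3
  exact ⟨_, e3⟩

end Eigen

end GUL
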