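import Cfsg.Agent.Lib.GU.LocA

/-!
# Eigen-elements for a linear character
-/

set_option autoImplicit false
set_option linter.unusedSectionVars false

namespace GUL

open Cfsg CT GT BT
open scoped MonoidAlgebra Pointwise

variable {p : ℕ} [Fact p.Prime] {M : Ideal AlgInt} {hM : IsPModular p M}
variable {G : Type*} [Group G] [Finite G]

theorem le_normalizer_inf_normal {N L T : Subgroup G} [N.Normal]
    (h : T ≤ Subgroup.normalizer (L : Set G)) :
    T ≤ Subgroup.normalizer ((N ⊓ L : Subgroup G) : Set G) := fun x hx =>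
  mem_normalizer_of_conj_mem fun y hy =>
    ⟨Subgroup.Normal.conj_mem ‹_› y hy.1 x, conj_mem_of_mem_normalizer (h hx) hy.2⟩

theorem exists_eigen {N L T : Subgroup G} [N.Normal] (hLT : L ≤ T)
    (hT : T ≤ Subgroup.normalizer (L : Set G)) {f : (ResF hM)[G]} (hf : BIdem L f)
    (hs : SuppIn (N : Set G) f) (hfT : IsFixed T f) (μ : G →* (ResF hM)ˣ) {r : ℕ} (hr : r ≠ 0)
    (hμ : ∀ x, μ x ^ r = 1)
    (h : ∀ γ : (ResF hM)[G], BIdem (N ⊓ L) γ → f * γ ≠ 0 → ∀ x ∈ T, cj x γ = γ → μ x = 1) :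
    ∃ z : (ResF hM)[G], SuppIn ((N ⊓ L : Subgroup G) : Set G) z ∧ z ^ r = f ∧ z * f = z ∧
      ∀ x ∈ T, cj x z = (μ x : ResF hM) • z := by
  classical
  obtain ⟨γ, hγ, h0⟩ := exists_bIdem_mul_ne_zero hM (N ⊓ L) hf.ne_zero
  have hT' : T ≤ Subgroup.normalizer ((N ⊓ L : Subgroup G) : Set G) := le_normalizer_inf_normal hT
  have hc : CIdem (N ⊓ L) f := ⟨fun g hg => ⟨hs g hg, hf.supp g hg⟩, hf.fixed.mono inf_le_right,
    hf.idem⟩
  have h1 : f * γ = γ := (hγ.prim f hc).resolve_right h0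
  have hO : f = orbSum L γ := hf.eq_orbSum inf_le_right (hLT.trans hT') hγ h1
  have hx : ∀ y, y ∈ orbSet L γ → ∃ x ∈ L, cj x γ = y := fun y hy => mem_orbSet.1 hy
  choose! X hX1 hX2 using hx
  have hB : ∀ y ∈ orbSet L γ, BIdem (N ⊓ L) y := fun y hy => hγ.of_mem_orbSet (hLT.trans hT') hy
  have hfy : ∀ y ∈ orbSet L γ, f * y = y := fun y hy =>
    hO ▸ hγ.orbSum_mul_of_mem (hLT.trans hT') hy
  have hmem : ∀ x ∈ T, ∀ y ∈ orbSet L γ, cj x y ∈ orbSet L γ := fun x hx y hy => by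
    refine hγ.mem_orbSet_of_orbSum_mul (hLT.trans hT')
      ((hB y hy).cj_of_mem_normalizer (hT' hx)) ?_
    rw [← hO, mul_cj_ne_zero_iff (isFixed_iff_cj.1 hfT x hx), hfy y hy]
    exact (hB y hy).ne_zero
  have hval : ∀ x ∈ T, ∀ y ∈ orbSet L γ, μ (X (cj x y)) = μ x * μ (X y) := fun x hx y hy => by
    have := h γ hγ h0 ((X (cj x y))⁻¹ * (x * X y))
      (mul_mem (inv_mem (hLT (hX1 _ (hmem x hx y hy)))) (mul_mem hx (hLT (hX1 y hy))))
      (by rw [cj_mul, cj_mul, hX2 y hy, ← hX2 _ (hmem x hx y hy), hX2 _ (hmem x hx y hy)]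
          nth_rewrite 2 [← hX2 _ (hmem x hx y hy)]
          rw [cj_inv_cj])
    rw [map_mul, map_inv, inv_mul_eq_one, map_mul] at this
    exact this
  set z : (ResF hM)[G] := ∑ y ∈ orbSet L γ, (((μ (X y))⁻¹ : (ResF hM)ˣ) : ResF hM) • y with hz
  have hzy : ∀ y ∈ orbSet L γ, z * y = (((μ (X y))⁻¹ : (ResF hM)ˣ) : ResF hM) • y := fun y hy => by
    rw [hz, Finset.sum_mul, Finset.sum_eq_single y (fun y' hy' hne => ?_) (fun h => absurd hy h),
      smul_mul_assoc, (hB y hy).idem]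
    rw [smul_mul_assoc, ((hB y' hy').eq_or_mul_eq_zero (hB y hy)).resolve_left hne, smul_zero]
  have hzn : ∀ y ∈ orbSet L γ, ∀ n : ℕ,
      z ^ n * y = (((μ (X y))⁻¹ : (ResF hM)ˣ) : ResF hM) ^ n • y := fun y hy n => by
    induction n with
    | zero => simp
    | succ n ih => rw [pow_succ, mul_assoc, hzy y hy, mul_smul_comm, ih, smul_smul, pow_succ']
  have e1 : z * f = z := by
    rw [hO, orbSum, Finset.mul_sum]
    exact Finset.sum_congr rfl hzy
  refine ⟨z, ?_, ?_, e1, fun x hx => ?_⟩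
  · exact mem_suppAlg.1 (sum_mem fun y hy =>
      Subalgebra.smul_mem _ (mem_suppAlg.2 (hB y hy).supp) _)
  · obtain ⟨n, rfl⟩ := Nat.exists_eq_succ_of_ne_zero hr
    have e2 : z ^ n.succ = z ^ n.succ * f := by rw [pow_succ, mul_assoc, e1]
    rw [e2, hO, orbSum, Finset.mul_sum]
    refine Finset.sum_congr rfl fun y hy => ?_
    rw [hzn y hy, ← Units.val_pow_eq_pow_val, inv_pow, hμ, inv_one, Units.val_one, one_smul]
  · rw [hz, map_sum, Finset.smul_sum]
    refine Finset.sum_nbij' (cj x) (cj x⁻¹) (hmem x hx) (hmem _ (inv_mem hx))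
      (fun y _ => cj_inv_cj x y) (fun y _ => cj_cj_inv x y) fun y hy => ?_
    rw [map_smul, hval x hx y hy, smul_smul, ← Units.val_mul, mul_inv, mul_inv_cancel_left]

/-- Uniqueness of eigen-elements. -/
theorem eigen_unique {L : Subgroup G} {f z z' : (ResF hM)[G]} (hf : BIdem L f)
    (μ : G →* (ResF hM)ˣ) {r : ℕ} (hr : ¬ p ∣ r) (hμ : ∀ x, μ x ^ r = 1)
    (hs : SuppIn (L : Set G) z) (hz : z ^ r = f) (hm : z * f = z)
    (he : ∀ x ∈ L, cj x z = (μ x : ResF hM) • z)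
    (hs' : SuppIn (L : Set G) z') (hz' : z' ^ r = f) (hm' : z' * f = z')
    (he' : ∀ x ∈ L, cj x z' = (μ x : ResF hM) • z') : ∃ a : ResF hM, z' = a • z := by
  obtain ⟨n, rfl⟩ := Nat.exists_eq_succ_of_ne_zero (n := r) fun h0 => hr (h0 ▸ dvd_zero p)
  have hy : IsFixed L (z' * z ^ n) := isFixed_iff_cj.2 fun x hx => by
    rw [map_mul, map_pow, he x hx, he' x hx, smul_pow, smul_mul_smul_comm, ← pow_succ',
      ← Units.val_pow_eq_pow_val, hμ, Units.val_one, one_smul]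
  have hsy : SuppIn (L : Set G) (z' * z ^ n) :=
    mem_suppAlg.1 (mul_mem (mem_suppAlg.2 hs') (pow_mem (mem_suppAlg.2 hs) n))
  have c1 : Commute (z' * z ^ n) z := hy.commute_of_suppIn hs
  have e1 : z' * z ^ n * z = z' := by rw [mul_assoc, ← pow_succ, hz, hm']
  obtain ⟨a, ha⟩ := BIdem.exists_mul_eq_smul hf hsy hy hr (by
    rw [← hz, ← c1.mul_pow, e1, hz', hz])
  have c2 : f * z = z := by rw [(hf.fixed.commute_of_suppIn hs).eq, hm]
  refine ⟨a, ?_⟩
  have e2 : z' * z ^ n * f * z = a • z := by rw [ha, smul_mul_assoc, c2]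
  rwa [mul_assoc, c2, e1] at e2

theorem exists_hom_ker {N : Subgroup G} [N.Normal] [IsCyclic (G ⧸ N)] (hp : ¬ p ∣ N.index) :
    ∃ μ : G →* (ResF hM)ˣ, μ.ker = N ∧ ∀ x, μ x ^ N.index = 1 := by
  have : NeZero (N.index : ResF hM) := ⟨fun h => hp ((CharP.cast_eq_zero_iff _ p _).1 h)⟩
  have : NeZero N.index := ⟨Subgroup.FiniteIndex.index_ne_zero⟩
  obtain ⟨ζ, hζ⟩ := HasEnoughRootsOfUnity.exists_primitiveRoot (ResF hM) N.index
  obtain ⟨g, hg⟩ := IsCyclic.exists_generator (α := G ⧸ N)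
  have ho : orderOf g = N.index := orderOf_eq_card_of_forall_mem_zpowers hg
  have hu := hζ.isUnit (NeZero.ne _)
  have hζ' : orderOf hu.unit = N.index := by
    rw [← orderOf_units, IsUnit.unit_spec, ← hζ.eq_orderOf]
  let φ : G ⧸ N →* (ResF hM)ˣ := monoidHomOfForallMemZpowers hg (g' := hu.unit) (by rw [ho, hζ'])
  have hφ : Function.Injective φ := by
    rw [injective_iff_map_eq_one]
    intro a ha
    obtain ⟨k, rfl⟩ := Subgroup.mem_zpowers_iff.1 (hg a)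
    rw [map_zpow, monoidHomOfForallMemZpowers_apply_gen, ← orderOf_dvd_iff_zpow_eq_one, hζ',
      ← ho, orderOf_dvd_iff_zpow_eq_one] at ha
    exact ha
  refine ⟨φ.comp (QuotientGroup.mk' N), ?_, fun x => ?_⟩
  · ext x
    rw [MonoidHom.mem_ker, MonoidHom.comp_apply, map_eq_one_iff _ hφ, QuotientGroup.mk'_apply,
      QuotientGroup.eq_one_iff]
  · rw [MonoidHom.comp_apply, ← map_pow, Subgroup.index, pow_card_eq_one', map_one]

end GUL
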