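import Cfsg.Agent.Lib.Block.PairsLoc
import Cfsg.Agent.Lib.UW.Sub

/-!
# Local analysis of blocks of unitary groups: definitions

`GUL.Pc`: one piece; `GUL.PS`: an abstract system of pieces; `GUL.Geo`: the geometric data.
-/

set_option autoImplicit false
set_option linter.unusedSectionVars false

namespace GUL

open Cfsg CT GT BT UW
open scoped MonoidAlgebra Pointwise

section Abstract
variable {p : ℕ} [Fact p.Prime] {M : Ideal AlgInt} (hM : IsPModular p M)
variable {G : Type*} [Group G] [Finite G]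

/-- A piece: a Brauer pair `(⟨u⟩, f)` of `K` with central defect group, belonging to a block of
`K` whose characters vanish outside `N`. -/
structure Pc (N K : Subgroup G) (u : G) (f : (ResF hM)[G]) : Prop where
  mem : u ∈ K
  bp : BP p K (Subgroup.zpowers u) f
  dfg : DefGrp p (K ⊓ Subgroup.centralizer (Subgroup.zpowers u : Set G)) f (Subgroup.zpowers u)
  van : ∃ B : Set (IrrCharacter K), IsPBlock M B ∧
    (∀ χ ∈ B, ∀ g : K, (g : G) ∉ N → χ.1 g = 0) ∧ br (Subgroup.zpowers u) (sidem hM K B) * f = f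
  kind : MaxBP p K (Subgroup.zpowers u) f ∨ (p = 2 ∧ 8 ∣ orderOf u ∧
    ∀ g ∈ K, ∀ s : ℕ, g * u * g⁻¹ = u ^ s → Commute g u ∨ s % 4 = 3)

/-- The group theoretic part of a system of pieces. -/
structure GS (N : Subgroup G) {J : Type*} (K : J → Subgroup G) (u : J → G) : Prop where
  mem : ∀ j, u j ∈ K j
  comm : Pairwise fun i j => ∀ x y : G, x ∈ K i → y ∈ K j → Commute x y
  indep : iSupIndep K
  one : ∀ i j, u i = 1 → u j = 1 → i = j
  perm : ∀ n ∈ Subgroup.normalizer ((⨆ j, Subgroup.zpowers (u j) : Subgroup G) : Set G), ∀ j,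
    ∃ l, MulAut.conj n • K j = K l ∧
      MulAut.conj n • Subgroup.zpowers (u j) = Subgroup.zpowers (u l)
  split : ∀ n : G, (∀ j, MulAut.conj n • K j = K j) → n ∈ ⨆ j, K j
  swap : ∀ (n : G) i j, i ≠ j → MulAut.conj n • K i = K j → ∃ s : G, s * s = 1 ∧
    (∀ x ∈ K i, s * x * s⁻¹ = n * x * n⁻¹) ∧ (∀ l, l ≠ i → l ≠ j → ∀ x ∈ K l, Commute s x) ∧
    ∃ c ∈ K i, (∀ x ∈ K i, Commute c x) ∧ s * c ∈ N

/-- A system of pieces. -/
structure PS (N : Subgroup G) {J : Type*} (K : J → Subgroup G) (u : J → G)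
    (f : J → (ResF hM)[G]) : Prop extends GS N K u where
  pc : ∀ j, Pc hM N (K j) (u j) (f j)
  small : ∀ i j (g : G), orderOf (u i) = 2 → orderOf (u j) = 2 → MulAut.conj g • K i = K j →
    cj g (f i) = f j → i = j

end Abstract

section Geo
variable {F V : Type*} [Field F] [Fintype F] [StarRing F] [HF F] [AddCommGroup V] [Module F V]
  [Fintype V] (H : HS F V)

/-- The isometries fixing the orthogonal complement of `D` pointwise. -/
def GD (D : Submodule F V) : Subgroup H.U where
  carrier := {g | ∀ y ∈ H.perp D, g • y = y}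
  mul_mem' := fun {a b} ha hb y hy => by rw [mul_smul, hb y hy, ha y hy]
  one_mem' := fun y _ => one_smul _ y
  inv_mem' := fun {a} ha y hy => by rw [inv_smul_eq_iff, ha y hy]

theorem mem_GD {D : Submodule F V} {g : H.U} : g ∈ GD H D ↔ ∀ y ∈ H.perp D, g • y = y := Iff.rfl

/-- An orthogonal decomposition with elements acting fixed point freely on the summands. -/
structure Geo {J : Type*} (D : J → Submodule F V) (u : J → H.U) : Prop where
  nd : ∀ j, H.Nd (D j)
  orth : ∀ i j, i ≠ j → D i ≤ H.perp (D j)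
  span : ⨆ j, D j = ⊤
  mem : ∀ j, u j ∈ GD H (D j)
  fpf : ∀ j (a : ℕ), u j ^ a ≠ 1 → ∀ x ∈ D j, u j ^ a • x = x → x = 0
  one : ∀ i j, u i = 1 → u j = 1 → i = j

end Geo

end GUL
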