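import Cfsg.Agent.Lib.GU.LocB
import Cfsg.Agent.Lib.GU.LocD
import Mathlib.GroupTheory.NoncommPiCoprod

/-!
# Systems of pieces: group theory
-/

set_option autoImplicit false
set_option linter.unusedSectionVars false

namespace GUL

open Cfsg CT GT BT
open scoped MonoidAlgebra Pointwise

variable {G : Type*} [Group G] [Finite G]

theorem cj_eq_self_of_commute {R : Type*} [CommRing R] {S : Set G} {y : R[G]} (hs : SuppIn S y)
    {n : G} (h : ∀ x ∈ S, Commute n x) : cj n y = y :=
  isFixed_iff_cj.1 (isFixed_of_suppIn_centralizer (P := Subgroup.zpowers n) fun x hx => by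
    rw [centralizer_zpowers_eq', SetLike.mem_coe, Subgroup.mem_centralizer_singleton_iff]
    exact (h x (hs x hx)).symm) n (Subgroup.mem_zpowers n)

theorem cj_congr {R : Type*} [CommRing R] {S : Set G} {y : R[G]} (hs : SuppIn S y)
    {n m : G} (h : ∀ x ∈ S, n * x * n⁻¹ = m * x * m⁻¹) : cj n y = cj m y := by
  have := cj_eq_self_of_commute hs (n := m⁻¹ * n) fun x hx => by
    have := h x hx
    rw [Commute, SemiconjBy]
    calc m⁻¹ * n * x = m⁻¹ * (n * x * n⁻¹) * n := by group
      _ = x * (m⁻¹ * n) := by rw [this]; group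
  nth_rewrite 2 [← this]
  rw [← cj_mul, mul_inv_cancel_left]

theorem conj_smul_congr {L : Subgroup G} {n m : G} (h : ∀ x ∈ L, n * x * n⁻¹ = m * x * m⁻¹) :
    MulAut.conj n • L = MulAut.conj m • L := by
  ext y
  simp only [mem_conj_smul']
  exact ⟨fun ⟨x, hx, e⟩ => ⟨x, hx, (h x hx).symm.trans e⟩,
    fun ⟨x, hx, e⟩ => ⟨x, hx, (h x hx).trans e⟩⟩

theorem conj_smul_of_commute {L : Subgroup G} {n : G} (h : ∀ x ∈ L, Commute n x) :
    MulAut.conj n • L = L := by
  rw [conj_smul_congr (m := 1) fun x hx => by rw [(h x hx).eq]; group, conj_one_smul]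

namespace GS
variable {N : Subgroup G} {J : Type*} [Fintype J] {K : J → Subgroup G} {u : J → G}
  (h : GS N K u)
include h

theorem zle (j : J) : Subgroup.zpowers (u j) ≤ K j := Subgroup.zpowers_le.2 (h.mem j)

theorem eq_one {i j : J} (hij : i ≠ j) {x : G} (hi : x ∈ K i) (hj : x ∈ K j) : x = 1 :=
  Subgroup.disjoint_def.1 (h.indep.pairwiseDisjoint hij) hi hj

theorem eq_of_zpowers {i j : J} (e : Subgroup.zpowers (u i) = Subgroup.zpowers (u j)) : i = j := by
  by_contra hij
  exact hij (h.one i j (h.eq_one hij (h.mem i) (h.zle j (e ▸ Subgroup.mem_zpowers _)))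
    (h.eq_one hij (h.zle i (e ▸ Subgroup.mem_zpowers _)) (h.mem j)))

theorem commute_u (i j : J) : Commute (u i) (u j) := by
  by_cases hij : i = j
  · rw [hij]
  · exact h.comm hij _ _ (h.mem i) (h.mem j)

theorem mem_centralizer {x : G} (hx : ∀ j, Commute x (u j)) :
    x ∈ Subgroup.centralizer ((⨆ j, Subgroup.zpowers (u j) : Subgroup G) : Set G) := by
  rw [← le_centralizer_singleton_iff]
  exact iSup_le fun j => Subgroup.zpowers_le.2
    (Subgroup.mem_centralizer_singleton_iff.2 (hx j).symm)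

theorem u_mem (j : J) : u j ∈ ⨆ j, Subgroup.zpowers (u j) :=
  Subgroup.mem_iSup_of_mem j (Subgroup.mem_zpowers _)

theorem ab : ∀ x ∈ ⨆ j, Subgroup.zpowers (u j), ∀ y ∈ ⨆ j, Subgroup.zpowers (u j), Commute x y := by
  have : ⨆ j, Subgroup.zpowers (u j) ≤
      Subgroup.centralizer ((⨆ j, Subgroup.zpowers (u j) : Subgroup G) : Set G) :=
    iSup_le fun j => Subgroup.zpowers_le.2 (h.mem_centralizer (h.commute_u j))
  exact fun x hx y hy => this hy x hx

theorem le_centralizer (j : J) :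
    K j ⊓ Subgroup.centralizer (Subgroup.zpowers (u j) : Set G) ≤
      Subgroup.centralizer ((⨆ j, Subgroup.zpowers (u j) : Subgroup G) : Set G) := fun x hx =>
  h.mem_centralizer fun l => by
    by_cases e : j = l
    · exact (hx.2 _ (e ▸ Subgroup.mem_zpowers _)).symm
    · exact h.comm e _ _ hx.1 (h.mem l)

theorem exists_perm {n : G}
    (hn : n ∈ Subgroup.normalizer ((⨆ j, Subgroup.zpowers (u j) : Subgroup G) : Set G)) :
    ∃ π : Equiv.Perm J, ∀ j, MulAut.conj n • K j = K (π j) ∧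
      MulAut.conj n • Subgroup.zpowers (u j) = Subgroup.zpowers (u (π j)) := by
  choose π h1 h2 using h.perm n hn
  have : Function.Injective π := fun i j e => h.eq_of_zpowers <| by
    rw [← conj_inv_smul_conj_smul n (Subgroup.zpowers (u i)), h2, e, ← h2,
      conj_inv_smul_conj_smul]
  exact ⟨Equiv.ofBijective π this.bijective_of_finite, fun j => ⟨h1 j, h2 j⟩⟩

theorem conj_coprod (a : ∀ j, K j) (j : J) {x : G} (hx : x ∈ K j) :
    Subgroup.noncommPiCoprod h.comm a * x * (Subgroup.noncommPiCoprod h.comm a)⁻¹ =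
      a j * x * (a j : G)⁻¹ := by
  classical
  have e := Finset.mul_noncommProd_erase Finset.univ (Finset.mem_univ j) (fun i => (a i : G))
    (fun i _ j _ e => h.comm e _ _ (a i).2 (a j).2)
  have := Finset.noncommProd_commute (Finset.univ.erase j) (fun i => (a i : G))
    (fun i _ j _ e => h.comm e _ _ (a i).2 (a j).2) x fun l hl =>
      h.comm (Finset.ne_of_mem_erase hl).symm _ _ hx (a l).2
  have e' := (Subgroup.noncommPiCoprod_apply h.comm a).trans e.symm
  rw [e', mul_assoc (a j : G), ← this.eq]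
  group

theorem exists_comp {n : G} (hn : ∀ j, MulAut.conj n • K j = K j) :
    ∃ a : ∀ j, K j, Subgroup.noncommPiCoprod h.comm a = n := by
  have := h.split n hn
  rwa [← Subgroup.noncommPiCoprod_range (hcomm := h.comm)] at this

theorem induction {P : G → Prop} (h1 : P 1) (hm : ∀ x y, P x → P y → P (x * y)) (a : ∀ j, K j)
    (ha : ∀ j, P (a j)) : P (Subgroup.noncommPiCoprod h.comm a) := by
  rw [Subgroup.noncommPiCoprod_apply]
  exact Finset.noncommProd_induction _ _ _ P hm h1 fun j _ => ha j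

theorem isPElt_comp {p : ℕ} [Fact p.Prime] {a : ∀ j, K j}
    (ha : IsPElt p (Subgroup.noncommPiCoprod h.comm a)) (j : J) : IsPElt p (a j : G) :=
  isPElt_coe.2 (((isPElt_map_iff (Subgroup.injective_noncommPiCoprod_of_iSupIndep h.indep)).1
    ha).map (Pi.evalMonoidHom (fun j => K j) j))

theorem conj_eq_of_mem_centralizer {n : G}
    (hn : n ∈ Subgroup.centralizer ((⨆ j, Subgroup.zpowers (u j) : Subgroup G) : Set G)) (j : J) :
    MulAut.conj n • K j = K j := by
  obtain ⟨l, h1, h2⟩ := h.perm n (Subgroup.centralizer_le_normalizer _ hn) j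
  rw [conj_smul_of_commute fun x hx => (hn x (Subgroup.mem_iSup_of_mem j hx)).symm] at h2
  rw [h1, h.eq_of_zpowers h2]

/-- A quadratic element does not move a piece of order greater than two. -/
theorem sq_eq_one {v : G} {π : Equiv.Perm J}
    (hπ : ∀ j, MulAut.conj v • Subgroup.zpowers (u j) = Subgroup.zpowers (u (π j))) {j : J}
    (hc : Commute v (v * u j * v⁻¹ * (u j)⁻¹)) (hj : π j ≠ j) : u j ^ 2 = 1 := by
  have m1 : v * u j * v⁻¹ ∈ Subgroup.zpowers (u (π j)) :=
    hπ j ▸ conj_mem_conj_smul.2 (Subgroup.mem_zpowers _)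
  have m2 : v * (v * u j * v⁻¹) * v⁻¹ ∈ Subgroup.zpowers (u (π (π j))) :=
    hπ (π j) ▸ conj_mem_conj_smul.2 m1
  have c1 : Commute (v * u j * v⁻¹) (u j) := h.comm hj _ _ (h.zle _ m1) (h.mem j)
  have e : (v * u j * v⁻¹) ^ 2 = v * (v * u j * v⁻¹) * v⁻¹ * u j := by
    have e1 : v * (v * u j * v⁻¹) * v⁻¹ * (v * u j * v⁻¹)⁻¹ = v * u j * v⁻¹ * (u j)⁻¹ := by
      calc _ = v * (v * u j * v⁻¹ * (u j)⁻¹) * v⁻¹ := by group
        _ = _ := by rw [hc.eq]; group
    rw [mul_inv_eq_iff_eq_mul] at e1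
    rw [e1, mul_assoc (v * u j * v⁻¹ * (u j)⁻¹), c1.eq, sq]
    group
  have hd := h.indep (π j)
  have e2 : (v * u j * v⁻¹) ^ 2 = 1 := by
    refine Subgroup.disjoint_def.1 hd (pow_mem (h.zle _ m1) 2) ?_
    rw [e]
    exact mul_mem (Subgroup.mem_iSup_of_mem (π (π j)) (Subgroup.mem_iSup_of_mem
      (fun e => hj (π.injective e)) (h.zle _ m2)))
      (Subgroup.mem_iSup_of_mem j (Subgroup.mem_iSup_of_mem hj.symm (h.mem j)))
  rwa [conj_pow, conj_eq_one_iff] at e2

end GS

end GUL
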