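import Cfsg.Agent.Lib.GU.LocC

/-!
# Systems of pieces: weak closure and the eigen-element
-/

set_option autoImplicit false
set_option linter.unusedSectionVars false

namespace GUL

open Cfsg CT GT BT
open scoped MonoidAlgebra Pointwise

variable {p : ℕ} [Fact p.Prime] {M : Ideal AlgInt} {hM : IsPModular p M}
variable {G : Type*} [Group G] [Finite G]

theorem Pc.isPElt {N K : Subgroup G} {u : G} {f : (ResF hM)[G]} (h : Pc hM N K u f) :
    IsPElt p u := isPElt_of_mem h.bp.pgroup (Subgroup.mem_zpowers u)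

theorem Pc.rigid {N K : Subgroup G} {u : G} {f : (ResF hM)[G]} (h : Pc hM N K u f) {v : G}
    (hv : v ∈ NP K (Subgroup.zpowers u) f) (hp : IsPElt p v)
    (hc : Commute v (v * u * v⁻¹ * u⁻¹)) : Commute v u := by
  rcases h.kind with hk | ⟨-, h8, hk⟩
  · exact (hk.pPart_mem_centralizer_of_abelian hM (le_centralizer_self_of_isCyclic _) hv hp u
      (Subgroup.mem_zpowers u)).symm
  obtain ⟨s, hs⟩ := mem_powers_iff_mem_zpowers.2
    (conj_mem_of_mem_normalizer (NP_le_normalizer hv) (Subgroup.mem_zpowers u))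
  replace hs : v * u * v⁻¹ = u ^ s := hs.symm
  refine (hk v (NP_le hv) s hs).resolve_right fun h3 => ?_
  have e1 : v * (v * u * v⁻¹) * v⁻¹ * (v * u * v⁻¹)⁻¹ = v * u * v⁻¹ * u⁻¹ := by
    calc _ = v * (v * u * v⁻¹ * u⁻¹) * v⁻¹ := by group
      _ = _ := by rw [hc.eq]; group
  rw [hs, ← conj_pow, hs, ← pow_mul, mul_inv_eq_iff_eq_mul] at e1
  have e2 : u ^ (s * s + 1) = u ^ (s + s) := by
    rw [pow_succ, e1, pow_add, mul_assoc, mul_assoc, ← pow_succ, pow_succ', inv_mul_cancel_left]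
  have e3 := (pow_eq_pow_iff_modEq.1 e2).of_dvd h8
  obtain ⟨t, rfl⟩ : ∃ t, s = 4 * t + 3 := ⟨s / 4, by omega⟩
  have : (4 * t + 3) * (4 * t + 3) = 16 * (t * t) + 24 * t + 9 := by ring
  rw [Nat.ModEq, this] at e3
  omega

/-- `n` permutes the pieces according to `π`. -/
def Mv {J : Type*} (K : J → Subgroup G) (u : J → G) (f : J → (ResF hM)[G]) (n : G)
    (π : Equiv.Perm J) : Prop :=
  ∀ j, MulAut.conj n • K j = K (π j) ∧
    MulAut.conj n • Subgroup.zpowers (u j) = Subgroup.zpowers (u (π j)) ∧ cj n (f j) = f (π j)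

theorem Mv.mul {J : Type*} {K : J → Subgroup G} {u : J → G} {f : J → (ResF hM)[G]} {n m : G}
    {π σ : Equiv.Perm J} (h : Mv K u f n π) (h' : Mv K u f m σ) : Mv K u f (n * m) (π * σ) :=
  fun j => ⟨by rw [← conj_smul_conj_smul, (h' j).1, (h _).1]; rfl,
    by rw [← conj_smul_conj_smul, (h' j).2.1, (h _).2.1]; rfl,
    by rw [cj_mul, (h' j).2.2, (h _).2.2]; rfl⟩

namespace PS
variable {N : Subgroup G} [N.Normal] {J : Type*} [Fintype J] {K : J → Subgroup G} {u : J → G}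
  {f : J → (ResF hM)[G]} (h : PS hM N K u f)
include h

theorem suppK (j : J) : SuppIn (K j : Set G) (f j) := (h.pc j).bp.suppIn

theorem isPGroup : IsPGroup p (⨆ j, Subgroup.zpowers (u j) : Subgroup G) := by
  have : ∀ x ∈ ⨆ j, Subgroup.zpowers (u j), IsPElt p x := fun x hx => by
    induction hx using Subgroup.iSup_induction' with
    | hp j x hx => exact (h.pc j).isPElt.of_mem_zpowers hx
    | h1 => exact isPElt_one
    | hmul x y hx hy ix iy => exact ix.mul_of_commute iy (h.ab x hx y hy)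
  intro x
  obtain ⟨k, hk⟩ := (this x.1 x.2).exists_pow_eq_one
  exact ⟨k, Subtype.ext hk⟩

theorem le (hp : ¬ p ∣ N.index) : ⨆ j, Subgroup.zpowers (u j) ≤ N :=
  iSup_le fun j => Subgroup.zpowers_le.2 (mem_of_coprime_orderOf_index
    ((h.pc j).isPElt.coprime_orderOf ((Nat.Prime.coprime_iff_not_dvd Fact.out).2 hp)))

theorem mv_one {n : G}
    (hn : n ∈ Subgroup.centralizer ((⨆ j, Subgroup.zpowers (u j) : Subgroup G) : Set G)) :
    Mv K u f n 1 := fun j => by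
  refine ⟨h.conj_eq_of_mem_centralizer hn j,
    conj_smul_of_commute fun x hx => (hn x (Subgroup.mem_iSup_of_mem j hx)).symm, ?_⟩
  obtain ⟨a, rfl⟩ := h.exists_comp (h.conj_eq_of_mem_centralizer hn)
  rw [cj_congr (h.suppK j) fun x hx => h.conj_coprod a j hx]
  refine isFixed_iff_cj.1 (h.pc j).bp.bidem.fixed _ ⟨(a j).2, fun x hx => ?_⟩
  have := h.conj_coprod a j (h.zle j hx)
  rw [← hn x (Subgroup.mem_iSup_of_mem j hx), mul_inv_cancel_right, eq_mul_inv_iff_mul_eq] at this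
  exact this

theorem cIdem (hs : ∀ j, SuppIn (N : Set G) (f j)) (j : J) :
    CIdem (N ⊓ Subgroup.centralizer ((⨆ j, Subgroup.zpowers (u j) : Subgroup G) : Set G)) (f j) :=
  ⟨fun g hg => ⟨hs j g hg, h.le_centralizer j ((h.pc j).bp.bidem.supp g hg)⟩,
    isFixed_iff_cj.2 fun _ hx => (h.mv_one hx.2 j).2.2, (h.pc j).bp.idem⟩

theorem exists_mv {c : (ResF hM)[G]} (h0 : c ≠ 0) (hc : ∀ j, f j * c = c) {n : G}
    (hn : n ∈ Subgroup.normalizer ((⨆ j, Subgroup.zpowers (u j) : Subgroup G) : Set G))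
    (hnc : cj n c = c) : ∃ π, Mv K u f n π := by
  obtain ⟨π, hπ⟩ := h.exists_perm hn
  refine ⟨π, fun j => ⟨(hπ j).1, (hπ j).2, ?_⟩⟩
  have h1 := ((h.pc j).bp.conj' n).bidem
  rw [(hπ j).1, (hπ j).2] at h1
  refine (h1.eq_or_mul_eq_zero (h.pc (π j)).bp.bidem).resolve_right fun e => h0 ?_
  have e2 : cj n (f j) * c = c := by rw [← hnc, ← map_mul, hc]
  rw [← e2, ← hc (π j), ← mul_assoc, e, zero_mul]

theorem comp_mem {a : ∀ j, K j} (ha : Mv K u f (Subgroup.noncommPiCoprod h.comm a) 1) (j : J) :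
    (a j : G) ∈ NP (K j) (Subgroup.zpowers (u j)) (f j) :=
  mem_NP.2 ⟨(a j).2, conj_smul_eq_iff_mem_normalizer.1
    ((conj_smul_congr fun _ hx => h.conj_coprod a j (h.zle j hx)).symm.trans (ha j).2.1),
    (cj_congr (h.suppK j) fun _ hx => h.conj_coprod a j hx).symm.trans (ha j).2.2⟩

theorem wp (hp : ¬ p ∣ N.index) {c : (ResF hM)[G]}
    (hb : BP p N (⨆ j, Subgroup.zpowers (u j)) c) (hc : ∀ j, f j * c = c) :
    WP N (⨆ j, Subgroup.zpowers (u j)) c := by
  refine ⟨hb, h.le hp, h.ab, fun v hv hvp hq hbr => ?_⟩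
  obtain ⟨-, hvn, hvc⟩ := mem_NP.1 hv
  obtain ⟨π, hπ⟩ := h.exists_mv hb.ne_zero hc hvn hvc
  obtain rfl : π = 1 := Equiv.ext fun j => by
    by_contra hj
    have h2 := h.sq_eq_one (fun j => (hπ j).2.1) (hq _ (h.u_mem j)) hj
    have ho : orderOf (u (π j)) = orderOf (u j) := by
      rw [← Nat.card_zpowers, ← Nat.card_zpowers, ← (hπ j).2.1, card_conj_smul]
    rcases (Nat.dvd_prime Nat.prime_two).1 (orderOf_dvd_of_pow_eq_one h2) with h1 | h1
    · exact hj (h.one _ _ (orderOf_eq_one_iff.1 (ho.trans h1)) (orderOf_eq_one_iff.1 h1))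
    · exact hj (h.small j (π j) v h1 (ho.trans h1) (hπ j).1 (hπ j).2.2).symm
  obtain ⟨a, rfl⟩ := h.exists_comp fun j => (hπ j).1
  refine h.induction (P := fun x => x ∈ ⨆ j, Subgroup.zpowers (u j)) (one_mem _)
    (fun x y => mul_mem) a fun j => Subgroup.mem_iSup_of_mem j ?_
  have m1 := h.comp_mem hπ j
  have p1 := h.isPElt_comp hvp j
  have e1 := h.conj_coprod a j (h.mem j)
  have m2 : (a j : G) * u j * (a j : G)⁻¹ * (u j)⁻¹ ∈ K j :=
    mul_mem (mul_mem (mul_mem (a j).2 (h.mem j)) (inv_mem (a j).2)) (inv_mem (h.mem j))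
  have c1 : Commute (a j : G) (u j) := (h.pc j).rigid m1 p1 (by
    have e2 := h.conj_coprod a j m2
    have c2 := hq _ (h.u_mem j)
    rw [e1] at c2
    rw [c2.eq, mul_inv_cancel_right, eq_mul_inv_iff_mul_eq] at e2
    exact e2.symm)
  have m3 : (a j : G) ∈ K j ⊓ Subgroup.centralizer (Subgroup.zpowers (u j) : Set G) :=
    ⟨(a j).2, by rw [centralizer_zpowers_eq']; exact Subgroup.mem_centralizer_singleton_iff.2 c1⟩
  have b1 : br (Subgroup.zpowers (Subgroup.noncommPiCoprod h.comm a)) (f j) ≠ 0 := fun e => hbr (by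
    rw [← hc j, br_mul hvp.isPGroup_zpowers, e, zero_mul]
    · exact isFixed_iff_le_stabA.2 (Subgroup.zpowers_le.2 (hπ j).2.2)
    · exact isFixed_iff_le_stabA.2 (Subgroup.zpowers_le.2 hvc))
  obtain ⟨x, hx, hx'⟩ := br_ne_zero_iff.1 b1
  have b2 : br (Subgroup.zpowers (a j : G)) (f j) ≠ 0 := br_ne_zero_iff.2 ⟨x, by
    have e2 := h.conj_coprod a j (h.suppK j x hx')
    rw [hx _ (Subgroup.mem_zpowers _), mul_inv_cancel_right, eq_mul_inv_iff_mul_eq] at e2
    rw [centralizer_zpowers_eq']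
    exact Subgroup.mem_centralizer_singleton_iff.2 e2, hx'⟩
  obtain ⟨y, hy, hle⟩ := (h.pc j).dfg.max _ (Subgroup.zpowers_le.2 m3) p1.isPGroup_zpowers b2
  have m4 : y * a j * y⁻¹ ∈ Subgroup.zpowers (u j) := hle ⟨a j, Subgroup.mem_zpowers _, rfl⟩
  have := hy.2 _ m4
  rw [inv_mul_cancel_right, mul_assoc, mul_right_inj] at this
  rw [this, ← mul_assoc]
  exact m4

end PS

end GUL
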