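import Cfsg.Agent.Lib.GU.LocE

/-!
# Systems of pieces: the stabilizer of a covered block
-/

set_option autoImplicit false
set_option linter.unusedSectionVars false

namespace GUL

open Cfsg CT GT BT
open scoped MonoidAlgebra Pointwise

variable {p : ℕ} [Fact p.Prime] {M : Ideal AlgInt} {hM : IsPModular p M}
variable {G : Type*} [Group G] [Finite G]

/-- Eigen-elements for all pieces. -/
structure EZ (N : Subgroup G) {J : Type*} (K : J → Subgroup G) (u : J → G)
    (f : J → (ResF hM)[G]) (μ : G →* (ResF hM)ˣ) (r : ℕ) (z : J → (ResF hM)[G]) : Prop where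
  hr : ¬ p ∣ r
  hμ : ∀ x, μ x ^ r = 1
  ker : μ.ker = N
  supp : ∀ j, SuppIn ((N ⊓ (K j ⊓ Subgroup.centralizer (Subgroup.zpowers (u j) : Set G)) :
    Subgroup G) : Set G) (z j)
  pow : ∀ j, z j ^ r = f j
  mul : ∀ j, z j * f j = z j
  eig : ∀ j, ∀ x ∈ NP (K j) (Subgroup.zpowers (u j)) (f j), cj x (z j) = (μ x : ResF hM) • z j

theorem EZ.ne {N : Subgroup G} {J : Type*} {K : J → Subgroup G} {u : J → G}
    {f : J → (ResF hM)[G]} {μ : G →* (ResF hM)ˣ} {r : ℕ} {z : J → (ResF hM)[G]}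
    (e : EZ N K u f μ r z) : r ≠ 0 := fun h0 => e.hr (h0 ▸ dvd_zero p)

namespace PS
variable {N : Subgroup G} [N.Normal] {J : Type*} [Fintype J] {K : J → Subgroup G} {u : J → G}
  {f : J → (ResF hM)[G]} (h : PS hM N K u f) {μ : G →* (ResF hM)ˣ} {r : ℕ}
  {z : J → (ResF hM)[G]} (e : EZ N K u f μ r z)
include h e

theorem cj_z {i j : J} (hij : i ≠ j) {x : G} (hx : x ∈ K i) : cj x (z j) = z j :=
  cj_eq_self_of_commute (e.supp j) fun _ hy => h.comm hij _ _ hx hy.2.1

theorem commute_z {i j : J} (hij : i ≠ j) : Commute (z i) (z j) :=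
  ((isFixed_iff_cj.2 fun _ hx => h.cj_z e hij hx).commute_of_suppIn
    (fun g hg => (e.supp i g hg).2.1)).symm

/-- The product of the eigen-elements over a set of pieces. -/
noncomputable def zz (s : Finset J) : (ResF hM)[G] :=
  s.noncommProd z fun _ _ _ _ hij => h.commute_z e hij

theorem zz_erase [DecidableEq J] {s : Finset J} {j : J} (hj : j ∈ s) :
    h.zz e s = z j * h.zz e (s.erase j) := (Finset.mul_noncommProd_erase s hj z _).symm

theorem cj_zz {s : Finset J} {x : G} (hx : ∀ j ∈ s, cj x (z j) = z j) :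
    cj x (h.zz e s) = h.zz e s :=
  Finset.noncommProd_induction _ _ _ (fun y => cj x y = y)
    (fun a b ha hb => by rw [map_mul, ha, hb]) (map_one _) hx

theorem zz_pow {c : (ResF hM)[G]} (hc : ∀ j, f j * c = c) (s : Finset J) :
    h.zz e s ^ r * c = c := by
  classical
  induction s using Finset.induction_on with
  | empty => rw [show h.zz e ∅ = 1 from rfl, one_pow, one_mul]
  | insert j s hj ih =>
    have c1 : Commute (z j) (h.zz e s) := Finset.noncommProd_commute _ _ _ _ fun l hl =>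
      h.commute_z e fun e' => hj (e' ▸ hl)
    rw [h.zz_erase e (Finset.mem_insert_self j s), Finset.erase_insert hj, c1.mul_pow, mul_assoc,
      ih, e.pow, hc]

theorem zz_supp (s : Finset J) : SuppIn ((N ⊓ Subgroup.centralizer
    ((⨆ j, Subgroup.zpowers (u j) : Subgroup G) : Set G) : Subgroup G) : Set G) (h.zz e s) :=
  mem_suppAlg.1 (Finset.noncommProd_induction _ _ _ (fun y => y ∈ suppAlg _ _)
    (fun _ _ => mul_mem) (one_mem _) fun j _ => mem_suppAlg.2 fun g hg =>
      ⟨(e.supp j g hg).1, h.le_centralizer j (e.supp j g hg).2⟩)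

theorem eig_one {n : G} (hn : Mv K u f n 1) :
    cj n (h.zz e Finset.univ) = (μ n : ResF hM) • h.zz e Finset.univ := by
  classical
  obtain ⟨a, rfl⟩ := h.exists_comp fun j => (hn j).1
  refine h.induction (P := fun n => cj n (h.zz e Finset.univ) =
    (μ n : ResF hM) • h.zz e Finset.univ) (by simp [cj_one]) (fun x y hx hy => ?_) a fun j => ?_
  · rw [cj_mul, hy, map_smul, hx, smul_smul, map_mul, Units.val_mul, mul_comm]
  · rw [h.zz_erase e (Finset.mem_univ j), map_mul, e.eig j _ (h.comp_mem hn j), smul_mul_assoc,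
      h.cj_zz e fun l hl => h.cj_z e (Finset.ne_of_mem_erase hl).symm (a j).2]

theorem exists_swap [DecidableEq J] {n : G} {π : Equiv.Perm J} (hn : Mv K u f n π) {i : J}
    (hi : π i ≠ i) : ∃ s : G, s * s = 1 ∧ μ s = 1 ∧ Mv K u f s (Equiv.swap i (π i)) ∧
      cj s (h.zz e Finset.univ) = h.zz e Finset.univ := by
  obtain ⟨s, hs, h1, h2, c, hc, hc', hsc⟩ := h.swap n i (π i) hi.symm (hn i).1
  have k1 : MulAut.conj s • K i = K (π i) := (conj_smul_congr h1).trans (hn i).1
  have k2 : MulAut.conj s • Subgroup.zpowers (u i) = Subgroup.zpowers (u (π i)) :=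
    (conj_smul_congr fun x hx => h1 x (h.zle i hx)).trans (hn i).2.1
  have k3 : cj s (f i) = f (π i) := (cj_congr (h.suppK i) h1).trans (hn i).2.2
  have z0 : ∀ j, z j ≠ 0 := fun j e0 => (h.pc j).bp.ne_zero (by
    rw [← e.pow, e0, zero_pow e.ne])
  have hμc : μ c = 1 := by
    have h3 := e.eig i c ((h.pc i).bp.inf_centralizer_le_NP
      ⟨hc, fun x hx => (hc' x (h.zle i hx)).symm⟩)
    rw [cj_eq_self_of_commute (e.supp i) fun y hy => hc' y hy.2.1] at h3
    exact Units.ext (smul_left_injective _ (z0 i) (h3.symm.trans (one_smul _ _).symm))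
  refine ⟨s, hs, ?_, fun l => ?_, ?_⟩
  · rwa [← e.ker, MonoidHom.mem_ker, map_mul, hμc, mul_one] at hsc
  · by_cases l1 : l = i
    · rw [l1, Equiv.swap_apply_left]
      exact ⟨k1, k2, k3⟩
    by_cases l2 : l = π i
    · rw [l2, Equiv.swap_apply_right, ← k1, ← k2, ← k3, conj_smul_conj_smul, conj_smul_conj_smul,
        ← cj_mul, hs, conj_one_smul, conj_one_smul, cj_one]
      exact ⟨rfl, rfl, rfl⟩
    · rw [Equiv.swap_apply_of_ne_of_ne l1 l2]
      exact ⟨conj_smul_of_commute (h2 l l1 l2),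
        conj_smul_of_commute fun x hx => h2 l l1 l2 x (h.zle l hx),
        cj_eq_self_of_commute (h.suppK l) (h2 l l1 l2)⟩
  · have k4 : MulAut.conj s • (K i ⊓ Subgroup.centralizer (Subgroup.zpowers (u i) : Set G)) =
        K (π i) ⊓ Subgroup.centralizer (Subgroup.zpowers (u (π i)) : Set G) := by
      rw [conj_smul_inf_centralizer, k1, k2]
    obtain ⟨a, ha⟩ := eigen_unique (z := z (π i)) (z' := cj s (z i)) (h.pc (π i)).bp.bidem μ e.hr
      e.hμ (fun g hg => (e.supp _ g hg).2) (e.pow _) (e.mul _)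
      (fun x hx => e.eig _ x ((h.pc _).bp.inf_centralizer_le_NP hx))
      (k4 ▸ suppIn_cj (fun g hg => (e.supp _ g hg).2) s) (by rw [← map_pow, e.pow, k3])
      (by rw [← k3, ← map_mul, e.mul]) (fun x hx => by
        rw [← k4, mem_conj_smul] at hx
        have := congrArg (cj s) (e.eig _ _ ((h.pc _).bp.inf_centralizer_le_NP hx))
        rw [← cj_mul, map_smul, map_mul, map_mul, map_inv, mul_comm (μ s)⁻¹,
          inv_mul_cancel_right] at this
        rw [← cj_mul, ← this]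
        congr 2
        group)
    have hb : z i = a • cj s (z (π i)) := by rw [← map_smul, ← ha, ← cj_mul, hs, cj_one]
    rw [h.zz_erase e (Finset.mem_univ i),
      h.zz_erase e (Finset.mem_erase.2 ⟨hi, Finset.mem_univ _⟩), map_mul, map_mul,
      h.cj_zz e fun l hl => cj_eq_self_of_commute (e.supp l) fun y hy =>
        h2 l (Finset.ne_of_mem_erase (Finset.mem_of_mem_erase hl)) (Finset.ne_of_mem_erase hl) y
          hy.2.1, ← mul_assoc, ← mul_assoc, ha, smul_mul_assoc, ← mul_smul_comm, ← hb,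
      (h.commute_z e hi).eq]

theorem eig_mv {n : G} {π : Equiv.Perm J} (hn : Mv K u f n π) :
    cj n (h.zz e Finset.univ) = (μ n : ResF hM) • h.zz e Finset.univ := by
  classical
  induction hk : π.support.card using Nat.strong_induction_on generalizing n π with
  | _ k ih =>
    by_cases h1 : π = 1
    · exact h.eig_one e (h1 ▸ hn)
    obtain ⟨i, hi⟩ : ∃ i, π i ≠ i := by
      by_contra! h2
      exact h1 (Equiv.ext h2)
    obtain ⟨s, hs, hμ, hm, hz⟩ := h.exists_swap e hn hi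
    have := congrArg (cj s) (ih _ (hk ▸ Equiv.Perm.card_support_swap_mul hi) (hm.mul hn) rfl)
    rwa [← cj_mul, ← mul_assoc, hs, one_mul, map_smul, hz, map_mul, hμ, one_mul] at this

theorem np_le {c : (ResF hM)[G]} (hb : BP p N (⨆ j, Subgroup.zpowers (u j)) c)
    (hc : ∀ j, f j * c = c) : NP ⊤ (⨆ j, Subgroup.zpowers (u j)) c ≤ N := fun n hn => by
  obtain ⟨-, h1, h2⟩ := mem_NP.1 hn
  obtain ⟨π, hπ⟩ := h.exists_mv hb.ne_zero hc h1 h2
  obtain ⟨ω, hω⟩ := BIdem.exists_mul_eq_smul hb.bidem (h.zz_supp e Finset.univ)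
    (isFixed_iff_cj.2 fun x hx => by
      have : μ x = 1 := by rw [← MonoidHom.mem_ker, e.ker]; exact hx.1
      rw [h.eig_one e (h.mv_one hx.2), this, Units.val_one, one_smul]) e.hr (h.zz_pow e hc _)
  have h0 : h.zz e Finset.univ * c ≠ 0 := fun h0 => hb.ne_zero (by
    rw [← h.zz_pow e hc Finset.univ, ← pow_sub_one_mul e.ne, mul_assoc, h0, mul_zero])
  have h3 := congrArg (cj n) hω
  rw [map_mul, map_smul, h2, h.eig_mv e hπ, ← hω, smul_mul_assoc] at h3
  rw [← e.ker, MonoidHom.mem_ker]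
  exact Units.ext (smul_left_injective _ h0 (h3.trans (one_smul _ _).symm))

end PS

theorem PS.mem_of_cj' {N : Subgroup G} [N.Normal] [IsCyclic (G ⧸ N)] (hp : ¬ p ∣ N.index)
    {J : Type*} [Fintype J] {K : J → Subgroup G} {u : J → G} {f : J → (ResF hM)[G]}
    (h : PS hM N K u f) (hs : ∀ j, SuppIn (N : Set G) (f j))
    (ho : ∀ j, ∀ γ : (ResF hM)[G],
      BIdem (N ⊓ (K j ⊓ Subgroup.centralizer (Subgroup.zpowers (u j) : Set G))) γ →
        f j * γ ≠ 0 → NP (K j) (Subgroup.zpowers (u j)) γ ≤ N)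
    {e E : (ResF hM)[G]} (he : BIdem ⊤ e) (h0 : E ≠ 0)
    (hbr : br (⨆ j, Subgroup.zpowers (u j)) e * E = E) (hf : ∀ j, f j * E = E)
    {b : (ResF hM)[G]} (hb : BIdem N b) (heb : e * b ≠ 0) {g : G} (hg : cj g b = b) : g ∈ N := by
  obtain ⟨μ, hk, hμ⟩ := exists_hom_ker (hM := hM) hp
  have hz := fun j => exists_eigen (N := N) (h.pc j).bp.inf_centralizer_le_NP
    (fun x hx => normalizer_inf_le_normalizer_inf_centralizer _ _
      ⟨Subgroup.le_normalizer (NP_le hx), NP_le_normalizer hx⟩) (h.pc j).bp.bidem (hs j)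
    isFixed_NP μ (Subgroup.FiniteIndex.index_ne_zero (H := N)) hμ fun γ hγ hfγ x hx hxγ => by
      rw [← MonoidHom.mem_ker, hk]
      exact ho j γ hγ hfγ (mem_NP.2 ⟨NP_le hx, NP_le_normalizer hx, hxγ⟩)
  choose z z1 z2 z3 z4 using hz
  have ez : EZ N K u f μ N.index z := ⟨hp, hμ, hk, z1, z2, z3, z4⟩
  have hQ := h.le hp
  have hN : (⊤ : Subgroup G) ≤ Subgroup.normalizer (N : Set G) := fun x _ =>
    mem_normalizer_normal N x
  have e1 : br (⨆ j, Subgroup.zpowers (u j)) (orbSum ⊤ b) * E = E := by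
    rw [← hbr, ← mul_assoc, ← br_mul h.isPGroup ((isFixed_orbSum ⊤ b).mono le_top)
      (he.fixed.mono le_top), he.orbSum_mul_eq_of_mul_ne_zero le_top hN hb heb]
  obtain ⟨b', hb', e2⟩ : ∃ b' ∈ orbSet ⊤ b, br (⨆ j, Subgroup.zpowers (u j)) b' * E ≠ 0 := by
    by_contra! e2
    rw [orbSum, map_sum, Finset.sum_mul, Finset.sum_eq_zero e2] at e1
    exact h0 e1.symm
  have hb'' := hb.of_mem_orbSet hN hb'
  obtain ⟨x, -, rfl⟩ := mem_orbSet.1 hb'
  obtain ⟨c, hc, e3⟩ := exists_bIdem_mul_ne_zero' hM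
    (N ⊓ Subgroup.centralizer ((⨆ j, Subgroup.zpowers (u j) : Subgroup G) : Set G)) e2
  have hbp : BP p N (⨆ j, Subgroup.zpowers (u j)) c :=
    ⟨h.isPGroup, hQ.trans Subgroup.le_normalizer, hc⟩
  have hI := hb''.toCIdem.br hM h.isPGroup (hb''.fixed.mono hQ)
  have e4 : br (⨆ j, Subgroup.zpowers (u j)) (cj x b) * c = c :=
    (hc.prim _ hI).resolve_right fun e => e3 (by
      rw [← mul_assoc, hc.toCIdem.commute hI, e, zero_mul])
  have e5 : ∀ j, f j * c = c := fun j => (hc.prim _ (h.cIdem hs j)).resolve_right fun e => e3 (by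
    rw [← mul_assoc, hc.toCIdem.commute hI, e4, ← hf j, ← mul_assoc,
      hc.toCIdem.commute (h.cIdem hs j), e, zero_mul])
  obtain ⟨n, hn, hn'⟩ := (h.wp hp hbp e5).frattini hb'' e4 (g := x * g * x⁻¹) (by
    rw [cj_mul, cj_inv_cj, cj_mul, hg])
  exact Subgroup.Normal.mem_comm_iff ‹_› |>.1 ((mul_mem_cancel_left hn).1 (h.np_le ez hbp e5 hn'))
    |> (by simpa using ·)

end GUL
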