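import Cfsg.Agent.Lib.GU.PcM
import Cfsg.Agent.Lib.GU.Loc
import Cfsg.Agent.Lib.GU.Fin
import Cfsg.Agent.Lib.GL.DefD

/-!
# S4537: systems of pieces of a block of a unitary group
-/

set_option autoImplicit false
set_option linter.unusedSectionVars false

namespace GUH.Df

open Cfsg CT GT BT Subgroup GUL UW Module GLH SFock
open scoped MonoidAlgebra Pointwise Classical

universe u

variable {F : Type u} [Field F] [Fintype F] [StarRing F] [HF F] {K : Type} [Field K] [Fintype K]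
  [Algebra F K] {C : UC F K} {A : Type} [CommRing A] [Algebra ℂ A] (U : UB C A) (m : C.XS 1)
variable {V V₁ V₂ : Type u} [AddCommGroup V] [Module F V] [Fintype V]
  [AddCommGroup V₁] [Module F V₁] [Fintype V₁] [AddCommGroup V₂] [Module F V₂] [Fintype V₂]

/-- `B` contains a character whose label is supported at `θ` -/
def Tag (H : HS F V) (B : Set (IrrCharacter H.U)) (θ : C.Th) : Prop :=
  0 < finrank F V ∧ finrank F V ≤ C.N ∧ C.par θ = θ ∧ ∃ χ ∈ B, ∃ Λ, C.Lab (finrank F V) Λ ∧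
    IsL C.N U.π (U.ch H) χ Λ ∧ ∀ i, i ≠ θ → Λ i = Finset.range C.N

/-- a piece inside `H` -/
structure Pz (H : HS F V) where
  /-- the space -/
  W : Type u
  [i1 : AddCommGroup W]
  [i2 : Module F W]
  [i3 : Fintype W]
  /-- the form -/
  H' : HS F W
  /-- the embedding -/
  e : Eb H' H
  /-- the block -/
  B : Set (IrrCharacter H'.U)
  /-- the element -/
  u : H'.U
  /-- the idempotent -/
  f : (ResF C.hM)[H'.U]
  /-- the tag -/
  θ : C.Th
  pc : Pc0 C.hM ((C.mu m).comp (C.δ H')).ker B u f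
  fpf : ∀ a : ℕ, u ^ a ≠ 1 → ∀ x : W, u ^ a • x = x → x = 0
  tag : orderOf u = 2 → Tag U H' B θ

attribute [instance] Pz.i1 Pz.i2 Pz.i3

variable {U m} {H : HS F V} {H₁ : HS F V₁} {H₂ : HS F V₂}

/-- transport of a piece -/
def Pz.map (z : Pz U m H₁) (e : Eb H₁ H) : Pz U m H :=
  { z with e := e.comp z.e }

theorem Pz.eq_idem (z : Pz U m H) (h : orderOf z.u = 2) : z.f = idem C.hM z.B := by
  have h1 : z.u * z.u = 1 := by rw [← sq, ← h, pow_orderOf_eq_one]
  have h2 : z.u ^ 1 ≠ 1 := fun e => by simp [pow_one z.u ▸ e] at h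
  exact z.pc.eq_idem fun g => mem_center_iff.1
    (mem_center_of_neg (smul_eq_neg (pow_one z.u ▸ z.fpf 1 h2) h1)) g

theorem Pz.tag_eq (z z' : Pz U m H) (h : orderOf z.u = 2) (h' : orderOf z'.u = 2) {g : H.U}
    (h1 : MulAut.conj g • GD H (LinearMap.range z.e.L) = GD H (LinearMap.range z'.e.L))
    (h2 : cj g (gm z.e.ι z.f) = gm z'.e.ι z'.f) : z.θ = z'.θ := by
  obtain ⟨e, he, -, h3⟩ := z.e.exists_pull z'.e (Mp.of_conj z.e.nd z'.e.nd h1)
  rw [z.eq_idem h, z'.eq_idem h', cj_gm] at h2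
  have h4 := mapSet_eq_of_gm z'.e.inj (ψ := trU e he) h3 z.pc.blk z'.pc.blk h2
  obtain ⟨a1, a2, a3, χ, a4, Λ, a5, ⟨ε, a6, a7⟩, a8⟩ := z.tag h
  obtain ⟨-, b2, b3, χ', b4, Λ', b5, b6, b8⟩ := z'.tag h'
  have h5 : irrCongr (trU e he) χ ∈ z'.B := by
    rw [← h4, mem_mapSet_iff, Equiv.symm_apply_apply]; exact a4
  rw [e.finrank_eq] at a5 a1
  have h6 := (U.ld z'.H' rfl b2).cls_of_block z'.pc.blk h5 b4 a5 b5 ⟨ε, a6, funext fun k => by
    obtain ⟨k, rfl⟩ := (trU e he).surjective k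
    rw [Pi.smul_apply, ← U.iso z.H' z'.H' a2 e k _ fun v => (trU_smul e he k v).symm, ← Pi.smul_apply, ← a7]
    exact congrArg χ.1 ((trU e he).symm_apply_apply k)⟩ b6
  by_contra hne
  have h7 := (OD.cls_plab b5 (fun i hi => b8 i fun e => hi (e ▸ b3)) a5
    (fun i hi => a8 i fun e => hi (e ▸ a3)) h6 z.θ).1
  rw [b8 _ hne, GLH.Df.sz_range] at h7
  rw [GLH.Df.eq_of_single a5 a8, h7] at a1
  exact lt_irrefl _ a1

/-- a system of pieces of the block `B` with tags in `S` -/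
structure Sy {J : Type} (z : J → Pz U m H) (B : Set (IrrCharacter H.U)) (S : C.Th → Prop)
    (E : (ResF C.hM)[H.U]) : Prop where
  orth : ∀ i j, i ≠ j → ∀ x y, H.b ((z i).e.L x) ((z j).e.L y) = 0
  span : ⨆ j, LinearMap.range (z j).e.L = ⊤
  one : ∀ i j, (z i).u = 1 → (z j).u = 1 → i = j
  small : ∀ i j, orderOf (z i).u = 2 → orderOf (z j).u = 2 → (z i).θ = (z j).θ → i = j
  tagS : ∀ i, orderOf (z i).u = 2 → S (z i).θ
  bp : BP C.p ⊤ (⨆ j, zpowers ((z j).e.ι (z j).u)) E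
  brm : br (⨆ j, zpowers ((z j).e.ι (z j).u)) (idem C.hM B) * E = E
  mul : ∀ j, gm (z j).e.ι (z j).f * E = E

theorem comap_ker (e : Eb H₁ H) :
    ((C.mu m).comp (C.δ H)).ker.comap e.ι = ((C.mu m).comp (C.δ H₁)).ker := by
  ext g
  simp only [mem_comap, MonoidHom.mem_ker, MonoidHom.comp_apply, e.δ_ι C]

theorem Sy.mem {J : Type} [Fintype J] {z : J → Pz U m H} {B : Set (IrrCharacter H.U)} {S : C.Th → Prop}
    {E : (ResF C.hM)[H.U]} (h : Sy z B S E) (hB : IsPBlock C.M B) (hm : IsPRegular C.p m)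
    {b : Set (IrrCharacter ((C.mu m).comp (C.δ H)).ker)} (hb : IsPBlock C.M b)
    (hc : Covers _ B b) {g : H.U} (hg : g • b = b) : g ∈ ((C.mu m).comp (C.δ H)).ker := by
  set ν := (C.mu m).comp (C.δ H) with hν
  have : IsCyclic (H.U ⧸ ν.ker) :=
    isCyclic_of_injective_ringHom ((Units.coeHom ℂ).comp (QuotientGroup.kerLift ν))
      (Units.val_injective.comp (QuotientGroup.kerLift_injective ν))
  have hp : ¬ C.p ∣ ν.ker.index := fun hd => by
    obtain ⟨x, hx⟩ := exists_prime_orderOf_dvd_card' (G := H.U ⧸ ν.ker) C.p hd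
    obtain ⟨x, rfl⟩ := QuotientGroup.mk_surjective x
    refine hm (hx ▸ orderOf_dvd_of_pow_eq_one ?_)
    rw [← QuotientGroup.mk_pow, QuotientGroup.eq_one_iff, MonoidHom.mem_ker, map_pow, ← C.orderOf_mu]
    exact DFunLike.congr_fun (pow_orderOf_eq_one (C.mu m)) _
  have geo : Geo H (fun j => LinearMap.range (z j).e.L) fun j => (z j).e.ι (z j).u :=
    { nd := fun j => (z j).e.nd
      orth := by rintro i j hij _ ⟨x, rfl⟩ _ ⟨y, rfl⟩; exact h.orth i j hij x y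
      span := h.span
      mem := fun j => (z j).e.range_ι ▸ ⟨_, rfl⟩
      fpf := by
        rintro j a ha _ ⟨x, rfl⟩ hx
        rw [← map_pow] at ha hx
        rw [(z j).fpf a (fun e => ha (by rw [e, map_one])) x
          ((z j).e.L_inj (((z j).e.ι_L _ _).symm.trans hx)), map_zero]
      one := fun i j hi hj => h.one i j ((z i).e.inj (hi.trans (map_one _).symm))
        ((z j).e.inj (hj.trans (map_one _).symm)) }
  refine PS.mem_of_smul hp (f := fun j => gm (z j).e.ι (z j).f) ⟨geo.gs fun k hk => ?_, fun j => ?_,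
    fun i j k hi hj h1 h2 => ?_⟩ hB h.bp.ne_zero h.brm h.mul hb hc hg
  · rw [← C.ker_δ, MonoidHom.mem_ker] at hk
    rw [MonoidHom.mem_ker, hν, MonoidHom.comp_apply, hk, map_one]
  · rw [← (z j).e.range_ι]
    exact Pc0.map (z j).e.inj (by rw [hν, comap_ker]; exact (z j).pc)
  · rw [orderOf_injective _ (z _).e.inj] at hi hj
    exact h.small i j hi hj ((z i).tag_eq (z j) hi hj h1 h2)

theorem exists_sy_zero {B : Set (IrrCharacter H.U)} (hB : IsPBlock C.M B)
    (hD : DefGrp C.p ⊤ (idem C.hM B) ⊥)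
    (hv : ∀ χ ∈ B, ∀ g, g ∉ ((C.mu m).comp (C.δ H)).ker → χ.1 g = 0) (θ : C.Th) (S : C.Th → Prop) :
    ∃ (z : Unit → Pz U m H) (E : (ResF C.hM)[H.U]), Sy z B S E := by
  have h := pc0_one hB hD hv
  refine ⟨fun _ => ⟨V, H, Eb.refl H, B, 1, _, θ, h, fun a ha => (ha (one_pow a)).elim,
    fun e => by simp at e⟩, idem C.hM B, fun _ _ e => (e rfl).elim, ?_, fun _ _ _ _ => rfl,
    fun _ _ _ _ _ => rfl, fun _ e => by simp at e, ?_, ?_, fun _ => ?_⟩
  · rw [iSup_const]; exact LinearMap.range_id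
  · rw [iSup_const]; exact h.bp
  · rw [iSup_const]; exact h.brm
  · rw [show gm (Eb.refl H).ι (idem C.hM B) = idem C.hM B from
      gm_ext Function.injective_id (fun _ => rfl) fun y hy => absurd ⟨y, rfl⟩ hy]
    exact (bIdem_top_idem C.hM hB).idem

theorem Sy.step {J : Type} {z : J → Pz U m H₁} {B₁ : Set (IrrCharacter H₁.U)} {S₁ : C.Th → Prop}
    {E₁ : (ResF C.hM)[H₁.U]} (h : Sy z B₁ S₁ E₁) (s : Spt H₁ H₂ H) {B₂ : Set (IrrCharacter H₂.U)}
    {u : H₂.U} {f : (ResF C.hM)[H₂.U]} {θ : C.Th}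
    (pc : Pc0 C.hM ((C.mu m).comp (C.δ H₂)).ker B₂ u f) (hu : u ≠ 1)
    (fpf : ∀ a : ℕ, u ^ a ≠ 1 → ∀ x : V₂, u ^ a • x = x → x = 0) (tag : orderOf u = 2 → Tag U H₂ B₂ θ)
    {B : Set (IrrCharacter H.U)} (hb : br (zpowers (s.φ (1, u))) (idem C.hM B) *
      gm s.φ (tens (idem C.hM B₁) f) = gm s.φ (tens (idem C.hM B₁) f)) {S : C.Th → Prop}
    (hS : ∀ i, S₁ i → S i) (hθ : orderOf u = 2 → S θ ∧ ¬ S₁ θ) :
    ∃ (z' : Option J → Pz U m H) (E : (ResF C.hM)[H.U]), Sy z' B S E := by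
  let z' : Option J → Pz U m H := fun j =>
    j.elim ⟨V₂, H₂, s.snd, B₂, u, f, θ, pc, fpf, tag⟩ fun j => (z j).map s.fst
  have h1 := pair_prod C.hM s.inj (s.mem_range (pow_one u ▸ fpf 1 (by rwa [pow_one])))
    (isCentral_idem C.hM B₁) pc.bp hb h.bp h.brm
  have h2 : ((⨆ j, zpowers ((z j).e.ι (z j).u)).prod (zpowers u)).map s.φ =
      ⨆ j, zpowers ((z' j).e.ι (z' j).u) := by
    rw [iSup_option, prod_eq_sup, Subgroup.map_sup, map_map, map_map, Subgroup.map_iSup,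
      MonoidHom.map_zpowers, sup_comm]
    simp only [MonoidHom.map_zpowers]
    rfl
  rw [h2] at h1
  refine ⟨z', _, ?_, ?_, ?_, ?_, ?_, h1.1, h1.2, ?_⟩
  · rintro (_ | i) (_ | j) hij x y
    · exact (hij rfl).elim
    · exact (s.isom (0, x) (_, 0)).trans (by rw [H₁.zero_left, H₂.zero_right, add_zero])
    · exact (s.isom (_, 0) (0, y)).trans (by rw [H₂.zero_left, H₁.zero_right, add_zero])
    · exact (s.fst.isom _ _).trans (h.orth i j (fun e => hij (congrArg some e)) x y)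
  · rw [iSup_option, eq_top_iff]
    intro v _
    obtain ⟨⟨x, y⟩, rfl⟩ := s.e.surjective v
    have h3 : s.fst.L x ∈ (⨆ j, LinearMap.range (z j).e.L).map s.fst.L := ⟨x, h.span.ge trivial, rfl⟩
    rw [Submodule.map_iSup] at h3
    simp only [← LinearMap.range_comp] at h3
    rw [show (x, y) = (0, y) + (x, 0) by simp, map_add]
    exact Submodule.add_mem_sup ⟨y, rfl⟩ h3
  · rintro (_ | i) (_ | j) hi hj
    exacts [rfl, (hu hi).elim, (hu hj).elim, congrArg some (h.one i j hi hj)]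
  · rintro (_ | i) (_ | j) hi hj e
    · rfl
    · exact ((hθ hi).2 ((show θ = (z j).θ from e) ▸ h.tagS j hj)).elim
    · exact ((hθ hj).2 ((show (z i).θ = θ from e) ▸ h.tagS i hi)).elim
    · exact congrArg some (h.small i j hi hj e)
  · rintro (_ | i) hi
    exacts [(hθ hi).1, hS _ (h.tagS i hi)]
  · rintro (_ | j)
    · change gm (s.φ.comp (MonoidHom.inr _ _)) f * _ = _
      rw [← gm_gm, ← tens_one_left, ← map_mul, tens_mul, one_mul, pc.bp.idem]
    · change gm ((s.φ.comp (MonoidHom.inl _ _)).comp (z j).e.ι) (z j).f * _ = _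
      rw [← gm_gm, ← gm_gm, ← tens_one_right, ← map_mul, tens_mul, one_mul, h.mul]

theorem locI_realise_eqns : True := by
  have := @Tag.eq_1.{0}
  have := @Pz.map.eq_1.{0}
  trivial

end GUH.Df
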