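import Cfsg.Agent.Lib.GU.Ub
import Cfsg.Agent.Lib.GU.OrbG
import Cfsg.Agent.Lib.GU.DefA
import Cfsg.Agent.Lib.Grp.FpfCyc
import Cfsg.Agent.Lib.Block.BSuzA

/-!
# S4537: one piece of the local analysis
-/

set_option autoImplicit false
set_option linter.unusedSectionVars false

namespace GUH

open Finset Polynomial Cfsg UW GLH Module GT CT BT Subgroup
open scoped Classical

universe u

namespace OD

variable {Γ : Type} [CommGroup Γ] [Fintype Γ] {D : OD Γ}

theorem pow_eq_one_of_cl {x y : Γ} (h : D.cl x = D.cl y) {m : ℕ} (hx : x ^ m = 1) : y ^ m = 1 := by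
  obtain ⟨i, rfl⟩ := mk_eq.1 h
  rw [pow_right_comm, hx, one_pow]

theorem cl_pow {x y : Γ} (h : D.cl x = D.cl y) (m : ℕ) : D.cl (x ^ m) = D.cl (y ^ m) := by
  obtain ⟨i, rfl⟩ := mk_eq.1 h
  rw [pow_right_comm, mk_pow]

/-- a generator of the `p`-part has maximal order -/
theorem not_mul_dvd {k : ℕ} (h0 : 0 < k) (hN : k ≤ D.N) {ζ : Γ} (hζ : IsPElt D.p ζ)
    (hg : ∀ y ∈ D.XX k, IsPElt D.p y → y ∈ zpowers ζ) : ¬ D.p * orderOf ζ ∣ D.cX k := fun h => by
  have h1 : orderOf (D.γ k ^ (orderOf (D.γ k) / (D.p * orderOf ζ))) = D.p * orderOf ζ :=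
    orderOf_pow_orderOf_div (orderOf_pos _).ne' (D.orderOf_γ h0 hN ▸ h)
  obtain ⟨a, ha⟩ := hζ
  have h2 := orderOf_dvd_of_mem_zpowers (hg _ (pow_mem_XX (D.γ_mem h0 hN) _)
    ⟨a + 1, by rw [h1, ha, pow_succ']⟩)
  rw [h1] at h2
  have := Nat.le_of_dvd (orderOf_pos _) h2
  have := orderOf_pos ζ
  have := D.hp.two_le
  nlinarith

theorem odd_t (h2 : D.p = 2) : Odd D.t := by
  have := D.p_ne
  rw [h2] at this
  exact Int.not_even_iff_odd.1 fun h => this (even_iff_two_dvd.1 h)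

theorem two_pow_dvd {t : ℤ} (ht : Odd t) (a : ℕ) : (2 : ℤ) ^ (a + 1) ∣ t ^ 2 ^ a - 1 := by
  induction a with
  | zero => simpa using (ht.sub_odd odd_one).two_dvd
  | succ a ih =>
    rw [pow_succ, pow_succ (2 : ℕ) a, pow_mul,
      show ∀ s : ℤ, s ^ 2 - 1 = (s - 1) * (s + 1) from fun s => by ring]
    exact mul_dvd_mul ih (ht.pow.add_odd odd_one).two_dvd

theorem mem_two (h2 : D.p = 2) {ζ : Γ} (hζ : IsPElt D.p ζ) {m : ℕ} (hm : Odd m)
    (h : ζ ∈ D.XS (2 * m)) : ζ ∈ D.XS 2 := by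
  obtain ⟨a, ha⟩ := hζ
  have h1 : ζ ∈ D.XS (2 ^ a) := by
    rw [mem_XS', ← orderOf_dvd_iff_pow_eq_one, ha, h2, cX, ← Int.natCast_dvd]
    exact (Dvd.intro _ (by push_cast; rw [← pow_succ])).trans (two_pow_dvd (odd_t h2) a)
  rw [mem_XS_iff] at h h1 ⊢
  exact (((Nat.coprime_two_left.2 hm).pow_left a).coprime_dvd_left h1).dvd_of_dvd_mul_right h

theorem cl_two {x y : Γ} (hx : x ∈ D.XS 2) (h : D.cl x = D.cl y) : y = x ∨ y = x ^ D.t := by
  obtain ⟨i, rfl⟩ := mk_eq.1 h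
  obtain ⟨k, rfl | rfl⟩ := Nat.even_or_odd' i
  · exact .inl (pow_of_mem hx k)
  · right
    rw [pow_succ, pow_mul, pow_of_mem hx k, ← pow_one D.Q, pow_Q, pow_one]

/-- a generator of the `2`-part is not conjugate to its inverse -/
theorem sq_eq_one_of_inv (h2 : D.p = 2) {k : ℕ} (h0 : 0 < k) (hN : k ≤ D.N) {ζ : Γ}
    (hζ : IsPElt D.p ζ) (hk : ζ ∈ D.XX k) (hg : ∀ y ∈ D.XX k, IsPElt D.p y → y ∈ zpowers ζ)
    (h : D.cl ζ = D.cl ζ⁻¹) : ζ ^ 2 = 1 := by
  obtain ⟨i, hi⟩ := mk_eq.1 h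
  obtain ⟨l, rfl | rfl⟩ := Nat.even_or_odd' i
  · obtain ⟨c, hc⟩ := (odd_t h2).pow (n := l)
    obtain ⟨a, ha⟩ := hζ
    have h1 : (orderOf ζ : ℤ) ∣ 2 * (2 * (c * c + c) + 1) := by
      rw [orderOf_dvd_iff_zpow_eq_one, show 2 * (2 * (c * c + c) + 1) = (2 * c + 1) ^ 2 + 1 by ring,
        ← hc, ← pow_mul, mul_comm l, zpow_add_one, ← pow_Q, ← hi, inv_mul_cancel]
    rw [← orderOf_dvd_iff_pow_eq_one, ← Int.natCast_dvd_natCast]
    refine IsCoprime.dvd_of_dvd_mul_right ?_ h1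
    rw [ha, h2]
    push_cast
    exact IsCoprime.pow_left ⟨-(c * c + c), 1, by ring⟩
  · have h1 : ζ ∈ D.XS 2 := mem_two h2 hζ (odd_two_mul_add_one l) (by
      rw [mem_XS, two_mul (2 * l + 1), pow_add, pow_mul, ← hi, inv_pow, ← hi, inv_inv])
    by_contra hc
    rcases cl_two h1 h with e | e
    · exact hc (by rw [pow_two, ← mul_inv_cancel ζ, e])
    have h3 : D.deg (D.cl ζ) = 2 := ((Nat.dvd_prime Nat.prime_two).1 (mem_XS_iff.1 h1)).resolve_left
      fun h3 => hc (by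
        have := mem_XS_iff.2 h3.dvd
        rw [mem_XS, pow_Q, pow_one, ← e] at this
        rw [pow_two, ← mul_inv_cancel ζ, this])
    refine not_mul_dvd h0 hN hζ hg (dvd_trans ?_ (D.cX_dvd (h3 ▸ mem_XX.1 hk)))
    rw [cX, ← Int.natCast_dvd, h2, show D.t ^ 2 - 1 = (D.t - 1) * (D.t + 1) by ring]
    push_cast
    refine mul_dvd_mul ((odd_t h2).sub_odd odd_one).two_dvd ?_
    rw [orderOf_dvd_iff_zpow_eq_one, zpow_add_one, ← e, inv_mul_cancel]

theorem box (h2 : D.p = 2) {d : ℕ} (h4 : ¬ 4 ∣ D.cX d) : Odd d ∧ D.t % 4 = 3 ∧ 8 ∣ D.cX (2 * d) := by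
  have h8 : 8 ∣ D.cX 2 := by
    rw [cX, ← Int.natCast_dvd]
    exact Int.eight_dvd_sq_sub_one_of_odd (odd_t h2)
  refine ⟨Nat.not_even_iff_odd.1 fun h => h4 ((Dvd.intro 2 rfl).trans (h8.trans (D.cX_dvd h.two_dvd))),
    ?_, h8.trans (D.cX_dvd (Dvd.intro _ rfl))⟩
  have h5 : ¬ (4 : ℤ) ∣ D.t - 1 := fun h => h4 (dvd_trans (by
    rw [cX, ← Int.natCast_dvd, pow_one]; exact h) (D.cX_dvd (one_dvd d)))
  obtain ⟨c, hc⟩ := odd_t h2
  omega

theorem eight_dvd (h2 : D.p = 2) {k : ℕ} (h0 : 0 < k) (hN : k ≤ D.N) {ζ : Γ} (hζ : IsPElt D.p ζ)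
    (hg : ∀ y ∈ D.XX k, IsPElt D.p y → y ∈ zpowers ζ) (h8 : 8 ∣ D.cX k) : 8 ∣ orderOf ζ := by
  have h1 := not_mul_dvd h0 hN hζ hg
  obtain ⟨a, ha⟩ := hζ
  rw [ha, h2] at h1 ⊢
  rw [← pow_succ'] at h1
  by_contra hc
  exact h1 ((pow_dvd_pow 2 (show a + 1 ≤ 3 from not_le.1 fun h => hc (pow_dvd_pow 2 h))).trans h8)

theorem small_of_ee {θ : D.Th} {n : ℕ} (hd : D.deg θ ∣ n) (h0 : 0 < n) (hn : n < D.ee θ * D.deg θ)
    {z : Γ} (hz : z ∈ D.XX n) (hp : IsPElt D.p (z ^ 1)) : z ^ 1 = 1 := by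
  obtain ⟨j, rfl⟩ := hd
  rw [pow_one] at hp ⊢
  refine hp.eq_one_of_isPRegular fun h => ?_
  have := h.trans (orderOf_dvd_of_pow_eq_one (mem_XX''.1 hz))
  rw [mul_comm, ← ee_dvd_iff] at this
  rw [mul_comm] at hn
  exact absurd (Nat.le_of_dvd (Nat.pos_of_mul_pos_left h0) this)
    (not_le.2 (Nat.lt_of_mul_lt_mul_right hn))

theorem small_of_box (h2 : D.p = 2) {d n : ℕ} (h4 : ¬ 4 ∣ D.cX d) (hd : d ∣ n) (h0 : 0 < n)
    (hn : n < 2 * d) {z : Γ} (hz : z ∈ D.XX n) (hp : IsPElt D.p (z ^ 2)) : z ^ 2 = 1 := by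
  obtain ⟨j, rfl⟩ := hd
  obtain rfl : j = 1 := by
    have := Nat.pos_of_mul_pos_left h0
    have := Nat.lt_of_mul_lt_mul_left (mul_comm 2 d ▸ hn)
    omega
  rw [mul_one] at hz
  refine hp.eq_one_of_isPRegular fun h => h4 (dvd_trans ?_ (orderOf_dvd_of_pow_eq_one (mem_XX''.1 hz)))
  rw [h2] at h
  have h5 := h.trans (orderOf_pow_dvd 2)
  rw [orderOf_pow_of_dvd two_ne_zero h5] at h
  omega

end OD

theorem aeval_mul_congr {R A : Type*} [CommRing R] [Ring A] [Algebra R A] {a b e : A}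
    (h : a * e = b * e) (c : Commute b e) (f : R[X]) : aeval a f * e = aeval b f * e := by
  have h1 : ∀ n : ℕ, a ^ n * e = b ^ n * e := fun n => by
    induction n with
    | zero => rw [pow_zero, pow_zero]
    | succ n ih => rw [pow_succ, mul_assoc, h, c.eq, ← mul_assoc, ih, mul_assoc, ← c.eq, ← mul_assoc,
        ← pow_succ]
  induction f using Polynomial.induction_on' with
  | add f g hf hg => rw [map_add, map_add, add_mul, add_mul, hf, hg]
  | monomial n r => rw [aeval_monomial, aeval_monomial, mul_assoc, mul_assoc, h1]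

variable {F : Type u} [Field F] [Fintype F] [StarRing F] [HF F] {K : Type} [Field K] [Fintype K]
  [Algebra F K] {V : Type u} [AddCommGroup V] [Module F V] [Fintype V]

theorem eq_zero_of_isUnit (H : HS F V) {g : H.U} (h : IsUnit (H.lin g - 1)) {v : V} (hv : g • v = v) :
    v = 0 := ((Module.End.isUnit_iff _).1 h).1 (by simp [hv])

theorem charpoly_conj' (H : HS F V) (g u : H.U) : (H.lin (g * u * g⁻¹)).charpoly = (H.lin u).charpoly :=
  (congrArg LinearMap.charpoly (by ext; rfl)).trans (LinearEquiv.charpoly_conj g.1 (H.lin u))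

theorem isCyclic_of_units (H : HS F V) [Nontrivial V] {p : ℕ} [hp : Fact p.Prime] (hF : p ≠ ringChar F)
    (A : Subgroup H.U) [IsMulCommutative A] (hA : IsPGroup p A)
    (h : ∀ v ∈ A, v ≠ 1 → IsUnit (H.lin v - 1)) : IsCyclic A := by
  refine isCyclic_of_fpf (V := Multiplicative V) ((MulAutMultiplicative V).symm.toMonoidHom.comp
    ((DistribMulAction.toAddAut H.U V).comp A.subtype)) ?_ fun s hs v hv =>
      eq_zero_of_isUnit H (h s s.2 fun e => hs (Subtype.ext e)) (v := v.toAdd) hv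
  obtain ⟨k, hk⟩ := IsPGroup.iff_card.1 hA
  obtain ⟨n, h1, h2⟩ := FiniteField.card F (ringChar F)
  rw [hk, show Nat.card (Multiplicative V) = Nat.card V from rfl, Nat.card_eq_fintype_card,
    Module.card_eq_pow_finrank (K := F), h2, ← pow_mul]
  exact Nat.Coprime.pow _ _ ((Nat.coprime_primes h1 hp.out).2 hF.symm)

section Grp
variable (H : HS F V) [Nontrivial V] {p : ℕ} [hp : Fact p.Prime] (hF : p ≠ ringChar F)
  {P : Subgroup H.U} (hP : IsPGroup p P) {u : H.U} (hu : u ∈ P)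
  (h : ∀ v ∈ P, v ^ orderOf u = 1 ∧ (v ≠ 1 → IsUnit (H.lin v - 1)))
include hF hP hu h

theorem mem_zpowers_of_commute {v : H.U} (hv : v ∈ P) (c : Commute u v) : v ∈ zpowers u := by
  have h1 : closure {u, v} ≤ P := by
    rw [closure_le]
    rintro _ (rfl | rfl) <;> assumption
  have : IsMulCommutative (closure ({u, v} : Set H.U)) := isMulCommutative_closure (by
    rintro _ (rfl | rfl) _ (rfl | rfl)
    exacts [rfl, c.eq, c.eq.symm, rfl])
  obtain ⟨w, hw⟩ := (isCyclic_of_units H hF _ (hP.to_le h1) fun v hv => (h v (h1 hv)).2).exists_generator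
  have h2 : ∀ y ∈ closure ({u, v} : Set H.U), y ∈ zpowers (w : H.U) := fun y hy => by
    obtain ⟨i, hi⟩ := hw ⟨y, hy⟩
    exact ⟨i, congrArg Subtype.val hi⟩
  exact mem_zpowers_of_mem_of_orderOf_dvd (h2 u (subset_closure (by simp)))
    (h2 v (subset_closure (by simp))) (orderOf_dvd_of_pow_eq_one (h v hv).1)

theorem le_zpowers (h1 : u ≠ 1) (hi : p = 2 → ∀ g, g * u * g⁻¹ = u⁻¹ → u ^ 2 = 1) : P ≤ zpowers u := by
  suffices c : ∀ a ∈ P, ∀ b ∈ P, a * b = b * a from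
    fun v hv => mem_zpowers_of_commute H hF hP hu h hv (c u hu v hv)
  by_cases h2 : p = 2
  · subst h2
    by_contra hc
    have h3 : ∀ w ∈ P, w * w = 1 → w ≠ 1 → ∀ y : V, w • y = -y := fun w hw e e' y =>
      eq_neg_of_add_eq_zero_left (eq_zero_of_isUnit H ((h w hw).2 e') (by
        rw [smul_add, smul_smul, e, one_smul, add_comm]))
    obtain ⟨⟨z, hz⟩, h4⟩ := exists_prime_orderOf_dvd_card' (G := P) 2
      (dvd_card_of_isPGroup_of_ne_bot hP fun e => h1 (by rwa [e] at hu))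
    rw [← Subgroup.orderOf_coe] at h4
    have z1 : z ≠ 1 := fun e => by simp [e] at h4
    have zz : z * z = 1 := by rw [← pow_two, ← h4, pow_orderOf_eq_one]
    obtain ⟨n, x, y, M, e1, e2⟩ := BS.exists_maxCl hP hz z1 zz (fun v hv e => or_iff_not_imp_left.2
      fun e' => HS.U_ext fun y => by rw [h3 v hv e e', h3 z hz zz z1]) hc
    have h5 : u ^ 2 ≠ 1 := fun e => by
      have := (orderOf_dvd_of_pow_eq_one (h x M.xm).1).trans (orderOf_dvd_of_pow_eq_one e)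
      rw [M.ord, pow_succ, pow_succ] at this
      have := Nat.le_of_dvd two_pos this
      have : 0 < 2 ^ n := by positivity
      omega
    by_cases h6 : u ∈ zpowers x
    · obtain ⟨i, rfl⟩ := mem_zpowers_iff.1 h6
      exact h5 (hi rfl y (by rw [← conj_zpow, e1, inv_zpow]))
    · obtain ⟨a, -, ha⟩ := M.exists_conj_z_mul (by omega) hu h6
      have h7 := (M.sq_out_eq e1 hu h6).trans e2
      refine h5 (hi rfl a (ha.trans (eq_inv_of_mul_eq_one_left ?_)))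
      rw [mul_assoc, h7, zz]
  · have := isCyclic_of_forall_isMulCommutative h2 hP fun A hA => by
      have := isCyclic_of_units H hF (A.map P.subtype) ((hP.to_subgroup A).map _) fun v hv =>
        (h v (map_subtype_le A hv)).2
      exact isCyclic_of_surjective _ (A.equivMapOfInjective _ P.subtype_injective).symm.surjective
    exact fun a ha b hb => congrArg Subtype.val (IsCyclic.commGroup.mul_comm (⟨a, ha⟩ : P) ⟨b, hb⟩)

end Grp

namespace UC

variable (C : UC F K) (H : HS F V)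

/-- all eigenvalues lie in one orbit -/
def Hm (g : H.U) (y : Kˣ) : Prop := ∀ x : Kˣ, aeval (x : K) (H.lin g).charpoly = 0 → C.cl x = C.cl y

theorem pce_realise_eqns : True := by
  have := @Hm.eq_1.{0}
  trivial

variable {C H} {g : H.U} {y y' : Kˣ}

theorem hm_of_mp {k : ℕ} (h0 : 0 < k) (hy : y ∈ C.XX k) (h : (H.lin g).charpoly = C.mp k y) :
    C.Hm H g y := fun x hx => by
  obtain ⟨z, h1, h2⟩ := (aeval_mp h0 hy).1 (h ▸ hx)
  rwa [← Units.ext h2]

theorem Hm.conj (h : C.Hm H g y) (a : H.U) : C.Hm H (a * g * a⁻¹) y := fun x hx =>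
  h x (charpoly_conj' H a g ▸ hx)

variable (hV : finrank F V ≤ C.N)
include hV

theorem Hm.nil (h : C.Hm H g y) : IsNilpotent (aeval (H.lin g) (C.P (C.cl y))) :=
  (C.nilpotent_aeval_iff' hV H).2 fun x hx => aeval_P'.2 (h x hx)

theorem Hm.pow (h : C.Hm H g y) (m : ℕ) : C.Hm H (g ^ m) (y ^ m) := fun x hx => by
  have := (C.nilpotent_aeval_iff' hV H (g := g) (a := (C.P (C.cl (y ^ m))).comp (X ^ m))).2 fun z hz => by
    rw [aeval_comp, map_pow, aeval_X, ← Units.val_pow_eq_pow_val, aeval_P']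
    exact OD.cl_pow (h z hz) m
  rw [aeval_comp, map_pow, aeval_X, ← map_pow] at this
  exact aeval_P'.1 (aeval_eq_zero_of_nilpotent this hx)

theorem Hm.pPart (h : C.Hm H g y) : C.Hm H (pPart C.p g) (pPart C.p y) := by
  obtain ⟨e, h1, h2⟩ := C.exists_pPart_pow H g
  rw [← h1, ← h2]
  exact h.pow hV e

theorem exists_root [Nontrivial V] (g : H.U) : ∃ x : Kˣ, aeval (x : K) (H.lin g).charpoly = 0 := by
  have h1 := C.splits (f := (H.lin g).charpoly) (by rwa [LinearMap.charpoly_natDegree])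
  rw [LinearMap.charpoly_natDegree] at h1
  obtain ⟨y, hy⟩ := Multiset.card_pos_iff_exists_mem.1 (h1 ▸ finrank_pos)
  obtain ⟨x, rfl⟩ := exists_unit_of_root H g (mem_aroots.1 hy).2
  exact ⟨x, (mem_aroots.1 hy).2⟩

theorem Hm.eq [Nontrivial V] (h : C.Hm H g y) (h' : C.Hm H g y') : C.cl y = C.cl y' := by
  obtain ⟨x, hx⟩ := exists_root hV g
  exact (h x hx).symm.trans (h' x hx)

theorem Hm.pow_eq_one_iff [Nontrivial V] (h : C.Hm H g y) (hg : IsPElt C.p g) {m : ℕ} :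
    g ^ m = 1 ↔ y ^ m = 1 := by
  refine ⟨fun e => ?_, fun e => eq_one_of_nilpotent H C.p_ne' (hg.pow m)
    ((C.nilpotent_pow_iff hV H).2 fun x hx => OD.pow_eq_one_of_cl (h x hx).symm e)⟩
  obtain ⟨x, hx⟩ := exists_root hV g
  exact OD.pow_eq_one_of_cl (h x hx) (pow_eq_one_of_root H e hx)

theorem Hm.orderOf_eq [Nontrivial V] (h : C.Hm H g y) (hg : IsPElt C.p g) : orderOf g = orderOf y :=
  orderOf_eq_orderOf_iff.2 fun _ => h.pow_eq_one_iff hV hg

theorem Hm.isUnit (h : C.Hm H g y) {m : ℕ} (e : y ^ m ≠ 1) : IsUnit (H.lin (g ^ m) - 1) :=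
  (C.isUnit_pow_iff hV H).2 fun x hx e' => e (OD.pow_eq_one_of_cl (h x hx) e')

/-- an involution commuting with `g` -/
theorem Hm.invol (h : C.Hm H g y) {w : H.U} (c : Commute g w) (ww : w * w = 1) (h' : C.Hm H (g * w) y')
    (hn : ∀ x, C.cl x = C.cl y → C.cl (-x) ≠ C.cl y) : w = 1 ∨ H.lin w = -1 := by
  obtain ⟨n, h1⟩ := h'.nil hV
  have c' := c.map H.lin
  have w2 : H.lin w * H.lin w = 1 := by rw [← map_mul, ww, map_one]
  rw [← map_pow, map_mul] at h1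
  by_cases e : C.cl y' = C.cl y
  · have h2 := aeval_mul_congr (a := H.lin g * H.lin w) (b := -H.lin g) (e := 1 - H.lin w) (by
      rw [mul_assoc, mul_sub, w2, neg_mul, ← mul_neg, neg_sub, mul_one])
      ((Commute.one_right _).sub_right c').neg_left (C.P (C.cl y') ^ n)
    have h3 := (C.isUnit_aeval_iff' hV H (g := g) (a := (C.P (C.cl y')).comp (-X))).2 fun x hx => by
      rw [aeval_comp, map_neg, aeval_X, ← Units.val_neg, Ne, aeval_P', e]
      exact hn x (h x hx)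
    rw [aeval_comp, map_neg, aeval_X] at h3
    rw [h1, zero_mul, map_pow, eq_comm, (h3.pow n).mul_right_eq_zero, sub_eq_zero] at h2
    exact .inl (HS.U_ext fun v => (congrArg (· v) h2).symm)
  · have h2 := aeval_mul_congr (a := H.lin g * H.lin w) (b := H.lin g) (e := 1 + H.lin w) (by
      rw [mul_assoc, mul_add, w2, mul_one, add_comm])
      ((Commute.one_right _).add_right c') (C.P (C.cl y') ^ n)
    have h3 := (C.isUnit_aeval_iff' hV H (g := g) (a := C.P (C.cl y'))).2 fun x hx e' =>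
      e ((aeval_P'.1 e').symm.trans (h x hx))
    rw [h1, zero_mul, map_pow, eq_comm, (h3.pow n).mul_right_eq_zero] at h2
    exact .inr (eq_neg_of_add_eq_zero_right h2)

omit hV

theorem cast_ne (C : UC F K) (m : ℕ) : ((C.p ^ m : ℕ) : K) ≠ 0 := by
  rw [← map_natCast (algebraMap F K), _root_.map_ne_zero, Nat.cast_pow]
  refine pow_ne_zero _ fun e => C.p_ne' ?_
  rw [CharP.cast_eq_zero_iff F (ringChar F)] at e
  exact ((Nat.prime_dvd_prime_iff_eq (CharP.prime_ringChar F) C.hp).1 e).symm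

end UC

namespace UB

variable {C : UC F K} {A : Type} [CommRing A] [Algebra ℂ A] (U : UB C A) (H : HS F V)

/-- an algebra homomorphism which fixes the generators of small degree -/
theorem sub_mem_Pr {Mc : A →ₐ[ℂ] A} {k : ℕ} (hN : k ≤ C.N) (hP : ∀ x ∈ U.S.Pr k, Mc x ∈ U.S.Pr k)
    {P : C.Th → Prop} (h : ∀ i r, P i → 0 < r → r * C.deg i < k → Mc (U.π i r) = U.π i r) {y : A}
    (hy : y ∈ Sp C.deg U.π P k) : y - Mc y ∈ U.S.Pr k := by
  refine (Submodule.span_le (p := (U.S.Pr k).comap (LinearMap.id - Mc.toLinearMap))).2 ?_ hy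
  rintro _ ⟨m, h1, h2, rfl⟩
  change mon U.π m - Mc (mon U.π m) ∈ U.S.Pr k
  by_cases h3 : ∀ x ∈ m, x.2 * C.deg x.1 < k
  · rw [mon, map_multiset_prod, Multiset.map_map,
      Multiset.map_congr (f := Mc ∘ fun x : C.Th × ℕ => U.π x.1 x.2) (g := fun x => U.π x.1 x.2) rfl
        fun x hx => h x.1 x.2 (h1 x hx).1 (h1 x hx).2 (h3 x hx), sub_self]
    exact zero_mem _
  · push Not at h3
    obtain ⟨x, hx, h4⟩ := h3
    obtain ⟨m, rfl⟩ := Multiset.exists_cons_of_mem hx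
    rw [wtm_cons] at h2
    obtain rfl : m = 0 := by
      by_contra h5
      obtain ⟨z, hz⟩ := Multiset.exists_mem_of_ne_zero h5
      obtain ⟨m, rfl⟩ := Multiset.exists_cons_of_mem hz
      rw [wtm_cons] at h2
      have := Nat.mul_pos h1.tail.head.2 (OD.deg_pos z.1)
      omega
    rw [wtm_zero, add_zero] at h2
    have := h2 ▸ U.sys.prim x.1 x.2 h1.head.2 (h2 ▸ hN)
    rw [mon_cons, mon_zero, mul_one]
    exact sub_mem this (hP _ this)

/-- the `p`-elements on which a character of a homogeneous class does not vanish -/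
theorem supp_lab {k d ε : ℕ} (hk : finrank F V = k) (hN : k ≤ C.N) (h0 : 0 < k)
    (hs : ∀ n, d ∣ n → 0 < n → n < k → ∀ z ∈ C.XX n, IsPElt C.p (z ^ ε) → z ^ ε = 1)
    {Λ : C.Th → Finset ℕ} (hΛ : C.Lab k Λ) (hd : ∀ i, sz C.N (Λ i) ≠ 0 → d ∣ C.deg i) {v : H.U}
    (hv : IsPElt C.p v) (hne : U.ch H (sL C.N U.π Λ) v ≠ 0) :
    v ^ ε = 1 ∨ ∃ y ∈ C.XX k, (H.lin v).charpoly = C.mp k y := by
  obtain ⟨m, hm⟩ := hv.exists_pow_eq_one
  let R : F[X] := ∑ i ∈ range (C.p ^ m), (X ^ ε) ^ i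
  have hR : ∀ z : Kˣ, aeval (z : K) R = 0 ↔ (z ^ ε) ^ C.p ^ m = 1 ∧ z ^ ε ≠ 1 := fun z => by
    have h1 : aeval (z : K) R = ∑ i ∈ range (C.p ^ m), ((z ^ ε : Kˣ) : K) ^ i := by simp [R]
    have h2 := geom_sum_mul ((z ^ ε : Kˣ) : K) (C.p ^ m)
    rw [← h1, ← Units.val_pow_eq_pow_val] at h2
    refine ⟨fun h => ⟨Units.ext (sub_eq_zero.1 (by rw [Units.val_one, ← h2, h, zero_mul])), fun e => ?_⟩,
      fun h => ?_⟩
    · rw [h1, e] at h
      exact C.cast_ne m (by simpa using h)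
    · rw [h.1, Units.val_one, sub_self] at h2
      exact (mul_eq_zero.1 h2).resolve_right fun e => h.2 (Units.ext (sub_eq_zero.1 e))
  obtain ⟨Mc, -, m2, m3⟩ := U.mulc
    { toFun := fun f => if IsCoprime f R then 1 else 0
      map_one' := if_pos isCoprime_one_left
      map_mul' := fun f g => by
        by_cases h1 : IsCoprime f R <;> by_cases h2 : IsCoprime g R <;>
          simp [IsCoprime.mul_left_iff, h1, h2] }
  by_cases hc : IsCoprime (H.lin v).charpoly R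
  · refine .inl (eq_one_of_nilpotent H C.p_ne' (hv.pow ε)
      ((C.nilpotent_pow_iff (hk ▸ hN) H).2 fun x hx => by_contra fun e => ?_))
    obtain ⟨a, b, h1⟩ := hc
    have h2 := congrArg (aeval (x : K)) h1
    rw [map_add, map_mul, map_mul, hx, (hR x).2 ⟨by
      rw [pow_right_comm, pow_eq_one_of_root H hm hx, one_pow], e⟩] at h2
    simp at h2
  refine .inr (U.supp H hk hN h0 _ (U.sub_mem_Pr hN (m2 k) (P := fun i => d ∣ C.deg i)
    (fun i r hi hr hlt => ?_) (y := sL C.N U.π Λ) ?_) v ?_)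
  · obtain ⟨H', -⟩ := exists_SU_equiv (r * C.deg i) (qq F) F star_eq_pow
    have e : finrank F (Fin (r * C.deg i) → F) = r * C.deg i := by simp
    have a1 := hlt.le.trans hN
    have a2 := U.sys.prim i r hr a1
    have a3 := Nat.mul_pos hr (OD.deg_pos i)
    refine sub_eq_zero.1 ((U.ld H' e a1).ch_inj (U.S.Pr_le _ (sub_mem (m2 _ _ a2) a2)) (funext fun g => ?_))
    rw [map_sub, Pi.sub_apply, m3 H' e a1 _ (U.S.Pr_le _ a2), Pi.zero_apply]
    by_cases a4 : U.ch H' (U.π i r) g = 0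
    · rw [a4, mul_zero, sub_zero]
    obtain ⟨y, hy, a5⟩ := U.supp H' e a1 a3 _ a2 g a4
    have a6 : IsCoprime (H'.lin g).charpoly R := by
      rw [a5]
      refine C.coprime_of_roots (C.monic_mp _ _) ((UC.natDegree_mp hy).le.trans a1) fun z hz a7 => ?_
      obtain ⟨z, a8, rfl⟩ := (UC.aeval_mp a3 hy).1 hz
      obtain ⟨a9, a10⟩ := (hR z).1 a7
      exact a10 (hs _ (hi.mul_left r) a3 hlt z (OD.mem_XX.2 (a8 ▸ OD.mem_XX.1 hy))
        (isPElt_of_pow_eq_one a9))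
    change (if _ then (1 : ℂ) else 0) * _ - _ = 0
    rw [if_pos a6, one_mul, sub_self]
  · rw [← hΛ.sum']
    refine Sp_prod _ _ _ fun i _ => ?_
    by_cases a1 : sz C.N (Λ i) = 0
    · rw [a1, zero_mul, (sz_eq_zero' (hΛ.1 i)).1 a1, ss_range']
      exact one_mem_Sp _ _ _
    · exact Sp_mono (fun _ e => e ▸ hd i a1) _ (ss_mem_Sp _ _ _ i _)
  · rw [map_sub, Pi.sub_apply, m3 H hk hN _ ((U.ld H hk hN).sL_mem hΛ)]
    change _ - (if _ then (1 : ℂ) else 0) * _ ≠ 0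
    rwa [if_neg hc, zero_mul, sub_zero]

theorem dvd_of_cls {k : ℕ} {θ : C.Th} (hθ : C.par θ = θ) {Λ Λ' : C.Th → Finset ℕ} (hΛ : C.Lab k Λ)
    (h1 : ∀ i, i ≠ θ → Λ i = range C.N) (hc : C.Cls Λ' Λ) (i : C.Th) (hi : sz C.N (Λ' i) ≠ 0) :
    C.deg θ ∣ C.deg i := by
  suffices h : C.par i = θ from ⟨C.rho i, by rw [OD.deg_eq i, h, mul_comm]⟩
  by_contra hne
  have h2 := (hc _ (OD.par_par i)).1
  rw [msz_eq, msz_eq, sum_eq_zero (s := univ.filter fun j => C.par j = C.par i)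
    (f := fun j => C.rho j * sz C.N (Λ j)) fun j hj => by
      have h3 : j ≠ θ := fun e => hne (by rw [← (mem_filter.1 hj).2, e, hθ])
      rw [(sz_eq_zero' (hΛ.1 j)).2 (h1 j h3), mul_zero], sum_eq_zero_iff] at h2
  exact mul_ne_zero (OD.rho_pos i).ne' hi (h2 i (mem_filter.2 ⟨mem_univ _, rfl⟩))

/-- **one piece** -/
theorem piece {θ : C.Th} {j : ℕ} (hk : finrank F V = j * C.deg θ) (hN : j * C.deg θ ≤ C.N)
    (hθ : C.par θ = θ) {B : Set (IrrCharacter H.U)} (hB : IsPBlock C.M B) {χ : IrrCharacter H.U}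
    (hχ : χ ∈ B) {Λ : C.Th → Finset ℕ} (hΛ : C.Lab (j * C.deg θ) Λ) (hL : IsL C.N U.π (U.ch H) χ Λ)
    (h1 : ∀ i, i ≠ θ → Λ i = range C.N) {x : Kˣ} (hx : x ∈ C.XX (j * C.deg θ)) {a : H.U}
    (ha : (H.lin a).charpoly = C.mp (j * C.deg θ) x) (hζ : pPart C.p x ≠ 1)
    (hg : ∀ y ∈ C.XX (j * C.deg θ), IsPElt C.p y → y ∈ zpowers (pPart C.p x))
    {β : Set (IrrCharacter (centralizer ({pPart C.p a} : Set H.U)))} (hβ : IsPBlock C.M β)
    (hI : IsInducedBlock C.M _ β B) (hj : j = C.ee θ ∨ (C.p = 2 ∧ j = 2 ∧ ¬ 4 ∣ C.cX (C.deg θ))) :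
    (∀ m : ℕ, pPart C.p a ^ m ≠ 1 → ∀ v : V, pPart C.p a ^ m • v = v → v = 0) ∧
    orderOf (pPart C.p a) = orderOf (pPart C.p x) ∧
    DefGrp C.p (⊤ ⊓ centralizer (zpowers (pPart C.p a) : Set H.U)) (sidem C.hM _ β)
      (zpowers (pPart C.p a)) ∧
    (MaxBP C.p ⊤ (zpowers (pPart C.p a)) (sidem C.hM _ β) ∨ (C.p = 2 ∧ 8 ∣ orderOf (pPart C.p a) ∧
      ∀ (g : H.U) (s : ℕ), g * pPart C.p a * g⁻¹ = pPart C.p a ^ s →
        Commute g (pPart C.p a) ∨ s % 4 = 3)) := by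
  have h0 : 0 < j * C.deg θ := Nat.mul_pos (by
    rcases hj with e | ⟨-, e, -⟩ <;> rw [e]
    exacts [OD.ee_pos θ, two_pos]) (OD.deg_pos θ)
  have hV : finrank F V ≤ C.N := hk ▸ hN
  have : Nontrivial V := Module.nontrivial_of_finrank_pos (hk ▸ h0)
  have hu := (UC.hm_of_mp h0 hx ha).pPart hV
  have pu := isPElt_pPart C.p a
  have pz := isPElt_pPart C.p x
  have zm : pPart C.p x ∈ C.XX (j * C.deg θ) := by
    obtain ⟨e, -, h2⟩ := C.exists_pPart_pow H a
    exact h2 x ▸ OD.pow_mem_XX hx e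
  have hf := Df.bp_sidem C.hM pu hβ
  have hb := (Df.ind_iff C.hM pu hβ hB).1 hI
  generalize sidem C.hM _ β = f at hf hb ⊢
  clear hI hβ β
  generalize pPart C.p a = u at *
  generalize pPart C.p x = ζ at *
  have ho := hu.orderOf_eq hV pu
  have u1 : u ≠ 1 := fun e => hζ (by rw [← orderOf_eq_one_iff, ← ho, e, orderOf_one])
  have key : ∀ ε, (∀ n, C.deg θ ∣ n → 0 < n → n < j * C.deg θ → ∀ z ∈ C.XX n, IsPElt C.p (z ^ ε) →
      z ^ ε = 1) → ∀ P : Subgroup H.U, IsPGroup C.p P → br P (idem C.hM B) ≠ 0 → ∀ v ∈ P, v ^ ε = 1 ∨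
      ((∃ y, C.Hm H v y) ∧ v ^ orderOf u = 1 ∧ (v ≠ 1 → IsUnit (H.lin v - 1))) := by
    intro ε hs P hP h2 v hv
    have pv := isPElt_of_mem hP hv
    obtain ⟨χ', c1, c2⟩ := Df.exists_apply_ne C.hM hB pv (br_ne_zero_of_le (zpowers_le.2 hv) h2)
    have L := U.ld H hk hN
    obtain ⟨Λ', l1, l2⟩ := L.all χ'
    refine (U.supp_lab H hk hN h0 hs l1 (dvd_of_cls hθ hΛ h1 (L.cls_of_block hB c1 hχ l1 hΛ l2 hL)) pv
      fun e => c2 ?_).imp_right fun ⟨y, y1, y2⟩ => ?_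
    · obtain ⟨ε, -, l3⟩ := l2
      rw [l3, Pi.smul_apply, e, smul_zero]
    have y3 := UC.hm_of_mp h0 y1 y2
    have y4 := y3.orderOf_eq hV pv
    refine ⟨⟨y, y3⟩, ?_, fun e => ?_⟩
    · rw [← orderOf_dvd_iff_pow_eq_one, y4, ho]
      exact orderOf_dvd_of_mem_zpowers (hg y y1 (by rwa [IsPElt, ← y4]))
    · simpa using y3.isUnit hV (m := 1) fun e' => e (by
        rw [← orderOf_eq_one_iff, y4, ← pow_one y, e', orderOf_one])
  have dfg : (∀ P : Subgroup H.U, IsPGroup C.p P → br P (idem C.hM B) ≠ 0 → u ∈ P →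
      (∀ v ∈ P, Commute u v) → ∀ v ∈ P, v ^ orderOf u = 1 ∧ (v ≠ 1 → IsUnit (H.lin v - 1))) →
      DefGrp C.p (⊤ ⊓ centralizer (zpowers u : Set H.U)) f (zpowers u) := fun h => by
    have z1 : zpowers u ≤ ⊤ ⊓ centralizer (zpowers u : Set H.U) :=
      le_inf le_top (centralizer_zpowers_eq u ▸ Df.zpowers_le_centralizer u)
    obtain ⟨D, d1, d2⟩ := hf.bidem.exists_defGrp_ge C.hM z1 hf.pgroup (hf.br_self.symm ▸ hf.ne_zero)
    have d3 : ∀ v ∈ D, Commute u v := fun v hv => (d1.le hv).2 u (mem_zpowers u)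
    have d4 := Df.br_br_mul C.hM hb d1.pgroup (le_trans (fun v hv =>
      mem_centralizer_singleton_iff.2 (d3 v hv).eq.symm) le_normalizer) (hf.bidem.fixed.mono d1.le)
    rw [br_br_of_le d2] at d4
    have d5 := h D d1.pgroup (fun e => d1.br_ne (by rw [← d4, e, zero_mul])) (d2 (mem_zpowers u)) d3
    rwa [le_antisymm (fun v hv => mem_zpowers_of_commute H C.p_ne' d1.pgroup (d2 (mem_zpowers u)) d5 hv
      (d3 v hv)) d2] at d1
  refine ⟨fun m hm v hv => eq_zero_of_isUnit H (hu.isUnit hV fun e => hm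
    ((hu.pow_eq_one_iff hV pu).2 e)) hv, ho, ?_⟩
  rcases hj with rfl | ⟨h2, rfl, h4⟩
  · have k1 : ∀ P : Subgroup H.U, IsPGroup C.p P → br P (idem C.hM B) ≠ 0 → ∀ v ∈ P,
        v ^ orderOf u = 1 ∧ (v ≠ 1 → IsUnit (H.lin v - 1)) := fun P hP h v hv =>
      (key 1 (fun n a b c z => OD.small_of_ee a b c) P hP h v hv).elim (fun e => by
        rw [pow_one] at e
        exact ⟨by rw [e, one_pow], fun e' => absurd e e'⟩) And.right
    refine ⟨dfg fun P hP h _ _ => k1 P hP h, .inl ?_⟩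
    obtain ⟨P, e, m1, m2⟩ := hf.exists_maxBP_ge le_top
    have m3 := (m2.br_block_iff (bIdem_top_idem C.hM hB).toCIdem le_top).1 hb
    have m4 := m2.eq_of_ge (le_zpowers H C.p_ne' m2.right.pgroup (m2.le (mem_zpowers u))
      (k1 P m2.right.pgroup fun e' => m2.right.ne_zero (by rw [← m3, e', zero_mul])) u1
      fun h2 g e' => by
        rw [hu.pow_eq_one_iff hV pu]
        refine OD.sq_eq_one_of_inv h2 h0 hN pz zm hg ((e' ▸ hu.conj g).eq hV ?_)
        have := hu.pow hV (orderOf u - 1)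
        rwa [eq_inv_of_mul_eq_one_left (pow_sub_one_mul (orderOf_pos u).ne' u ▸ pow_orderOf_eq_one u :
          u ^ (orderOf u - 1) * u = 1), ho, eq_inv_of_mul_eq_one_left
          (pow_sub_one_mul (orderOf_pos ζ).ne' ζ ▸ pow_orderOf_eq_one ζ :
          ζ ^ (orderOf ζ - 1) * ζ = 1)] at this)
    rwa [m4.1, m4.2]
  obtain ⟨b1, b2, b3⟩ := OD.box h2 h4
  have b4 := OD.eight_dvd h2 h0 hN pz hg b3
  have b5 : ζ ∈ C.XS 2 := OD.mem_two h2 pz b1 (OD.mem_XX_iff.1 zm)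
  have two : (2 : K) ≠ 0 := by simpa [h2] using C.cast_ne 1
  refine ⟨dfg fun P hP h hu' c v hv => ?_, .inr ⟨h2, ho ▸ b4, fun g s e => ?_⟩⟩
  · have k1 := key 2 (fun n a b c z => OD.small_of_box h2 h4 a b c) P hP h
    refine (k1 v hv).elim (fun e => ⟨?_, fun e' => ?_⟩) And.right
    · exact orderOf_dvd_iff_pow_eq_one.1 ((orderOf_dvd_of_pow_eq_one e).trans
        ((Dvd.intro 4 rfl).trans (ho ▸ b4)))
    obtain ⟨⟨y, hy⟩, -⟩ := (k1 _ (mul_mem hu' hv)).resolve_left fun e'' => by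
      rw [(c v hv).mul_pow, e, mul_one] at e''
      exact absurd (Nat.le_of_dvd two_pos ((ho ▸ b4).trans (orderOf_dvd_of_pow_eq_one e''))) (by norm_num)
    have k2 := (hu.invol hV (c v hv) (by rwa [← pow_two]) hy fun z z1 z2 => ?_).resolve_left e'
    · rw [k2, ← neg_add', one_add_one_eq_two, IsUnit.neg_iff, ← map_ofNat (algebraMap F (End F V))]
      exact (IsUnit.mk0 _ fun e => two (by rw [← map_ofNat (algebraMap F K), e, map_zero])).map _
    · rcases OD.cl_two (OD.mem_XS_iff.2 (z1 ▸ OD.mem_XS_iff.1 b5)) (z1.trans z2.symm) with e | e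
      · have := congrArg Units.val e
        rw [Units.val_neg, neg_eq_iff_add_eq_zero, ← two_mul] at this
        exact mul_ne_zero two z.ne_zero this
      · have z3 : z ^ (2 * (C.t - 1)) = 1 := by
          rw [mul_comm, zpow_mul, zpow_sub_one, ← e]
          simp
        rw [← orderOf_dvd_iff_zpow_eq_one, Int.natCast_dvd, orderOf_dvd_iff_pow_eq_one] at z3
        have z4 := b4.trans (orderOf_dvd_of_pow_eq_one (OD.pow_eq_one_of_cl z1 z3))
        rw [← Int.natCast_dvd] at z4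
        omega
  · rcases OD.cl_two b5 ((e ▸ hu.conj g).eq hV (hu.pow hV s)) with e' | e'
    · left
      rw [← pow_one ζ, ← pow_mul, one_mul, pow_eq_pow_iff_modEq, ← ho, ← pow_eq_pow_iff_modEq, ← e,
        pow_one] at e'
      exact mul_inv_eq_iff_eq_mul.1 e'
    · right
      rw [← zpow_natCast, zpow_eq_zpow_iff_modEq] at e'
      have := (e'.of_dvd (Int.natCast_dvd_natCast.2 ((Dvd.intro 2 rfl : 4 ∣ 8).trans b4))).eq
      omega

end UB

end GUH
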