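import Cfsg.Agent.Lib.GU.LocI
import Cfsg.Agent.Lib.GU.DefC
import Cfsg.Agent.Lib.GU.Pce

/-!
# S4537: the existence of systems of pieces
-/

set_option autoImplicit false
set_option linter.unusedSectionVars false

namespace GUH.Df

open Cfsg CT GT BT Subgroup GUL UW Module GLH SFock
open scoped MonoidAlgebra Pointwise Classical

universe u

variable {F : Type u} [Field F] [Fintype F] [StarRing F] [HF F] {K : Type} [Field K] [Fintype K]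
  [Algebra F K] {C : UC F K} {A : Type} [CommRing A] [Algebra ℂ A] (U : UB C A) {m : C.XS 1}

/-- the analysis of a single piece -/
def PceH : Prop := ∀ {V : Type u} [AddCommGroup V] [Module F V] [Fintype V] (H : HS F V) {j : ℕ}
  {θ : C.Th}, finrank F V = j * C.deg θ → j * C.deg θ ≤ C.N → C.par θ = θ →
  ∀ {B : Set (IrrCharacter H.U)}, IsPBlock C.M B → ∀ {χ : IrrCharacter H.U}, χ ∈ B →
  ∀ {Λ : C.Th → Finset ℕ}, IsL C.N U.π (U.ch H) χ Λ → C.Lab (j * C.deg θ) Λ →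
  (∀ i, i ≠ θ → Λ i = Finset.range C.N) → ∀ {x : Kˣ}, x ∈ C.XX (j * C.deg θ) → ∀ {a : H.U},
  (H.lin a).charpoly = C.mp (j * C.deg θ) x → pPart C.p x ≠ 1 →
  (∀ y ∈ C.XX (j * C.deg θ), IsPElt C.p y → y ∈ zpowers (pPart C.p x)) →
  ∀ {β : Set (IrrCharacter (centralizer ({pPart C.p a} : Set H.U)))}, IsInducedBlock C.M _ β B →
  (j = C.ee θ ∨ (C.p = 2 ∧ j = 2 ∧ ¬ 4 ∣ C.cX (C.deg θ))) →
  (∀ k : ℕ, pPart C.p a ^ k ≠ 1 → ∀ v : V, pPart C.p a ^ k • v = v → v = 0) ∧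
    orderOf (pPart C.p a) = orderOf (pPart C.p x) ∧
    DefGrp C.p (⊤ ⊓ centralizer (zpowers (pPart C.p a) : Set H.U)) (sidem C.hM _ β)
      (zpowers (pPart C.p a)) ∧
    (MaxBP C.p ⊤ (zpowers (pPart C.p a)) (sidem C.hM _ β) ∨ (C.p = 2 ∧ 8 ∣ orderOf (pPart C.p a) ∧
      ∀ (g : H.U) (s : ℕ), g * pPart C.p a * g⁻¹ = pPart C.p a ^ s →
        Commute g (pPart C.p a) ∨ s % 4 = 3))

variable (m) in
/-- all blocks in dimension `n` have systems of pieces -/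
def HasSy (n : ℕ) : Prop := ∀ {V : Type u} [AddCommGroup V] [Module F V] [Fintype V] (H : HS F V),
  finrank F V = n → ∀ {Λ : C.Th → Finset ℕ}, C.Lab n Λ → C.PLab Λ → C.Good Λ m →
  ∀ {B : Set (IrrCharacter H.U)}, IsPBlock C.M B → ∀ {χ : IrrCharacter H.U}, χ ∈ B →
  IsL C.N U.π (U.ch H) χ Λ → ∃ (J : Type) (_ : Fintype J) (z : J → Pz U m H)
    (E : (ResF C.hM)[H.U]), Sy z B (fun θ => sz C.N (Λ θ) ≠ 0) E

theorem locJ_realise_eqns : True := by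
  have := @PceH.eq_1.{0}
  have := @HasSy.eq_1.{0}
  trivial

variable {V : Type u} [AddCommGroup V] [Module F V] [Fintype V] {H : HS F V} {n : ℕ}
  (hV : finrank F V = n) (hn : n ≤ C.N) {Λ : C.Th → Finset ℕ} (h : C.Lab n Λ) (hp : C.PLab Λ)
  (hG : C.Good Λ m) {B : Set (IrrCharacter H.U)} (hB : IsPBlock C.M B) {χ : IrrCharacter H.U}
  (hχ : χ ∈ B) (e : IsL C.N U.π (U.ch H) χ Λ)

section
include hV hn h hp hG hB hχ e

theorem van_of_good : ∀ ψ ∈ B, ∀ g, g ∉ ((C.mu m).comp (C.δ H)).ker → ψ.1 g = 0 := fun ψ hψ g hg => by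
  obtain ⟨Λ', a1, a2, a3⟩ := (U.ld H hV hn).block_sub hB h hχ e hψ
  exact (U.ld H hV hn).apply_eq_zero a1 a3 (hG.cls h hp a1 a2) hg

theorem sy_step (hP : PceH U) (ih : ∀ k < n, HasSy U m k) {j : ℕ} {θ : C.Th} (hj : 0 < j)
    (hw : wt j (Λ θ) ≠ 0) (hw' : C.ww Λ θ ≠ 0)
    (hc : j = C.ee θ ∨ (C.p = 2 ∧ j = 2 ∧ ¬ 4 ∣ C.cX (C.deg θ)))
    (hs : C.p = 2 → ¬ 4 ∣ C.cX (j * C.deg θ) → sz C.N (Λ θ) ≤ j) :
    ∃ (J : Type) (_ : Fintype J) (z : J → Pz U m H) (E : (ResF C.hM)[H.U]),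
      Sy z B (fun θ => sz C.N (Λ θ) ≠ 0) E := by
  obtain ⟨k, rfl⟩ := Nat.exists_eq_add_of_le' (le_of_wt U.sys hn h hj hw)
  have h0 := Nat.mul_pos hj (OD.deg_pos θ)
  have h1 : j * C.deg θ ≤ C.N := by omega
  have h2 := OD.par_of_ww hp hw'
  obtain ⟨H₁, H₂, ⟨s⟩⟩ := exists_spt H hV
  obtain ⟨ζ, z1, z2, z3, z4⟩ := exists_gen C h0 h1
  have z5 : ζ ≠ 1 := fun e => C.hp.one_lt.ne' (by
    have := (z4 1).2 (by
      rw [pow_one, ← OD.ee_dvd_iff]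
      exact hc.elim (fun e => e ▸ dvd_rfl) fun e => ee_eq_one e.1 θ ▸ one_dvd _)
    rwa [e, orderOf_one, pow_one, Nat.dvd_one] at this)
  have v₁ : finrank F (Fin k → F) = k := by simp
  have v₂ : finrank F (Fin (j * C.deg θ) → F) = j * C.deg θ := by simp
  obtain ⟨Λ₁, Λ₂, χ₁, χ₂, a, x, β, a1, a2, -, a4, a5, b1, b2, b3, c1, rfl, c3, c4, c5, c6⟩ :=
    stepL U s v₁ v₂ hn h hp hj hw z1 z2 z5 hB hχ e
  have m₂ := mem_blockOf_self C.hM χ₂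
  obtain ⟨d1, d2, d3, d4⟩ := hP H₂ v₂ h1 h2 c5.2.1 m₂ b3 b1 b2 c1 c3 z5 z3 c5 hc
  have ne : ∀ i, C.ww Λ (C.par i) = 0 → i ≠ θ := fun i hi e => hw' (by rwa [e, h2] at hi)
  obtain ⟨J, _, z, E, S⟩ := ih k (by omega) H₁ v₁ a1 (plab_of_eq hp hw a2)
    (hG.of_eq fun i hi => a2 i (ne i hi)) (isPBlock_blockOf χ₁) (mem_blockOf_self C.hM χ₁) a5
  refine ⟨_, inferInstance, S.step s (θ := θ) ⟨c5.2.1, bp_sidem C.hM (isPElt_pPart _ a) c4, d3,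
    van_of_good U v₂ h1 b1 (fun i hi => b2 i fun e => hi (e ▸ h2))
      (hG.of_supp fun i hi => b2 i (ne i hi)) c5.2.1 m₂ b3,
    (ind_iff C.hM (isPElt_pPart _ a) c4 c5.2.1).1 c5, d4⟩
    (fun e => z5 (by rwa [e, orderOf_one, eq_comm, orderOf_eq_one_iff] at d2)) d1
    (fun _ => ⟨v₂.symm ▸ h0, v₂.symm ▸ h1, h2, χ₂, m₂, Λ₂, v₂.symm ▸ b1, b3, b2⟩) c6
    (fun i hi => ?_) fun o => ⟨by omega, ?_⟩⟩
  · by_cases e : i = θ
    · subst e; omega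
    · rwa [← a2 i e]
  · rw [d2] at o
    obtain ⟨r, hr⟩ := z2
    have p2 : C.p = 2 := ((Nat.prime_dvd_prime_iff_eq Nat.prime_two C.hp).1
      (Nat.prime_two.dvd_of_dvd_pow (by rw [← hr, o]))).symm
    have := hs p2 fun h4 => by
      have := (z4 2).2 (by rwa [p2])
      rw [o, p2] at this
      exact absurd this (by decide)
    omega

end

theorem four_dvd_cX (h2 : C.p = 2) (d : ℕ) : 4 ∣ C.cX (2 * d) := by
  have h1 : Odd (C.t ^ d) := (Int.not_even_iff_odd.1 fun h => C.p_ne (by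
    rw [h2]; exact even_iff_two_dvd.1 h)).pow
  rw [OD.cX, ← Int.natCast_dvd, mul_comm, pow_mul]
  exact (by decide : (4 : ℤ) ∣ 8).trans (Int.eight_dvd_sq_sub_one_of_odd h1)

theorem hasSy (hP : PceH U) (m : C.XS 1) (n : ℕ) (hn : n ≤ C.N) : HasSy U m n := by
  induction n using Nat.strong_induction_on with | _ n ih =>
  intro V _ _ _ H hV Λ h hp hG B hB χ hχ e
  have ih' : ∀ k < n, HasSy U m k := fun k hk => ih k hk (by omega)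
  by_cases h1 : ∃ θ, C.p = 2 ∧ ¬ 4 ∣ C.cX (C.deg θ) ∧ 2 ≤ sz C.N (Λ θ)
  · obtain ⟨θ, a1, a2, a3⟩ := h1
    obtain ⟨Λ', b1, b2, b3, b4, b5, χ', b6, b7⟩ := exists_row U a1 hV hn h hp hB hχ e
    simp only [← b4]
    exact sy_step U hV hn b1 b2 (hG.of_cls h hp b1 b2 b3) hB b6 b7 hP ih' two_pos (b5 θ 2 two_pos a3)
      (b5 θ _ (OD.ee_pos θ) (by rw [ee_eq_one a1]; omega)) (Or.inr ⟨a1, rfl, a2⟩)
      fun _ h4 => (h4 (four_dvd_cX a1 _)).elim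
  by_cases h2 : C.W Λ = 0
  · exact ⟨_, inferInstance, exists_sy_zero hB (defect_zero U hV hn h hp h2 hB hχ e)
      (van_of_good U hV hn h hp hG hB hχ e) (C.cl 1) _⟩
  obtain ⟨θ, -, hθ⟩ := Finset.exists_ne_zero_of_sum_ne_zero h2
  refine sy_step U hV hn h hp hG hB hχ e hP ih' (OD.ee_pos θ) hθ hθ (Or.inl rfl) fun a1 a2 => ?_
  rw [ee_eq_one a1, one_mul] at *
  exact Nat.le_of_lt_succ (not_le.1 fun a3 => h1 ⟨θ, a1, a2, a3⟩)

theorem locB_of (hP : PceH U) (H : HS F V) (hn : finrank F V ≤ C.N) :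
    LocB C.toOD C.M U.π (finrank F V) (C.δ H) (U.ch H) := fun Λ B χ m h hp hB hχ e hG b hb hc g hg => by
  obtain ⟨J, _, z, E, S⟩ := hasSy U hP m _ hn H rfl h hp hG hB hχ e
  exact S.mem hB hG.reg hb hc hg

theorem pceH : PceH U := fun H _ _ a1 a2 a3 _ a4 _ a5 _ a6 a7 a8 _ a9 _ b1 b2 b3 _ b4 b5 =>
  U.piece H a1 a2 a3 a4 a5 a7 a6 a8 a9 b1 b2 b3 b4.1 b4 b5

theorem locB (H : HS F V) (hn : finrank F V ≤ C.N) :
    LocB C.toOD C.M U.π (finrank F V) (C.δ H) (U.ch H) := locB_of U (pceH U) H hn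

end GUH.Df
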