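import Cfsg.Agent.Lib.GU.Orb
import Cfsg.Agent.Lib.GU.Bridge
import Cfsg.Agent.Lib.GU.WallD
import Cfsg.Agent.Lib.GL.OrbA

/-!
# S4537: the orbits of `x ↦ x ^ (-q)` on the big field and their polynomials
-/

set_option autoImplicit false
set_option linter.unusedSectionVars false

namespace GUH

open Finset Polynomial Cfsg UW GUW Module
open scoped Classical

universe u

variable (F : Type u) [Field F] [Fintype F] [StarRing F] [HF F] (K : Type) [Field K] [Fintype K] [Algebra F K]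

/-- all choices for the unitary groups -/
structure UC extends OD Kˣ where
  t_eq : t = -(qq F : ℤ)
  bigF : ∀ d, 0 < d → d ≤ N → d ∣ finrank F K
  /-- the maximal ideal -/
  M : Ideal AlgInt
  hM : IsPModular p M

variable {F K}

namespace UC

variable (C : UC F K)

theorem cX_one : C.cX 1 = qq F + 1 := by
  rw [OD.cX, C.t_eq, pow_one]
  omega

theorem cX_cast' (n : ℕ) : (C.cX n : ℤ) = (qq F : ℤ) ^ n - (-1) ^ n := by
  have h1 : (1 : ℤ) ≤ (qq F : ℤ) ^ n := one_le_pow₀ (by exact_mod_cast qq_pos F)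
  rw [OD.cX_cast, C.t_eq, neg_pow]
  rcases neg_one_pow_eq_or ℤ n with h | h <;> rw [h]
  · rw [one_mul, abs_of_nonneg (by omega)]
  · rw [abs_of_nonpos (by omega)]; ring

theorem cX_castC (n : ℕ) : (C.cX n : ℂ) = (qq F : ℂ) ^ n - (-1) ^ n := by
  exact_mod_cast congrArg (Int.cast : ℤ → ℂ) (C.cX_cast' n)

theorem p_ne' : C.p ≠ ringChar F := fun h => by
  obtain ⟨k, h1, h2⟩ := FiniteField.card F (ringChar F)
  refine C.p_ne ?_
  rw [C.t_eq, dvd_neg, Int.natCast_dvd_natCast, h]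
  exact h1.dvd_of_dvd_pow (card_F F ▸ h2 ▸ dvd_pow_self _ k.ne_zero)

theorem pow_Q_one (x : Kˣ) : x ^ C.Q = (x ^ qq F)⁻¹ := by
  have := C.pow_Q x 1
  rwa [pow_one, pow_one, C.t_eq, zpow_neg, zpow_natCast] at this

theorem pow_card (x : Kˣ) : x ^ Fintype.card F = x ^ C.Q ^ 2 := by
  rw [C.pow_Q, C.t_eq, neg_sq, card_F, ← zpow_natCast, Nat.cast_pow]

theorem exists_P (θ : C.Th) : ∃ P : F[X], P.map (algebraMap F K) =
    ∏ x ∈ C.orb θ, (X - Polynomial.C (x : K)) ∧ P.natDegree = C.deg θ ∧ P.Monic := by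
  have h1 : (∏ x ∈ C.orb θ, (X - Polynomial.C (x : K))).map
      (FiniteField.frobeniusAlgHom F K).toRingHom = ∏ x ∈ C.orb θ, (X - Polynomial.C (x : K)) := by
    rw [Polynomial.map_prod]
    refine prod_bij (fun x _ => x ^ C.Q ^ 2) (fun x hx => ?_) (fun _ _ _ _ e => OD.frob_inj e)
      (fun y hy => ⟨y ^ C.Q ^ ((C.L - 1) * 2), ?_, ?_⟩) fun x _ => ?_
    · rw [OD.mem_orb, OD.mk_pow, OD.mem_orb.1 hx]
    · rw [OD.mem_orb, OD.mk_pow, OD.mem_orb.1 hy]
    · rw [pow_right_comm, OD.pow_back]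
    · simp [← C.pow_card]
  have h2 : (∏ x ∈ C.orb θ, (X - Polynomial.C (x : K))) ∈ lifts (algebraMap F K) := by
    refine (lifts_iff_coeff_lifts _).2 fun i => ?_
    have h3 := congrArg (coeff · i) h1
    simp only [coeff_map] at h3
    generalize coeff (∏ x ∈ C.orb θ, (X - Polynomial.C (x : K))) i = c at h3 ⊢
    by_cases h0 : c = 0
    · exact ⟨0, by rw [h0, map_zero]⟩
    obtain ⟨a, ha⟩ := (GLH.Ob.mem_XX_one (F := F) (Units.mk0 c h0)).1
      (GLH.Ob.mem_XX'.2 (Units.ext (by simpa using h3)))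
    exact ⟨a, congrArg Units.val ha⟩
  obtain ⟨P, h3, h4, h5⟩ := lifts_and_natDegree_eq_and_monic h2
    (monic_prod_of_monic _ _ fun _ _ => monic_X_sub_C _)
  refine ⟨P, h3, ?_, h5⟩
  rw [h4, natDegree_prod_of_monic _ _ fun _ _ => monic_X_sub_C _]
  simp [OD.deg]

/-- the polynomial whose roots are the elements of an orbit -/
noncomputable def P (θ : C.Th) : F[X] := (C.exists_P θ).choose

theorem map_P (θ : C.Th) : (C.P θ).map (algebraMap F K) = ∏ x ∈ C.orb θ, (X - Polynomial.C (x : K)) :=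
  (C.exists_P θ).choose_spec.1

theorem natDegree_P (θ : C.Th) : (C.P θ).natDegree = C.deg θ := (C.exists_P θ).choose_spec.2.1

theorem monic_P (θ : C.Th) : (C.P θ).Monic := (C.exists_P θ).choose_spec.2.2

theorem aroots_P (θ : C.Th) : (C.P θ).aroots K = (C.orb θ).val.map Units.val := by
  rw [aroots_def, map_P, ← roots_multiset_prod_X_sub_C (Multiset.map Units.val _), Multiset.map_map]
  rfl

variable {C}

theorem aeval_P {θ : C.Th} {y : K} : aeval y (C.P θ) = 0 ↔ ∃ x : Kˣ, C.cl x = θ ∧ (x : K) = y := by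
  have := mem_aroots (p := C.P θ) (a := y)
  rw [aroots_P] at this
  simpa [OD.mem_orb, (C.monic_P θ).ne_zero] using this.symm

theorem aeval_P' {θ : C.Th} {x : Kˣ} : aeval (x : K) (C.P θ) = 0 ↔ C.cl x = θ :=
  aeval_P.trans ⟨fun ⟨_, h, e⟩ => Units.ext e ▸ h, fun h => ⟨x, h, rfl⟩⟩

theorem P_dvd {θ : C.Th} {a : F[X]} : C.P θ ∣ a ↔ ∀ x : Kˣ, C.cl x = θ → aeval (x : K) a = 0 := by
  refine ⟨fun h x hx => aeval_eq_zero_of_dvd_aeval_eq_zero h (aeval_P'.2 hx), fun h => ?_⟩
  rw [← map_dvd_map' (algebraMap F K), map_P]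
  refine prod_dvd_of_coprime (fun x _ y _ e => ?_) fun x hx => ?_
  · exact isCoprime_X_sub_C_of_isUnit_sub (sub_ne_zero.2 fun e' => e (Units.ext e')).isUnit
  · rw [dvd_iff_isRoot, IsRoot, eval_map_algebraMap, h x (OD.mem_orb.1 hx)]

theorem coprime_P {θ : C.Th} {a : F[X]} :
    IsCoprime a (C.P θ) ↔ ∀ x : Kˣ, C.cl x = θ → aeval (x : K) a ≠ 0 := by
  refine ⟨fun h x hx e => ?_, fun h => ?_⟩
  · obtain ⟨b, c, h⟩ := h
    have := congrArg (aeval (x : K)) h
    simp [e, aeval_P'.2 hx] at this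
  rw [← isCoprime_map (algebraMap F K), map_P]
  refine IsCoprime.prod_right fun x hx => ((irreducible_X_sub_C _).coprime_iff_not_dvd.2 ?_).symm
  rw [dvd_iff_isRoot, IsRoot, eval_map_algebraMap]
  exact h x (OD.mem_orb.1 hx)

omit [Fintype K] in
theorem exists_frob : ∃ φ : K →+* K, ∀ x, φ x = x ^ qq F := by
  obtain ⟨p, hp⟩ := CharP.exists F
  obtain ⟨n, hp', hn⟩ := FiniteField.card F p
  have : Fact p.Prime := ⟨hp'⟩
  have : CharP K p := charP_of_injective_algebraMap (algebraMap F K).injective p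
  obtain ⟨k, -, h⟩ := (Nat.dvd_prime_pow hp').1
    (show qq F ∣ p ^ (n : ℕ) from hn ▸ card_F F ▸ dvd_pow_self _ two_ne_zero)
  exact ⟨iterateFrobenius K p k, fun _ => h ▸ rfl⟩

variable (C) in
theorem aeval_du (a : F[X]) (x : Kˣ) : aeval ((x ^ C.Q : Kˣ) : K) (du a) = 0 ↔ aeval (x : K) a = 0 := by
  obtain ⟨φ, hφ⟩ := exists_frob (F := F) (K := K)
  have h1 : φ.comp (algebraMap F K) = (algebraMap F K).comp (starRingEnd F) := RingHom.ext fun c => by
    simp [hφ, starRingEnd_apply, star_eq_pow]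
  let _ := (x ^ qq F).invertible
  rw [pow_Q_one, du, aeval_def, show (((x ^ qq F)⁻¹ : Kˣ) : K) = ⅟((x ^ qq F : Kˣ) : K) from rfl,
    eval₂_reverse_eq_zero_iff, eval₂_map, ← h1, Units.val_pow_eq_pow_val, ← hφ, ← hom_eval₂,
    map_eq_zero, aeval_def]

variable (C) in
theorem aeval_pow_sq {a : F[X]} {x : Kˣ} (h : aeval (x : K) a = 0) (i : ℕ) :
    aeval ((x ^ C.Q ^ (2 * i) : Kˣ) : K) a = 0 := by
  induction i with
  | zero => simpa using h
  | succ i ih =>
    rw [Nat.mul_succ, pow_add, pow_mul _ _ (C.Q ^ 2), ← pow_card, Units.val_pow_eq_pow_val]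
    exact (aeval_algHom_apply (FiniteField.frobeniusAlgHom F K) _ a).trans (by rw [ih, map_zero])

variable (C)

theorem famU : FamU C.P C.deg where
  monic := C.monic_P
  deg := C.natDegree_P
  pos := OD.deg_pos
  zero θ h := by
    obtain ⟨x, -, hx⟩ := (aeval_P (C := C) (θ := θ) (y := (0 : K))).1 (by
      rw [← coeff_zero_eq_aeval_zero', h, map_zero])
    exact x.ne_zero hx
  cop θ θ' h := coprime_P.2 fun x hx e => h ((aeval_P'.1 e).symm.trans hx)
  dual θ := P_dvd.2 fun x hx => by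
    have := C.pow_back x 1
    rw [pow_right_comm, pow_one] at this
    rw [← this, aeval_du, aeval_P', OD.mk_pow, hx]
  sqf θ := Separable.squarefree ((separable_map (algebraMap F K)).1 (by
    rw [map_P]
    exact separable_prod_X_sub_C_iff'.2 fun x _ y _ e => Units.ext e))
  loc θ a := by
    rw [coprime_P, or_iff_not_imp_left]
    intro h
    push Not at h
    obtain ⟨x, rfl, hx⟩ := h
    refine P_dvd.2 fun y hy => ?_
    obtain ⟨i, rfl⟩ := OD.mk_eq.1 hy.symm
    rw [map_mul]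
    obtain ⟨k, rfl | rfl⟩ := Nat.even_or_odd' i
    · rw [C.aeval_pow_sq hx, zero_mul]
    · rw [pow_succ, pow_mul, (C.aeval_du a _).2 (C.aeval_pow_sq hx k), mul_zero]

theorem splits' {f : F[X]} (h : f.natDegree ≤ C.N) : (f.map (algebraMap F K)).Splits := by
  induction f using WfDvdMonoid.induction_on_irreducible with
  | zero => simp
  | unit u hu => exact (hu.map (mapRingHom _)).splits
  | mul a f ha hf ih =>
    rw [natDegree_mul hf.ne_zero ha] at h
    rw [Polynomial.map_mul]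
    refine .mul (.of_dvd (FiniteField.isSplittingField_sub K F).splits
      (map_ne_zero (FiniteField.X_pow_card_sub_X_ne_zero F Fintype.one_lt_card))
      (Polynomial.map_dvd _ ?_)) (ih (by omega))
    rw [Module.card_eq_pow_finrank (K := F), ← Nat.card_eq_fintype_card]
    exact hf.natDegree_dvd_iff_dvd_X_pow_card_pow_sub_X.1 (C.bigF _ hf.natDegree_pos (by omega))

theorem splits {f : F[X]} (h : f.natDegree ≤ C.N) : (f.aroots K).card = f.natDegree := by
  rw [aroots_def, ← (C.splits' h).natDegree_eq_card_roots, natDegree_map]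

theorem dvd_prod_pow {f : F[X]} (hf : f.Monic) (h : f.natDegree ≤ C.N) (h0 : f.coeff 0 ≠ 0) :
    f ∣ (∏ θ, C.P θ) ^ f.natDegree := by
  rw [← map_dvd_map' (algebraMap F K), ← C.splits h, Polynomial.map_pow,
    (C.splits' h).eq_prod_roots_of_monic (hf.map _), ← Multiset.prod_replicate, ← Multiset.map_const']
  refine Multiset.prod_dvd_prod_of_dvd _ _ fun y hy => ?_
  have h1 : y ≠ 0 := by
    rintro rfl
    have := (mem_aroots.1 hy).2
    rw [← coeff_zero_eq_aeval_zero', map_eq_zero] at this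
    exact h0 this
  rw [dvd_iff_isRoot, IsRoot, eval_map_algebraMap, map_prod]
  exact prod_eq_zero (mem_univ (C.cl (Units.mk0 y h1))) (aeval_P.2 ⟨_, rfl, rfl⟩)

section
variable {V : Type*} [AddCommGroup V] [Module F V] [Fintype V]

theorem sp_of_det {T : End F V} (hV : finrank F V ≤ C.N) (hT : LinearMap.det T ≠ 0) : Sp C.P T := by
  obtain ⟨a, ha⟩ := C.dvd_prod_pow T.charpoly_monic (by rwa [T.charpoly_natDegree]) fun h => hT (by
    rw [LinearMap.det_eq_sign_charpoly_coeff, h, mul_zero])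
  exact ⟨_, by rw [← map_pow, ha, map_mul, T.aeval_self_charpoly, zero_mul]⟩

theorem sp (H : HS F V) (hV : finrank F V ≤ C.N) (g : H.U) : Sp C.P (H.lin g) :=
  C.sp_of_det hV (uni_ne_zero (dtU H g))

end

/-- the power of the polynomial of the orbit of `x` which has degree `n` -/
noncomputable def mp (n : ℕ) (x : Kˣ) : F[X] := C.P (C.cl x) ^ (n / C.deg (C.cl x))

theorem monic_mp (n : ℕ) (x : Kˣ) : (C.mp n x).Monic := (C.monic_P _).pow _

theorem mp_pow (n : ℕ) (x : Kˣ) (i : ℕ) : C.mp n (x ^ C.Q ^ i) = C.mp n x := by rw [mp, mp, OD.mk_pow]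

variable {C}

theorem natDegree_mp {n : ℕ} {x : Kˣ} (h : x ∈ C.XX n) : (C.mp n x).natDegree = n := by
  rw [mp, (C.monic_P _).natDegree_pow, natDegree_P, Nat.div_mul_cancel (OD.mem_XX.1 h)]

theorem map_mp {n : ℕ} {x : Kˣ} (h : x ∈ C.XX n) : (C.mp n x).map (algebraMap F K) =
    ∏ i ∈ range n, (X - Polynomial.C ((x ^ C.Q ^ i : Kˣ) : K)) := by
  obtain ⟨k, rfl⟩ := OD.mem_XX.1 h
  rw [mp, Nat.mul_div_cancel_left _ (OD.deg_pos _), Polynomial.map_pow, map_P,
    OD.prod_range_pow fun y : Kˣ => X - Polynomial.C (y : K)]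

theorem aroots_mp {n : ℕ} {x : Kˣ} (h : x ∈ C.XX n) :
    (C.mp n x).aroots K = (range n).val.map fun i => ((x ^ C.Q ^ i : Kˣ) : K) := by
  rw [aroots_def, map_mp h, ← roots_multiset_prod_X_sub_C (Multiset.map _ (range n).val), Multiset.map_map]
  rfl

theorem aeval_mp {n : ℕ} (h0 : 0 < n) {x : Kˣ} (h : x ∈ C.XX n) {y : K} :
    aeval y (C.mp n x) = 0 ↔ ∃ z : Kˣ, C.cl z = C.cl x ∧ (z : K) = y := by
  rw [mp, map_pow, pow_eq_zero_iff (Nat.div_pos (Nat.le_of_dvd h0 (OD.mem_XX.1 h)) (OD.deg_pos _)).ne',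
    aeval_P]

theorem mp_eq_iff {n : ℕ} (h0 : 0 < n) {x y : Kˣ} (hx : x ∈ C.XX n) (hy : y ∈ C.XX n) :
    C.mp n x = C.mp n y ↔ C.cl x = C.cl y := by
  refine ⟨fun h => ?_, fun h => by rw [mp, mp, h]⟩
  obtain ⟨z, h1, h2⟩ := (aeval_mp h0 hy).1 (h ▸ (aeval_mp h0 hx).2 ⟨x, rfl, rfl⟩)
  rwa [Units.ext h2] at h1

variable (C)

/-- the elements of norm one as elements of the big field -/
noncomputable def uh : unitary F →* C.XS 1 :=
  ((Units.map (algebraMap F K : F →* K)).comp Unitary.toUnits).codRestrict _ fun z => by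
    rw [OD.mem_XS', cX_one, ← map_pow, ← natCard_unitary, pow_card_eq_one', map_one]

theorem uh_val (z : unitary F) : ((C.uh z : Kˣ) : K) = algebraMap F K z := rfl

theorem uh_bij : Function.Bijective C.uh :=
  Function.Injective.bijective_of_nat_card_le (fun z z' h => Subtype.ext ((algebraMap F K).injective (by
    rw [← C.uh_val, h, uh_val]))) (by rw [C.card_XS one_pos C.N_pos, cX_one, natCard_unitary])

/-- the elements of norm one form `XS 1` -/
noncomputable def uE : unitary F ≃* C.XS 1 := MulEquiv.ofBijective C.uh C.uh_bij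

theorem uE_val (z : unitary F) : ((C.uE z : Kˣ) : K) = algebraMap F K z := rfl

section
variable {V : Type*} [AddCommGroup V] [Module F V] [Fintype V] (H : HS F V)

/-- the determinant -/
noncomputable def δ : H.U →* C.XS 1 := C.uh.comp (dtU H)

theorem δ_val (g : H.U) : ((C.δ H g : Kˣ) : K) = algebraMap F K (H.dt g) := rfl

theorem δ_surjective [Nontrivial V] : Function.Surjective (C.δ H) := C.uh_bij.2.comp (dtU_surjective H)

theorem ker_δ : (C.δ H).ker = H.S := by
  rw [δ, ← MonoidHom.comap_ker, (MonoidHom.ker_eq_bot_iff _).2 C.uh_bij.1, MonoidHom.comap_bot, ker_dtU]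

theorem δ_ext {D : Submodule F V} (hD : H.Nd D) (g : (H.sub D hD).U) :
    C.δ H (hD.ext g) = C.δ (H.sub D hD) g := congrArg C.uh (dtU_ext H hD g)

theorem δ_eq_prod (hV : finrank F V ≤ C.N) (g : H.U) :
    ((C.δ H g : Kˣ) : K) = ((H.lin g).charpoly.aroots K).prod := by
  have h := (C.splits' (f := (H.lin g).charpoly) (by rwa [LinearMap.charpoly_natDegree])).coeff_zero_eq_prod_roots_of_monic
    ((H.lin g).charpoly_monic.map _)
  rw [coeff_map, natDegree_map, LinearMap.charpoly_natDegree] at h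
  rw [δ_val, HS.dt_apply, LinearMap.det_eq_sign_charpoly_coeff, map_mul, h, map_pow, map_neg, map_one,
    ← mul_assoc, ← mul_pow]
  simp [aroots_def]

theorem δ_of_charpoly (hV : finrank F V ≤ C.N) {g : H.U} {n : ℕ} {x : Kˣ} (hx : x ∈ C.XX n)
    (h : (H.lin g).charpoly = C.mp n x) : C.δ H g = ⟨C.nm n x, C.nm_mem hx⟩ := by
  refine Subtype.ext (Units.ext ?_)
  rw [C.δ_eq_prod H hV, h, aroots_mp hx]
  change _ = ((C.nm n x : Kˣ) : K)
  rw [OD.nm_eq, Units.coe_prod]
  rfl

end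

theorem realise_eqns : True := by
  have := @P.eq_1.{0}
  have := @mp.eq_1.{0}
  have := @uh.eq_1.{0}
  have := @uE.eq_1.{0}
  have := @δ.eq_1.{0, 0}
  trivial

end UC

variable (F) in
theorem exists_UC (N : ℕ) (hN : 0 < N) (p : ℕ) [hp : Fact p.Prime] (h : p ≠ ringChar F)
    (M : Ideal AlgInt) (hM : IsPModular p M) : ∃ (K : Type) (_ : Field K) (_ : Fintype K)
      (_ : Algebra F K) (C : UC F K), C.N = N ∧ C.p = p ∧ C.M = M := by
  have : Fact (ringChar F).Prime := ⟨CharP.prime_ringChar F⟩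
  have : NeZero N.factorial := ⟨N.factorial_ne_zero⟩
  let K := FiniteField.Extension F (ringChar F) N.factorial
  let _ : Fintype K := Fintype.ofFinite K
  obtain ⟨g, hg⟩ := IsCyclic.exists_generator (α := Kˣ)
  obtain ⟨ω, hω⟩ := CT.exists_injective_units_hom (G := Kˣ)
  have h1 : finrank F K = N.factorial := FiniteField.finrank_extension ..
  have h2 := two_le_qq F
  have h3 : Fintype.card Kˣ = qq F ^ (2 * N.factorial) - 1 := by
    rw [Fintype.card_units, Module.card_eq_pow_finrank (K := F), h1, card_F, pow_mul]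
  have h4 : 0 < Fintype.card Kˣ := Fintype.card_pos
  refine ⟨K, inferInstance, inferInstance, inferInstance,
    { t := -(qq F : ℤ), two_le := by simpa using h2, Q := qq F * (2 * Fintype.card Kˣ - 1)
      one_lt := lt_of_lt_of_le h2 (Nat.le_mul_of_pos_right _ (by omega))
      L := 2 * N.factorial, L_pos := by have := N.factorial_pos; omega
      card_eq := ?_, cong := ?_, N := N, N_pos := hN
      big := fun d h0 hd => (Nat.dvd_factorial h0 hd).mul_left 2
      g := g, gen := hg, ω := ω, ω_inj := hω, p := p, hp := hp.out, p_ne := fun e => h ?_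
      t_eq := rfl, bigF := fun d h0 hd => (Nat.dvd_factorial h0 hd).trans h1.symm.dvd, M := M, hM := hM }, rfl, rfl, rfl⟩
  · have := Nat.one_le_pow (2 * N.factorial) _ (qq_pos F)
    rw [h3, Even.neg_pow (even_two_mul _), ← Nat.cast_pow]
    omega
  · rw [Nat.cast_mul, Nat.cast_sub (by omega)]
    exact (Int.modEq_iff_dvd.2 ⟨-2 * qq F, by push_cast; ring⟩)
  · obtain ⟨k, h5, h6⟩ := FiniteField.card F (ringChar F)
    rw [dvd_neg, Int.natCast_dvd_natCast] at e
    exact (Nat.prime_dvd_prime_iff_eq hp.out h5).1 (hp.out.dvd_of_dvd_pow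
      (h6 ▸ card_F F ▸ e.trans (dvd_pow_self _ two_ne_zero)))

end GUH
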