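import Cfsg.Agent.Lib.GU.Lab
import Cfsg.Agent.Lib.GU.OrbF
import Cfsg.Agent.Lib.GL.Main

/-!
# S4537: assembly
-/

set_option autoImplicit false
set_option linter.unusedSectionVars false

namespace GUH

open Finset Cfsg GT SFock GLH CT UW Module
open scoped Classical Pointwise

universe u

section One
variable {Γ : Type} [CommGroup Γ] [Fintype Γ] {A : Type u} [CommRing A] [Algebra ℂ A]
  {G : Type*} [Group G] [Finite G]

/-- the lower bounds for the sectional rank -/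
structure OD.SB (D : OD Γ) (Λ₀ : D.Th → Finset ℕ) (s : ℕ) : Prop where
  s1 : D.W Λ₀ ≤ s + 1
  s2 : ¬ D.p ∣ D.cX 1 → D.W Λ₀ ≤ s
  s3 : D.p = 2 → (∀ θ, Even (sz D.N (Λ₀ θ))) → D.W Λ₀ ≤ s
  s4 : D.p = 2 → 4 ∣ D.cX 1 → (∀ θ, 4 ∣ sz D.N (Λ₀ θ)) → D.W Λ₀ = 4 → 5 ≤ s

/-- the count -/
def OD.Cnt (D : OD Γ) (n : ℕ) : Prop := ∀ Λ₀ s, D.Lab n Λ₀ → D.PLab Λ₀ → 2 ≤ s → D.SB Λ₀ s →
  ∃ (m₀ : D.XS 1) (P : ℕ), D.Good Λ₀ m₀ ∧ (∀ (z : D.XS 1) Λ, IsPElt D.p z → D.Lab n Λ → D.Cls Λ Λ₀ →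
    (∀ θ, Λ (D.act z θ) = Λ θ) → orderOf z ≤ P) ∧
    P * ∑ z : D.XS 1 with IsPRegular D.p z, Nat.card {Λ // D.Lab n Λ ∧ D.PLab Λ ∧ D.Cls Λ Λ₀ ∧
      ∀ θ, Λ (D.act z θ) = Λ θ} ≤ orderOf m₀ * D.p ^ s

/-- the bounds hold for the defect groups -/
def DefB (D : OD Γ) (M : Ideal AlgInt) (π : D.Th → ℕ → A) (n : ℕ) (δ : G →* D.XS 1)
    (ch : A →ₗ[ℂ] G → ℂ) : Prop :=
  ∀ (Λ₀ : D.Th → Finset ℕ) (B₀ : Set (IrrCharacter G)) (χ : IrrCharacter G) (P : Subgroup G) (s : ℕ),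
    D.Lab n Λ₀ → D.PLab Λ₀ → IsPBlock M B₀ → χ ∈ B₀ → IsL D.N π ch χ Λ₀ →
    IsDefectGroup D.p M B₀ P → SectionalPRankLE D.p s ↥(P ⊓ δ.ker) → D.SB Λ₀ s

/-- the local theorem -/
def LocB (D : OD Γ) (M : Ideal AlgInt) (π : D.Th → ℕ → A) (n : ℕ) (δ : G →* D.XS 1)
    (ch : A →ₗ[ℂ] G → ℂ) : Prop :=
  ∀ (Λ₀ : D.Th → Finset ℕ) (B₀ : Set (IrrCharacter G)) (χ : IrrCharacter G) (m₀ : D.XS 1),
    D.Lab n Λ₀ → D.PLab Λ₀ → IsPBlock M B₀ → χ ∈ B₀ → IsL D.N π ch χ Λ₀ → D.Good Λ₀ m₀ →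
    ∀ b₀ : Set (IrrCharacter ((D.mu m₀).comp δ).ker), IsPBlock M b₀ →
      BT.Covers ((D.mu m₀).comp δ).ker B₀ b₀ → ∀ g : G, g • b₀ = b₀ → g ∈ ((D.mu m₀).comp δ).ker

theorem mainA_realise_eqns : True := by
  have := @OD.Cnt.eq_1
  have := @DefB.eq_1.{0, 0}
  have := @LocB.eq_1.{0, 0}
  trivial

variable {D : OD Γ} {M : Ideal AlgInt} {S : PSH A} {π : D.Th → ℕ → A} {T : A →ₐ[ℂ] A} {n : ℕ}
  {δ : G →* D.XS 1} {ch : A →ₗ[ℂ] G → ℂ}

theorem orderOf_le_index (hδ : Function.Surjective δ) (m : D.XS 1) :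
    orderOf m ≤ ((D.mu m).comp δ).ker.index := by
  rw [← D.orderOf_mu]
  refine Nat.le_of_dvd (Nat.pos_of_ne_zero Subgroup.index_ne_zero_of_finite)
    (orderOf_dvd_of_pow_eq_one (MonoidHom.ext fun c => ?_))
  obtain ⟨g, rfl⟩ := hδ c
  have := ((D.mu m).comp δ).ker.pow_index_mem g
  rwa [MonoidHom.mem_ker, map_pow] at this

theorem LD.rank_le (L : LD D M S π T n δ ch) (hδ : Function.Surjective δ) (hc : D.Cnt n)
    (hd : DefB D M π n δ ch) (hl : LocB D M π n δ ch) {b : Set (IrrCharacter δ.ker)}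
    (hb : IsPBlock M b) {Q : Subgroup δ.ker} (hQ : IsDefectGroup D.p M b Q) {s : ℕ}
    (hs : SectionalPRankLE D.p s Q) : blockRank D.p b ≤ D.p ^ s := by
  rcases le_or_gt s 1 with h1 | h1
  · exact rank_le_of_le_one L.hM hb hQ hs h1
  have := Fintype.ofFinite G
  obtain ⟨θ, hθ⟩ := BT.block_nonempty L.hM hb
  obtain ⟨χ, hχ⟩ := CT.exists_irr_liesOver θ
  have hB := BT.isPBlock_blockOf (M := M) χ
  have hcov : BT.Covers δ.ker (blockOf M χ.1) b := ⟨χ, BT.mem_blockOf_self L.hM χ, θ, hθ, hχ⟩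
  obtain ⟨P, hP, e⟩ := Cfsg.Agent.S4438.result D.p M L.hM δ.ker b hb (Q.map δ.ker.subtype)
    (Subgroup.map_subtype_le Q) (by rwa [Subgroup.subgroupOf,
      Subgroup.comap_map_eq_self_of_injective δ.ker.subtype_injective]) _ hB
    ((BT.covers_iff_classInner _ _ _).1 hcov)
  obtain ⟨Λ, a1, a2, χ', a3, a4⟩ := L.exists_pl hB
  have hs' : SectionalPRankLE D.p s ↥(P ⊓ δ.ker) := by
    rw [e]
    exact sectional_of_injective
      (Q.equivMapOfInjective _ δ.ker.subtype_injective).symm.toMonoidHom (MulEquiv.injective _) hs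
  obtain ⟨m₀, R, c1, c2, c3⟩ := hc Λ s a1 a2 h1 (hd Λ _ χ' P s a1 a2 hB a3 a4 hP hs')
  have key := index_mul_rank_le_ker_mid L.hM δ hδ hB (L.block_sub hB a1 a3 a4) hb hcov
    (N₀ := ((D.mu m₀).comp δ).ker) (fun g hg => by
      rw [MonoidHom.mem_ker] at hg ⊢
      rw [MonoidHom.comp_apply, hg, map_one])
    (hl Λ _ χ' m₀ a1 a2 hB a3 a4 c1) L.XL_span L.BL_closed R (L.XL_order c2) _ LD.mem_regChars
  rw [sum_image fun a _ c _ h => D.mu_inj h] at key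
  refine Nat.le_of_mul_le_mul_left ?_ (orderOf_pos m₀)
  refine (Nat.mul_le_mul_right _ (orderOf_le_index hδ m₀)).trans (key.trans (le_trans ?_ c3))
  exact Nat.mul_le_mul_left _ (sum_le_sum fun z _ => L.card_fix_le z _ fun ψ h => ⟨h.1, h.2.2⟩)

end One

/-- what has to be shown for one hermitian space -/
def Goal {F : Type u} [Field F] [Fintype F] [StarRing F] [HF F] {K : Type} [Field K] [Fintype K]
    [Algebra F K] (C : UC F K) {V : Type u} [AddCommGroup V] [Module F V] [Fintype V]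
    (H : HS F V) : Prop :=
  ∃ (A : Type) (_ : CommRing A) (_ : Algebra ℂ A) (S : PSH A) (π : C.Th → ℕ → A) (T : A →ₐ[ℂ] A)
    (ch : A →ₗ[ℂ] H.U → ℂ), LD C.toOD C.M S π T (finrank F V) (C.δ H) ch ∧ C.Cnt (finrank F V) ∧
      DefB C.toOD C.M π (finrank F V) (C.δ H) ch ∧ LocB C.toOD C.M π (finrank F V) (C.δ H) ch

theorem goal_realise_eqns : True := by
  have := @Goal.eq_1.{0}
  trivial

theorem rank_le_SU {F : Type u} [Field F] [Fintype F] (q n : ℕ) (hF : Fintype.card F = q ^ 2)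
    (hn : 0 < n)
    (hG : ∀ [StarRing F] [HF F] (K : Type) [Field K] [Fintype K] [Algebra F K] (C : UC F K)
      (H : HS F (Fin n → F)), C.N = n → Goal C H)
    (p : ℕ) [Fact p.Prime] (hp : p ≠ ringChar F) (M : Ideal AlgInt) (hM : IsPModular p M)
    (B : Set (IrrCharacter (SU n F q))) (hB : IsPBlock M B) (D : Subgroup (SU n F q))
    (hD : IsDefectGroup p M B D) (s : ℕ) (hs : SectionalPRankLE p s D) :
    blockRank p B ≤ p ^ s := by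
  obtain ⟨_, _, h1, -⟩ := exists_star hF
  obtain ⟨H, ⟨e₀⟩⟩ := exists_SU_equiv n q F h1
  obtain ⟨K, _, _, _, C, h2, rfl, rfl⟩ := exists_UC F n hn p hp M hM
  obtain ⟨A, _, _, S, π, T, ch, L, hc, hd, hl⟩ := hG K C H h2
  have : Nonempty (Fin n) := ⟨⟨0, hn⟩⟩
  let e : SU n F q ≃* (C.δ H).ker := e₀.trans (MulEquiv.subgroupCongr (C.ker_δ H).symm)
  rw [← BT.blockRank_mapSet e]
  exact L.rank_le (C.δ_surjective H) hc hd hl (BT.isPBlock_mapSet _ hB)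
    (BT.isDefectGroup_mapSet _ hD)
    (sectional_of_injective (D.equivMapOfInjective _ e.injective).symm.toMonoidHom
      (MulEquiv.injective _) hs)

end GUH
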