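import Cfsg.Agent.Lib.GL.BaseL
import Mathlib.GroupTheory.FiniteAbelian.Duality
import Mathlib.NumberTheory.Basic

/-!
# S4537: orbits of `x ↦ x ^ t` on a cyclic group of order `|t ^ L - 1|`

For the unitary groups `Γ = Kˣ`, `t = -q`. The natural number `Q ≡ t` modulo `|Γ|` is the exponent
that is used in the definitions.
-/

set_option autoImplicit false
set_option linter.unusedSectionVars false

namespace GUH

open Finset Cfsg GT SFock GLH
open scoped Classical ComplexConjugate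

/-- the orbit data -/
structure OD (Γ : Type) [CommGroup Γ] [Fintype Γ] where
  /-- `-q` -/
  t : ℤ
  two_le : 2 ≤ t.natAbs
  /-- a natural number congruent to `t` -/
  Q : ℕ
  one_lt : 1 < Q
  /-- the degree of the big field -/
  L : ℕ
  L_pos : 0 < L
  card_eq : Fintype.card Γ = (t ^ L - 1).natAbs
  cong : (Q : ℤ) ≡ t [ZMOD Fintype.card Γ]
  /-- bound for the degrees and number of beads -/
  N : ℕ
  N_pos : 0 < N
  big : ∀ d, 0 < d → d ≤ N → d ∣ L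
  /-- generator -/
  g : Γ
  gen : ∀ x, x ∈ Subgroup.zpowers g
  /-- faithful character -/
  ω : Γ →* ℂˣ
  ω_inj : Function.Injective ω
  /-- the prime -/
  p : ℕ
  hp : p.Prime
  p_ne : ¬ (p : ℤ) ∣ t

namespace OD

variable {Γ : Type} [CommGroup Γ] [Fintype Γ] (D : OD Γ)

instance fact_prime : Fact D.p.Prime := ⟨D.hp⟩

/-- the fixed points of the `n`-th power of Frobenius -/
def XS (n : ℕ) : Subgroup Γ where
  carrier := {x | x ^ D.Q ^ n = x}
  one_mem' := one_pow _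
  mul_mem' := fun {a b} ha hb => by
    change (a * b) ^ _ = _
    rw [mul_pow, show a ^ _ = a from ha, show b ^ _ = b from hb]
  inv_mem' := fun {a} ha => by
    change a⁻¹ ^ _ = _
    rw [inv_pow, show a ^ _ = a from ha]

/-- the same as a finset -/
noncomputable def XX (n : ℕ) : Finset Γ := univ.filter fun x => x ^ D.Q ^ n = x

/-- the order of `XS n` -/
def cX (n : ℕ) : ℕ := (D.t ^ n - 1).natAbs

/-- generator of `XS n` -/
def γ (n : ℕ) : Γ := D.g ^ ∑ i ∈ range (D.L / n), D.Q ^ (n * i)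

/-- discrete logarithm -/
noncomputable def dl (n : ℕ) (ξ : Γ) : ℕ := if h : ∃ a : ℕ, D.γ n ^ a = ξ then Nat.find h else 0

/-- the pairing on `XX n` -/
noncomputable def pr (n : ℕ) (ξ x : Γ) : ℂ := (D.ω x ^ D.dl n ξ : ℂˣ)

/-- the norm `XS n → XS 1` -/
def nm (n : ℕ) (x : Γ) : Γ := x ^ ∑ i ∈ range n, D.Q ^ i

/-- the character of `XS 1` attached to `m` -/
noncomputable def mu (m : D.XS 1) : D.XS 1 →* ℂˣ := (D.ω.comp (D.XS 1).subtype) ^ D.dl 1 m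

/-- the orbit relation -/
def rel (ξ η : Γ) : Prop := ∃ i : ℕ, η = ξ ^ D.Q ^ i

/-- the orbits -/
def Th : Type := Quot D.rel

/-- the orbit of `ξ` -/
def cl (ξ : Γ) : D.Th := Quot.mk _ ξ

/-- a representative -/
noncomputable def rep (θ : D.Th) : Γ := Quot.out θ

noncomputable instance instFintypeTh : Fintype D.Th := @Fintype.ofFinite _ (Quot.finite _)

/-- the orbit as a finset -/
noncomputable def orb (θ : D.Th) : Finset Γ := univ.filter fun ξ => D.cl ξ = θ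

/-- the length of an orbit -/
noncomputable def deg (θ : D.Th) : ℕ := (D.orb θ).card

/-- the orbit of the `p'`-part -/
noncomputable def par (θ : D.Th) : D.Th := D.cl (pRegPart D.p (D.rep θ))

/-- the relative degree -/
noncomputable def rho (θ : D.Th) : ℕ := D.deg θ / D.deg (D.par θ)

/-- the hook length of an orbit -/
noncomputable def ee (θ : D.Th) : ℕ := orderOf ((D.t : ZMod D.p) ^ D.deg θ)

/-- multiplication by an element of `XS 1` -/
noncomputable def act (z : D.XS 1) (θ : D.Th) : D.Th := D.cl (z * D.rep θ)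

/-- labels of degree `n` -/
abbrev Lab (n : ℕ) (Λ : D.Th → Finset ℕ) : Prop := ALab D.N D.deg n Λ

/-- `p'`-labels -/
abbrev PLab (Λ : D.Th → Finset ℕ) : Prop := PL D.N D.par Λ

/-- same class of labels -/
abbrev Cls (Λ Λ' : D.Th → Finset ℕ) : Prop := SameCls D.N D.par D.rho D.ee Λ Λ'

/-- the weight at `θ` -/
noncomputable abbrev ww (Λ : D.Th → Finset ℕ) (θ : D.Th) : ℕ := wt (D.ee θ) (Λ θ)

/-- the total weight -/
noncomputable def W (Λ : D.Th → Finset ℕ) : ℕ := ∑ θ, D.ww Λ θ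

/-- `m` fixes `Λ` and all orbits over the orbits of positive weight -/
structure Good (Λ : D.Th → Finset ℕ) (m : D.XS 1) : Prop where
  reg : IsPRegular D.p m
  fix : ∀ θ, Λ (D.act m θ) = Λ θ
  loc : ∀ θ, D.ww Λ (D.par θ) ≠ 0 → D.act m θ = θ

theorem realise_eqns : True := by
  have := @XS.eq_1
  have := @XX.eq_1
  have := @cX.eq_1
  have := @γ.eq_1
  have := @dl.eq_1
  have := @pr.eq_1
  have := @nm.eq_1
  have := @mu.eq_1
  have := @rel.eq_1
  have := @cl.eq_1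
  have := @rep.eq_1
  have := @orb.eq_1
  have := @deg.eq_1
  have := @par.eq_1
  have := @rho.eq_1
  have := @ee.eq_1
  have := @act.eq_1
  have := @W.eq_1
  trivial

theorem mk_rep (θ : D.Th) : D.cl (D.rep θ) = θ := Quot.out_eq θ

variable {D}

theorem ind {P : D.Th → Prop} (h : ∀ ξ, P (D.cl ξ)) (θ : D.Th) : P θ := D.mk_rep θ ▸ h _

theorem mem_XS {n : ℕ} {x : Γ} : x ∈ D.XS n ↔ x ^ D.Q ^ n = x := Iff.rfl

theorem mem_XX' {n : ℕ} {x : Γ} : x ∈ D.XX n ↔ x ^ D.Q ^ n = x := by simp [XX]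

theorem mem_XX_iff {n : ℕ} {x : Γ} : x ∈ D.XX n ↔ x ∈ D.XS n := mem_XX'

theorem mem_orb {θ : D.Th} {x : Γ} : x ∈ D.orb θ ↔ D.cl x = θ := by simp [orb]

variable (D)

theorem pow_Q (x : Γ) (n : ℕ) : x ^ D.Q ^ n = x ^ D.t ^ n := by
  rw [← zpow_natCast, zpow_eq_zpow_iff_modEq, Nat.cast_pow]
  exact (D.cong.pow n).of_dvd (Int.natCast_dvd_natCast.2 orderOf_dvd_card)

theorem cX_pos {n : ℕ} (h : 0 < n) : 0 < D.cX n := by
  refine Int.natAbs_pos.2 (sub_ne_zero.2 fun e => ?_)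
  have h1 := congrArg Int.natAbs e
  rw [Int.natAbs_pow, Int.natAbs_one] at h1
  exact (Nat.one_lt_pow h.ne' D.two_le).ne' h1

theorem cX_cast (n : ℕ) : ((D.cX n : ℕ) : ℤ) = |D.t ^ n - 1| := Int.natCast_natAbs _

theorem cX_dvd {m n : ℕ} (h : m ∣ n) : D.cX m ∣ D.cX n := by
  obtain ⟨k, rfl⟩ := h
  refine Int.natAbs_dvd_natAbs.2 ?_
  simpa [pow_mul] using sub_dvd_pow_sub_pow (D.t ^ m) 1 k

variable {D}

theorem mem_XS' {n : ℕ} {x : Γ} : x ∈ D.XS n ↔ x ^ D.cX n = 1 := by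
  rw [mem_XS, pow_Q, ← orderOf_dvd_iff_pow_eq_one, cX, ← Int.natCast_dvd, orderOf_dvd_iff_zpow_eq_one,
    zpow_sub, zpow_one, mul_inv_eq_one]

theorem mem_XX'' {n : ℕ} {x : Γ} : x ∈ D.XX n ↔ x ^ D.cX n = 1 := mem_XX_iff.trans mem_XS'

variable (D)

theorem pow_L (x : Γ) : x ^ D.Q ^ D.L = x :=
  mem_XS'.2 (by rw [cX, ← D.card_eq, pow_card_eq_one])

variable {D}

theorem XS_mono {m n : ℕ} (h : m ∣ n) : D.XS m ≤ D.XS n := fun x hx => by
  obtain ⟨k, hk⟩ := D.cX_dvd h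
  rw [mem_XS', hk, pow_mul, mem_XS'.1 hx, one_pow]

theorem pow_of_mem {n : ℕ} {x : Γ} (h : x ∈ D.XS n) (i : ℕ) : x ^ D.Q ^ (n * i) = x :=
  XS_mono (dvd_mul_right n i) h

theorem coe_pow_Q (z : D.XS 1) (i : ℕ) : (z : Γ) ^ D.Q ^ i = z := XS_mono (one_dvd i) z.2

variable (D)

theorem pow_back (ξ : Γ) (i : ℕ) : (ξ ^ D.Q ^ i) ^ D.Q ^ ((D.L - 1) * i) = ξ := by
  rw [← pow_mul, ← pow_add, add_comm, ← Nat.succ_mul, Nat.succ_eq_add_one, Nat.sub_add_cancel D.L_pos]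
  exact pow_of_mem (D.pow_L ξ) i

variable {D}

theorem frob_inj {i : ℕ} {ξ η : Γ} (h : ξ ^ D.Q ^ i = η ^ D.Q ^ i) : ξ = η := by
  rw [← D.pow_back ξ i, h, pow_back]

variable (D) in
theorem equiv : Equivalence D.rel where
  refl ξ := ⟨0, by simp⟩
  symm := by
    rintro ξ _ ⟨i, rfl⟩
    exact ⟨_, (D.pow_back ξ i).symm⟩
  trans := by
    rintro ξ _ _ ⟨i, rfl⟩ ⟨k, rfl⟩
    exact ⟨i + k, by rw [pow_add, pow_mul]⟩

theorem mk_eq {ξ η : Γ} : D.cl ξ = D.cl η ↔ ∃ i, η = ξ ^ D.Q ^ i :=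
  Quot.eq.trans D.equiv.eqvGen_iff

theorem mk_pow (ξ : Γ) (i : ℕ) : D.cl (ξ ^ D.Q ^ i) = D.cl ξ := (mk_eq.2 ⟨i, rfl⟩).symm

theorem rel_rep (ξ : Γ) : ∃ i, D.rep (D.cl ξ) = ξ ^ D.Q ^ i := mk_eq.1 (D.mk_rep _).symm

theorem deg_pos (θ : D.Th) : 0 < D.deg θ := card_pos.2 ⟨D.rep θ, mem_orb.2 (D.mk_rep θ)⟩

theorem iterate_eq (ξ : Γ) (i : ℕ) : (fun x : Γ => x ^ D.Q)^[i] ξ = ξ ^ D.Q ^ i := by
  induction i with
  | zero => simp
  | succ i ih => rw [Function.iterate_succ_apply', ih, pow_succ, pow_mul]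

theorem periodic (ξ : Γ) : ξ ∈ Function.periodicPts fun x : Γ => x ^ D.Q :=
  ⟨D.L, D.L_pos, (iterate_eq ξ _).trans (D.pow_L ξ)⟩

theorem deg_mk (ξ : Γ) : D.deg (D.cl ξ) = Function.minimalPeriod (fun x : Γ => x ^ D.Q) ξ := by
  rw [deg, ← card_range (Function.minimalPeriod _ ξ)]
  refine (card_bij (fun i _ => ξ ^ D.Q ^ i) (fun i _ => mem_orb.2 (mk_pow ξ i))
    (fun i hi j hj e => Function.iterate_injOn_Iio_minimalPeriod (mem_range.1 hi) (mem_range.1 hj)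
      (by simpa only [iterate_eq] using e)) fun η hη => ?_).symm
  obtain ⟨i, rfl⟩ := mk_eq.1 (mem_orb.1 hη).symm
  exact ⟨i % _, mem_range.2 (Nat.mod_lt _ (Function.minimalPeriod_pos_of_mem_periodicPts (periodic ξ))),
    by rw [← iterate_eq, ← iterate_eq, Function.iterate_mod_minimalPeriod_eq]⟩

theorem mem_XS_iff {ξ : Γ} {n : ℕ} : ξ ∈ D.XS n ↔ D.deg (D.cl ξ) ∣ n := by
  rw [deg_mk, ← Function.isPeriodicPt_iff_minimalPeriod_dvd, mem_XS, ← iterate_eq]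
  rfl

theorem mem_XX {ξ : Γ} {n : ℕ} : ξ ∈ D.XX n ↔ D.deg (D.cl ξ) ∣ n := mem_XX_iff.trans mem_XS_iff

theorem rep_mem {θ : D.Th} {n : ℕ} (h : D.deg θ ∣ n) : D.rep θ ∈ D.XX n :=
  mem_XX.2 ((D.mk_rep θ).symm ▸ h)

theorem pow_inj {ξ : Γ} {i j : ℕ} (hi : i < D.deg (D.cl ξ)) (hj : j < D.deg (D.cl ξ))
    (h : ξ ^ D.Q ^ i = ξ ^ D.Q ^ j) : i = j := by
  rw [deg_mk] at hi hj
  exact Function.iterate_injOn_Iio_minimalPeriod hi hj (by simpa only [iterate_eq] using h)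

theorem orb_mk (ξ : Γ) : D.orb (D.cl ξ) = (range (D.deg (D.cl ξ))).image fun i => ξ ^ D.Q ^ i := by
  refine (eq_of_subset_of_card_le (fun η hη => ?_) ?_).symm
  · obtain ⟨i, -, rfl⟩ := mem_image.1 hη
    exact mem_orb.2 (mk_pow ξ i)
  · rw [card_image_of_injOn fun i hi j hj e => pow_inj (mem_range.1 hi) (mem_range.1 hj) e, card_range]
    exact le_rfl

theorem prod_orb {A : Type*} [CommMonoid A] (f : Γ → A) (ξ : Γ) :
    ∏ x ∈ D.orb (D.cl ξ), f x = ∏ i ∈ range (D.deg (D.cl ξ)), f (ξ ^ D.Q ^ i) := by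
  rw [orb_mk, prod_image fun i hi j hj e => pow_inj (mem_range.1 hi) (mem_range.1 hj) e]

theorem prod_range_pow {A : Type*} [CommMonoid A] (f : Γ → A) (ξ : Γ) (k : ℕ) :
    ∏ i ∈ range (D.deg (D.cl ξ) * k), f (ξ ^ D.Q ^ i) = (∏ x ∈ D.orb (D.cl ξ), f x) ^ k := by
  induction k with
  | zero => simp
  | succ k ih =>
    rw [pow_succ, ← ih, Nat.mul_succ, prod_range_add, prod_orb]
    refine congrArg _ (prod_congr rfl fun i _ => ?_)
    rw [pow_add, pow_mul, pow_of_mem (mem_XS_iff.2 dvd_rfl)]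

theorem pow_mem_XX {ξ : Γ} {n : ℕ} (h : ξ ∈ D.XX n) (k : ℕ) : ξ ^ k ∈ D.XX n :=
  mem_XX_iff.2 (pow_mem (mem_XX_iff.1 h) k)

theorem mul_mem_XX {ξ η : Γ} {n : ℕ} (h : ξ ∈ D.XX n) (h' : η ∈ D.XX n) : ξ * η ∈ D.XX n :=
  mem_XX_iff.2 (mul_mem (mem_XX_iff.1 h) (mem_XX_iff.1 h'))

theorem inv_mem_XX {ξ : Γ} {n : ℕ} (h : ξ ∈ D.XX n) : ξ⁻¹ ∈ D.XX n :=
  mem_XX_iff.2 (inv_mem (mem_XX_iff.1 h))

theorem one_mem_XX (n : ℕ) : (1 : Γ) ∈ D.XX n := mem_XX_iff.2 (one_mem _)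

theorem coe_mem_XX (z : D.XS 1) (n : ℕ) : (z : Γ) ∈ D.XX n := mem_XX'.2 (coe_pow_Q z n)

theorem deg_pow_dvd (ξ : Γ) (k : ℕ) : D.deg (D.cl (ξ ^ k)) ∣ D.deg (D.cl ξ) :=
  mem_XX.1 (pow_mem_XX (mem_XX.2 dvd_rfl) k)

theorem deg_dvd_L (θ : D.Th) : D.deg θ ∣ D.L := D.mk_rep θ ▸ mem_XS_iff.1 (D.pow_L _)

variable (D)

include D in
theorem isCyclic : IsCyclic Γ := ⟨D.g, D.gen⟩

theorem orderOf_g : orderOf D.g = D.cX D.L := by
  rw [orderOf_eq_card_of_forall_mem_zpowers D.gen, Nat.card_eq_fintype_card, D.card_eq, cX]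

include D in
theorem card_pow_one {d : ℕ} (h : d ∣ Fintype.card Γ) : (univ.filter fun x : Γ => x ^ d = 1).card = d := by
  have := D.isCyclic
  have := IsCyclic.card_powMonoidHom_ker Γ d
  rw [Nat.card_eq_fintype_card (α := Γ), Nat.gcd_eq_right h] at this
  rw [← Fintype.card_subtype, ← Nat.card_eq_fintype_card]
  exact this

include D in
theorem exists_pow {e x : Γ} (h : x ^ orderOf e = 1) : ∃ j : ℕ, e ^ j = x := by
  have h1 : (univ.filter (· ∈ Subgroup.zpowers e)) = univ.filter fun x : Γ => x ^ orderOf e = 1 := by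
    refine eq_of_subset_of_card_le (fun y hy => ?_) ?_
    · obtain ⟨k, rfl⟩ := (mem_filter.1 hy).2
      rw [mem_filter_univ, ← zpow_natCast, ← zpow_mul, mul_comm, zpow_mul, zpow_natCast,
        pow_orderOf_eq_one, one_zpow]
    · rw [D.card_pow_one orderOf_dvd_card, ← Nat.card_zpowers, Nat.card_eq_fintype_card,
        Fintype.card_subtype]
  exact mem_powers_iff_mem_zpowers.2 (mem_filter.1 (h1.ge (mem_filter.2 ⟨mem_univ _, h⟩))).2

section
variable {n : ℕ} (hL : n ∣ D.L)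
include hL

theorem card_XX' : (D.XX n).card = D.cX n := by
  rw [← D.card_pow_one (d := D.cX n) (D.card_eq ▸ D.cX_dvd hL)]
  exact congrArg _ (Finset.ext fun x => by simp [mem_XX''])

theorem orderOf_γ' : orderOf (D.γ n) = D.cX n := by
  obtain ⟨k, hk⟩ := hL
  have h0 : 0 < n := Nat.pos_of_mul_pos_right (hk ▸ D.L_pos)
  have h1 : (∑ i ∈ range k, (D.t ^ n) ^ i).natAbs * D.cX n = D.cX D.L := by
    rw [cX, ← Int.natAbs_mul, geom_sum_mul, cX, hk, pow_mul]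
  have h2 : D.γ n = D.g ^ ∑ i ∈ range k, (D.t ^ n) ^ i := by
    rw [γ, hk, Nat.mul_div_cancel_left _ h0, ← zpow_natCast, zpow_eq_zpow_iff_modEq, Nat.cast_sum]
    refine Int.ModEq.sum fun i _ => ?_
    rw [← pow_mul, Nat.cast_pow]
    exact (D.cong.pow _).of_dvd (Int.natCast_dvd_natCast.2 orderOf_dvd_card)
  have h3 : orderOf (D.g ^ ∑ i ∈ range k, (D.t ^ n) ^ i) =
      orderOf (D.g ^ (∑ i ∈ range k, (D.t ^ n) ^ i).natAbs) := by
    rcases Int.natAbs_eq (∑ i ∈ range k, (D.t ^ n) ^ i) with h | h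
    · conv_lhs => rw [h, zpow_natCast]
    · conv_lhs => rw [h, zpow_neg, orderOf_inv, zpow_natCast]
  have h4 : 0 < (∑ i ∈ range k, (D.t ^ n) ^ i).natAbs :=
    Nat.pos_of_mul_pos_right (h1 ▸ D.cX_pos D.L_pos)
  rw [h2, h3, orderOf_pow' _ h4.ne', orderOf_g, ← h1, Nat.gcd_mul_right_left,
    Nat.mul_div_cancel_left _ h4]

end

variable {n : ℕ} (h0 : 0 < n) (hn : n ≤ D.N)
include h0 hn

theorem card_XX : (D.XX n).card = D.cX n := D.card_XX' (D.big n h0 hn)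

theorem card_XS : Nat.card (D.XS n) = D.cX n := by
  rw [← D.card_XX h0 hn, Nat.card_eq_fintype_card, Fintype.card_subtype]
  rfl

theorem orderOf_γ : orderOf (D.γ n) = D.cX n := D.orderOf_γ' (D.big n h0 hn)

theorem γ_mem : D.γ n ∈ D.XX n := mem_XX''.2 (D.orderOf_γ h0 hn ▸ pow_orderOf_eq_one _)

theorem γ_dl {ξ : Γ} (h : ξ ∈ D.XX n) : D.γ n ^ D.dl n ξ = ξ := by
  have h1 := D.exists_pow (e := D.γ n) (D.orderOf_γ h0 hn ▸ mem_XX''.1 h)
  rw [dl, dif_pos h1]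
  exact Nat.find_spec h1

theorem pr_γ_pow (a : ℕ) {x : Γ} (h : x ∈ D.XX n) : D.pr n (D.γ n ^ a) x = (D.ω x : ℂ) ^ a := by
  rw [pr, ← Units.val_pow_eq_pow_val, ← map_pow, ← map_pow,
    pow_eq_pow_iff_modEq.2 ((pow_eq_pow_iff_modEq.1 (D.γ_dl h0 hn (pow_mem_XX (D.γ_mem h0 hn) a))).of_dvd
      (orderOf_dvd_of_pow_eq_one (D.orderOf_γ h0 hn ▸ mem_XX''.1 h)))]

theorem pr_comm {ξ x : Γ} (h : ξ ∈ D.XX n) (h' : x ∈ D.XX n) : D.pr n ξ x = D.pr n x ξ := by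
  rw [← D.γ_dl h0 hn h, ← D.γ_dl h0 hn h']
  simp only [D.pr_γ_pow h0 hn _ (pow_mem_XX (D.γ_mem h0 hn) _), map_pow, Units.val_pow_eq_pow_val]
  exact pow_right_comm ..

theorem pr_γ {ξ : Γ} (h : ξ ∈ D.XX n) : D.pr n ξ (D.γ n) = D.ω ξ := by
  rw [D.pr_comm h0 hn h (D.γ_mem h0 hn), ← pow_one (D.γ n), D.pr_γ_pow h0 hn 1 h, pow_one]

omit h0 hn in
theorem pr_mul_right (ξ x y : Γ) : D.pr n ξ (x * y) = D.pr n ξ x * D.pr n ξ y := by
  simp only [pr, map_mul, mul_pow, Units.val_mul]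

omit h0 hn in
theorem pr_pow_right (ξ x : Γ) (k : ℕ) : D.pr n ξ (x ^ k) = D.pr n ξ x ^ k := by
  simp only [pr, map_pow, Units.val_pow_eq_pow_val]
  exact pow_right_comm ..

theorem pr_mul_left {ξ η x : Γ} (h : ξ ∈ D.XX n) (h' : η ∈ D.XX n) (hx : x ∈ D.XX n) :
    D.pr n (ξ * η) x = D.pr n ξ x * D.pr n η x := by
  rw [D.pr_comm h0 hn (mul_mem_XX h h') hx, pr_mul_right, D.pr_comm h0 hn hx h, D.pr_comm h0 hn hx h']

theorem pr_pow {ξ x : Γ} (h : ξ ∈ D.XX n) (hx : x ∈ D.XX n) (k : ℕ) :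
    D.pr n (ξ ^ k) x = D.pr n ξ (x ^ k) := by
  rw [D.pr_comm h0 hn (pow_mem_XX h k) hx, pr_pow_right, pr_pow_right, D.pr_comm h0 hn hx h]

omit h0 hn in
theorem pr_mul_conj (ξ x : Γ) : D.pr n ξ x * conj (D.pr n ξ x) = 1 := by
  rw [Complex.mul_conj', Complex.norm_eq_one_of_pow_eq_one (n := orderOf x) (by
    rw [pr, ← Units.val_pow_eq_pow_val, pow_right_comm, ← map_pow, pow_orderOf_eq_one]
    simp) (orderOf_pos x).ne']
  simp

theorem sum_pr {ξ η : Γ} (h : ξ ∈ D.XX n) (h' : η ∈ D.XX n) :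
    ∑ x ∈ D.XX n, D.pr n ξ x * conj (D.pr n η x) = if ξ = η then (D.cX n : ℂ) else 0 := by
  split_ifs with e
  · simp [e, pr_mul_conj, D.card_XX h0 hn]
  refine (mul_left_eq_self₀ (a := D.pr n ξ (D.γ n) * conj (D.pr n η (D.γ n)))).1 ?_
    |>.resolve_left fun e' => e (D.ω_inj (Units.ext ?_))
  · rw [mul_sum]
    refine sum_bij (fun x _ => D.γ n * x) (fun x hx => mul_mem_XX (D.γ_mem h0 hn) hx)
      (fun _ _ _ _ => mul_left_cancel)
      (fun y hy => ⟨(D.γ n)⁻¹ * y, mul_mem_XX (inv_mem_XX (D.γ_mem h0 hn)) hy, by simp⟩) fun x _ => ?_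
    simp only [pr, map_mul, mul_pow, Units.val_mul]
    ring
  · rw [← D.pr_γ h0 hn h, ← D.pr_γ h0 hn h']
    linear_combination D.pr n η (D.γ n) * e' - D.pr n ξ (D.γ n) * D.pr_mul_conj η (D.γ n)

omit h0 hn

theorem γ_pow {m k : ℕ} (hm : 0 < m) (hk : 0 < k) (h : m * k ≤ D.N) :
    D.γ (m * k) ^ (∑ i ∈ range k, D.Q ^ (m * i)) = D.γ m := by
  obtain ⟨c, hc⟩ := D.big _ (Nat.mul_pos hm hk) h
  rw [γ, γ, ← pow_mul, hc, Nat.mul_div_cancel_left _ (Nat.mul_pos hm hk), mul_assoc,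
    Nat.mul_div_cancel_left _ hm]
  congr 1
  clear hc
  induction c with
  | zero => simp
  | succ c ih =>
    rw [sum_range_succ, add_mul, ih, Nat.mul_succ, sum_range_add, mul_sum]
    refine congrArg _ (sum_congr rfl fun i _ => ?_)
    rw [← pow_add, mul_add, mul_assoc]

theorem nm_eq (n : ℕ) (x : Γ) : D.nm n x = ∏ i ∈ range n, x ^ D.Q ^ i := (prod_pow_eq_pow_sum ..).symm

theorem nm_mem {n : ℕ} {x : Γ} (h : x ∈ D.XX n) : D.nm n x ∈ D.XS 1 := by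
  have := geom_sum_succ (x := D.Q) (n := n)
  rw [geom_sum_succ'] at this
  rw [mem_XS, pow_one, nm, ← pow_mul, ← mul_left_inj x, ← pow_succ, mul_comm, ← this, pow_add,
    mem_XX'.1 h, mul_comm]

theorem mu_apply (m c : D.XS 1) : (D.mu m c : ℂ) = D.pr 1 m c := rfl

theorem mu_apply' (m c : D.XS 1) : D.mu m c = D.ω m ^ D.dl 1 c :=
  Units.ext (D.pr_comm one_pos D.N_pos (coe_mem_XX m 1) (coe_mem_XX c 1))

/-- compatibility of the pairing with the norm -/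
theorem pr_coe {n : ℕ} (h0 : 0 < n) (hn : n ≤ D.N) (z : D.XS 1) {x : Γ} (hx : x ∈ D.XX n) :
    D.pr n z x = D.mu z ⟨D.nm n x, D.nm_mem hx⟩ := by
  have h1 := D.γ_pow one_pos h0 (by rwa [one_mul])
  simp only [one_mul] at h1
  conv_lhs => rw [← D.γ_dl one_pos D.N_pos (coe_mem_XX z 1), ← h1, ← pow_mul, D.pr_γ_pow h0 hn _ hx]
  simp only [mu_apply, pr, nm, map_pow, Units.val_pow_eq_pow_val, pow_mul]

theorem mu_mul (m m' : D.XS 1) : D.mu (m * m') = D.mu m * D.mu m' := MonoidHom.ext fun c => by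
  simp only [MonoidHom.mul_apply, mu_apply', Subgroup.coe_mul, map_mul, mul_pow]

theorem exists_gen : ∃ c : D.XS 1, ∀ m, D.mu m c = D.ω m :=
  ⟨⟨D.γ 1, mem_XX_iff.1 (D.γ_mem one_pos D.N_pos)⟩, fun m =>
    Units.ext (D.pr_γ one_pos D.N_pos (coe_mem_XX m 1))⟩

theorem mu_inj : Function.Injective D.mu := fun m m' h => by
  obtain ⟨c, hc⟩ := D.exists_gen
  exact Subtype.ext (D.ω_inj (by rw [← hc, ← hc, h]))

theorem mu_bij : Function.Bijective D.mu := by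
  have : Finite (D.XS 1 →* ℂˣ) := Nat.finite_of_card_ne_zero (by
    rw [CommGroup.card_monoidHom_of_hasEnoughRootsOfUnity]; exact Nat.card_pos.ne')
  exact D.mu_inj.bijective_of_nat_card_le (CommGroup.card_monoidHom_of_hasEnoughRootsOfUnity ..).le

/-- `mu` as an isomorphism -/
noncomputable def muE : D.XS 1 ≃* (D.XS 1 →* ℂˣ) :=
  MulEquiv.ofBijective (MonoidHom.mk' D.mu D.mu_mul) D.mu_bij

theorem muE_apply (m : D.XS 1) : D.muE m = D.mu m := rfl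

theorem orderOf_mu (m : D.XS 1) : orderOf (D.mu m) = orderOf m :=
  orderOf_injective (MonoidHom.mk' D.mu D.mu_mul) D.mu_inj m

theorem mu_pow (m : D.XS 1) (k : ℕ) : D.mu (m ^ k) = D.mu m ^ k := map_pow D.muE m k

theorem mu_one : D.mu 1 = 1 := map_one D.muE

theorem mu_ker (m₀ m : D.XS 1) : (D.mu m₀).ker ≤ (D.mu m).ker ↔ m ∈ Subgroup.zpowers m₀ := by
  rw [← mem_powers_iff_mem_zpowers]
  refine ⟨fun h => ?_, ?_⟩
  · obtain ⟨c, hc⟩ := D.exists_gen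
    have h1 : ∀ m, D.mu m (c ^ orderOf m₀) = D.ω (m ^ orderOf m₀ : D.XS 1) := fun m => by
      rw [map_pow, hc, Subgroup.coe_pow, map_pow]
    have h2 := (h1 m).symm.trans (h ((h1 m₀).trans (by simp)))
    obtain ⟨j, hj⟩ := D.exists_pow (e := m₀) (x := m) (by
      rw [Subgroup.orderOf_coe]; exact D.ω_inj (h2.trans (map_one _).symm))
    exact ⟨j, Subtype.ext hj⟩
  · rintro ⟨k, rfl⟩ x hx
    rw [MonoidHom.mem_ker, mu_pow, MonoidHom.pow_apply, hx, one_pow]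

instance isCyclic_XS (n : ℕ) : IsCyclic (D.XS n) :=
  have := D.isCyclic
  inferInstance

variable {D}

theorem act_mk (z : D.XS 1) (ξ : Γ) : D.act z (D.cl ξ) = D.cl (z * ξ) := by
  obtain ⟨i, h⟩ := rel_rep (D := D) ξ
  exact (mk_eq.2 ⟨i, by rw [h, mul_pow, coe_pow_Q]⟩).symm

theorem act_act (z z' : D.XS 1) (θ : D.Th) : D.act z (D.act z' θ) = D.act (z * z') θ := by
  induction θ using ind with | _ ξ =>
  rw [act_mk, act_mk, act_mk, Subgroup.coe_mul, mul_assoc]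

theorem act_one (θ : D.Th) : D.act 1 θ = θ := by
  induction θ using ind with | _ ξ =>
  rw [act_mk, Subgroup.coe_one, one_mul]

/-- `act z` as a permutation -/
noncomputable def actE (z : D.XS 1) : D.Th ≃ D.Th where
  toFun := D.act z
  invFun := D.act z⁻¹
  left_inv O := by rw [act_act, inv_mul_cancel, act_one]
  right_inv O := by rw [act_act, mul_inv_cancel, act_one]

variable (D) in
/-- the action of `XS 1` on the orbits -/
@[reducible] noncomputable def actMul : MulAction (D.XS 1) D.Th where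
  smul := D.act
  one_smul := act_one
  mul_smul a b O := (act_act a b O).symm

theorem act_zpowers {z m : D.XS 1} (hm : m ∈ Subgroup.zpowers z) {θ : D.Th} (h : D.act z θ = θ) :
    D.act m θ = θ :=
  letI := D.actMul
  (Subgroup.zpowers_le (H := MulAction.stabilizer (D.XS 1) θ)).2 h hm

theorem deg_act (z : D.XS 1) (θ : D.Th) : D.deg (D.act z θ) = D.deg θ := by
  refine (card_bij (fun (η : Γ) _ => (z : Γ) * η) (fun η hη => ?_) (fun _ _ _ _ => mul_left_cancel)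
    fun η hη => ⟨((z⁻¹ : D.XS 1) : Γ) * η, ?_, by simp⟩).symm
  · rw [mem_orb, ← act_mk, mem_orb.1 hη]
  · rw [mem_orb, ← act_mk, mem_orb.1 hη, act_act, inv_mul_cancel, act_one]

theorem ee_act (z : D.XS 1) (θ : D.Th) : D.ee (D.act z θ) = D.ee θ := by rw [ee, ee, deg_act]

theorem lab_act {n : ℕ} (z : D.XS 1) {Λ : D.Th → Finset ℕ} (h : D.Lab n Λ) : D.Lab n (Λ ∘ D.act z) := by
  refine ⟨fun O => h.1 _, ?_⟩
  rw [← h.2, ← Equiv.sum_comp (actE z) fun O => D.deg O * sz D.N (Λ O)]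
  exact sum_congr rfl fun O _ => by rw [← deg_act z O]; rfl

theorem par_mk (ξ : Γ) : D.par (D.cl ξ) = D.cl (pRegPart D.p ξ) := by
  obtain ⟨i, h⟩ := rel_rep (D := D) ξ
  rw [par, h, pRegPart_pow, mk_pow]

theorem par_par (θ : D.Th) : D.par (D.par θ) = D.par θ := by
  induction θ using ind with | _ ξ =>
  rw [par_mk, par_mk, pRegPart_pRegPart]

theorem par_eq_iff {ξ : Γ} : D.par (D.cl ξ) = D.cl ξ ↔ IsPRegular D.p ξ := by
  rw [par_mk]
  refine ⟨fun h => ?_, fun h => by rw [h.pRegPart_eq]⟩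
  obtain ⟨i, e⟩ := mk_eq.1 h
  rw [e]
  exact (isPRegular_pRegPart D.p ξ).pow _

theorem reg_rep {θ : D.Th} (h : D.par θ = θ) : IsPRegular D.p (D.rep θ) :=
  par_eq_iff.1 (by rwa [mk_rep])

theorem deg_eq (θ : D.Th) : D.deg θ = D.rho θ * D.deg (D.par θ) := by
  induction θ using ind with | _ ξ =>
  obtain ⟨k, hk⟩ := exists_pRegPart_eq_pow D.p ξ
  refine (Nat.div_mul_cancel ?_).symm
  rw [par_mk, hk]
  exact deg_pow_dvd _ k

theorem rho_pos (θ : D.Th) : 0 < D.rho θ := Nat.pos_of_mul_pos_right (deg_eq θ ▸ deg_pos θ)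

theorem rho_of_par {θ : D.Th} (h : D.par θ = θ) : D.rho θ = 1 := by
  rw [rho, h, Nat.div_self (deg_pos θ)]

theorem par_act (z : D.XS 1) (θ : D.Th) : D.par (D.act z θ) = D.act (pRegPart D.p z) (D.par θ) := by
  induction θ using ind with | _ ξ =>
  rw [act_mk, par_mk, par_mk, act_mk, pRegPart_mul (Commute.all _ _)]
  exact congrArg (fun x => D.cl (x * _)) (map_pRegPart (D.XS 1).subtype z).symm

theorem par_act_reg {z : D.XS 1} (hz : IsPRegular D.p z) (θ : D.Th) :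
    D.par (D.act z θ) = D.act z (D.par θ) := by rw [par_act, hz.pRegPart_eq]

theorem par_act_iff {z : D.XS 1} (hz : IsPRegular D.p z) (θ : D.Th) :
    D.par (D.act z θ) = D.act z θ ↔ D.par θ = θ := by
  rw [par_act_reg hz]; exact (actE z).injective.eq_iff

theorem par_act_elt {z : D.XS 1} (hz : IsPElt D.p z) (θ : D.Th) : D.par (D.act z θ) = D.par θ := by
  rw [par_act, hz.pRegPart_eq, act_one]

theorem rho_act (z : D.XS 1) (θ : D.Th) : D.rho (D.act z θ) = D.rho θ := by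
  rw [rho, rho, par_act, deg_act, deg_act]

theorem t_ne : (D.t : ZMod D.p) ≠ 0 := fun h => D.p_ne ((ZMod.intCast_zmod_eq_zero_iff_dvd _ _).1 h)

theorem dvd_cX {n : ℕ} : D.p ∣ D.cX n ↔ (D.t : ZMod D.p) ^ n = 1 := by
  rw [cX, ← Int.natCast_dvd, ← ZMod.intCast_zmod_eq_zero_iff_dvd]
  push_cast
  exact sub_eq_zero

theorem ee_pos (θ : D.Th) : 0 < D.ee θ := orderOf_pos_iff.2 (isOfFinOrder_iff_pow_eq_one.2
  ⟨D.p - 1, Nat.sub_pos_of_lt D.hp.one_lt, ZMod.pow_card_sub_one_eq_one (pow_ne_zero _ t_ne)⟩)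

theorem ee_dvd_iff {θ : D.Th} {j : ℕ} : D.ee θ ∣ j ↔ D.p ∣ D.cX (j * D.deg θ) := by
  rw [ee, orderOf_dvd_iff_pow_eq_one, dvd_cX, ← pow_mul, mul_comm]

theorem ee_dvd_sub_one (θ : D.Th) : D.ee θ ∣ D.p - 1 :=
  orderOf_dvd_of_pow_eq_one (ZMod.pow_card_sub_one_eq_one (pow_ne_zero _ t_ne))

variable (D) in
theorem pdat : PDat D.deg D.par D.rho D.ee := by
  refine ⟨par_par, deg_eq, ee_pos, ind fun ξ h => ?_⟩
  rw [ee_dvd_iff, ← deg_eq]
  exact (not_not.1 (par_eq_iff.not.1 h)).trans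
    (orderOf_dvd_of_pow_eq_one (mem_XX''.1 (mem_XX.2 dvd_rfl)))

theorem fib_le (θ : D.Th) {ξ η : Γ} (h : D.cl ξ = D.cl η) :
    (univ.filter fun x => D.cl x = θ ∧ pRegPart D.p x = ξ).card ≤
      (univ.filter fun x => D.cl x = θ ∧ pRegPart D.p x = η).card := by
  obtain ⟨i, e⟩ := mk_eq.1 h
  refine card_le_card_of_injOn (fun x => x ^ D.Q ^ i) (fun x hx => ?_) fun _ _ _ _ e => frob_inj e
  obtain ⟨h1, h2⟩ := (mem_filter.1 hx).2
  exact mem_filter.2 ⟨mem_univ _, (mk_pow x i).trans h1, by rw [pRegPart_pow, h2, e]⟩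

/-- the number of elements of an orbit with given `p'`-part -/
theorem card_fibre (θ : D.Th) {ξ : Γ} (h : D.cl ξ = D.par θ) :
    (univ.filter fun x => D.cl x = θ ∧ pRegPart D.p x = ξ).card = D.rho θ := by
  have h1 := deg_eq θ
  rw [deg, card_eq_sum_card_fiberwise (f := pRegPart D.p) (t := D.orb (D.par θ)) (fun η hη => by
      rw [mem_coe, mem_orb] at hη ⊢
      rw [← hη, par_mk]), sum_const_nat (m := (univ.filter fun x => D.cl x = θ ∧ pRegPart D.p x = ξ).card)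
      (fun η hη => by
        rw [orb, filter_filter]
        exact (fib_le θ ((mem_orb.1 hη).trans h.symm)).antisymm (fib_le θ (h.trans (mem_orb.1 hη).symm))),
    mul_comm] at h1
  exact Nat.eq_of_mul_eq_mul_right (deg_pos _) h1

theorem sum_fib (s : D.Th → ℕ) (ξ : Γ) :
    ∑ x ∈ univ.filter (pRegPart D.p · = ξ), s (D.cl x) =
      ∑ θ ∈ univ.filter (D.par · = D.cl ξ), D.rho θ * s θ := by
  rw [← sum_fiberwise_of_maps_to (g := D.cl) (t := univ.filter (D.par · = D.cl ξ))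
    fun x hx => by simp [par_mk, (mem_filter.1 hx).2]]
  refine sum_congr rfl fun O hO => ?_
  rw [← card_fibre O (mem_filter.1 hO).2.symm, filter_filter]
  simp only [and_comm]
  exact sum_const_nat fun x hx => by rw [(mem_filter.1 hx).2.2]

end OD

end GUH
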