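import Cfsg.Agent.Lib.GU.DefB

/-!
# S4537: transport of pieces along injective homomorphisms and isometric embeddings
-/

set_option autoImplicit false
set_option linter.unusedSectionVars false

namespace GUH.Df

open Cfsg CT GT BT Subgroup GUL UW Module
open scoped MonoidAlgebra Pointwise

section Abs
variable {Γ Δ Δ' : Type*} [Group Γ] [Finite Γ] [Group Δ] [Finite Δ] [Group Δ'] [Finite Δ']
variable {p : ℕ} [hp : Fact p.Prime] {M : Ideal AlgInt} (hM : IsPModular p M)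

/-- a piece of a whole group -/
structure Pc0 (N : Subgroup Δ) (B : Set (IrrCharacter Δ)) (u : Δ) (f : (ResF hM)[Δ]) : Prop where
  blk : IsPBlock M B
  bp : BP p ⊤ (zpowers u) f
  dfg : DefGrp p (⊤ ⊓ centralizer (zpowers u : Set Δ)) f (zpowers u)
  van : ∀ χ ∈ B, ∀ g, g ∉ N → χ.1 g = 0
  brm : br (zpowers u) (idem hM B) * f = f
  kind : MaxBP p ⊤ (zpowers u) f ∨ (p = 2 ∧ 8 ∣ orderOf u ∧
    ∀ (g : Δ) (s : ℕ), g * u * g⁻¹ = u ^ s → Commute g u ∨ s % 4 = 3)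

variable {hM}

theorem Pc0.map {N : Subgroup Γ} {ι : Δ →* Γ} (hι : Function.Injective ι)
    {B : Set (IrrCharacter Δ)} {u : Δ} {f : (ResF hM)[Δ]} (h : Pc0 hM (N.comap ι) B u f) :
    Pc hM N ι.range (ι u) (gm ι f) := by
  have e1 : zpowers (ι u) = (zpowers u).map ι := (MonoidHom.map_zpowers ι u).symm
  have h1 := bp_gm hM hι h.bp
  have h2 := defGrp_gm hM hι h.dfg
  have h3 : br (zpowers (ι u)) (gm ι (idem hM B)) * gm ι f = gm ι f := by
    rw [e1, br_gm hι, ← map_mul, h.brm]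
  rw [map_inf_centralizer hι] at h2
  rw [← MonoidHom.range_eq_map, ← e1] at h1 h2
  refine ⟨⟨u, rfl⟩, h1, h2, ⟨mapSet (MonoidHom.ofInjective hι) B, isPBlock_mapSet _ h.blk, ?_, ?_⟩, ?_⟩
  · rintro χ ⟨ψ, hψ, e⟩ ⟨_, g, rfl⟩ hg
    exact (e g).trans (h.van ψ hψ g hg)
  · rwa [sidem_of_equiv hM (ι := ι) _ fun _ => rfl]
  · refine h.kind.imp (fun hm => ?_) fun ⟨a, b, c⟩ => ⟨a, by rwa [orderOf_injective ι hι], ?_⟩
    · have h4 := defGrp_gm hM hι (hm.defGrp hM (bIdem_top_idem hM h.blk) h.brm)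
      have h5 := bIdem_gm hM hι (bIdem_top_idem hM h.blk)
      rw [← MonoidHom.range_eq_map] at h4 h5
      exact maxBP_of_defGrp h5.toCIdem (e1 ▸ h4) h1 h3
    · rintro _ ⟨g, rfl⟩ s hs
      rw [← map_inv, ← map_mul, ← map_mul, ← map_pow] at hs
      exact (c g s (hι hs)).imp_left (·.map ι)

theorem Pc0.eq_idem {N : Subgroup Δ} {B : Set (IrrCharacter Δ)} {u : Δ} {f : (ResF hM)[Δ]}
    (h : Pc0 hM N B u f) (hu : ∀ g, Commute g u) : f = idem hM B := by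
  have h1 : centralizer (zpowers u : Set Δ) = ⊤ := by
    rw [centralizer_zpowers_eq, eq_top_iff]
    exact fun g _ => mem_centralizer_singleton_iff.2 (hu g)
  have h2 := h.bp.bidem_top
  have h3 := h.brm
  rw [br_def, h1] at h3
  rw [h1] at h2
  refine ((bIdem_top_idem hM h.blk).eq_or_mul_eq_zero h2).resolve_right (fun h0 => h2.ne_zero ?_) |>.symm
  rw [← h3, ← h0]
  congr 1
  exact ga_ext fun x => by simp [coeff_trunc]

/-- the piece of a block of defect zero -/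
theorem pc0_one {N : Subgroup Δ} {B : Set (IrrCharacter Δ)} (hB : IsPBlock M B)
    (hD : DefGrp p ⊤ (idem hM B) ⊥) (hv : ∀ χ ∈ B, ∀ g, g ∉ N → χ.1 g = 0) :
    Pc0 hM N B 1 (idem hM B) := by
  have h0 : (⊤ ⊓ centralizer ((⊥ : Subgroup Δ) : Set Δ) : Subgroup Δ) = ⊤ := by
    rw [eq_top_iff]
    exact fun g _ => ⟨trivial, by simp [mem_centralizer_iff]⟩
  have h1 : BP p ⊤ ⊥ (idem hM B) := ⟨IsPGroup.of_bot, bot_le, h0.symm ▸ bIdem_top_idem hM hB⟩
  have h2 : br ⊥ (idem hM B) * idem hM B = idem hM B := by rw [br_bot, h1.idem]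
  refine ⟨hB, ?_, ?_, hv, ?_, Or.inl ?_⟩ <;> rw [zpowers_one_eq_bot]
  exacts [h1, h0.symm ▸ hD, h2, maxBP_of_defGrp (bIdem_top_idem hM hB).toCIdem hD h1 h2]

theorem mapSet_eq_of_gm {ι : Δ →* Γ} {κ : Δ' →* Γ} (hκ : Function.Injective κ) {ψ : Δ ≃* Δ'}
    (h : ∀ x, κ (ψ x) = ι x) {B : Set (IrrCharacter Δ)} {B' : Set (IrrCharacter Δ')}
    (hB : IsPBlock M B) (hB' : IsPBlock M B') (e : gm ι (idem hM B) = gm κ (idem hM B')) :
    mapSet ψ B = B' := by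
  refine idem_injective hM (isPBlock_mapSet _ hB) hB' (ga_ext fun y => ?_)
  obtain ⟨x, rfl⟩ := ψ.surjective y
  have hι : Function.Injective ι := fun a b e => ψ.injective (hκ (by rw [h, h, e]))
  rw [← coeff_gm hκ (idem hM B'), ← e, h, coeff_gm hι, coeff_idem, coeff_idem, blockCoeff_mapSet]

theorem cj_gm (g : Γ) (ι : Δ →* Γ) (a : (ResF hM)[Δ]) :
    cj g (gm ι a) = gm ((MulAut.conj g).toMonoidHom.comp ι) a := by
  rw [← gm_gm]
  rfl

theorem prod_eq_sup (A : Subgroup Δ) (B : Subgroup Δ') :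
    A.prod B = A.map (MonoidHom.inl Δ Δ') ⊔ B.map (MonoidHom.inr Δ Δ') :=
  le_antisymm (prod_le_iff.2 ⟨le_sup_left, le_sup_right⟩) (sup_le_iff.2 (prod_le_iff.1 le_rfl))

end Abs

end GUH.Df
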