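import Cfsg.Agent.Lib.GU.DefA

/-!
# S4537, rank bounds: group theoretic lemmas
-/

set_option autoImplicit false
set_option linter.unusedSectionVars false

namespace GUH.Df

open Cfsg CT GT BT Finset Subgroup
open scoped Classical MonoidAlgebra Pointwise

universe u

theorem two_mul_card_le {X : Type*} [Group X] [Finite X] {H K : Subgroup X} (h : H < K) :
    2 * Nat.card H ≤ Nat.card K := by
  obtain ⟨j, hj⟩ := card_dvd_of_le h.le
  have h1 := card_lt_of_lt h
  rw [hj, mul_comm]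
  refine Nat.mul_le_mul_left _ ?_
  rcases j with _ | _ | j <;> omega

/-- the central product of a dihedral group of order 8 with a cyclic group of order 4 -/
theorem pauli {X : Type u} [Group X] [Finite X] {w t c : X} (hw : w * w = 1) (ht : t * t = 1) (cw : Commute c w)
    (ct : Commute c t) (h : t * w = c * c * (w * t)) (h4 : c * c * (c * c) = 1) (h2 : c * c ≠ 1) :
    IsPGroup 2 (closure {w, t, c} : Subgroup X) ∧ Sx 2 (closure {w, t, c} : Subgroup X) 3 := by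
  set m := c * c with hm
  set Y : Subgroup X := closure {w, t, c}
  have hc : ∀ y ∈ Y, Commute c y := fun y hy => mem_centralizer_singleton_iff.1
    ((closure_le (centralizer {c})).2 (by
      rintro _ (rfl | rfl | rfl) <;> exact mem_centralizer_singleton_iff.2 (by first | exact cw.symm | exact ct.symm | rfl)) hy) |>.symm
  have mw : w ∈ Y := subset_closure (by simp)
  have mt : t ∈ Y := subset_closure (by simp)
  have mc : c ∈ Y := subset_closure (by simp)
  let N : Subgroup Y := zpowers ⟨m, mul_mem mc mc⟩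
  have hN : ∀ y ∈ N, y.1 = 1 ∨ y.1 = m := by
    rintro _ ⟨i, rfl⟩
    have : (m ^ 2 : X) = 1 := by rw [sq, h4]
    rw [SubgroupClass.coe_zpow, zpow_eq_zpow_emod' i this]
    rcases Int.emod_two_eq_zero_or_one i with e | e <;> simp [e]
  have : N.Normal := ⟨fun a ha y => by
    have : Commute a y := Subtype.ext (by
      rcases hN a ha with e | e
      · simp [e]
      · simpa [e] using ((hc y y.2).mul_left (hc y y.2)).eq)
    rwa [← this.eq, mul_inv_cancel_right]⟩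
  let f := QuotientGroup.mk' N
  have hf : ∀ x y : Y, x.1 = m * y.1 → f x = f y := fun x y e => by
    rw [show x = ⟨m, mul_mem mc mc⟩ * y from Subtype.ext e, map_mul,
      (QuotientGroup.eq_one_iff _).2 (mem_zpowers _) |> fun e' : f _ = 1 => e', one_mul]
  have gen : ∀ K : Subgroup (Y ⧸ N), f ⟨w, mw⟩ ∈ K → f ⟨t, mt⟩ ∈ K → f ⟨c, mc⟩ ∈ K → ∀ a, a ∈ K :=
    fun K pw pt pc a => by
      obtain ⟨y, rfl⟩ := QuotientGroup.mk'_surjective N a
      obtain ⟨z, hz, e⟩ := (closure_le ((K.comap f).map Y.subtype)).2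
        (by rintro _ (rfl | rfl | rfl) <;> exact ⟨⟨_, _⟩, ‹_›, rfl⟩) y.2
      exact (Subtype.ext e : z = y) ▸ hz
  have c1 : f ⟨t, mt⟩ * f ⟨w, mw⟩ = f ⟨w, mw⟩ * f ⟨t, mt⟩ := by
    rw [← map_mul, ← map_mul]
    exact hf _ _ h
  have c2 : ∀ y : Y, f y * f ⟨c, mc⟩ = f ⟨c, mc⟩ * f y := fun y => by
    rw [← map_mul, ← map_mul]
    exact congrArg f (Subtype.ext (hc y y.2).eq.symm)
  have comm : ∀ a b : Y ⧸ N, a * b = b * a := fun a b => by
    refine mem_centralizer_singleton_iff.1 (gen _ ?_ ?_ ?_ a) <;> rw [mem_centralizer_singleton_iff, eq_comm] <;>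
      refine mem_centralizer_singleton_iff.1 (gen _ ?_ ?_ ?_ b) <;> rw [mem_centralizer_singleton_iff] <;>
      first | rfl | exact c1 | exact c1.symm | exact c2 _ | exact (c2 _).symm
  have ex : ∀ a : Y ⧸ N, a ^ 2 = 1 := fun a => by
    let _ : CommGroup (Y ⧸ N) := { (inferInstance : Group (Y ⧸ N)) with mul_comm := comm }
    refine gen (powMonoidHom 2).ker ?_ ?_ ?_ a <;> rw [MonoidHom.mem_ker, powMonoidHom_apply, sq, ← map_mul]
    · exact (congrArg f (Subtype.ext hw)).trans f.map_one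
    · exact (congrArg f (Subtype.ext ht)).trans f.map_one
    · exact (hf _ 1 (mul_one m).symm).trans f.map_one
  refine ⟨fun y => ⟨2, Subtype.ext ?_⟩, Y, Y ⧸ N, _, inferInstance, _, MonoidHom.id _, f, Function.injective_id,
    QuotientGroup.mk'_surjective N, comm, ex, ?_⟩
  · have := hN (y ^ 2) ((QuotientGroup.eq_one_iff _).1 (ex (f y)))
    rw [sq 2, pow_mul, sq (y ^ 2), Subgroup.coe_mul]
    rcases this with e | e <;> simp only [e, mul_one, h4, OneMemClass.coe_one]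
  · have nw : ¬t * w = w * t := fun e => h2 (by rwa [e, eq_comm, mul_eq_right] at h)
    have l1 : N < centralizer {⟨w, mw⟩} ⊓ centralizer {⟨t, mt⟩} := SetLike.lt_iff_le_and_exists.2 ⟨zpowers_le.2
      (mem_inf.2 ⟨mem_centralizer_singleton_iff.2 (Subtype.ext (cw.mul_left cw).eq),
        mem_centralizer_singleton_iff.2 (Subtype.ext (ct.mul_left ct).eq)⟩), ⟨c, mc⟩,
      mem_inf.2 ⟨mem_centralizer_singleton_iff.2 (Subtype.ext cw.eq), mem_centralizer_singleton_iff.2 (Subtype.ext ct.eq)⟩,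
      fun e => h2 (by
        rcases hN _ e with e | e
        · rw [hm, show c = 1 from e, mul_one]
        · rw [hm, show c = m from e, h4])⟩
    have l2 : centralizer {⟨w, mw⟩} ⊓ centralizer {⟨t, mt⟩} < centralizer ({⟨w, mw⟩} : Set Y) :=
      SetLike.lt_iff_le_and_exists.2 ⟨inf_le_left, ⟨w, mw⟩, mem_centralizer_singleton_iff.2 rfl,
        fun e => nw (congrArg Subtype.val (mem_centralizer_singleton_iff.1 e.2)).symm⟩
    have l3 : centralizer ({⟨w, mw⟩} : Set Y) < ⊤ := SetLike.lt_iff_le_and_exists.2 ⟨le_top, ⟨t, mt⟩, trivial,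
      fun e => nw (congrArg Subtype.val (mem_centralizer_singleton_iff.1 e))⟩
    have k1 := two_mul_card_le l1
    have k2 := two_mul_card_le l2
    have k3 := two_mul_card_le l3
    rw [Subgroup.card_top, card_eq_card_quotient_mul_card_subgroup N] at k3
    exact Nat.le_of_mul_le_mul_right (by omega) (Nat.card_pos (α := N))

variable {Γ Γ₁ Γ₂ : Type u} [Group Γ] [Finite Γ] [Group Γ₁] [Finite Γ₁] [Group Γ₂] [Finite Γ₂]
variable {p : ℕ} [hp : Fact p.Prime] {M : Ideal AlgInt} (hM : IsPModular p M)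

theorem Sx.conj {Q P K : Subgroup Γ} [K.Normal] {r : ℕ} (h : Sx p ↥(Q ⊓ K) r) {x : Γ}
    (hx : ∀ y ∈ Q, x * y * x⁻¹ ∈ P) : Sx p ↥(P ⊓ K) r :=
  h.map (((MulAut.conj x).toMonoidHom.comp (Subgroup.subtype _)).codRestrict _
    fun y => ⟨hx _ y.2.1, Normal.conj_mem ‹_› _ y.2.2 x⟩)
    fun _ _ e => Subtype.ext ((MulAut.conj x).injective (congrArg Subtype.val e))

variable {φ : Γ₁ × Γ₂ →* Γ} (hφ : Function.Injective φ) {u : Γ₂}
  (hC : ∀ g, Commute (φ (1, u)) g → g ∈ φ.range) {B : Set (IrrCharacter Γ)} (hB : IsPBlock M B) {P : Subgroup Γ}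
  (hP : IsDefectGroup p M B P) {e₁ : (ResF hM)[Γ₁]} {e₂ : (ResF hM)[Γ₂]}
  (h : br (zpowers (φ (1, u))) (idem hM B) * gm φ (tens e₁ e₂) = gm φ (tens e₁ e₂))
include hφ hC hB hP h

theorem sx_of_pair {D₁ K₁ : Subgroup Γ₁} {D₂ K₂ : Subgroup Γ₂} (d₁ : DefGrp p ⊤ e₁ D₁) (c₁ : IsCentral e₁)
    (q₂ : IsPGroup p D₂) (f₂ : IsFixed D₂ e₂) (n₂ : br D₂ e₂ ≠ 0) (hu : ∀ y ∈ D₂, y * u = u * y) {K : Subgroup Γ}
    [K.Normal] (hK : ∀ a ∈ K₁, ∀ b ∈ K₂, φ (a, b) ∈ K) {r₁ r₂ : ℕ} (s₁ : Sx p ↥(D₁ ⊓ K₁) r₁)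
    (s₂ : Sx p ↥(D₂ ⊓ K₂) r₂) : Sx p ↥(P ⊓ K) (r₁ + r₂) := by
  obtain ⟨x, hx⟩ := exists_conj_le hM hB hP h (Q := (D₁.prod D₂).map φ) ((isPGroup_prod d₁.pgroup q₂).map φ)
    (le_trans (by
      rw [← range_eq hφ hC]
      rintro _ ⟨x, hx, rfl⟩
      exact ⟨(x.1, ⟨x.2, mem_centralizer_singleton_iff.2 (hu _ hx.2)⟩), rfl⟩) le_normalizer)
    (isFixed_gm hφ (isFixed_tens (c₁.isFixed _) f₂))
    (by rw [br_gm hφ, br_tens]; exact gm_ne_zero hφ (tens_ne_zero d₁.br_ne n₂))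
  refine Sx.conj (Q := (D₁.prod D₂).map φ) ((s₁.prod s₂).map
    ((φ.comp ((Subgroup.subtype _).prodMap (Subgroup.subtype _))).codRestrict _
    fun y => mem_inf.2 ⟨⟨_, ⟨y.1.2.1, y.2.2.1⟩, rfl⟩, hK _ y.1.2.2 _ y.2.2.2⟩) fun a b e => ?_) hx
  exact (Subtype.val_injective.prodMap Subtype.val_injective) (hφ (congrArg Subtype.val e))

end GUH.Df
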