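import Cfsg.Agent.Lib.GU.DefC
import Cfsg.Agent.Lib.GU.SbA

/-!
# S4537, rank bounds: the pieces of size two
-/

set_option autoImplicit false
set_option linter.unusedSectionVars false

namespace GUH.Df

open Polynomial Cfsg GT CT BT UW Module GUL GLH SFock Subgroup
open scoped Classical MonoidAlgebra

universe u

variable {F : Type u} [Field F] [Fintype F] [StarRing F] [HF F]
variable {V V₁ V₂ : Type u} [AddCommGroup V] [Module F V] [Fintype V]
  [AddCommGroup V₁] [Module F V₁] [Fintype V₁] [AddCommGroup V₂] [Module F V₂] [Fintype V₂]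
  {H₁ : HS F V₁} {H₂ : HS F V₂} {H : HS F V}

theorem Spt.exists_swap (s : Spt H₁ H₁ H) :
    ∃ t : H.U, t * t = 1 ∧ ∀ g, t * s.φ g * t⁻¹ = s.φ g.swap := by
  let L := s.e.conj (LinearEquiv.prodComm F V₁ V₁).toLinearMap
  have h1 : ∀ v, L (s.e v) = s.e v.swap := fun v => by simp [L, LinearEquiv.conj_apply]
  refine ⟨H.mkU L fun x y => ?_, HS.U_ext fun y => ?_, fun g => mul_inv_eq_of_eq_mul (HS.U_ext fun y => ?_)⟩
  · obtain ⟨x, rfl⟩ := s.e.surjective x
    obtain ⟨y, rfl⟩ := s.e.surjective y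
    simp [h1, s.isom, add_comm]
  · obtain ⟨y, rfl⟩ := s.e.surjective y
    simp [mul_smul, h1]
  · obtain ⟨y, rfl⟩ := s.e.surjective y
    simp [mul_smul, h1, s.φ_e]

theorem exists_spt_self (H : HS F V) {a : ℕ} (h : finrank F V = a + a) :
    ∃ H₁ : HS F (Fin a → F), Nonempty (Spt H₁ H₁ H) := by
  obtain ⟨H₁, H₂, ⟨s⟩⟩ := exists_spt H h
  obtain ⟨e, he⟩ := exists_equiv H₁ H₂ rfl
  exact ⟨H₁, ⟨⟨((LinearEquiv.refl F _).prodCongr e).trans s.e, fun x y => by simp [s.isom, he]⟩⟩⟩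

theorem sc_neg_ne [Nontrivial V] (hF : (-1 : F) ≠ 1) : H.sc (-1) ≠ 1 := fun h => by
  obtain ⟨x, hx⟩ := exists_ne (0 : V)
  exact hF (smul_left_injective F hx ((congrArg (· • x) h).trans ((one_smul _ x).trans (one_smul F x).symm)))

variable {p : ℕ} [Fact p.Prime] {M : Ideal AlgInt} (hM : IsPModular p M)

theorem sx_swap (h2 : p = 2) (s : Spt H₁ H₁ H) [Nontrivial V] (hF : (-1 : F) ≠ 1) {z : unitary F}
    (hz : z * z = -1) {e : (ResF hM)[H₁.U]} (he : IsCentral e) (e0 : e ≠ 0) {B : Set (IrrCharacter H.U)}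
    (hB : IsPBlock M B) {D : Subgroup H.U} (hD : IsDefectGroup p M B D)
    (h : br (zpowers (s.φ (1, H₁.sc (-1)))) (idem hM B) * gm s.φ (tens e e) = gm s.φ (tens e e)) : Sx p D 3 := by
  subst h2
  obtain ⟨t, t1, t2⟩ := s.exists_swap
  set w := s.φ (1, H₁.sc (-1)) with hw
  have m1 : H₁.sc (-1) * H₁.sc (-1) = 1 := by rw [← map_mul]; simp
  have c1 : H.sc z * H.sc z = H.sc (-1) := by rw [← map_mul, hz]
  have w1 : t * w * t⁻¹ = H.sc (-1) * w := by rw [t2, ← s.φ_sc, ← map_mul]; simp [m1]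
  obtain ⟨q, sx⟩ := pauli (w := w) (t := t) (c := H.sc z) (by rw [← map_mul, Prod.mk_mul_mk, m1, mul_one]; exact s.φ.map_one) t1 (H.sc_comm z w)
    (H.sc_comm z t) (by rw [c1, ← mul_assoc, ← w1, inv_mul_cancel_right]) (by rw [c1, ← map_mul]; simp)
    (c1 ▸ sc_neg_ne hF)
  have f1 := isFixed_gm s.inj (isFixed_tens (he.isFixed ⊤) (he.isFixed ⊤))
  refine (exists_conj_le hM hB hD h q ((closure_le _).2 ?_) ?_ ?_).elim fun x hx => sx.map
    (((MulAut.conj x).toMonoidHom.comp (Subgroup.subtype _)).codRestrict _ fun y => hx _ y.2)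
    fun _ _ e => Subtype.ext ((MulAut.conj x).injective (congrArg Subtype.val e))
  · have h3 : t ∈ normalizer ((centralizer ({w} : Set H.U) : Subgroup H.U) : Set H.U) := by
      refine mem_normalizer_fintype fun g hg => mem_centralizer_singleton_iff.2 ?_
      have h3 := (Commute.map (mem_centralizer_singleton_iff.1 hg) (MulAut.conj t)).eq
      simp only [MulAut.conj_apply, w1] at h3
      rwa [← mul_assoc, ← H.sc_comm, mul_assoc, mul_assoc (H.sc (-1)), mul_right_inj] at h3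
    rintro _ (rfl | rfl | rfl)
    exacts [le_normalizer (mem_centralizer_singleton_iff.2 rfl), h3,
      le_normalizer (mem_centralizer_singleton_iff.2 (H.sc_comm z w))]
  · intro y hy
    induction hy using closure_induction with
    | mem y hy =>
      rcases hy with rfl | rfl | rfl
      · exact f1 _ ⟨_, ⟨trivial, trivial⟩, rfl⟩
      · intro g
        by_cases hg : g ∈ s.φ.range
        · obtain ⟨g, rfl⟩ := hg
          rw [t2, coeff_gm s.inj, coeff_gm s.inj, Prod.swap, coeff_tens, coeff_tens, mul_comm]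
        · rw [coeff_gm_not _ hg, coeff_gm_not]
          rintro ⟨a, ha⟩
          exact hg ⟨a.swap, by rw [← t2, ha, ← mul_assoc, ← mul_assoc, t1, mul_assoc, ← mul_inv_rev, t1]; simp⟩
      · exact fun g => by rw [H.sc_comm, mul_inv_cancel_right]
    | one => simp
    | mul a b _ _ ha hb => exact fun g => by rw [← hb g, ← ha (b * g * b⁻¹)]; simp [mul_assoc]
    | inv a _ ha => exact fun g => by rw [← ha (a⁻¹ * g * a⁻¹⁻¹)]; simp [mul_assoc]
  · obtain ⟨y, hy⟩ : ∃ y, e.coeff y ≠ 0 := by_contra fun hc => e0 (ga_ext fun y => not_not.1 fun h => hc ⟨y, h⟩)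
    refine br_ne_zero_iff.2 ⟨s.φ (y, y), ?_, by rw [coeff_gm s.inj, coeff_tens]; exact mul_ne_zero hy hy⟩
    rw [centralizer_closure]
    rintro _ (rfl | rfl | rfl)
    · rw [← map_mul, ← map_mul]; simp [H₁.sc_comm]
    · exact mul_inv_eq_iff_eq_mul.1 (t2 _)
    · exact H.sc_comm _ _

variable {K : Type} [Field K] [Fintype K] [Algebra F K] {C : UC F K} {A : Type} [CommRing A] [Algebra ℂ A]
  (U : UB C A) (h2 : C.p = 2)
include h2

theorem neg_one_ne' : (-1 : F) ≠ 1 :=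
  Ring.neg_one_ne_one_of_char_ne_two fun h' => C.p_ne' (h2.trans h'.symm)

theorem δ_sc_neg (H : HS F V) : (C.δ H (H.sc (-1)) : Kˣ) = (-1) ^ finrank F V :=
  Units.ext (by simp [C.δ_val, HS.dt_sc, Unitary.coe_neg])

theorem sq_eq_one (h4 : ¬ 4 ∣ C.cX 1) {t : C.XS 1} (ht : IsPElt C.p t) : t * t = 1 := by
  obtain ⟨k, hk⟩ := ht
  have h1 := orderOf_dvd_natCard t
  rw [C.card_XS one_pos C.N_pos, hk, h2] at h1
  rw [← sq, ← orderOf_dvd_iff_pow_eq_one, hk, h2]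
  exact pow_dvd_pow 2 (show k ≤ 1 from not_lt.1 fun h => h4 ((pow_dvd_pow 2 h).trans h1))

variable {θ : C.Th} (hV : finrank F V = 2 * C.deg θ) (hn : 2 * C.deg θ ≤ C.N) {B : Set (IrrCharacter H.U)}
  (hB : IsPBlock C.M B) {χ : IrrCharacter H.U} (hχ : χ ∈ B) {Λ : C.Th → Finset ℕ}
  (e : IsL C.N U.π (U.ch H) χ Λ) (hΛ : C.Lab (2 * C.deg θ) Λ) (hθ : C.par θ = θ)
  (ho : ∀ i, i ≠ θ → Λ i = Finset.range C.N) {D : Subgroup H.U} (hD : IsDefectGroup C.p C.M B D)
include hV hn hB hχ e hΛ hθ ho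

theorem exists_half : ∃ (H₁ : HS F (Fin (1 * C.deg θ) → F)) (s : Spt H₁ H₁ H) (χ₁ : IrrCharacter H₁.U),
    br (zpowers (s.φ (1, H₁.sc (-1)))) (idem C.hM B) *
      gm s.φ (tens (idem C.hM (blockOf C.M χ₁.1)) (idem C.hM (blockOf C.M χ₁.1))) =
      gm s.φ (tens (idem C.hM (blockOf C.M χ₁.1)) (idem C.hM (blockOf C.M χ₁.1))) := by
  have h1 : 2 * C.deg θ = 1 * C.deg θ + 1 * C.deg θ := by ring
  obtain ⟨H₁, ⟨s⟩⟩ := exists_spt_self H (hV.trans h1)
  obtain ⟨Λ₁, Λ₂, χ₁, χ₂, a1, a2, -, -, a5, a6, a7, a8, a9⟩ := stepZ U h2 s (by simp) (by simp) (h1 ▸ hn) (h1 ▸ hΛ)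
    (fun i hi => ho i (by rintro rfl; exact hi hθ)) one_pos
    (by rw [GLH.Df.wt_one (hΛ.1 θ), sz_of_single hΛ ho]; exact two_ne_zero) hB hχ e
  obtain rfl := eq_of_single_one U (by omega) a1 a6 (fun i hi => (a2 i hi).trans (ho i hi)) a7
  obtain rfl := (U.ld H₁ (by simp) (by omega)).chr_unique a1 a5 a8
  exact ⟨H₁, s, χ₁, a9⟩

include hD

theorem sx_two_box_three (h4 : 4 ∣ C.cX 1) : Sx C.p D 3 := by
  obtain ⟨H₁, s, χ₁, h⟩ := exists_half U h2 hV hn hB hχ e hΛ hθ ho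
  have := OD.deg_pos θ
  have : Nontrivial V := nontrivial_of_finrank_pos (R := F) (by omega)
  obtain ⟨g, hg⟩ := IsCyclic.exists_ofOrder_eq_natCard (α := unitary F)
  rw [natCard_unitary, ← C.cX_one] at hg
  have h5 := orderOf_pow_orderOf_div (orderOf_pos g).ne' (hg ▸ h4)
  generalize g ^ (orderOf g / 4) = z at h5
  refine sx_swap C.hM h2 s (neg_one_ne' h2) (z := z) (Subtype.ext ((mul_self_eq_one_iff.1 ?_).resolve_left
    fun h => ?_)) (isCentral_idem _ _) (idem_ne_zero _ (isPBlock_blockOf _)) hB hD h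
  · exact congrArg Subtype.val (show z * z * (z * z) = 1 by rw [← sq, ← sq, ← pow_mul]; exact orderOf_dvd_iff_pow_eq_one.1 h5.dvd)
  · exact absurd (orderOf_dvd_of_pow_eq_one ((sq z).trans (Subtype.ext h))) (by rw [h5]; decide)

theorem exists_two_hook : ∃ v ∈ D, C.δ H v ≠ 1 ∧ ∃ c : ℕ, (v ^ 2) ^ c * (v ^ 2) ^ c = H.sc (-1) := by
  have hk : 0 < 2 * C.deg θ := Nat.mul_pos two_pos (OD.deg_pos θ)
  obtain ⟨ζ, z1, z2, z3, z4⟩ := exists_gen C hk hn
  obtain ⟨c, hc⟩ : 8 ∣ orderOf ζ := by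
    have h1 : Odd C.t := Int.not_even_iff_odd.1 fun h => C.p_ne (h2 ▸ h.two_dvd)
    rw [h2] at z4
    exact (z4 3).2 ((Int.natAbs_dvd_natAbs.2 (Int.eight_dvd_sq_sub_one_of_odd h1)).trans
      (C.cX_dvd (dvd_mul_right 2 _)))
  have z5 : ζ ^ (4 * c) ≠ 1 := pow_ne_one_of_lt_orderOf (by have := orderOf_pos ζ; omega)
    (by have := orderOf_pos ζ; omega)
  obtain ⟨H₁, H₂, ⟨s⟩⟩ := exists_spt H (hV.trans (zero_add _).symm)
  obtain ⟨Λ₁, -, -, -, -, a, x, a1, a2, a3, a4⟩ := hook U s (n := 0) (by simp) (by simp) (by omega) (by rwa [zero_add])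
    (fun i hi => ho i (by rintro rfl; exact hi hθ)) two_pos
    (GLH.Df.wt_two_ne (hΛ.1 θ) (Or.inl (sz_of_single hΛ ho))) z1 z2 fun h => z5 (by rw [h, one_pow])
  rw [ip_def] at a4
  obtain ⟨b, -, hb⟩ := Finset.exists_ne_zero_of_sum_ne_zero (right_ne_zero_of_mul a4)
  obtain ⟨ε, -, -, e1⟩ := e.symm
  have h1 : (H.lin (s.φ (b, a))).charpoly = C.mp (2 * C.deg θ) x := by
    rw [s.charpoly, a3, eq_one_of_monic_natDegree_zero (LinearMap.charpoly_monic _)
      (by simp [LinearMap.charpoly_natDegree]), one_mul]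
  generalize s.φ (b, a) = g at h1 hb
  obtain ⟨y, hy⟩ : ∃ y, y * pPart C.p g * y⁻¹ ∈ D := by_contra fun hc => right_ne_zero_of_mul hb (by
    rw [e1, Pi.smul_apply, apply_eq_zero_of_not_conj_defect C.hM hB hD hχ (isPPart_iff.2 rfl)
      fun y hy => hc ⟨y, hy⟩, smul_zero, map_zero])
  have h3 : ∀ z : Kˣ, aeval (z : K) (H.lin g).charpoly = 0 → ∃ i, pPart C.p z = ζ ^ C.Q ^ i := fun z hz => by
    rw [h1, UC.aeval_mp hk a1] at hz
    obtain ⟨z, c1, c2⟩ := hz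
    obtain ⟨i, rfl⟩ := OD.mk_eq.1 c1.symm
    exact ⟨i, by rw [← Units.ext c2, pPart_pow, a2]⟩
  refine ⟨_, hy, fun h => ?_, c, ?_⟩
  · rw [map_mul, map_mul, map_inv, mul_inv_cancel_comm, map_pPart, C.δ_of_charpoly H (by omega) a1 h1] at h
    have h4 := (map_pPart (p := C.p) (C.XS 1).subtype _).symm.trans (congrArg _ h)
    obtain ⟨i, hi⟩ := z3 (pPart C.p (C.γ (2 * C.deg θ))) ((exists_pPart_eq_pow C.p _).elim fun j hj =>
      hj ▸ OD.pow_mem_XX (C.γ_mem hk hn) j) (isPElt_pPart _ _)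
    have h5 := C.γ_pow one_pos hk (by omega)
    simp only [one_mul] at h5 hi
    rw [map_one, subtype_apply, coe_mk, OD.nm, pPart_pow, a2] at h4
    refine pPart_eq_one_iff.1 (show pPart C.p (C.γ 1) = 1 by
      rw [← h5, pPart_pow, ← hi, ← zpow_natCast, ← zpow_mul, mul_comm, zpow_mul, zpow_natCast, h4, one_zpow]) ?_
    rw [C.orderOf_γ one_pos C.N_pos, h2]
    exact ((neg_one_pow_eq_one_iff_even (neg_one_ne h2)).1 (OD.mem_XX''.1 (neg_one_mem h2 1))).two_dvd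
  · rw [← pow_add, ← pow_mul, conj_pow, show pPart C.p g ^ (2 * (c + c)) = H.sc (-1) from HS.U_ext fun v =>
      (smul_eq_neg (fpf_of_isUnit ((C.isUnit_pPart_pow_iff (by omega) H).2 fun z hz h => ?_)) ?_ v).trans
        (neg_one_smul F v).symm, ← H.sc_comm, mul_inv_cancel_right]
    · obtain ⟨i, hi⟩ := h3 z hz
      refine z5 (OD.frob_inj (D := C.toOD) (i := i) ?_)
      rw [pow_right_comm, ← hi, one_pow, ← h]; congr 1; ring
    · rw [← pow_add, C.pPart_pow_eq_one_iff (by omega)]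
      intro z hz
      obtain ⟨i, hi⟩ := h3 z hz
      rw [hi, pow_right_comm, show 2 * (c + c) + 2 * (c + c) = orderOf ζ by omega, pow_orderOf_eq_one, one_pow]

theorem sx_two_box_two (h4 : ¬ 4 ∣ C.cX 1) : Sx C.p ↥(D ⊓ (C.δ H).ker) 2 := by
  obtain ⟨H₁, s, χ₁, h⟩ := exists_half U h2 hV hn hB hχ e hΛ hθ ho
  have hd := OD.deg_pos θ
  have : Nontrivial (Fin (1 * C.deg θ) → F) := nontrivial_of_finrank_pos (R := F) (by simpa using hd)
  set m := H₁.sc (-1) with hm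
  have m1 : m * m = 1 := by rw [← map_mul]; simp
  have m2 : IsPElt C.p (s.φ (1, m)) := (isPElt_sc_neg h2).map s.snd.ι
  obtain ⟨x, -, hx⟩ := (defGrp_of_isDefectGroup C.hM hB hD).max _ le_top m2.isPGroup_zpowers fun h0 =>
    gm_ne_zero s.inj (tens_ne_zero (idem_ne_zero _ (isPBlock_blockOf _)) (idem_ne_zero _ (isPBlock_blockOf _)))
      (by rw [← h, h0, zero_mul])
  replace hx : x * s.φ (1, m) * x⁻¹ ∈ D := hx ⟨_, mem_zpowers _, rfl⟩
  have d1 : (C.δ H (x * s.φ (1, m) * x⁻¹) : Kˣ) = (-1) ^ C.deg θ := by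
    rw [map_mul, map_mul, map_inv, mul_inv_cancel_comm, s.δ_φ, map_one, one_mul, δ_sc_neg h2]; simp
  refine sx_two ((isPGroup_of_isDefectGroup hD).to_le inf_le_left) fun hc => ?_
  rcases Nat.even_or_odd (C.deg θ) with hd | hd
  · have : (zpowers (H.sc (-1))).Normal := ⟨by
      rintro _ ⟨i, rfl⟩ y
      exact ⟨i, by simp only [← map_zpow, ← H.sc_comm, mul_inv_cancel_right]⟩⟩
    have h5 : H.sc (-1) ∈ D ⊓ (C.δ H).ker := ⟨le_isDefectGroup_of_normal C.hM hB hD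
      (isPElt_sc_neg h2).isPGroup_zpowers (mem_zpowers _), Subtype.ext (by rw [δ_sc_neg h2, hV]; simp)⟩
    have : Nontrivial V := nontrivial_of_finrank_pos (R := F) (by omega)
    obtain ⟨i, hi⟩ := le_of_card_dvd_of_isCyclic (zpowers_le.2 (mem_inf.2 ⟨hx, Subtype.ext
      (d1.trans hd.neg_one_pow)⟩)) (zpowers_le.2 h5) (by
        rw [Nat.card_zpowers, Nat.card_zpowers, orderOf_eq_prime (p := 2) (x := H.sc (-1))
          (by rw [← map_pow]; simp) (sc_neg_ne (neg_one_ne' h2)), orderOf_dvd_iff_pow_eq_one, conj_pow, ← map_pow, sq,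
          Prod.mk_mul_mk, m1, mul_one, Prod.mk_one_one, map_one, mul_one, mul_inv_cancel]) (mem_zpowers _)
    simp only [← map_zpow] at hi
    rw [eq_mul_inv_iff_mul_eq, H.sc_comm, mul_right_inj, ← s.φ_sc] at hi
    exact sc_neg_ne (neg_one_ne' h2) ((congrArg Prod.snd (s.inj hi)).symm.trans (congrArg Prod.fst (s.inj hi)))
  · obtain ⟨v, v1, v2, c, v3⟩ := exists_two_hook U h2 hV hn hB hχ e hΛ hθ ho hD
    have v4 := sq_eq_one h2 h4 ((isPElt_of_mem (isPGroup_of_isDefectGroup hD) v1).map (C.δ H))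
    have v5 : (C.δ H v : Kˣ) = -1 := Units.ext ((mul_self_eq_one_iff.1 (congrArg (fun t : C.XS 1 => ((t : Kˣ) : K)) v4)).resolve_left
      fun h => v2 (Subtype.ext (Units.ext h)))
    have c1 : Commute (v * (x * s.φ (1, m) * x⁻¹)) (v ^ 2) := congrArg Subtype.val (hc.commGroup.mul_comm
      ⟨_, mul_mem v1 hx, Subtype.ext (by rw [map_mul, Subgroup.coe_mul, v5, d1, hd.neg_one_pow]; simp)⟩
      ⟨_, pow_mem v1 2, (map_pow _ _ _).trans ((sq _).trans v4)⟩)
    have c2 : Commute (s.φ (1, m)) (x⁻¹ * (v ^ 2) ^ c * x) := by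
      simpa [mul_assoc] using ((((Commute.refl v).pow_right 2).inv_left.mul_left c1).pow_right c).map
        (MulAut.conj x⁻¹).toMonoidHom
    obtain ⟨y, hy⟩ := s.mem_range (fun z hz => by_contra fun h0 =>
      neg_one_ne' h2 (smul_left_injective F h0 (hz.trans (one_smul F z).symm))) _ c2
    have h5 : s.φ (y * y) = s.φ (m, m) := by
      rw [map_mul, hy, s.φ_sc, ← mul_inv_cancel_right (H.sc (-1)) x⁻¹, H.sc_comm, ← v3]
      group
    have h6 := (map_mul (C.δ H₁) _ _).symm.trans (congrArg (fun t => C.δ H₁ t.2) (s.inj h5))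
    have h7 := δ_sc_neg h2 H₁
    rw [← h6, sq_eq_one h2 h4 (isPElt_of_pow_eq_one (k := 2) (by
      rw [h2, sq 2, pow_mul, sq (C.δ H₁ y.2), h6, ← map_pow, sq, m1, map_one]))] at h7
    exact neg_one_ne h2 (by simpa [hd.neg_one_pow] using h7.symm)

end GUH.Df
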