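import Cfsg.Agent.Lib.GU.SbB
import Cfsg.Agent.Lib.GU.SbT

/-!
# S4537: lower bounds for the sectional rank of the defect groups
-/

set_option autoImplicit false
set_option linter.unusedSectionVars false

namespace GUH.Df

open Finset Polynomial Cfsg CT GT BT UW Module GLH SFock Subgroup
open scoped Classical MonoidAlgebra

universe u

variable {F : Type u} [Field F] [Fintype F] [StarRing F] [HF F] {K : Type} [Field K] [Fintype K] [Algebra F K]
  {C : UC F K} {A : Type} [CommRing A] [Algebra ℂ A] (U : UB C A)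
variable {V V₁ V₂ : Type u} [AddCommGroup V] [Module F V] [Fintype V]
  [AddCommGroup V₁] [Module F V₁] [Fintype V₁] [AddCommGroup V₂] [Module F V₂] [Fintype V₂]
  {H₁ : HS F V₁} {H₂ : HS F V₂} {H : HS F V}

theorem defB {n : ℕ} (h : finrank F V = n) (hn : n ≤ C.N) : DefB C.toOD C.M U.π n (C.δ H) (U.ch H) := by
  intro Λ B χ P s hΛ hPL hB hχ e hP hs
  have hW : C.p = 2 → C.W Λ = ∑ θ, sz C.N (Λ θ) := fun h2 => sum_congr rfl fun θ _ => ww_two h2 hΛ θ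
  refine ⟨?_, fun hp => ?_, fun h2 hev => ?_, fun h2 h4 hev h5 => ?_⟩
  · have h1 := sx_W U ⊤ n H h hn Λ hΛ hPL (fun _ _ _ _ _ _ => trivial) B hB χ hχ e P hP
    rcases h0 : C.W Λ with _ | w
    · omega
    · exact Nat.succ_le_succ ((Sx.ker' _ (h0 ▸ h1)).le hs)
  · refine (sx_W U ⊥ n H h hn Λ hΛ hPL (fun θ _ H₂ v hv _ => ?_) B hB χ hχ e P hP).le hs
    refine ((isPElt_of_pow_eq_one (k := 1) (by rwa [pow_one])).map (C.δ H₂)).eq_one_of_isPRegular
      (isPRegular_of_not_dvd_card ?_ _)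
    rwa [C.card_XS one_pos C.N_pos]
  · obtain ⟨m, hm⟩ : Even (∑ θ, sz C.N (Λ θ)) := even_sum _ fun θ _ => hev θ
    rw [hW h2, hm, ← mul_two]
    refine (sx_even U h2 ⊥ 2 (fun θ a1 a2 H Λ a3 a4 B a5 χ a6 a7 D a8 => ?_) m H n h hn Λ hΛ hPL hev
      (hm.trans (two_mul m).symm) B hB χ hχ e P hP).le hs
    by_cases h4 : 4 ∣ C.cX 1
    · exact Sx.ker' _ (Sx.top _ (sx_two_box_three U h2 (by simp) a2 a5 a6 a7 a3 a1 a4 a8 h4))
    · exact sx_two_box_two U h2 (by simp) a2 a5 a6 a7 a3 a1 a4 a8 h4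
  · exact (Sx.ker' _ (sx_even U h2 ⊤ 3 (fun θ a1 a2 H Λ a3 a4 B a5 χ a6 a7 D a8 =>
      Sx.top _ (sx_two_box_three U h2 (by simp) a2 a5 a6 a7 a3 a1 a4 a8 h4)) 2 H n h hn Λ hΛ hPL
      (fun θ => (even_iff_two_dvd.2 ((by norm_num : 2 ∣ 4).trans (hev θ)))) ((hW h2).symm.trans h5) B hB χ hχ e P hP)).le hs

end GUH.Df
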