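import Cfsg.Agent.Lib.GU.SbA
import Cfsg.Agent.Lib.GU.DefC
import Cfsg.Agent.Lib.GU.MainA

/-!
# S4537: lower bounds for the sectional rank of the defect groups
-/

set_option autoImplicit false
set_option linter.unusedSectionVars false

namespace GUH.Df

open Finset Polynomial Cfsg CT GT BT UW Module GLH SFock Subgroup
open scoped Classical MonoidAlgebra

universe u

variable {F : Type u} [Field F] [Fintype F] [StarRing F] [HF F] {K : Type} [Field K] [Fintype K] [Algebra F K]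
  {C : UC F K} {A : Type} [CommRing A] [Algebra ℂ A] (U : UB C A)
variable {V V₁ V₂ : Type u} [AddCommGroup V] [Module F V] [Fintype V]
  [AddCommGroup V₁] [Module F V₁] [Fintype V₁] [AddCommGroup V₂] [Module F V₂] [Fintype V₂]
  {H₁ : HS F V₁} {H₂ : HS F V₂} {H : HS F V}

theorem exists_zeta (θ : C.Th) (hk : C.ee θ * C.deg θ ≤ C.N) :
    ∃ ζ ∈ C.XX (C.ee θ * C.deg θ), ζ ^ C.p = 1 ∧ ζ ≠ 1 := by
  have hk0 := Nat.mul_pos (OD.ee_pos θ) (OD.deg_pos θ)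
  have h3 : C.p ∣ orderOf (C.γ (C.ee θ * C.deg θ)) := by
    rw [C.orderOf_γ hk0 hk, ← OD.ee_dvd_iff]
  have h4 := orderOf_pow_orderOf_div (orderOf_pos _).ne' h3
  exact ⟨_, OD.pow_mem_XX (C.γ_mem hk0 hk) _, h4 ▸ pow_orderOf_eq_one _,
    fun h => C.hp.one_lt.ne' (by rw [← h4, h, orderOf_one])⟩

theorem root_pPart {k : ℕ} (h0 : 0 < k) {x : Kˣ} (hx : x ∈ C.XX k) {y : Kˣ} (hy : aeval (y : K) (C.mp k x) = 0) :
    ∃ i, pPart C.p y = pPart C.p x ^ C.Q ^ i := by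
  obtain ⟨z, h1, h2⟩ := (UC.aeval_mp h0 hx).1 hy
  obtain ⟨i, hi⟩ := OD.mk_eq.1 h1.symm
  exact ⟨i, by rw [← Units.ext h2, hi, pPart_pow]⟩

theorem W_succ {Λ Λ₁ : C.Th → Finset ℕ} {θ : C.Th} (h : ∀ i, i ≠ θ → Λ₁ i = Λ i) (h' : C.ww Λ θ = C.ww Λ₁ θ + 1) :
    C.W Λ = C.W Λ₁ + 1 := by
  rw [OD.W, OD.W, ← add_sum_erase _ _ (mem_univ θ), ← add_sum_erase _ _ (mem_univ θ), h',
    sum_congr rfl fun i hi => show C.ww Λ i = C.ww Λ₁ i by rw [OD.ww, OD.ww, h i (ne_of_mem_erase hi)]]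
  ring

theorem mem_comap_φ (s : Spt H₁ H₂ H) (R : Subgroup (C.XS 1)) : ∀ a ∈ R.comap (C.δ H₁), ∀ b ∈ R.comap (C.δ H₂),
    s.φ (a, b) ∈ R.comap (C.δ H) := fun a ha b hb => by
  rw [mem_comap, s.δ_φ]
  exact mul_mem ha hb

theorem sx_W (R : Subgroup (C.XS 1)) (n : ℕ) : ∀ {V : Type u} [AddCommGroup V] [Module F V] [Fintype V] (H : HS F V),
    finrank F V = n → n ≤ C.N → ∀ Λ, C.Lab n Λ → C.PLab Λ →
    (∀ θ, C.ww Λ θ ≠ 0 → ∀ (H₂ : HS F (Fin (C.ee θ * C.deg θ) → F)) (v : H₂.U), v ^ C.p = 1 →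
      (∀ x : Fin (C.ee θ * C.deg θ) → F, v • x = x → x = 0) → C.δ H₂ v ∈ R) →
    ∀ B, IsPBlock C.M B → ∀ χ ∈ B, IsL C.N U.π (U.ch H) χ Λ → ∀ P, IsDefectGroup C.p C.M B P →
      Sx C.p ↥(P ⊓ R.comap (C.δ H)) (C.W Λ) := by
  induction n using Nat.strong_induction_on with | _ n ih =>
  intro V _ _ _ H h hn Λ hΛ hPL hR B hB χ hχ e P hP
  by_cases hW : C.W Λ = 0
  · exact hW ▸ sx_zero
  obtain ⟨θ, -, hw⟩ := exists_ne_zero_of_sum_ne_zero hW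
  have hj := OD.ee_pos θ
  have hk0 := Nat.mul_pos hj (OD.deg_pos θ)
  obtain ⟨n₁, -, rfl, -⟩ := AbsA.exists_hook U.sys hn hj hΛ hw
  have hk : C.ee θ * C.deg θ ≤ C.N := by omega
  obtain ⟨ζ, z1, z2, z3⟩ := exists_zeta θ hk
  obtain ⟨H₁, H₂, ⟨s⟩⟩ := exists_spt H h
  obtain ⟨Λ₁, -, χ₁, -, a, x, β, a1, a2, a3, a4, a5, -, -, -, a6, a7, a8, a9, -, a10⟩ := stepL U s (by simp) (by simp)
    hn hΛ hPL hj hw z1 (isPElt_of_pow_eq_one (k := 1) (by rwa [pow_one])) z3 hB hχ e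
  have v1 := fpf_of_isUnit (isUnit_pPart_sub (by simpa) hk0 a6 a8 (a7 ▸ z3))
  have v2 : pPart C.p a ^ C.p = 1 := (C.pPart_pow_eq_one_iff (by simpa) H₂).2 fun y hy => by
    obtain ⟨i, hi⟩ := root_pPart hk0 a6 (a8 ▸ hy)
    rw [hi, a7, pow_right_comm, z2, one_pow]
  have v3 : pPart C.p a ≠ 1 := fun h1 =>
    one_ne_zero (congrFun (v1 1 (by rw [h1, one_smul])) ⟨0, hk0⟩)
  obtain ⟨D₁, d1⟩ := exists_isDefectGroup (p := C.p) C.hM (isPBlock_blockOf (M := C.M) χ₁)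
  have q := (isPElt_pPart C.p a).isPGroup_zpowers
  have b := bp_sidem C.hM (isPElt_pPart C.p a) a9
  rw [W_succ a2 (GLH.Df.wt_succ hj (a1.1 θ) (hΛ.1 θ) a3 a4)]
  refine sx_of_pair C.hM s.inj (s.mem_range v1) hB hP a10 (defGrp_of_isDefectGroup C.hM (isPBlock_blockOf _) d1)
    (isCentral_idem C.hM _) q b.isFixed_self (b.br_self.symm ▸ b.bidem.ne_zero)
    (fun y hy => mem_centralizer_singleton_iff.1 (zpowers_le_centralizer _ hy)) (mem_comap_φ s R)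
    (ih n₁ (by omega) H₁ (by simp) (by omega) Λ₁ a1 (plab_of_eq hPL hw a2)
      (fun i hi => hR i (by
        by_cases h : i = θ
        · rwa [h]
        · rwa [OD.ww, ← a2 i h])) _ (isPBlock_blockOf _) _ (mem_blockOf_self C.hM _) a5 D₁ d1)
    (sx_one (q.to_le inf_le_left) (x := ⟨_, mem_zpowers _, hR θ hw H₂ _ v2 v1⟩) fun e => v3 (congrArg Subtype.val e))

theorem ww_two (h2 : C.p = 2) {n : ℕ} {Λ : C.Th → Finset ℕ} (hΛ : C.Lab n Λ) (θ : C.Th) : C.ww Λ θ = sz C.N (Λ θ) := by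
  rw [OD.ww, ee_eq_one h2, GLH.wt_one (hΛ.1 θ)]

theorem sx_even (h2 : C.p = 2) (R : Subgroup (C.XS 1)) (r : ℕ)
    (hT : ∀ θ, C.par θ = θ → 2 * C.deg θ ≤ C.N → ∀ (H : HS F (Fin (2 * C.deg θ) → F)) Λ, C.Lab (2 * C.deg θ) Λ →
      (∀ i, i ≠ θ → Λ i = range C.N) → ∀ B, IsPBlock C.M B → ∀ χ ∈ B, IsL C.N U.π (U.ch H) χ Λ →
      ∀ P, IsDefectGroup C.p C.M B P → Sx C.p ↥(P ⊓ R.comap (C.δ H)) r) (m : ℕ) :
    ∀ {V : Type u} [AddCommGroup V] [Module F V] [Fintype V] (H : HS F V) (n : ℕ),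
    finrank F V = n → n ≤ C.N → ∀ Λ, C.Lab n Λ → C.PLab Λ → (∀ θ, Even (sz C.N (Λ θ))) → ∑ θ, sz C.N (Λ θ) = 2 * m →
    ∀ B, IsPBlock C.M B → ∀ χ ∈ B, IsL C.N U.π (U.ch H) χ Λ → ∀ P, IsDefectGroup C.p C.M B P →
      Sx C.p ↥(P ⊓ R.comap (C.δ H)) (m * r) := by
  induction m with
  | zero => intros; exact (zero_mul r).symm ▸ sx_zero
  | succ m ih =>
  intro V _ _ _ H n h hn Λ hΛ hPL hev hm B hB χ hχ e P hP
  obtain ⟨θ, -, hw⟩ := exists_ne_zero_of_sum_ne_zero (hm.trans_ne (by omega))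
  have hθ : C.par θ = θ := OD.par_of_ww hPL (by rwa [ww_two h2 hΛ])
  obtain ⟨Λ', hΛ', hPL', -, r1, r2, χ', hχ', e'⟩ := exists_row U h2 h hn hΛ hPL hB hχ e
  have hw' := r2 θ 2 two_pos (by obtain ⟨c, hc⟩ := hev θ; omega)
  obtain ⟨n₁, -, rfl, -⟩ := AbsA.exists_hook U.sys hn two_pos hΛ' hw'
  have hk : 2 * C.deg θ ≤ C.N := by omega
  obtain ⟨H₁, H₂, ⟨s⟩⟩ := exists_spt H h
  obtain ⟨Λ₁, Λ₂, χ₁, χ₂, a1, a2, -, a4, a5, b1, b2, b3, a10⟩ := stepZ U h2 s (by simp)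
    (by simp) hn hΛ' hPL' two_pos hw' hB hχ' e'
  have v1 : ∀ x : Fin (2 * C.deg θ) → F, H₂.sc (-1) • x = x → x = 0 := fun x hx => by
    have h3 : (2 : F) ≠ 0 := Ring.two_ne_zero fun h' => C.p_ne' (h2.trans h'.symm)
    rw [HS.sc_smul, Unitary.coe_neg, OneMemClass.coe_one, neg_one_smul, neg_eq_iff_add_eq_zero, ← two_smul F] at hx
    exact (smul_eq_zero.1 hx).resolve_left h3
  obtain ⟨D₁, d1⟩ := exists_isDefectGroup (p := C.p) C.hM (isPBlock_blockOf (M := C.M) χ₁)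
  obtain ⟨D₂, d2⟩ := exists_isDefectGroup (p := C.p) C.hM (isPBlock_blockOf (M := C.M) χ₂)
  have d3 := defGrp_of_isDefectGroup C.hM (isPBlock_blockOf _) d2
  have c1 : ∀ i, i ≠ θ → sz C.N (Λ₁ i) = sz C.N (Λ i) := fun i hi => by rw [a2 i hi, r1]
  rw [r1] at a4
  rw [add_mul, one_mul]
  refine sx_of_pair C.hM s.inj (s.mem_range v1) hB hP a10 (defGrp_of_isDefectGroup C.hM (isPBlock_blockOf _) d1)
    (isCentral_idem C.hM _) d3.pgroup ((isCentral_idem C.hM _).isFixed _) d3.br_ne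
    (fun y _ => (H₂.sc_comm _ y).symm) (mem_comap_φ s R)
    (ih H₁ n₁ (by simp) (by omega) Λ₁ a1 (plab_of_eq hPL' hw' a2)
      (fun i => ?_) ?_ _ (isPBlock_blockOf _) _ (mem_blockOf_self C.hM _) a5 D₁ d1)
    (hT θ hθ hk H₂ Λ₂ b1 b2 _ (isPBlock_blockOf _) _ (mem_blockOf_self C.hM _) b3 D₂ d2)
  · by_cases hi : i = θ
    · have := hev θ
      rw [a4, Nat.even_add] at this
      exact hi ▸ this.2 even_two
    · exact c1 i hi ▸ hev i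
  · rw [← add_sum_erase _ _ (mem_univ θ)] at hm ⊢
    rw [sum_congr rfl fun i hi => c1 i (ne_of_mem_erase hi)]
    omega

theorem Sx.ker' {X Y : Type*} [Group X] [Group Y] [IsCyclic Y] {p r : ℕ} [Fact p.Prime] {P : Subgroup X} (δ : X →* Y)
    (h : Sx p ↥(P ⊓ (⊤ : Subgroup Y).comap δ) (r + 1)) : Sx p ↥(P ⊓ δ.ker) r :=
  (h.ker (δ.comp (Subgroup.subtype _))).map (((Subgroup.subtype _).comp (Subgroup.subtype _)).codRestrict _
    fun y => mem_inf.2 ⟨y.1.2.1, y.2⟩) fun _ _ e => Subtype.ext (Subtype.ext (congrArg Subtype.val e :))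

theorem Sx.top {X Y : Type*} [Group X] [Group Y] {p r : ℕ} [Fact p.Prime] {P : Subgroup X} (δ : X →* Y)
    (h : Sx p P r) : Sx p ↥(P ⊓ (⊤ : Subgroup Y).comap δ) r :=
  h.map (inclusion (le_inf le_rfl le_top)) (inclusion_injective _)

end GUH.Df
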