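import Cfsg.Agent.Lib.GL.HaB

/-!
# The permutation kernel on rectangular matrices and multiplication by the trivial characters

`∑_r H(n,r) H(m,r)^*` is the operator with kernel `q ^ dim {X | g X = X h}`.
-/

set_option autoImplicit false
set_option linter.unusedSectionVars false

namespace GUH

open Finset Matrix Module Cfsg GLH GLH.Mk GLH.Ha
open scoped Classical ComplexConjugate

universe u

section Hom
variable {F : Type u} [Field F] {n m r s t : ℕ}

/-- the intertwiners -/
def homS (g : Mat F n) (h : Mat F m) : Submodule F (Rm F n m) where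
  carrier := {X | g * X = X * h}
  add_mem' := fun {X Y} hX hY => by
    change g * (X + Y) = (X + Y) * h
    rw [Matrix.mul_add, Matrix.add_mul, show g * X = X * h from hX, show g * Y = Y * h from hY]
  zero_mem' := by change g * 0 = 0 * h; simp
  smul_mem' := fun c X hX => by
    change g * (c • X) = (c • X) * h
    rw [Matrix.mul_smul, Matrix.smul_mul, show g * X = X * h from hX]

theorem mem_homS {g : Mat F n} {h : Mat F m} {X : Rm F n m} : X ∈ homS g h ↔ g * X = X * h :=
  Iff.rfl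

/-- the dimension of the space of intertwiners -/
noncomputable def dh (g : Mat F n) (h : Mat F m) : ℕ := finrank F (homS g h)

/-- the standard matrix of rank `r` -/
def EE (F : Type u) [Field F] (r s t : ℕ) : Rm F (r + s) (t + r) := rb 0 1 0 0

theorem rb_mul {a b c d e f : ℕ} (A : Rm F a c) (B : Rm F a d) (C : Rm F b c) (D : Rm F b d)
    (A' : Rm F c e) (B' : Rm F c f) (C' : Rm F d e) (D' : Rm F d f) :
    rb A B C D * rb A' B' C' D' =
      rb (A * A' + B * C') (A * B' + B * D') (C * A' + D * C') (C * B' + D * D') := by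
  simp only [rb, reindex_apply, submatrix_mul_equiv, fromBlocks_multiply]

theorem rb_inj {a b c d : ℕ} {A A' : Rm F a c} {B B' : Rm F a d} {C C' : Rm F b c}
    {D D' : Rm F b d} : rb A B C D = rb A' B' C' D' ↔ A = A' ∧ B = B' ∧ C = C' ∧ D = D' := by
  simp only [rb, Equiv.apply_eq_iff_eq, fromBlocks_inj]

theorem rank_EE : (EE F r s t).rank = r := by
  rw [EE, rb, rank_reindex]
  refine le_antisymm ?_ ?_
  · have : (fromBlocks 0 1 0 0 : Matrix (Fin r ⊕ Fin s) (Fin t ⊕ Fin r) F) =
        (fromRows (1 : Matrix (Fin r) (Fin r) F) (0 : Matrix (Fin s) (Fin r) F) :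
          Matrix (Fin r ⊕ Fin s) (Fin r) F) *
        (fromCols (0 : Matrix (Fin r) (Fin t) F) (1 : Matrix (Fin r) (Fin r) F) :
          Matrix (Fin r) (Fin t ⊕ Fin r) F) := by
      rw [fromRows_mul_fromCols]; simp
    rw [this]
    exact (rank_mul_le_left _ _).trans ((rank_le_card_width _).trans (by simp))
  · have := rank_submatrix_le
      (fromBlocks 0 1 0 0 : Matrix (Fin r ⊕ Fin s) (Fin t ⊕ Fin r) F) Sum.inl Sum.inr
    have e : (fromBlocks 0 1 0 0 : Matrix (Fin r ⊕ Fin s) (Fin t ⊕ Fin r) F).submatrix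
        Sum.inl Sum.inr = 1 := by ext i j; simp
    rwa [e, rank_one, Fintype.card_fin] at this

theorem exists_equiv_of_rank {V W : Type*} [AddCommGroup V] [Module F V] [AddCommGroup W]
    [Module F W] [FiniteDimensional F V] [FiniteDimensional F W] (f f' : V →ₗ[F] W)
    (h : finrank F (LinearMap.range f) = finrank F (LinearMap.range f')) :
    ∃ (a : W ≃ₗ[F] W) (b : V ≃ₗ[F] V), ∀ v, f' (b v) = a (f v) := by
  have hk : finrank F (LinearMap.ker f) = finrank F (LinearMap.ker f') := by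
    have h1 := f.finrank_range_add_finrank_ker
    have h2 := f'.finrank_range_add_finrank_ker
    omega
  obtain ⟨b, hb⟩ := Submodule.exists_linearEquiv_restrict_eq (LinearEquiv.ofFinrankEq _ _ hk)
  have hker : LinearMap.ker f = LinearMap.ker (f' ∘ₗ b.toLinearMap) := by
    refine Submodule.eq_of_le_of_finrank_eq (fun v hv => ?_) ?_
    · have := (LinearEquiv.ofFinrankEq _ _ hk ⟨v, hv⟩).2
      rw [hb] at this
      exact this
    · rw [hk, LinearMap.ker_comp, Submodule.comap_equiv_eq_map_symm, LinearEquiv.finrank_map_eq]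
  obtain ⟨a, ha⟩ := Submodule.exists_linearEquiv_restrict_eq
    ((f.quotKerEquivRange.symm.trans (Submodule.quotEquivOfEq _ _ hker)).trans
      (f' ∘ₗ b.toLinearMap).quotKerEquivRange)
  refine ⟨a, b, fun v => ?_⟩
  have := ha ⟨f v, LinearMap.mem_range_self f v⟩
  rw [← this]
  simp

theorem exists_G_of_rank (X X' : Rm F n m) (h : X.rank = X'.rank) :
    ∃ (a : G F n) (b : G F m), X' = a.1 * X * (b⁻¹).1 := by
  obtain ⟨a, b, hab⟩ := exists_equiv_of_rank (toLin' X) (toLin' X') h
  let x : G F n := ⟨LinearMap.toMatrix' a.toLinearMap, LinearMap.toMatrix' a.symm.toLinearMap,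
    by rw [← LinearMap.toMatrix'_comp]; simp, by rw [← LinearMap.toMatrix'_comp]; simp⟩
  let y : G F m := ⟨LinearMap.toMatrix' b.toLinearMap, LinearMap.toMatrix' b.symm.toLinearMap,
    by rw [← LinearMap.toMatrix'_comp]; simp, by rw [← LinearMap.toMatrix'_comp]; simp⟩
  have hx : ∀ v, x.1 *ᵥ v = a v := fun v => by
    rw [← toLin'_apply, toLin'_toMatrix']; rfl
  have hy : ∀ v, y.1 *ᵥ v = b v := fun v => by
    rw [← toLin'_apply, toLin'_toMatrix']; rfl
  have e : X' * y.1 = x.1 * X := by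
    refine toLin'.injective (LinearMap.ext fun v => ?_)
    rw [toLin'_apply, toLin'_apply, ← mulVec_mulVec, ← mulVec_mulVec, hx, hy]
    exact hab v
  refine ⟨x, y, ?_⟩
  rw [← e, Matrix.mul_assoc, Units.mul_inv, Matrix.mul_one]

theorem rank_G (X : Rm F n m) (a : G F n) (b : G F m) : (a.1 * X * b.1).rank = X.rank := by
  rw [rank_mul_eq_left_of_isUnit_det _ _ ((isUnit_iff_isUnit_det _).1 b.isUnit),
    rank_mul_eq_right_of_isUnit_det _ _ ((isUnit_iff_isUnit_det _).1 a.isUnit)]

theorem mul_inv_rect (a : G F n) (X : Rm F n m) : a.1 * ((a⁻¹).1 * X) = X := by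
  rw [← Matrix.mul_assoc, Units.mul_inv, Matrix.one_mul]

theorem inv_mul_rect (a : G F n) (X : Rm F n m) : (a⁻¹).1 * (a.1 * X) = X := by
  rw [← Matrix.mul_assoc, Units.inv_mul, Matrix.one_mul]

theorem cnj_iff (g : Mat F n) (h : Mat F m) (X : Rm F n m) (a : G F n) (b : G F m) :
    cnj a g * X = X * cnj b h ↔ g * (a.1 * X * (b⁻¹).1) = a.1 * X * (b⁻¹).1 * h := by
  constructor
  · intro e
    have := congrArg (fun Y => a.1 * Y * (b⁻¹).1) e
    simpa only [cnj, Matrix.mul_assoc, Units.mul_inv, Matrix.mul_one, mul_inv_rect] using this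
  · intro e
    have := congrArg (fun Y => (a⁻¹).1 * Y * b.1) e
    simpa only [cnj, Matrix.mul_assoc, Units.inv_mul, Matrix.mul_one, inv_mul_rect] using this

variable [Fintype F]

theorem pow_dh (g : Mat F n) (h : Mat F m) : (Fintype.card F : ℂ) ^ dh g h =
    ∑ X : Rm F n m, if g * X = X * h then 1 else 0 := by
  rw [sum_boole, dh, ← Nat.cast_pow, ← Module.card_eq_pow_finrank (K := F) (V := homS g h),
    Fintype.card_subtype]
  congr 2
  ext X
  simp only [mem_filter, mem_homS]

theorem dh_cnj (g : Mat F n) (h : Mat F m) (a : G F n) (b : G F m) :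
    dh (cnj a g) (cnj b h) = dh g h := by
  let e : Rm F n m ≃ₗ[F] Rm F n m :=
    { toFun := fun X => a.1 * X * (b⁻¹).1
      invFun := fun X => (a⁻¹).1 * X * b.1
      map_add' := fun X Y => by simp only [Matrix.mul_add, Matrix.add_mul]
      map_smul' := fun c X => by simp only [Matrix.mul_smul, Matrix.smul_mul, RingHom.id_apply]
      left_inv := fun X => by simp [Matrix.mul_assoc]
      right_inv := fun X => by simp [Matrix.mul_assoc] }
  have : homS (cnj a g) (cnj b h) = (homS g h).comap e.toLinearMap := by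
    ext X
    exact cnj_iff g h X a b
  rw [dh, this, Submodule.comap_equiv_eq_map_symm, LinearEquiv.finrank_map_eq, dh]

/-- the sum over the stabilizer of `X` -/
noncomputable def Ph (x : Mat F n → ℂ) (y : Mat F m → ℂ) (X : Rm F n m) : ℂ :=
  ∑ g, ∑ h, if g * X = X * h then x g * y h else 0

theorem Ph_equiv {x : Mat F n → ℂ} {y : Mat F m → ℂ} (hx : ∀ a M, x (cnj a M) = x M)
    (hy : ∀ a M, y (cnj a M) = y M) (X : Rm F n m) (a : G F n) (b : G F m) :
    Ph x y (a.1 * X * (b⁻¹).1) = Ph x y X := by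
  rw [Ph, Ph, ← sum_cnj a fun g => ∑ h, if g * X = X * h then x g * y h else 0]
  refine sum_congr rfl fun g _ => ?_
  rw [← sum_cnj b fun h => if cnj a g * X = X * h then x (cnj a g) * y h else 0]
  simp only [cnj_iff, hx, hy]

theorem Ph_EE (x : Mat F (r + s) → ℂ) (y : Mat F (t + r) → ℂ) : Ph x y (EE F r s t) =
    ∑ A, (∑ D, ∑ B, x (cat A B D)) * ∑ D, ∑ B, y (cat D B A) := by
  have key : ∀ (A : Mat F r) (B : Rm F r s) (C : Rm F s r) (D : Mat F s) (D' : Mat F t)
      (B' : Rm F t r) (C' : Rm F r t) (A' : Mat F r),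
      (rb A B C D : Mat F (r + s)) * EE F r s t = EE F r s t * (rb D' B' C' A' : Mat F (t + r)) ↔
        C = 0 ∧ C' = 0 ∧ A' = A := by
    intro A B C D D' B' C' A'
    simp only [EE, rb_mul, rb_inj, Matrix.mul_zero, Matrix.zero_mul, Matrix.mul_one,
      Matrix.one_mul, add_zero, zero_add, and_true, true_and]
    constructor
    · rintro ⟨h1, h2, h3⟩; exact ⟨h3, h1.symm, h2.symm⟩
    · rintro ⟨h1, h2, h3⟩; exact ⟨h2.symm, h3.symm, h1⟩
  rw [Ph, sum_rb]
  refine sum_congr rfl fun A _ => ?_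
  rw [sum_comm (f := fun D B => x (cat A B D)), sum_mul]
  refine sum_congr rfl fun B _ => ?_
  rw [sum_eq_single 0 (fun C _ hC => ?_) (by simp), sum_mul]
  · refine sum_congr rfl fun D _ => ?_
    rw [sum_rb, mul_sum]
    refine sum_congr rfl fun D' _ => ?_
    rw [mul_sum]
    refine sum_congr rfl fun B' _ => ?_
    rw [sum_eq_single 0 (fun C _ hC => ?_) (by simp), sum_eq_single A (fun C _ hC => ?_) (by simp)]
    · rw [if_pos ((key ..).2 ⟨rfl, rfl, rfl⟩)]; rfl
    · exact if_neg fun h => hC ((key ..).1 h).2.2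
    · exact sum_eq_zero fun _ _ => if_neg fun h => hC ((key ..).1 h).2.1
  · refine sum_eq_zero fun D _ => ?_
    rw [sum_rb]
    exact sum_eq_zero fun _ _ => sum_eq_zero fun _ _ => sum_eq_zero fun _ _ =>
      sum_eq_zero fun _ _ => if_neg fun h => hC ((key ..).1 h).1

/-- orbit counting -/
theorem sum_orbit (Φ : Rm F n m → ℂ) (E : Rm F n m) :
    ∑ a : G F n, ∑ b : G F m, Φ (a.1 * E * (b⁻¹).1) =
      Ph (fun g => if IsUnit g then 1 else 0) (fun g => if IsUnit g then 1 else 0) E *
        ∑ X with X.rank = E.rank, Φ X := by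
  have h1 : ∀ X : Rm F n m, (∑ a : G F n, ∑ b : G F m,
      if a.1 * E * (b⁻¹).1 = X then (1 : ℂ) else 0) = if X.rank = E.rank then
        Ph (fun g => if IsUnit g then 1 else 0) (fun g => if IsUnit g then 1 else 0) E else 0 := by
    intro X
    split_ifs with hX
    · obtain ⟨a₀, b₀, rfl⟩ := exists_G_of_rank E X hX.symm
      rw [← Equiv.sum_comp (Equiv.mulLeft a₀), Ph, ← sum_units _ fun M h => by simp [h]]
      refine sum_congr rfl fun a _ => ?_
      rw [← Equiv.sum_comp (Equiv.mulLeft b₀), ← sum_units _ fun M h => by simp [h]]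
      refine sum_congr rfl fun b _ => ?_
      simp only [Units.isUnit, if_true, mul_one, Equiv.coe_mulLeft]
      refine if_congr ⟨fun e => ?_, fun e => ?_⟩ rfl rfl
      · have := congrArg (fun Y => (a₀⁻¹).1 * Y * b₀.1 * b.1) e
        simpa only [_root_.mul_inv_rev, Units.val_mul, Matrix.mul_assoc, Units.inv_mul,
          Matrix.mul_one, inv_mul_rect] using this
      · rw [_root_.mul_inv_rev, Units.val_mul, Units.val_mul, Matrix.mul_assoc a₀.1, e]
        simp only [Matrix.mul_assoc, mul_inv_rect]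
    · exact sum_eq_zero fun a _ => sum_eq_zero fun b _ => if_neg fun e =>
        hX (by rw [← e, rank_G])
  have h2 : ∀ (a : G F n) (b : G F m), Φ (a.1 * E * (b⁻¹).1) =
      ∑ X, (if a.1 * E * (b⁻¹).1 = X then (1 : ℂ) else 0) * Φ X := fun a b => by simp
  simp only [h2]
  rw [sum_filter, mul_sum]
  simp only [← sum_comm (s := (univ : Finset (Rm F n m))), ← sum_mul, h1]
  exact sum_congr rfl fun X _ => by split_ifs <;> simp

theorem Ph_one_EE : Ph (fun g => if IsUnit g then 1 else 0) (fun g => if IsUnit g then 1 else 0)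
    (EE F r s t) = Nat.card (G F r) * (Nat.card (G F s) * Fintype.card (Rm F r s)) *
      (Nat.card (G F t) * Fintype.card (Rm F t r)) := by
  rw [Ph_EE, card_G r, card_G s, card_G t, sum_mul, sum_mul]
  refine sum_congr rfl fun A _ => ?_
  simp only [isUnit_cat, sum_const, card_univ, nsmul_eq_mul]
  by_cases hA : IsUnit A
  · simp only [hA, true_and, and_true, if_true, one_mul, ← mul_sum]; ring
  · simp [hA]

end Hom

section Op
variable {F : Type u} [Field F] [Fintype F] {n m r s t j : ℕ}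

/-- the trivial character of `GL_j` -/
noncomputable def h1 (F : Type u) [Field F] [Fintype F] (j : ℕ) : H (1 : Fˣ →* ℂˣ) :=
  (MF.ofPoly (1 : Polynomial F →* ℂ)).gl j

theorem h1_val (M : Mat F n) : (h1 F n).1 n M = if IsUnit M then 1 else 0 := gl_val _ M

theorem h1_mem (j : ℕ) : h1 F j ∈ Hn 1 j := fun k hk M => by
  change (if k = j ∧ IsUnit M then _ else 0) = 0
  rw [if_neg fun h => hk h.1]

theorem val_cnj (y : H (1 : Fˣ →* ℂˣ)) (a : G F n) (M : Mat F n) :
    y.1 n (cnj a M) = y.1 n M := by rw [y.2.2 n a M, dt_one', one_mul]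

/-- the adjoint of the multiplication by `h1 F j`, from degree `j + r` to degree `r` -/
noncomputable def hperp (j r : ℕ) (y : H (1 : Fˣ →* ℂˣ)) : H (1 : Fˣ →* ℂˣ) :=
  mkH (n := r) (fun A => (Nat.card (G F j) : ℂ)⁻¹ * ∑ D : Mat F j, cop y.1 D A)
    (fun A hA => mul_eq_zero_of_right _ (sum_eq_zero fun D _ => cop_eq_zero y fun h => hA h.2))
    (fun h A => by
      rw [dt_one', one_mul]
      congr 1
      refine sum_congr rfl fun D _ => ?_
      rw [cop_cnj' y 1 h, dt_one', dt_one', cnj_one, one_mul, one_mul])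

theorem hperp_val (y : H (1 : Fˣ →* ℂˣ)) (A : Mat F r) : (hperp j r y).1 r A =
    (Nat.card (G F j) : ℂ)⁻¹ * ∑ D : Mat F j, cop y.1 D A := mkH_val _ _ _ _

theorem hperp_mem (j r : ℕ) (y : H (1 : Fˣ →* ℂˣ)) : hperp j r y ∈ Hn 1 r := mkH_mem _ _ _

theorem ip_hperp {z : H (1 : Fˣ →* ℂˣ)} (hz : z ∈ Hn 1 r) (y : H (1 : Fˣ →* ℂˣ)) :
    ipH (j + r) (h1 F j * z) y = ipH r z (hperp j r y) := by
  rw [adj2 (h1_mem j) hz, ipH_eq, sum_comm, mul_inv, mul_comm (_ : ℂ)⁻¹, mul_assoc, mul_sum]
  congr 1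
  refine sum_congr rfl fun A _ => ?_
  rw [hperp_val, map_mul, map_inv₀, map_natCast, map_sum, mul_left_comm, mul_sum (a := z.1 r A)]
  congr 1
  refine sum_congr rfl fun D _ => ?_
  rw [h1_val]
  split_ifs with h
  · rw [one_mul]
  · rw [cop_eq_zero y fun h' => h h'.1]; simp

/-- the operator with kernel `q ^ dh g h` from degree `m` to degree `n` -/
noncomputable def thetaOp (n m : ℕ) (y : H (1 : Fˣ →* ℂˣ)) : H (1 : Fˣ →* ℂˣ) :=
  mkH (n := n) (fun g => if IsUnit g then (Nat.card (G F m) : ℂ)⁻¹ *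
      ∑ h : Mat F m, (Fintype.card F : ℂ) ^ dh g h * y.1 m h else 0)
    (fun A hA => if_neg hA)
    (fun a g => by
      rw [dt_one', one_mul]
      refine if_congr (isUnit_cnj a g).symm ?_ rfl
      congr 1
      refine sum_congr rfl fun h _ => ?_
      rw [← dh_cnj g h a 1, cnj_one])

theorem thetaOp_val (y : H (1 : Fˣ →* ℂˣ)) (g : Mat F n) : (thetaOp n m y).1 n g =
    if IsUnit g then (Nat.card (G F m) : ℂ)⁻¹ *
      ∑ h : Mat F m, (Fintype.card F : ℂ) ^ dh g h * y.1 m h else 0 := mkH_val _ _ _ _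

theorem thetaOp_cf (y : H (1 : Fˣ →* ℂˣ)) (g : G F n) : H.cf (thetaOp n m y) n g =
    (Nat.card (G F m) : ℂ)⁻¹ * ∑ h : G F m, (Fintype.card F : ℂ) ^ dh g.1 h.1 * H.cf y m h := by
  rw [H.cf, thetaOp_val, if_pos g.isUnit, ← sum_units _ fun M h => by rw [y.2.1 _ _ h, mul_zero]]
  rfl

theorem thetaOp_mem (n m : ℕ) (y : H (1 : Fˣ →* ℂˣ)) : thetaOp n m y ∈ Hn 1 n := mkH_mem _ _ _

theorem ip_rank (y w : H (1 : Fˣ →* ℂˣ)) :
    ((Nat.card (G F (r + s)) : ℂ) * Nat.card (G F (t + r)))⁻¹ * ∑ X with X.rank = r,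
      Ph (fun g => conj (w.1 (r + s) g)) (y.1 (t + r)) X =
        ipH (r + s) (hperp t r y * h1 F s) w := by
  have h := sum_orbit (Ph (fun g => conj (w.1 (r + s) g)) (y.1 (t + r))) (EE F r s t)
  simp only [Ph_equiv (x := fun g => conj (w.1 (r + s) g)) (y := y.1 (t + r))
    (fun a M => by rw [val_cnj]) (val_cnj y), sum_const, card_univ, nsmul_eq_mul,
    ← Nat.card_eq_fintype_card (α := G F _)] at h
  rw [Ph_one_EE, rank_EE, Ph_EE] at h
  rw [adj2 (hperp_mem t r y) (h1_mem s)]
  have h2 : ∑ A : Mat F r, ∑ D : Mat F s, (hperp t r y).1 r A * (h1 F s).1 s D *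
      conj (cop w.1 A D) = ((Fintype.card (Rm F r s) : ℂ) *
        (Nat.card (G F t) * Fintype.card (Rm F t r)))⁻¹ * ∑ A : Mat F r,
        (∑ D, ∑ B, conj (w.1 (r + s) (cat A B D))) * ∑ D, ∑ B, y.1 (t + r) (cat D B A) := by
    rw [mul_sum]
    refine sum_congr rfl fun A _ => ?_
    have : ∀ D : Mat F s, (hperp t r y).1 r A * (h1 F s).1 s D * conj (cop w.1 A D) =
        (hperp t r y).1 r A * conj (cop w.1 A D) := fun D => by
      rw [h1_val]
      split_ifs with h
      · rw [mul_one]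
      · rw [cop_eq_zero w fun h' => h h'.2]; simp
    rw [sum_congr rfl fun D _ => this D]
    simp only [← mul_sum, hperp_val, cop, map_mul, map_inv₀, map_natCast, map_sum, mul_inv]
    ring
  rw [h2]
  have := card_G_ne (F := F) (r + s)
  have := card_G_ne (F := F) (t + r)
  have := card_G_ne (F := F) r
  have := card_G_ne (F := F) s
  have := card_G_ne (F := F) t
  have := card_Rm_ne (F := F) r s
  have := card_Rm_ne (F := F) t r
  field_simp
  linear_combination -h

/-- The `LDL` factorisation of the permutation kernel. -/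
theorem thetaOp_eq (n m : ℕ) (y : H (1 : Fˣ →* ℂˣ)) :
    thetaOp n m y = ∑ r ∈ range (min n m + 1), hperp (m - r) r y * h1 F (n - r) := by
  have hm : ∀ r ∈ range (min n m + 1), hperp (m - r) r y * h1 F (n - r) ∈ Hn 1 n := fun r hr => by
    have := mul_mem' (hperp_mem (m - r) r y) (h1_mem (n - r))
    rwa [Nat.add_sub_cancel' (by have := mem_range.1 hr; omega)] at this
  refine eq_of_ip' (thetaOp_mem n m y) (Submodule.sum_mem _ hm) fun w => ?_
  have h1' : ipH n (thetaOp n m y) w = ((Nat.card (G F n) : ℂ) * Nat.card (G F m))⁻¹ *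
      ∑ X : Rm F n m, Ph (fun g => conj (w.1 n g)) (y.1 m) X := by
    rw [ipH_eq, mul_inv, mul_assoc]
    congr 1
    simp only [Ph]
    rw [sum_comm, mul_sum]
    refine sum_congr rfl fun g _ => ?_
    rw [thetaOp_val]
    split_ifs with hg
    · rw [sum_comm, mul_assoc, sum_mul]
      congr 1
      refine sum_congr rfl fun h _ => ?_
      rw [pow_dh, sum_mul, sum_mul]
      exact sum_congr rfl fun X _ => by split_ifs <;> ring
    · simp [w.2.1 _ _ hg]
  have h2 : ipH n (∑ r ∈ range (min n m + 1), hperp (m - r) r y * h1 F (n - r)) w =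
      ∑ r ∈ range (min n m + 1), ipH n (hperp (m - r) r y * h1 F (n - r)) w := by
    induction range (min n m + 1) using Finset.induction_on with
    | empty => exact CT.ip_zero_left _
    | insert a s ha ih =>
      rw [sum_insert ha, sum_insert ha, ← ih]
      exact CT.ip_add_left _ _ _
  rw [h1', h2, ← sum_fiberwise_of_maps_to (g := fun X : Rm F n m => X.rank)
    (t := range (min n m + 1)) (fun X _ => mem_range.2 (Nat.lt_succ_of_le
      (le_min (rank_le_height X) (rank_le_width X)))), mul_sum]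
  refine sum_congr rfl fun r hr => ?_
  have := mem_range.1 hr
  obtain ⟨s, rfl⟩ : ∃ s, n = r + s := ⟨n - r, by omega⟩
  obtain ⟨t, rfl⟩ : ∃ t, m = t + r := ⟨m - r, by omega⟩
  rw [Nat.add_sub_cancel, Nat.add_sub_cancel_left]
  exact ip_rank y w

theorem hperp_zero {y : H (1 : Fˣ →* ℂˣ)} (hy : y ∈ Hn 1 m) : hperp 0 m y = y := by
  refine eq_of_ip' (hperp_mem 0 m y) hy fun w => ?_
  have h0 : h1 F 0 = 1 := H.ext fun k M => by
    rw [H.one_val]
    split_ifs with h
    · subst h; rw [h1_val, if_pos (isUnit_Mat_zero M)]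
    · exact h1_mem 0 k h M
  have h := ip_hperp (j := 0) (hc_mem' m w) y
  rw [h0, one_mul', Nat.zero_add] at h
  have e : ∀ z : H (1 : Fˣ →* ℂˣ), ipH m z w = conj (ipH m (hc m w) z) := fun z => by
    rw [ipH, ipH, CT.conj_ip]
    congr 1
    exact funext fun g => (hc_val w g.1).symm
  rw [e, e, h]

/-- the recursion for the multiplication by `h1` -/
theorem mul_h1_eq {y : H (1 : Fˣ →* ℂˣ)} (hy : y ∈ Hn 1 m) (h : m ≤ n) :
    y * h1 F (n - m) = thetaOp n m y - ∑ r ∈ range m, hperp (m - r) r y * h1 F (n - r) := by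
  rw [thetaOp_eq, min_eq_right h, sum_range_succ, Nat.sub_self, hperp_zero hy, add_sub_cancel_left]

end Op

theorem thetaG_realise_eqns : True := by
  have := @dh.eq_1.{0}
  have := @EE.eq_1.{0}
  have := @Ph.eq_1.{0}
  have := @h1.eq_1.{0}
  have := @hperp.eq_1.{0}
  have := @thetaOp.eq_1.{0}
  trivial

end GUH
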