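import Cfsg.Agent.Lib.GU.Orb
import Cfsg.Agent.Lib.GU.Em
import Cfsg.Agent.Lib.GL.GrD

/-!
# S4537: the orthogonal system of primitives of the Ennola model
-/

set_option autoImplicit false
set_option linter.unusedSectionVars false

namespace GUH.Ub

open Finset Cfsg GT GLH GUW OD
open scoped Classical ComplexConjugate

variable {Γ : Type} [CommGroup Γ] [Fintype Γ] {D : OD Γ} {q : ℕ}

theorem cX_eq (ht : D.t = -(q : ℤ)) (n : ℕ) : (D.cX n : ℂ) = (q : ℂ) ^ n - (-1) ^ n := by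
  have h1 : 1 ≤ q := by have := D.two_le; rw [ht] at this; simp at this; omega
  have h2 : (1 : ℤ) ≤ (q : ℤ) ^ n := one_le_pow₀ (by exact_mod_cast h1)
  have h3 : ((D.cX n : ℕ) : ℤ) = (q : ℤ) ^ n - (-1) ^ n := by
    rw [cX_cast, ht, neg_pow]
    rcases neg_one_pow_eq_or ℤ n with h | h <;> rw [h]
    · rw [one_mul, abs_of_nonneg (by omega)]
    · rw [abs_of_nonpos (by omega)]; ring
  exact_mod_cast congrArg (Int.cast : ℤ → ℂ) h3

theorem pPart_mem {n : ℕ} {x : Γ} (h : x ∈ D.XX n) : pPart D.p x ∈ D.XX n := pow_mem_XX h _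

theorem sum_frob {M : Type*} [AddCommMonoid M] (n i : ℕ) (g : Γ → M) :
    ∑ x ∈ D.XX n, g (x ^ D.Q ^ i) = ∑ x ∈ D.XX n, g x := by
  refine sum_bij (fun x _ => x ^ D.Q ^ i) (fun x hx => pow_mem_XX hx _)
    (fun x _ y _ e => frob_inj e) (fun y hy => ?_) fun _ _ => rfl
  refine ⟨y ^ D.Q ^ ((D.L - 1) * i), pow_mem_XX hy _, ?_⟩
  rw [← pow_mul, mul_comm, pow_mul, pow_back]

theorem sum_orbit {n : ℕ} {x : Γ} (hx : x ∈ D.XX n) (g : Γ → ℂ) :
    ∑ i ∈ range n, g (x ^ D.Q ^ i) = ((n / D.deg (D.cl x) : ℕ) : ℂ) * ∑ y ∈ D.orb (D.cl x), g y := by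
  obtain ⟨k, rfl⟩ := mem_XX.1 hx
  rw [Nat.mul_div_cancel_left _ (deg_pos _), ← nsmul_eq_mul]
  exact prod_range_pow (A := Multiplicative ℂ) g x k

theorem prod_orbit {M : Type*} [CommMonoid M] {n : ℕ} {x : Γ} (hx : x ∈ D.XX n) (g : Γ → M) :
    ∏ i ∈ range n, g (x ^ D.Q ^ i) = (∏ y ∈ D.orb (D.cl x), g y) ^ (n / D.deg (D.cl x)) := by
  obtain ⟨k, rfl⟩ := mem_XX.1 hx
  rw [Nat.mul_div_cancel_left _ (deg_pos _), prod_range_pow]

theorem sum_XX {M : Type*} [AddCommMonoid M] (n : ℕ) (g : D.Th → M) :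
    ∑ x ∈ D.XX n, g (D.cl x) = ∑ θ with D.deg θ ∣ n, D.deg θ • g θ := by
  rw [← sum_fiberwise_of_maps_to (g := D.cl) (t := univ.filter fun θ => D.deg θ ∣ n)
    fun x hx => mem_filter.2 ⟨mem_univ _, mem_XX.1 hx⟩]
  refine sum_congr rfl fun θ hθ => ?_
  rw [sum_congr rfl (g := fun _ => g θ) fun x hx => by rw [(mem_filter.1 hx).2], sum_const]
  congr 2
  ext x
  simp only [mem_filter, mem_XX, mem_orb, and_iff_right_iff_imp]
  exact fun e => e ▸ (mem_filter.1 hθ).2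

theorem pr_one (n : ℕ) (ξ : Γ) : D.pr n ξ 1 = 1 := by simp [pr]

section
variable {n : ℕ} (h0 : 0 < n) (hn : n ≤ D.N)
include h0 hn

theorem pr_pReg {ξ x : Γ} (h1 : ξ ∈ D.XX n) (h3 : x ∈ D.XX n) (hx : IsPRegular D.p x) :
    D.pr n (pRegPart D.p ξ) x = D.pr n ξ x := by
  obtain ⟨k, -, hk⟩ := exists_forall_pRegPart_eq_pow Γ D.p
  rw [hk, D.pr_pow h0 hn h1 h3, ← hk, hx.pRegPart_eq]

theorem sum_fibre {ξ x : Γ} (h3 : x ∈ D.XX n) (hx : ¬ IsPRegular D.p x) :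
    ∑ η ∈ D.XX n with pRegPart D.p η = ξ, D.pr n η x = 0 := by
  set u := pPart D.p (D.γ n)
  have hu : u ∈ D.XX n := pPart_mem (D.γ_mem h0 hn)
  have h1 : D.pr n u x ≠ 1 := fun h => by
    obtain ⟨k, hk⟩ := exists_forall_pPart_eq_pow Γ D.p
    rw [D.pr_comm h0 hn hu h3, show u = D.γ n ^ k from hk _, pr_pow_right, D.pr_γ h0 hn h3,
      ← Units.val_pow_eq_pow_val, ← map_pow, ← hk, Units.val_eq_one,
      map_eq_one_iff _ D.ω_inj] at h
    exact hx (pPart_eq_one_iff.1 h)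
  refine (mul_left_eq_self₀.1 ?_).resolve_left h1
  rw [mul_sum]
  have h2 : ∀ η, pRegPart D.p (u * η) = pRegPart D.p η := fun η =>
    pRegPart_mul_of_isPElt (isPElt_pPart _ _) (Commute.all _ _)
  refine sum_bij (fun η _ => u * η) (fun η hη => ?_) (fun _ _ _ _ e => mul_left_cancel e)
    (fun η hη => ⟨u⁻¹ * η, ?_, by simp⟩)
    fun η hη => (D.pr_mul_left h0 hn hu (mem_filter.1 hη).1 h3).symm
  · exact mem_filter.2 ⟨mul_mem_XX hu (mem_filter.1 hη).1, (h2 η).trans (mem_filter.1 hη).2⟩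
  · exact mem_filter.2 ⟨mul_mem_XX (inv_mem_XX hu) (mem_filter.1 hη).1, by
      rw [← h2, mul_inv_cancel_left, (mem_filter.1 hη).2]⟩

end

theorem mem_Pc_iff {O' O : D.Th} {n : ℕ} (h : D.deg O' ∣ n) :
    O ∈ Pc D.par D.rho O' (n / D.deg O') ↔ D.par O = O' ∧ D.deg O ∣ n := by
  rw [mem_Pc]
  refine and_congr_right fun e => ?_
  rw [deg_eq O, e, Nat.dvd_div_iff_mul_dvd h, mul_comm]

theorem sum_Pc {M : Type*} [AddCommMonoid M] (θ : D.Th) (k : ℕ) (g : D.Th → M) :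
    ∑ η ∈ D.XX (k * D.deg θ) with pRegPart D.p η = pRegPart D.p (D.rep θ), g (D.cl η) =
      ∑ j ∈ Pc D.par D.rho (D.par θ) (D.rho θ * k), D.rho j • g j := by
  have a0 : D.deg θ ∣ k * D.deg θ := dvd_mul_left _ _
  have a1 : D.rho θ * k = k * D.deg θ / D.deg (D.par θ) := by
    rw [deg_eq θ, ← mul_assoc, Nat.mul_div_cancel _ (deg_pos _), mul_comm]
  have a2 := fun j => mem_Pc_iff (O := j) ((Dvd.intro_left _ (deg_eq θ).symm).trans a0)
  rw [a1, ← sum_fiberwise_of_maps_to (g := D.cl) fun η hη => (a2 _).2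
    ⟨by rw [par_mk, (mem_filter.1 hη).2]; rfl, mem_XX.1 (mem_filter.1 hη).1⟩]
  refine sum_congr rfl fun j hj => ?_
  obtain ⟨b1, b2⟩ := (a2 j).1 hj
  rw [sum_congr rfl (g := fun _ => g j) fun η hη => by rw [(mem_filter.1 hη).2], sum_const,
    ← card_fibre j (ξ := pRegPart D.p (D.rep θ)) b1.symm]
  congr 2
  ext η
  simp only [mem_filter, mem_univ, true_and, mem_XX]
  exact ⟨fun h => ⟨h.2, h.1.2⟩, fun h => ⟨⟨h.1 ▸ b2, h.2⟩, h.1⟩⟩

variable (D) in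
/-- the indicator of the `p'`-orbits -/
noncomputable def rg (θ : D.Th) : ℂ := if D.par θ = θ then 1 else 0

variable (D) in
/-- the value of the linear character `z` on an orbit -/
noncomputable def lv (z : D.XS 1) (θ : D.Th) : ℂ := ∏ x ∈ D.orb θ, (D.ω x : ℂ) ^ D.dl 1 z

variable {A : Type} [CommRing A] [Algebra ℂ A] (E : EM D.deg q D.N A)

/-- the class primitives -/
noncomputable def cp (n : ℕ) (x : Γ) : A := E.cv (D.cl x) (n / D.deg (D.cl x))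

/-- Green's primitives -/
noncomputable def PP (n : ℕ) (ξ : Γ) : A := (-1 : ℂ) ^ (n - 1) • ∑ x ∈ D.XX n, D.pr n ξ x • cp E n x

/-- the orthogonal system -/
noncomputable def piG (θ : D.Th) (k : ℕ) : A := PP E (k * D.deg θ) (D.rep θ)

theorem uba_realise_eqns : True := by
  have := @rg.eq_1
  have := @lv.eq_1
  have := @cp.eq_1
  have := @PP.eq_1
  have := @piG.eq_1
  trivial

theorem cp_frob (n : ℕ) (x : Γ) (i : ℕ) : cp E n (x ^ D.Q ^ i) = cp E n x := by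
  rw [cp, cp, mk_pow]

theorem div_pos' {n : ℕ} (h0 : 0 < n) {x : Γ} (hx : x ∈ D.XX n) : 0 < n / D.deg (D.cl x) :=
  Nat.div_pos (Nat.le_of_dvd h0 (mem_XX.1 hx)) (deg_pos _)

theorem cp_prim {n : ℕ} (h0 : 0 < n) {x : Γ} (hx : x ∈ D.XX n) : cp E n x ∈ E.S.Pr n := by
  have := E.prim (D.cl x) _ (div_pos' h0 hx)
  rwa [Nat.div_mul_cancel (mem_XX.1 hx)] at this

theorem mu_cp (c : D.Th → ℂ) (n : ℕ) (x : Γ) :
    E.mu c (cp E n x) = c (D.cl x) ^ (n / D.deg (D.cl x)) • cp E n x := E.mu_cv ..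

theorem logder (f : Γ → ℂ) : ExpRel (fun n => ∑ x ∈ D.XX n, (∏ i ∈ range n, f (x ^ D.Q ^ i)) • cp E n x)
    fun n => E.mu (fun θ => ∏ x ∈ D.orb θ, f x) (E.h n) := by
  refine ⟨(congrArg _ E.h_rel.1).trans (map_one _), fun n => ?_⟩
  have := congrArg (E.mu fun θ => ∏ x ∈ D.orb θ, f x) (E.h_rel.2 n)
  rw [map_mul, map_natCast, map_sum] at this
  refine this.trans (sum_congr rfl fun k _ => ?_)
  beta_reduce
  rw [map_mul, eq_comm, sum_congr rfl fun x hx => by rw [prod_orbit hx, ← mu_cp E fun θ => ∏ x ∈ D.orb θ, f x],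
    ← map_sum]
  simp only [cp, sum_XX (k + 1) fun θ => E.cv θ ((k + 1) / D.deg θ), Nat.cast_smul_eq_nsmul]

section
variable {n : ℕ} (h0 : 0 < n) (hn : n ≤ D.N)
include h0

theorem PP_prim (ξ : Γ) : PP E n ξ ∈ E.S.Pr n :=
  Submodule.smul_mem _ _ (sum_mem fun _ hx => Submodule.smul_mem _ _ (cp_prim E h0 hx))

theorem ip_cp (ht : D.t = -(q : ℤ)) {x y : Γ} (hx : x ∈ D.XX n) (hy : y ∈ D.XX n) :
    E.S.ip n (cp E n x) (cp E n y) = if D.cl x = D.cl y then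
      ((n / D.deg (D.cl y) : ℕ) : ℂ) / (D.cX n : ℂ) else 0 := by
  have := E.orth (D.cl x) (D.cl y) _ _ (div_pos' h0 hx) (div_pos' h0 hy)
    (by rw [Nat.div_mul_cancel (mem_XX.1 hx), Nat.div_mul_cancel (mem_XX.1 hy)])
  rw [Nat.div_mul_cancel (mem_XX.1 hx), ← cX_eq ht] at this
  refine this.trans ?_
  split_ifs with e
  · rw [e]
  · rfl

include hn

theorem PP_congr {ξ η : Γ} (h1 : ξ ∈ D.XX n) (e : D.cl ξ = D.cl η) : PP E n ξ = PP E n η := by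
  obtain ⟨i, rfl⟩ := mk_eq.1 e
  rw [PP, PP, ← sum_frob n i, sum_congr rfl fun x hx => ?_]
  rw [cp_frob, D.pr_pow h0 hn h1 hx]

theorem PP_eq {ξ : Γ} (h1 : ξ ∈ D.XX n) : PP E n ξ = piG E (D.cl ξ) (n / D.deg (D.cl ξ)) := by
  rw [piG, Nat.div_mul_cancel (mem_XX.1 h1), PP_congr E h0 hn h1 (D.mk_rep _).symm]

theorem ip_PP (ht : D.t = -(q : ℤ)) {ξ η : Γ} (h1 : ξ ∈ D.XX n) (h2 : η ∈ D.XX n) :
    E.S.ip n (PP E n ξ) (PP E n η) = if D.cl η = D.cl ξ then ((n / D.deg (D.cl ξ) : ℕ) : ℂ) else 0 := by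
  have a1 : ∀ y ∈ D.XX n, E.S.ip n (∑ x ∈ D.XX n, D.pr n ξ x • cp E n x) (cp E n y) =
      (∑ i ∈ range n, D.pr n (ξ ^ D.Q ^ i) y) / (D.cX n : ℂ) := by
    intro y hy
    rw [sum_congr rfl fun i _ => D.pr_pow h0 hn h1 hy _, sum_orbit hy, E.S.ip_sum,
      sum_congr rfl fun x hx => by rw [E.S.ip_smul, ip_cp E h0 ht hx hy, mul_ite, mul_zero],
      ← sum_filter, ← sum_mul, mul_div_assoc', mul_comm]
    congr 3
    ext x
    simp only [mem_filter, mem_orb, and_iff_right_iff_imp, mem_XX] at hy ⊢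
    exact fun e => e ▸ hy
  rw [PP, PP, E.S.ip_smul, E.S.ip_smul', E.S.ip_sum', sum_congr rfl fun y hy => by
    rw [E.S.ip_smul', a1 y hy, mul_div_assoc', mul_sum], ← sum_div, sum_comm,
    sum_congr rfl fun i _ => (sum_congr rfl fun y _ => mul_comm _ _).trans
      (D.sum_pr h0 hn (pow_mem_XX h1 _) h2),
    sum_orbit h1 fun y => if y = η then (D.cX n : ℂ) else 0, sum_ite_eq', ← mul_assoc]
  have : (D.cX n : ℂ) ≠ 0 := Nat.cast_ne_zero.2 (D.cX_pos h0).ne'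
  simp only [map_pow, map_neg, map_one, ← mul_pow, mem_orb]
  split_ifs <;> simp [this]

theorem cp_mem {x : Γ} (hx : x ∈ D.XX n) :
    cp E n x ∈ Submodule.span ℂ {y | ∃ i k, k * D.deg i = n ∧ y = piG E i k} := by
  have a1 : ∑ ξ ∈ D.XX n, conj (D.pr n x ξ) • PP E n ξ = ((-1) ^ (n - 1) * (D.cX n : ℂ)) • cp E n x := by
    simp only [PP, smul_comm _ ((-1 : ℂ) ^ (n - 1)), mul_smul, ← smul_sum]
    refine congrArg _ ?_
    simp only [smul_sum, smul_smul]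
    rw [sum_comm, sum_congr rfl fun y hy => by
      rw [← sum_smul, sum_congr rfl fun ξ hξ => by rw [mul_comm, D.pr_comm h0 hn hξ hy],
        D.sum_pr h0 hn hy hx, ite_smul, zero_smul], sum_ite_eq', if_pos hx]
  have a2 : (-1) ^ (n - 1) * (D.cX n : ℂ) ≠ 0 := mul_ne_zero
    (pow_ne_zero (n - 1) (neg_ne_zero.2 one_ne_zero)) (Nat.cast_ne_zero.2 (D.cX_pos h0).ne')
  refine (Submodule.smul_mem_iff _ a2).1 ?_
  rw [← a1]
  exact sum_mem fun ξ hξ => Submodule.smul_mem _ _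
    (Submodule.subset_span ⟨_, _, Nat.div_mul_cancel (mem_XX.1 hξ), PP_eq E h0 hn hξ⟩)

theorem reg_PP {ξ : Γ} (h1 : ξ ∈ D.XX n) : E.mu (rg D) (PP E n ξ) =
    (((D.XX n).filter (pRegPart D.p · = pRegPart D.p ξ)).card : ℂ)⁻¹ •
      ∑ η ∈ D.XX n with pRegPart D.p η = pRegPart D.p ξ, PP E n η := by
  have a1 : (((D.XX n).filter (pRegPart D.p · = pRegPart D.p ξ)).card : ℂ) ≠ 0 :=
    Nat.cast_ne_zero.2 (card_ne_zero.2 ⟨ξ, mem_filter.2 ⟨h1, rfl⟩⟩)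
  simp only [PP, ← smul_sum, map_smul, map_sum]
  rw [smul_comm, sum_comm, smul_sum, smul_sum, smul_sum]
  refine sum_congr rfl fun x hx => ?_
  rw [smul_comm, ← sum_smul, smul_smul _ _ (cp E n x), mu_cp, rg]
  by_cases e : IsPRegular D.p x
  · rw [if_pos (par_eq_iff.2 e), one_pow, one_smul, sum_congr rfl (g := fun _ => D.pr n ξ x) fun η hη => by
        rw [← pr_pReg h0 hn (mem_filter.1 hη).1 hx e, (mem_filter.1 hη).2, pr_pReg h0 hn h1 hx e],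
      sum_const, nsmul_eq_mul, inv_mul_cancel_left₀ a1, smul_comm]
  · rw [if_neg (par_eq_iff.not.2 e), zero_pow (div_pos' h0 hx).ne', sum_fibre h0 hn hx e]
    simp

theorem lin_PP (z : D.XS 1) {ξ : Γ} (h1 : ξ ∈ D.XX n) :
    E.mu (lv D z) (PP E n ξ) = PP E n (z * ξ) := by
  simp only [PP, map_smul, map_sum]
  refine congrArg _ (sum_congr rfl fun x hx => ?_)
  rw [mu_cp, smul_smul, D.pr_mul_left h0 hn (coe_mem_XX z n) h1 hx, mul_comm, lv,
    ← prod_orbit hx fun x => (D.ω x : ℂ) ^ D.dl 1 z, D.pr_coe h0 hn z hx, mu_apply]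
  simp only [pr, nm_eq, map_prod, Units.val_pow_eq_pow_val, Units.coe_prod, prod_pow, mul_comm]

end

theorem sys_piG (ht : D.t = -(q : ℤ)) : Sys E.S D.N D.deg (piG E) where
  deg_pos := deg_pos
  prim := fun θ k hk _ => PP_prim E (Nat.mul_pos hk (deg_pos θ)) _
  orth := fun i j k l hk hl hN e => by
    have := ip_PP E (Nat.mul_pos hk (deg_pos i)) hN ht (rep_mem (dvd_mul_left _ k))
      (e ▸ rep_mem (θ := j) (dvd_mul_left _ l))
    rw [mk_rep, mk_rep, Nat.mul_div_cancel _ (deg_pos i)] at this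
    rw [piG, piG, ← e]
    exact this.trans (by simp only [eq_comm])
  span := fun n x h0 hn hx => Submodule.span_le.2 (by
    rintro _ ⟨θ, k, rfl, rfl⟩
    have := cp_mem E h0 hn (rep_mem (θ := θ) (dvd_mul_left _ k))
    rwa [cp, mk_rep, Nat.mul_div_cancel _ (deg_pos θ)] at this) (E.span n x h0 hx)

theorem tsys_piG : TSys E.S D.N D.deg (piG E) (E.mu (rg D)) D.par D.rho where
  adj := fun n x y => by
    rw [E.mu_adj]
    congr 3
    funext θ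
    rw [rg]
    split_ifs <;> simp
  idem := fun x => by
    rw [E.mu_mu]
    congr 2
    funext θ
    rw [Pi.mul_apply, rg]
    split_ifs <;> simp
  T_pr := E.mu_pr _
  T_π := fun θ k hk hN => by
    have h0 := Nat.mul_pos hk (deg_pos θ)
    rw [piG, reg_PP E h0 hN (rep_mem (dvd_mul_left _ k)), card_eq_sum_ones, Nat.cast_sum,
      sum_Pc θ k fun _ => ((1 : ℕ) : ℂ),
      sum_congr rfl fun η hη => PP_eq E h0 hN (mem_filter.1 hη).1,
      sum_Pc θ k fun j => piG E j (k * D.deg θ / D.deg j)]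
    simp only [Nat.cast_one, nsmul_one, Nat.cast_smul_eq_nsmul]
    refine congrArg _ (sum_congr rfl fun j hj => ?_)
    obtain ⟨b1, c, b2⟩ := mem_Pc.1 hj
    rw [b2, Nat.mul_div_cancel_left _ (rho_pos j), Nat.div_eq_of_eq_mul_left (deg_pos j)]
    rw [deg_eq θ, deg_eq j, b1, ← mul_assoc, mul_comm k, b2]; ring

theorem twist_piG (z : D.XS 1) (θ : D.Th) {k : ℕ} (hk : 0 < k) (hN : k * D.deg θ ≤ D.N) :
    E.mu (lv D z) (piG E θ k) = piG E (D.act z θ) k := by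
  have h0 := Nat.mul_pos hk (deg_pos θ)
  rw [piG, piG, lin_PP E h0 hN z (rep_mem (dvd_mul_left _ k)), deg_act]
  exact PP_congr E h0 hN (mul_mem_XX (coe_mem_XX z _) (rep_mem (dvd_mul_left _ k))) (D.mk_rep _).symm

/-- the support of a class primitive -/
theorem val_cp {n : ℕ} (h0 : 0 < n) (hn : n ≤ D.N) {x : Γ} (hx : x ∈ D.XX n) {τ : D.Th → Multiset ℕ}
    (hτ : τ ∈ Ty D.deg n) (h : E.val (cp E n x) τ ≠ 0) (θ : D.Th) :
    (τ θ).sum = if θ = D.cl x then n / D.deg θ else 0 := by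
  have a1 : ∀ θ, θ ≠ D.cl x → (τ θ).sum = 0 := fun θ hθ => by
    have := E.val_mu (fun j => if j = θ then 0 else 1) n hn _ (E.S.Pr_le _ (cp_prim E h0 hx)) τ hτ
    rw [mu_cp, if_neg hθ.symm, one_pow, one_smul] at this
    by_contra hc
    rw [prod_eq_zero (mem_univ θ) (by rw [if_pos rfl, zero_pow hc]), zero_mul] at this
    exact h this
  split_ifs with e
  · rw [← ((mem_Ty deg_pos).1 hτ).2, tsz, sum_eq_single θ (fun j _ hj => by
      rw [a1 j (e ▸ hj), mul_zero]) (by simp), Nat.mul_div_cancel_left _ (deg_pos θ)]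
  · exact a1 θ e

theorem sing_piG {θ : D.Th} {j : ℕ} {ζ : Γ} (hθ : D.par θ = θ) (hj : 0 < j) (hN : j * D.deg θ ≤ D.N)
    (hζ : ζ ∈ D.XX (j * D.deg θ)) (hp : IsPElt D.p ζ) :
    ∃ ϖ ∈ E.S.Pr (j * D.deg θ), ϖ - piG E θ j ∈ Submodule.span ℂ
        {y | ∃ θ' k, D.par θ' ≠ θ' ∧ k * D.deg θ' = j * D.deg θ ∧ y = piG E θ' k} ∧
      ∀ τ, E.val ϖ τ ≠ 0 → ∃ x ∈ D.XX (j * D.deg θ), pPart D.p x = ζ ∧
        E.val (cp E (j * D.deg θ) x) τ ≠ 0 := by
  have h0 := Nat.mul_pos hj (deg_pos θ)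
  have a1 : D.rep θ ∈ D.XX (j * D.deg θ) := rep_mem (dvd_mul_left _ j)
  have a3 := reg_rep hθ
  have a4 : (1 : Γ) ∈ (D.XX (j * D.deg θ)).filter (pRegPart D.p · = 1) :=
    mem_filter.2 ⟨one_mem_XX _, pRegPart_one⟩
  refine ⟨∑ u ∈ D.XX (j * D.deg θ) with pRegPart D.p u = 1,
    D.pr (j * D.deg θ) u ζ⁻¹ • PP E (j * D.deg θ) (u * D.rep θ),
    sum_mem fun u _ => Submodule.smul_mem _ _ (PP_prim E h0 _), ?_, fun τ hM => ?_⟩
  · rw [← add_sum_erase _ _ a4, D.pr_comm h0 hN (one_mem_XX _) (inv_mem_XX hζ), pr_one, one_mul,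
      one_smul, piG, add_sub_cancel_left]
    refine sum_mem fun u hu => Submodule.smul_mem _ _ (Submodule.subset_span ?_)
    obtain ⟨b1, b2⟩ := mem_filter.1 (mem_of_mem_erase hu)
    have b3 := mul_mem_XX b1 a1
    refine ⟨_, _, fun e => ne_of_mem_erase hu ?_, Nat.div_mul_cancel (mem_XX.1 b3),
      PP_eq E h0 hN b3⟩
    have b4 := pRegPart_eq_one_iff.1 b2
    rw [← pPart_mul_eq (Commute.all _ _) b4 a3, (par_eq_iff.1 e).pPart_eq]
  by_contra! hc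
  refine hM ?_
  simp only [PP, smul_sum]
  rw [sum_comm, map_sum, Finset.sum_apply]
  refine sum_eq_zero fun x hx => ?_
  simp only [smul_smul]
  rw [← sum_smul, map_smul, Pi.smul_apply, smul_eq_mul]
  by_cases e : pPart D.p x = ζ
  · rw [hc x hx e, mul_zero]
  have b1 := mul_mem_XX (inv_mem_XX hζ) hx
  rw [sum_congr rfl fun u hu => by
    rw [D.pr_mul_left h0 hN (mem_filter.1 hu).1 a1 hx, mul_left_comm, ← mul_assoc (D.pr _ u ζ⁻¹),
      ← pr_mul_right], ← mul_sum, ← sum_mul, sum_fibre h0 hN b1 fun hr => e ?_, zero_mul, mul_zero,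
    zero_mul]
  rw [← mul_inv_cancel_left ζ x, pPart_mul_eq (Commute.all _ _) hp hr]

end GUH.Ub
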