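import Cfsg.Agent.Lib.GU.UbA
import Cfsg.Agent.Lib.GU.Ub
import Cfsg.Agent.Lib.GU.OrbG
import Cfsg.Agent.Lib.GU.WallU
import Cfsg.Agent.Lib.GU.ThetaU
import Cfsg.Agent.Lib.Char.Omega

/-!
# S4537: class functions of the unitary groups as functions on types
-/

set_option autoImplicit false
set_option linter.unusedSectionVars false

namespace GUH.Ub

open Finset Polynomial Cfsg GT GLH GUW UW Module CT
open scoped Classical ComplexConjugate

universe u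

/-- an average over `G` of a function of a complete class invariant -/
theorem avg_ty {G T : Type*} [Group G] [Fintype G] (ty : G → T) (s : Finset T) (a : T → ℂ)
    (h1 : ∀ g, ty g ∈ s) (h2 : ∀ τ ∈ s, ∃ g, ty g = τ) (h3 : ∀ g g', ty g = ty g' ↔ IsConj g g')
    (h4 : ∀ g, a (ty g) = Nat.card (Subgroup.centralizer ({g} : Set G))) (φ : T → ℂ) :
    (Nat.card G : ℂ)⁻¹ * ∑ g, φ (ty g) = ∑ τ ∈ s, φ τ / a τ := by
  rw [← sum_fiberwise_of_maps_to (fun g _ => h1 g), mul_sum]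
  refine sum_congr rfl fun τ hτ => ?_
  obtain ⟨x, rfl⟩ := h2 τ hτ
  have e0 := (Subgroup.centralizer ({x} : Set G)).index_mul_card
  rw [← card_conj_eq_index, Nat.card_eq_fintype_card (α := {g // _}), Fintype.card_subtype] at e0
  rw [sum_congr rfl (g := fun _ => φ (ty x)) fun g hg => by rw [(mem_filter.1 hg).2], sum_const,
    nsmul_eq_mul, h4, filter_congr fun g _ => (eq_comm.trans (h3 x g)), ← e0]
  have e1 : ((univ.filter fun g => IsConj x g).card : ℂ) ≠ 0 :=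
    Nat.cast_ne_zero.2 (card_ne_zero.2 ⟨x, mem_filter.2 ⟨mem_univ _, IsConj.refl x⟩⟩)
  have e2 : (Nat.card (Subgroup.centralizer ({x} : Set G)) : ℂ) ≠ 0 :=
    Nat.cast_ne_zero.2 Nat.card_pos.ne'
  push_cast
  field_simp

theorem riesz {A : Type*} [CommRing A] [Algebra ℂ A] (S : PSH A) (n : ℕ) (L : A →ₗ[ℂ] ℂ) :
    ∃ D ∈ S.Hn n, ∀ z ∈ S.Hn n, L z = S.ip n z D := by
  by_cases h : ∀ z ∈ S.Hn n, L z = 0
  · exact ⟨0, zero_mem _, fun z hz => by rw [h z hz, ← S.conj_ip, ← S.ipl_apply, map_zero, map_zero]⟩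
  push Not at h
  obtain ⟨x, hx, h0⟩ := h
  obtain ⟨u, hu, h1⟩ := S.exists_proj (U := S.Hn n ⊓ LinearMap.ker L) inf_le_left x
  have h2 : L (x - u) = L x := by rw [map_sub, LinearMap.mem_ker.1 hu.2, sub_zero]
  have h3 : x - u ∈ S.Hn n := sub_mem hx hu.1
  have h4 : S.ip n (x - u) (x - u) ≠ 0 := fun e => h0 (by rw [← h2, S.eq_zero n _ h3 e, map_zero])
  refine ⟨conj (L x / S.ip n (x - u) (x - u)) • (x - u), Submodule.smul_mem _ _ h3, fun z hz => ?_⟩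
  have h5 := h1 (z - (L z / L x) • (x - u)) ⟨sub_mem hz (Submodule.smul_mem _ _ h3), by
    rw [SetLike.mem_coe, LinearMap.mem_ker, map_sub, map_smul, h2, smul_eq_mul, div_mul_cancel₀ _ h0,
      sub_self]⟩
  rw [S.ip_sub, S.ip_smul, sub_eq_zero] at h5
  rw [S.ip_smul', h5, Complex.conj_conj]
  field_simp

variable {F : Type u} [Field F] [Fintype F] [StarRing F] [HF F] {K : Type} [Field K] [Fintype K]
  [Algebra F K] (C : UC F K) {V V' : Type u} [AddCommGroup V] [Module F V] [Fintype V]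
  [AddCommGroup V'] [Module F V'] [Fintype V'] (H : HS F V) (H' : HS F V') {n m : ℕ}

/-- the type of an isometry -/
noncomputable def ty (g : H.U) : C.Th → Multiset ℕ :=
  if h : ∃ τ, HT C.P C.deg (H.lin g) τ then h.choose else 0

variable {C H H'}

theorem ty_eq {g : H.U} {τ : C.Th → Multiset ℕ} (h : HT C.P C.deg (H.lin g) τ) : ty C H g = τ := by
  have h1 : ∃ τ, HT C.P C.deg (H.lin g) τ := ⟨τ, h⟩
  rw [ty, dif_pos h1]
  exact h1.choose_spec.unique C.famU.toFam h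

theorem dec_ty (hV : finrank F V ≤ C.N) (g : H.U) : Dec C.P (H.lin g) (ty C H g) := by
  obtain ⟨τ, h⟩ := U_dec C.famU g (C.sp H hV g)
  rwa [ty_eq (h.ht C.famU.toFam)]

theorem ht_ty (hV : finrank F V ≤ C.N) (g : H.U) : HT C.P C.deg (H.lin g) (ty C H g) :=
  (dec_ty hV g).ht C.famU.toFam

theorem charpoly_ty (hV : finrank F V ≤ C.N) (g : H.U) :
    (H.lin g).charpoly = ∏ θ, C.P θ ^ (ty C H g θ).sum := (dec_ty hV g).charpoly C.famU.toFam

theorem ty_iso (hV : finrank F V ≤ C.N) (e : V ≃ₗ[F] V') {g : H.U} {g' : H'.U}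
    (he : ∀ v, e (g • v) = g' • e v) : ty C H' g' = ty C H g := ty_eq ((ht_ty hV g).congr e he)

theorem ty_eq_iff (hV : finrank F V ≤ C.N) (g g' : H.U) : ty C H g = ty C H g' ↔ IsConj g g' := by
  refine ⟨fun h => U_isConj C.famU (ht_ty hV g) (h ▸ ht_ty hV g'), fun h => ?_⟩
  obtain ⟨x, rfl⟩ := isConj_iff.1 h
  refine (ty_iso hV x.1 fun v => ?_).symm
  change x • g • v = (x * g * x⁻¹) • x • v
  rw [← mul_smul, ← mul_smul, inv_mul_cancel_right]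

section
variable (h : finrank F V = n) (hn : n ≤ C.N)
include h hn

theorem ty_mem (g : H.U) : ty C H g ∈ Ty C.deg n :=
  (mem_Ty OD.deg_pos).2 ⟨(ht_ty (h ▸ hn) g).pos, (ht_ty (h ▸ hn) g).dim.symm.trans h⟩

omit hn in
variable (H) in
theorem exists_ty {τ : C.Th → Multiset ℕ} (hτ : τ ∈ Ty C.deg n) : ∃ g, ty C H g = τ := by
  obtain ⟨h1, h2⟩ := (mem_Ty OD.deg_pos).1 hτ
  obtain ⟨g, hg⟩ := U_exists C.famU H h1 (h.trans h2.symm)
  exact ⟨g, ty_eq hg⟩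

variable (H) in
theorem avg (φ : (C.Th → Multiset ℕ) → ℂ) : (Nat.card H.U : ℂ)⁻¹ * ∑ g, φ (ty C H g) =
    ∑ τ ∈ Ty C.deg n, φ τ / aU C.deg (qq F) τ := by
  refine avg_ty _ _ _ (ty_mem h hn) (fun _ => exists_ty H h) (ty_eq_iff (h ▸ hn)) (fun g => ?_) φ
  have := congrArg (Rat.cast : ℚ → ℂ) (U_card C.famU (ht_ty (h ▸ hn) g))
  rw [Rat.cast_mul, cast_aT, (ht_ty (h ▸ hn) g).dim] at this
  rw [aU]
  exact_mod_cast this.symm

end

theorem avg₂ (h : finrank F V = n) (hn : n ≤ C.N) (h' : finrank F V' = m) (hm : m ≤ C.N)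
    (φ : (C.Th → Multiset ℕ) → (C.Th → Multiset ℕ) → ℂ) :
    (Nat.card H.U : ℂ)⁻¹ * ∑ g, (Nat.card H'.U : ℂ)⁻¹ * ∑ g', φ (ty C H g) (ty C H' g') =
      ∑ τ ∈ Ty C.deg n, ∑ τ' ∈ Ty C.deg m, φ τ τ' / (aU C.deg (qq F) τ * aU C.deg (qq F) τ') := by
  rw [avg H h hn fun τ => (Nat.card H'.U : ℂ)⁻¹ * ∑ g', φ τ (ty C H' g')]
  refine sum_congr rfl fun τ _ => ?_
  rw [avg H' h' hm (φ τ), sum_div]
  exact sum_congr rfl fun τ' _ => by rw [div_div, mul_comm]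

variable {A : Type} [CommRing A] [Algebra ℂ A] (E : EM C.deg (qq F) C.N A)

variable (H) in
/-- the class function of an element of the model -/
noncomputable def ch : A →ₗ[ℂ] H.U → ℂ := (LinearMap.funLeft ℂ ℂ (ty C H)).comp E.val

theorem ch_apply (x : A) (g : H.U) : ch H E x g = E.val x (ty C H g) := rfl

theorem ubb_realise_eqns : True := by
  have := @ty.eq_1.{0}
  have := @ch.eq_1.{0}
  trivial

theorem ch_cls (hV : finrank F V ≤ C.N) (x : A) : IsClassFunction H.U (ch H E x) := fun g y => by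
  rw [ch_apply, ch_apply, (ty_eq_iff hV g _).2 (isConj_iff.2 ⟨y, rfl⟩)]

theorem val_inj (hn : n ≤ C.N) {x y : A} (hx : x ∈ E.S.Hn n) (hy : y ∈ E.S.Hn n)
    (h : ∀ τ ∈ Ty C.deg n, E.val x τ = E.val y τ) : x = y := by
  have := sub_mem hx hy
  refine sub_eq_zero.1 (E.S.eq_zero n _ this ?_)
  rw [E.ip_val n hn _ this _ this]
  exact sum_eq_zero fun τ hτ => by rw [map_sub, Pi.sub_apply, h τ hτ, sub_self, zero_mul, zero_div]

section
variable (h : finrank F V = n) (hn : n ≤ C.N)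
include h hn

variable (H) in
theorem ip_ch {x y : A} (hx : x ∈ E.S.Hn n) (hy : y ∈ E.S.Hn n) :
    E.S.ip n x y = ip (ch H E x) (ch H E y) := by
  rw [E.ip_val n hn x hx y hy, ip_def]
  exact (avg H h hn fun τ => E.val x τ * conj (E.val y τ)).symm

theorem ch_surj {f : H.U → ℂ} (hf : IsClassFunction H.U f) : ∃ x ∈ E.S.Hn n, ch H E x = f := by
  obtain ⟨x, h1, h2⟩ := E.surj n hn fun τ => if e : ∃ g, ty C H g = τ then f e.choose else 0
  refine ⟨x, h1, funext fun g => ?_⟩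
  have e : ∃ g', ty C H g' = ty C H g := ⟨g, rfl⟩
  rw [ch_apply, h2 _ (ty_mem h hn g), dif_pos e]
  obtain ⟨y, hy⟩ := isConj_iff.1 ((ty_eq_iff (h ▸ hn) _ _).1 e.choose_spec)
  exact (hf _ y).symm.trans (congrArg f hy)

theorem ch_mu (c : C.Th → ℂ) {x : A} (hx : x ∈ E.S.Hn n) (g : H.U) :
    ch H E (E.mu c x) g = (∏ θ, c θ ^ (ty C H g θ).sum) * ch H E x g :=
  E.val_mu c n hn x hx _ (ty_mem h hn g)

theorem ch_reg {x : A} (hx : x ∈ E.S.Hn n) :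
    ch H E (E.mu (rg C.toOD) x) = pRegularPart C.p (ch H E x) := funext fun g => by
  have := C.reg_iff_of_charpoly H (h ▸ hn) (charpoly_ty (h ▸ hn) g)
  rw [ch_mu E h hn _ hx, pRegularPart_apply]
  split_ifs with e
  · by_contra hc
    refine this.2 (fun θ hθ => ?_) e
    by_contra e'
    exact left_ne_zero_of_mul hc (prod_eq_zero (mem_univ θ) (by rw [rg, if_neg e', zero_pow hθ]))
  · rw [prod_eq_one fun θ _ => ?_, one_mul]
    by_cases e' : (ty C H g θ).sum = 0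
    · rw [e', pow_zero]
    · rw [rg, if_pos (this.1 e θ e'), one_pow]

theorem ch_lin (z : C.XS 1) {x : A} (hx : x ∈ E.S.Hn n) (g : H.U) :
    ch H E (E.mu (lv C.toOD z) x) g = (C.mu z (C.δ H g) : ℂ) * ch H E x g := by
  rw [ch_mu E h hn _ hx, OD.mu_apply, C.δ_eq H (h ▸ hn) (charpoly_ty (h ▸ hn) g)]
  simp only [lv, OD.pr, C.nm_rep, map_prod, map_pow, Units.val_pow_eq_pow_val, Units.coe_prod,
    prod_pow]
  rw [← prod_pow]
  simp only [pow_right_comm _ (C.dl 1 z)]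

theorem charpoly_of_cp (h0 : 0 < n) {x : Kˣ} (hx : x ∈ C.XX n) {g : H.U}
    (e : E.val (cp E n x) (ty C H g) ≠ 0) : (H.lin g).charpoly = C.mp n x := by
  rw [charpoly_ty (h ▸ hn), prod_congr rfl fun θ _ => by rw [val_cp E h0 hn hx (ty_mem h hn g) e θ],
    prod_eq_single (C.cl x) (fun θ _ hθ => by rw [if_neg hθ, pow_zero]) (by simp), if_pos rfl, UC.mp]

theorem ch_supp (h0 : 0 < n) {x : A} (hx : x ∈ E.S.Pr n) {g : H.U} (e : ch H E x g ≠ 0) :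
    ∃ y ∈ C.XX n, (H.lin g).charpoly = C.mp n y := by
  by_contra! hc
  refine e ((Submodule.span_le (p := LinearMap.ker ((LinearMap.proj g).comp (ch H E)))).2 ?_
    (E.span n x h0 hx))
  rintro _ ⟨θ, k, rfl, rfl⟩
  by_contra e'
  have h1 : C.rep θ ∈ C.XX (k * C.deg θ) := OD.rep_mem (dvd_mul_left _ k)
  refine hc _ h1 (charpoly_of_cp E h hn h0 h1 ?_)
  rwa [cp, OD.mk_rep, Nat.mul_div_cancel _ (OD.deg_pos θ)]

end

theorem ch_prod {V₂ : Type u} [AddCommGroup V₂] [Module F V₂] [Fintype V₂] (H₂ : HS F V₂)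
    (h : finrank F V = n) (h' : finrank F V' = m) (hN : n + m ≤ C.N) (e : (V × V') ≃ₗ[F] V₂)
    (φ : H.U × H'.U → H₂.U) (hφ : ∀ g v, φ g • e v = e (g.1 • v.1, g.2 • v.2)) {f g y : A}
    (hf : f ∈ E.S.Hn n) (hg : g ∈ E.S.Hn m) (hy : y ∈ E.S.Hn (n + m))
    (hc : ∀ g₁ g₂, ch H E f g₁ ≠ 0 → ch H' E g g₂ ≠ 0 →
      IsCoprime (H.lin g₁).charpoly (H'.lin g₂).charpoly) :
    E.S.ip (n + m) (f * g) y = ip (prodFun (ch H E f) (ch H' E g)) fun x => ch H₂ E y (φ x) := by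
  have hn : n ≤ C.N := by omega
  have hm : m ≤ C.N := by omega
  have a1 : ∀ x, ty C H₂ (φ x) = ty C H x.1 + ty C H' x.2 := fun x =>
    ty_eq (((ht_ty (h ▸ hn) x.1).prod (ht_ty (h' ▸ hm) x.2)).congr e fun v => (hφ x v).symm)
  have a2 : ∀ {τ : C.Th → Multiset ℕ} {k θ}, τ ∈ Ty C.deg k → τ θ ≠ 0 → (τ θ).sum ≠ 0 :=
    fun {τ k θ} hτ h0 e => by
      obtain ⟨a, ha⟩ := Multiset.exists_mem_of_ne_zero h0
      exact ((mem_Ty OD.deg_pos).1 hτ).1 θ (Multiset.sum_eq_zero_iff.1 e a ha ▸ ha)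
  rw [E.ip_mul (fun θ => ∃ τ ∈ Ty C.deg n, E.val f τ ≠ 0 ∧ τ θ ≠ 0) n m hN f hf g hg y hy
    (fun τ hτ e θ h0 => ⟨τ, hτ, e, h0⟩) ?_, ← avg₂ (H := H) (H' := H') h hn h' hm
      fun τ τ' => E.val f τ * E.val g τ' * conj (E.val y (τ + τ')), ip_def, Nat.card_prod,
    Fintype.sum_prod_type, Nat.cast_mul, mul_inv, mul_assoc, mul_sum _ _ (Nat.card H'.U : ℂ)⁻¹]
  · simp only [prodFun_apply, ch_apply, a1]
  rintro τ' hτ' e' θ h0' ⟨τ, hτ, e, h0⟩
  obtain ⟨g₁, rfl⟩ := exists_ty H h hτ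
  obtain ⟨g₂, rfl⟩ := exists_ty H' h' hτ'
  have := (hc g₁ g₂ e e').isUnit_of_dvd' (x := C.P θ)
    (charpoly_ty (h ▸ hn) g₁ ▸ C.P_dvd_prod.2 (a2 hτ h0))
    (charpoly_ty (h' ▸ hm) g₂ ▸ C.P_dvd_prod.2 (a2 hτ' h0'))
  exact (OD.deg_pos θ).ne' ((C.natDegree_P θ).symm.trans (natDegree_eq_zero_of_isUnit this))

end GUH.Ub
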