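import Cfsg.Agent.Lib.GU.UbB
import Cfsg.Agent.Lib.GU.EmT

/-!
# S4537: virtual characters of the unitary groups
-/

set_option autoImplicit false
set_option linter.unusedSectionVars false

namespace GUH.Ub

open Finset Polynomial Cfsg GT GLH GUW UW Module CT SFock
open scoped Classical ComplexConjugate

universe u

variable {F : Type u} [Field F] [Fintype F] [StarRing F] [HF F] {K : Type} [Field K] [Fintype K]
  [Algebra F K] {C : UC F K} {V V' : Type u} [AddCommGroup V] [Module F V] [Fintype V]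
  [AddCommGroup V'] [Module F V'] [Fintype V'] {H : HS F V} {H' : HS F V'} {n m : ℕ}
  {A : Type} [CommRing A] [Algebra ℂ A] (E : EM C.deg (qq F) C.N A)

variable (F) in
/-- a hermitian space of dimension `n` -/
noncomputable def Hs (n : ℕ) : HS F (Fin n → F) := (exists_SU_equiv n (qq F) F star_eq_pow).choose

variable (H) in
/-- the class function of `x` is a virtual character -/
abbrev Vc (x : A) : Prop := IsGeneralizedCharacter H.U (ch H E x)

variable {E}

theorem int_ip (h : finrank F V = n) (hn : n ≤ C.N) {x y : A} (hx : x ∈ E.S.Hn n)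
    (hy : y ∈ E.S.Hn n) (vx : Vc H E x) (vy : Vc H E y) : ∃ k : ℤ, E.S.ip n x y = k := by
  rw [ip_ch H E h hn hx hy]
  exact vx.exists_int_ip vy

theorem gen_of_ip (h : finrank F V = n) (hn : n ≤ C.N) {x : A} (hx : x ∈ E.S.Hn n)
    (hi : ∀ y ∈ E.S.Hn n, Vc H E y → ∃ k : ℤ, E.S.ip n x y = k) : Vc H E x := by
  refine (isGen_iff_ip_int (ch_cls E (h ▸ hn) x)).2 fun χ => ?_
  obtain ⟨y, h1, h2⟩ := ch_surj E h hn (irr_isClassFunction χ)
  rw [← h2, ← ip_ch H E h hn hx h1]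
  exact hi y h1 (by rw [Vc, h2]; exact (irr_isCharacter χ).isGen)

theorem int_theta (h : finrank F V = m) (hm : m ≤ C.N) (h' : finrank F V' = n) (hn : n ≤ C.N)
    {x y : A} (vx : Vc H E x) (vy : Vc H' E y) : ∃ k : ℤ,
    ∑ τ ∈ Ty C.deg m, ∑ τ' ∈ Ty C.deg n, (-(qq F : ℂ)) ^ hT C.deg τ τ' * E.val x τ * conj (E.val y τ') /
      (aU C.deg (qq F) τ * aU C.deg (qq F) τ') = k := by
  obtain ⟨k, hk⟩ := (thU_gen H' H vx).exists_int_ip vy
  refine ⟨(-1) ^ (finrank F V' * finrank F V) * k, ?_⟩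
  rw [← avg₂ (H := H) (H' := H') h hm h' hn fun τ τ' =>
    (-(qq F : ℂ)) ^ hT C.deg τ τ' * E.val x τ * conj (E.val y τ')]
  push_cast
  rw [← hk, ip_def]
  simp only [kerOp, thU, mul_sum, sum_mul, ch_apply]
  rw [sum_comm]
  refine sum_congr rfl fun g _ => sum_congr rfl fun g' _ => ?_
  have e : ((-1 : ℂ) ^ (finrank F V' * finrank F V)) ^ 2 = 1 := by
    rw [pow_right_comm, neg_one_sq, one_pow]
  rw [(dec_ty (h ▸ hm) g').hom C.famU.toFam (ht_ty (h' ▸ hn) g), ← hT]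
  linear_combination (-((Nat.card H.U : ℂ)⁻¹ * ((Nat.card H'.U : ℂ)⁻¹ *
    ((-(qq F : ℂ)) ^ hT C.deg (ty C H g') (ty C H' g) * E.val x (ty C H g') *
      conj (E.val y (ty C H' g)))))) * e

variable (E) in
theorem exists_adj (m r : ℕ) (w x : A) :
    ∃ D ∈ E.S.Hn r, ∀ z ∈ E.S.Hn r, E.S.ip m (z * w) x = E.S.ip r z D :=
  riesz E.S r ((E.S.ipl m x).comp (LinearMap.mulRight ℂ w))

theorem mul_h_mem {x : A} (hx : x ∈ E.S.Hn m) (h : m ≤ n) : x * E.h (n - m) ∈ E.S.Hn n := by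
  have := E.S.mul_mem _ _ _ _ hx (E.h_mem (n - m))
  rwa [Nat.add_sub_cancel' h] at this

/-- multiplication by the trivial characters preserves virtual characters -/
theorem gen_h (m : ℕ) : ∀ (n : ℕ) {V V' : Type u} [AddCommGroup V] [Module F V] [Fintype V]
    [AddCommGroup V'] [Module F V'] [Fintype V'] (H : HS F V) (H' : HS F V'), finrank F V = m →
    finrank F V' = n → m ≤ n → n ≤ C.N → ∀ x ∈ E.S.Hn m, Vc H E x → Vc H' E (x * E.h (n - m)) := by
  induction m using Nat.strong_induction_on with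
  | _ m ih =>
  intro n V V' _ _ _ _ _ _ H H' h h' hmn hn x hx vx
  have hm := hmn.trans hn
  refine gen_of_ip h' hn (mul_h_mem hx hmn) fun y hy vy => ?_
  choose D d1 d2 using fun r => exists_adj E m r (E.h (m - r)) x
  choose D' e1 e2 using fun r => exists_adj E n r (E.h (n - r)) y
  obtain ⟨k, hk⟩ := int_theta h hm h' hn vx vy
  rw [E.theta m hm n hn x hx y hy D D' (fun r _ => ⟨d1 r, d2 r⟩) (fun r _ => ⟨e1 r, e2 r⟩),
    min_eq_left hmn, sum_range_succ] at hk
  have a1 : D m = x := (E.S.eq_of_ip hx (d1 m) fun z hz => by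
    rw [← d2 m z hz, Nat.sub_self, E.h_rel.1, mul_one]).symm
  have a2 : ∀ r, ∃ k : ℤ, r < m → E.S.ip r (D r) (D' r) = k := fun r => by
    by_cases hr : r < m
    · have b0 : finrank F (Fin r → F) = r := finrank_fin_fun F
      have b1 : r ≤ C.N := hr.le.trans hm
      obtain ⟨k, hk⟩ := int_ip (H := Hs F r) b0 b1 (d1 r) (e1 r) (gen_of_ip b0 b1 (d1 r) fun z hz vz => by
        obtain ⟨k, hk⟩ := int_ip h hm (mul_h_mem hz hr.le) hx (ih r hr m _ H b0 h hr.le hm z hz vz) vx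
        exact ⟨k, by rw [← E.S.conj_ip, ← d2 r z hz, hk, map_intCast]⟩)
        (gen_of_ip b0 b1 (e1 r) fun z hz vz => by
          obtain ⟨k, hk⟩ := int_ip h' hn (mul_h_mem hz (hr.le.trans hmn)) hy
            (ih r hr n _ H' b0 h' (hr.le.trans hmn) hn z hz vz) vy
          exact ⟨k, by rw [← E.S.conj_ip, ← e2 r z hz, hk, map_intCast]⟩)
      exact ⟨k, fun _ => hk⟩
    · exact ⟨0, fun h => absurd h hr⟩
  choose c hc using a2
  rw [a1, ← e2 m x hx, sum_congr rfl fun r hr => by rw [hc r (mem_range.1 hr)]] at hk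
  refine ⟨(-1) ^ m * (k - ∑ r ∈ range m, (-1) ^ r * c r), ?_⟩
  push_cast
  rw [← hk, add_sub_cancel_left, ← mul_assoc, ← mul_pow]
  simp

theorem gen_congr (h : finrank F V = n) (h' : finrank F V' = n) (hn : n ≤ C.N) {x : A}
    (hx : x ∈ E.S.Hn n) (vx : Vc H E x) : Vc H' E x := by
  simpa only [Nat.sub_self, E.h_rel.1, mul_one] using gen_h n n H H' h h' le_rfl hn x hx vx

variable (C) in
/-- the elementary symmetric functions of the eigenvalues -/
noncomputable def es (w : K → ℂ) (j : ℕ) (τ : C.Th → Multiset ℕ) : ℂ :=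
  (((∏ θ, C.P θ ^ (τ θ).sum).aroots K).map w).esymm j

theorem card_rts (hn : n ≤ C.N) {τ : C.Th → Multiset ℕ} (hτ : τ ∈ Ty C.deg n) :
    ((∏ θ, C.P θ ^ (τ θ).sum).aroots K).card = n := by
  have : (∏ θ, C.P θ ^ (τ θ).sum).natDegree = n := by
    rw [natDegree_prod_of_monic _ _ fun θ _ => (C.monic_P θ).pow _, ← ((mem_Ty OD.deg_pos).1 hτ).2]
    exact sum_congr rfl fun θ _ => by rw [(C.monic_P θ).natDegree_pow, C.natDegree_P, mul_comm]
  rw [C.splits (this ▸ hn), this]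

theorem exists_pt (w : K → ℂ) (hn : n ≤ C.N) {x : A} (hx : x ∈ E.S.Hn n) : ∃ p : A[X],
    (∀ j, p.coeff j ∈ E.S.Hn n ∧ ∀ τ ∈ Ty C.deg n, E.val (p.coeff j) τ = es C w j τ * E.val x τ) ∧
    (∀ t : ℂ, ∑ j ∈ range (n + 1), t ^ j • p.coeff j = E.mu (fun θ => ∏ y ∈ C.orb θ, (1 + t * w y)) x) ∧
    ∀ t : ℂ, p.eval (algebraMap ℂ A t) = E.mu (fun θ => ∏ y ∈ C.orb θ, (1 + t * w y)) x := by
  choose a a1 a2 using fun j => E.surj n hn fun τ => es C w j τ * E.val x τ
  have a3 : ∀ j, j ∉ range (n + 1) → 0 = a j := fun j hj => val_inj E hn (zero_mem _) (a1 j) fun τ hτ => by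
    rw [a2 j τ hτ, es, Multiset.esymm, Multiset.powersetCard_eq_empty _ (by
      rw [Multiset.card_map, card_rts hn hτ]; simpa using hj)]
    simp
  have a4 : ∀ j, (∑ j ∈ range (n + 1), monomial j (a j)).coeff j = a j := fun j => by
    simp only [finsetSum_coeff, coeff_monomial, sum_ite_eq']
    split_ifs with hj
    · rfl
    · exact a3 j hj
  have a5 : ∀ t : ℂ, ∑ j ∈ range (n + 1), t ^ j • a j =
      E.mu (fun θ => ∏ y ∈ C.orb θ, (1 + t * w y)) x := fun t =>
    val_inj E hn (sum_mem fun j _ => Submodule.smul_mem _ _ (a1 j)) (E.mu_mem _ _ _ hx) fun τ hτ => by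
      have := Gr.prod_one_add_esymm (((∏ θ, C.P θ ^ (τ θ).sum).aroots K).map w) t
      rw [Multiset.map_map, Multiset.card_map, card_rts hn hτ, C.prod_aroots] at this
      rw [E.val_mu _ n hn x hx τ hτ, map_sum, Finset.sum_apply]
      refine Eq.trans ?_ (congrArg (· * _) this.symm)
      rw [sum_mul]
      exact sum_congr rfl fun j _ => by rw [map_smul, Pi.smul_apply, a2 j τ hτ, smul_eq_mul, mul_assoc, es]
  refine ⟨∑ j ∈ range (n + 1), monomial j (a j), fun j => (a4 j).symm ▸ ⟨a1 j, a2 j⟩,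
    fun t => by simp only [a4, a5], fun t => ?_⟩
  rw [← a5, eval_finsetSum]
  exact sum_congr rfl fun j _ => by rw [eval_monomial, Algebra.smul_def, map_pow, mul_comm]

theorem gen_es (w : K →* ℂ) (j : ℕ) (h : finrank F V = n) (hn : n ≤ C.N) {x y : A} (vx : Vc H E x)
    (e : ∀ τ ∈ Ty C.deg n, E.val y τ = es C w j τ * E.val x τ) : Vc H E y := by
  have := (lift_U H w j fun f hf _ => by rw [C.splits (hf ▸ h ▸ hn), hf]).mul vx
  convert this using 1
  funext g
  rw [ch_apply, e _ (ty_mem h hn g), Pi.mul_apply, ch_apply, es, charpoly_ty (C := C) (h ▸ hn)]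

theorem gen_pt (w : K →* ℂ) {b : ℕ} (h : finrank F V = m) (h' : finrank F V' = m + b)
    (hn : m + b ≤ C.N) {p : A[X]} (hp : ∀ t : ℂ, p.eval (algebraMap ℂ A t) =
      E.mu (fun θ => ∏ y ∈ C.orb θ, (1 + t * w y)) (E.h b)) (j : ℕ) :
    ∀ x ∈ E.S.Hn m, Vc H E x → Vc H' E (x * p.coeff j) := by
  induction j using Nat.strong_induction_on with
  | _ j ih =>
  intro x hx vx
  have hm : m ≤ C.N := by omega
  obtain ⟨px, a1, -, a2⟩ := exists_pt w hm hx
  obtain ⟨pz, b1, -, b2⟩ := exists_pt w hn (E.S.mul_mem _ _ _ _ hx (E.h_mem b))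
  have c1 : pz = p * px := Gr.poly_ext fun t => by rw [eval_mul, a2, b2, hp, map_mul, mul_comm]
  have c2 : px.coeff 0 = x := by
    have := a2 0
    rw [map_zero, ← coeff_zero_eq_eval_zero] at this
    simpa only [zero_mul, add_zero, prod_const_one] using this.trans (congrArg (E.mu · x) rfl) |>.trans
      (by simp only [zero_mul, add_zero, prod_const_one]; exact E.mu_one x)
  have c3 := congrArg (·.coeff j) c1
  simp only [coeff_mul, Nat.sum_antidiagonal_eq_sum_range_succ fun a b => p.coeff a * px.coeff b,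
    sum_range_succ, Nat.sub_self, c2] at c3
  have c4 : Vc H' E (x * E.h b) := by
    simpa only [Nat.add_sub_cancel_left] using gen_h m (m + b) H H' h h' le_self_add hn x hx vx
  rw [mul_comm, ← sub_eq_iff_eq_add'.2 c3, Vc, map_sub, map_sum]
  exact (gen_es w j h' hn c4 (b1 j).2).sub (isGen_sum _ _ fun i hi => by
    rw [mul_comm]
    exact ih i (mem_range.1 hi) _ (a1 _).1 (gen_es w _ h hm vx (a1 _).2))

variable (E) in
/-- sums of homogeneous virtual characters -/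
def Z0 : AddSubgroup A :=
  AddSubgroup.closure {x | ∃ m, x ∈ E.S.Hn m ∧ (m ≤ C.N → Vc (Hs F m) E x)}

variable (E) in
/-- the multipliers -/
def Mu : Subring A where
  carrier := {b | ∀ x ∈ Z0 E, x * b ∈ Z0 E}
  mul_mem' := fun ha hb x hx => mul_assoc x _ _ ▸ hb _ (ha x hx)
  one_mem' := fun x hx => (mul_one x).symm ▸ hx
  add_mem' := fun ha hb x hx => (mul_add x _ _).symm ▸ add_mem (ha x hx) (hb x hx)
  zero_mem' := fun x _ => (mul_zero x).symm ▸ zero_mem _
  neg_mem' := fun ha x hx => (mul_neg x _).symm ▸ neg_mem (ha x hx)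

theorem ubc_realise_eqns : True := by
  have := @Hs.eq_1.{0}
  have := @es.eq_1.{0}
  have := @Z0.eq_1.{0}
  trivial

theorem mem_Mu {b : A} {k : ℕ} (hb : b ∈ E.S.Hn k) (h : ∀ m, m + k ≤ C.N → ∀ x ∈ E.S.Hn m,
    Vc (Hs F m) E x → Vc (Hs F (m + k)) E (x * b)) : b ∈ Mu E := fun x hx => by
  induction hx using AddSubgroup.closure_induction with
  | mem x hx =>
    obtain ⟨m, h1, h2⟩ := hx
    exact AddSubgroup.subset_closure ⟨m + k, E.S.mul_mem _ _ _ _ h1 hb, fun hN =>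
      h m hN x h1 (h2 (by omega))⟩
  | zero => rw [zero_mul]; exact zero_mem _
  | add x y _ _ hx hy => rw [add_mul]; exact add_mem hx hy
  | neg x _ hx => rw [neg_mul]; exact neg_mem hx

theorem gen_of_Mu (h : finrank F V = n) (hn : n ≤ C.N) {x : A} (hx : x ∈ E.S.Hn n) (h1 : x ∈ Mu E) :
    Vc H E x := by
  have h2 := h1 1 (AddSubgroup.subset_closure ⟨0, E.S.one_mem, fun h0 => by
    convert (isCharacter_one (G := (Hs F 0).U)).isGen with g
    rw [ch_apply, ← E.h_rel.1, E.val_h 0 h0 _ (ty_mem (finrank_fin_fun F) h0 g)]⟩)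
  rw [one_mul] at h2
  refine gen_of_ip h hn hx fun y hy vy => ?_
  clear hx h1
  induction h2 using AddSubgroup.closure_induction with
  | mem x hx =>
    obtain ⟨m, h1, h2⟩ := hx
    by_cases e : m = n
    · subst e
      exact int_ip h hn h1 hy (gen_congr (finrank_fin_fun F) h hn h1 (h2 hn)) vy
    · exact ⟨0, by rw [E.S.ip_ne n m x y h1 e, Int.cast_zero]⟩
  | zero => exact ⟨0, by rw [← E.S.ipl_apply, map_zero, Int.cast_zero]⟩
  | add x z _ _ hx hz =>
    obtain ⟨⟨a, ha⟩, b, hb⟩ := And.intro hx hz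
    exact ⟨a + b, by rw [E.S.ip_add, ha, hb, Int.cast_add]⟩
  | neg x _ hx =>
    obtain ⟨a, ha⟩ := hx
    exact ⟨-a, by rw [← E.S.ipl_apply, map_neg, E.S.ipl_apply, ha, Int.cast_neg]⟩

variable (E)

theorem hh_mem_Mu (θ : C.Th) {r : ℕ} (hr : r * C.deg θ ≤ C.N) : hh (piG E) θ r ∈ Mu E := by
  rcases r.eq_zero_or_pos with rfl | r0
  · rw [(expRel_hh' (π := piG E) (i := θ)).1]; exact one_mem _
  have hd := (Nat.le_mul_of_pos_left _ r0).trans hr
  let w : ℕ → K →* ℂ := fun s => (powMonoidHom s).comp (MulChar.ofUnitHom C.ω).toMonoidHom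
  have hw : ∀ s (x : Kˣ), w s x = (C.ω x : ℂ) ^ s := fun s x => by simp [w]
  have a1 : ∀ s n, ∃ p : A[X], n ≤ C.N → (∀ j, p.coeff j ∈ Mu E) ∧ ∀ t : ℂ,
      ∑ j ∈ range (n + 1), t ^ j • p.coeff j =
        E.mu (fun θ => ∏ y ∈ C.orb θ, (1 + t * w s y)) (E.h n) := fun s n => by
    by_cases hn : n ≤ C.N
    · obtain ⟨p, b1, b2, b3⟩ := exists_pt (w s) hn (E.h_mem n)
      exact ⟨p, fun _ => ⟨fun j => mem_Mu (b1 j).1 fun m hm =>
        gen_pt (w s) (finrank_fin_fun F) (finrank_fin_fun F) hm b3 j, b2⟩⟩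
    · exact ⟨0, fun h => absurd h hn⟩
  choose p e using a1
  let P : ℕ → ℕ → A := fun n a => ∑ x ∈ C.XX n, (C.ω x : ℂ) ^ a • cp E n x
  obtain ⟨Φ, hΦ⟩ := Gr.exists_expRel fun k => (-1) ^ (C.deg θ * k - 1) *
    P (C.deg θ * k) (C.dl (C.deg θ) (C.rep θ) * ∑ i ∈ range k, C.Q ^ (C.deg θ * i))
  have a2 := Gr.necklace (Mu E) C.Q C.N C.one_lt P (fun n a _ _ => ?_)
    (fun n a _ _ => ?_) (fun s n j => (p s n).coeff j) (fun s n j hn => (e s n hn).1 j) (fun s t => ?_)
    _ _ (OD.deg_pos θ) Φ hΦ r (mul_comm r _ ▸ hr)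
  · refine (hΦ.to r).unique ((expRel_hh' (π := piG E) (i := θ)).to r) (fun k k0 hk => ?_) r le_rfl ▸ a2
    have b1 := (Nat.mul_le_mul_right (C.deg θ) hk).trans hr
    have b2 := C.γ_pow (OD.deg_pos θ) k0 (mul_comm k _ ▸ b1)
    have b3 := C.γ_dl (OD.deg_pos θ) hd (OD.rep_mem (θ := θ) dvd_rfl)
    rw [piG, PP, mul_comm k, Algebra.smul_def, map_pow, map_neg, map_one]
    refine congrArg _ (sum_congr rfl fun x hx => ?_)
    conv_rhs => rw [← b3, ← b2, ← pow_mul, C.pr_γ_pow (Nat.mul_pos (OD.deg_pos θ) k0)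
      (mul_comm k _ ▸ b1) _ hx, mul_comm (∑ i ∈ range k, _)]
  · simp only [P]
    rw [← sum_frob n 1 fun x => (C.ω x : ℂ) ^ a • cp E n x]
    simp only [cp_frob]
    simp only [pow_one, map_pow, Units.val_pow_eq_pow_val, pow_mul]
  · refine sum_congr rfl fun x hx => ?_
    have : x ^ (C.Q ^ n - 1) = 1 := by
      rw [← mul_left_inj x, ← pow_succ, Nat.sub_add_cancel (Nat.one_le_pow _ _ (zero_lt_one.trans C.one_lt)),
        OD.mem_XX'.1 hx, one_mul]
    rw [pow_add, ← Units.val_pow_eq_pow_val _ (_ - 1), ← map_pow, this, map_one, Units.val_one, mul_one]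
  refine ((logder E fun x => 1 + t * w s x).to _).congr (fun n _ _ => ?_) fun n hn => ((e s n hn).2 t).symm
  simp only [P, smul_sum, smul_smul]
  rw [sum_comm]
  refine sum_congr rfl fun x _ => ?_
  rw [← sum_smul, prod_one_add]
  refine congrArg (· • _) (sum_congr rfl fun I _ => ?_)
  simp only [prod_mul_distrib, prod_const, hw, map_pow, Units.val_pow_eq_pow_val, prod_pow,
    prod_pow_eq_pow_sum, ← pow_mul, mul_comm s, sum_mul]

theorem irr_sL (h : finrank F V = n) (hn : n ≤ C.N) {Λ : C.Th → Finset ℕ} (hΛ : C.Lab n Λ) :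
    ∃ ε : ℂ, (ε = 1 ∨ ε = -1) ∧ IsIrrCharacter H.U (ε • ch H E (sL C.N (piG E) Λ)) := by
  have hS := sys_piG E C.t_eq
  have a1 : sL C.N (piG E) Λ ∈ Mu E := prod_mem fun θ _ =>
    (Submodule.span_le (p := (Mu E).toAddSubgroup.toIntSubmodule)).2 (by
      rintro _ ⟨γ, b1, rfl⟩
      exact (Mu E).prod_mem fun j _ => hh_mem_Mu E θ ((Nat.mul_le_mul_right _ (b1 ▸ single_le_sum
        (fun _ _ => Nat.zero_le _) (mem_univ j))).trans ((hΛ.le θ).trans hn)))
      (AbsA.ss_mem _ θ (hΛ.1 θ))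
  have a2 := AbsA.sL_mem hS hn hΛ
  have a3 := AbsA.ip_sL hS hn hΛ hΛ
  rw [if_pos rfl, ip_ch H E h hn a2 a2] at a3
  obtain ⟨χ, e | e⟩ := (gen_of_Mu h hn a2 a1).eq_irr_or_neg_of_ip_self a3
  · exact ⟨1, .inl rfl, by rw [e, one_smul]; exact χ.2⟩
  · exact ⟨-1, .inr rfl, by rw [e, neg_smul, one_smul, neg_neg]; exact χ.2⟩

/-- the character theory of the unitary groups -/
noncomputable def ub : UB C A where
  S := E.S
  π := piG E
  T := E.mu (rg C.toOD)
  ch := fun H => ch H E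
  sys := sys_piG E C.t_eq
  tsys := tsys_piG E
  T_mem := E.mu_mem _
  ld := fun H n h hn =>
    { hM := C.hM
      hn := hn
      sys := sys_piG E C.t_eq
      tsys := tsys_piG E
      T_mem := E.mu_mem _ n
      ip_ch := fun _ hx _ hy => ip_ch H E h hn hx hy
      surj := fun _ => ch_surj E h hn
      irr := fun _ => irr_sL E h hn
      T_ch := fun _ => ch_reg E h hn
      twist := fun z => ⟨E.mu (lv C.toOD z), fun _ => ch_lin E h hn z,
        fun θ _ hk hN => twist_piG E z θ hk hN⟩ }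
  cls := fun _ hV => ch_cls E hV
  iso := fun _ _ hV e _ _ he x => by rw [ch_apply, ch_apply, ty_iso hV e he]
  mulc := fun c => ⟨E.mu fun θ => c (C.P θ), E.mu_mem _, E.mu_pr _, fun H n h hn x hx g => by
    rw [ch_mu E h hn _ hx, charpoly_ty (C := C) (h ▸ hn), map_prod]
    simp only [map_pow]⟩
  supp := fun _ _ h hn h0 _ hx _ => ch_supp E h hn h0 hx
  prod := fun _ _ H _ _ h h' hN e φ hφ _ hf _ hg _ hy => ch_prod E H h h' hN e φ hφ hf hg hy
  sing := fun θ j ζ hθ hj hN hζ hp => by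
    obtain ⟨ϖ, h1, h2, h3⟩ := sing_piG E hθ hj hN hζ hp
    refine ⟨ϖ, h1, h2, fun H h g hg => ?_⟩
    obtain ⟨x, a1, a2, a3⟩ := h3 _ hg
    exact ⟨x, a1, a2, charpoly_of_cp E h hN (Nat.mul_pos hj (OD.deg_pos θ)) a1 a3⟩

end GUH.Ub

namespace GUH

open UW
open scoped Classical

universe u

theorem exists_UB {F : Type u} [Field F] [Fintype F] [StarRing F] [HF F] {K : Type} [Field K]
    [Fintype K] [Algebra F K] (C : UC F K) {A : Type} [CommRing A] [Algebra ℂ A]
    (E : EM C.deg (qq F) C.N A) : Nonempty (UB C A) := ⟨Ub.ub E⟩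

theorem UC.nonempty_UB {F : Type u} [Field F] [Fintype F] [StarRing F] [HF F] {K : Type} [Field K]
    [Fintype K] [Algebra F K] (C : UC F K) : Nonempty (UB C (Al C.Th)) :=
  (exists_em C.deg OD.deg_pos (qq F) C.N (two_le_qq F)).elim (exists_UB C)

end GUH
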