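import Cfsg.Agent.Lib.GU.WallA
import Cfsg.Agent.Lib.UW.Sub
import Cfsg.Agent.Lib.UW.Weil

/-!
# Cyclic hermitian modules and the number of their embeddings
-/

set_option autoImplicit false
set_option linter.unusedSectionVars false

namespace GUW

open Polynomial Module Finset UW
open scoped Classical ComplexConjugate

universe u v w

variable {F : Type u} [Field F] [Fintype F] [StarRing F] [HF F]

theorem gauss_exact {M : Type*} [AddCommGroup M] [Module F M] [Fintype M] (ψ : AddChar F ℂ) {i : F}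
    (hs : star i = -i) (hψ : ψ i ≠ 1) (B : M → M → F) (h1 : ∀ x y z, B (x + y) z = B x z + B y z)
    (h3 : ∀ (a : F) x y, B (a • x) y = a * B x y) (hh : ∀ x y, star (B x y) = -B y x) (R : Submodule F M)
    (hR : ∀ x, x ∈ R ↔ ∀ y, B x y = 0) : ∑ m, ψ (B m m) = (-(qq F : ℂ)) ^ (finrank F M + finrank F R) := by
  have hh' : ∀ x y, B x y = -star (B y x) := fun x y => by rw [hh, neg_neg]
  have h2 : ∀ x y z, B x (y + z) = B x y + B x z := fun x y z => by rw [hh', h1, star_add, hh, hh]; ring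
  have h4 : ∀ (a : F) x y, B x (a • y) = star a * B x y := fun a x y => by rw [hh', h3, star_mul', hh]; ring
  obtain ⟨j, hj⟩ := gauss_form ψ hs hψ B h1 h2 h3 h4 _ ⊤ rfl fun m _ => hh m m
  replace hj : ∑ m, ψ (B m m) = (-(qq F : ℂ)) ^ j :=
    (Fintype.sum_equiv (Submodule.topEquiv (R := F) (M := M)).toEquiv _ _ fun _ => rfl).symm.trans hj
  obtain ⟨θ, hθ⟩ := exists_theta F
  have key : ∀ z, ∑ y, ψ (B (y + z) (y + z)) * ψ (-B y y) = if z ∈ R then (Fintype.card M : ℂ) else 0 := fun z => by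
    have e : ∀ y, ψ (B (y + z) (y + z)) * ψ (-B y y) = ψ (B z z + B y z + B z y) := fun y => by
      rw [← AddChar.map_add_eq_mul, h1, h2, h2]
      congr 1
      ring
    simp only [e]
    split_ifs with hz
    · have hz' := (hR z).1 hz
      have hz'' : ∀ y, B y z = 0 := fun y => by rw [hh', hz', star_zero, neg_zero]
      simp [hz'', hz']
    · obtain ⟨y, hy⟩ := not_forall.1 (mt (hR z).2 hz)
      have hy' : B y z ≠ 0 := fun e => hy (by rw [hh', e, star_zero, neg_zero])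
      refine sum_eq_zero_of_add _ (a := (θ * i / B y z) • y) hψ fun x => ?_
      have e1 : B ((θ * i / B y z) • y) z = θ * i := by rw [h3, div_mul_cancel₀ _ hy']
      rw [← AddChar.map_add_eq_mul, h1, h2, hh' z (_ • y), e1, star_mul', hs]
      congr 1
      linear_combination i * hθ
  have h5 : (∑ m, ψ (B m m)) * conj (∑ m, ψ (B m m)) = Fintype.card M * Fintype.card R := by
    have e : ∀ y, (∑ m, ψ (B m m)) * conj (ψ (B y y)) = ∑ z, ψ (B (y + z) (y + z)) * ψ (-B y y) := fun y => by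
      rw [← AddChar.map_neg_eq_conj, ← Equiv.sum_comp (Equiv.addLeft y), sum_mul]
      rfl
    rw [map_sum, mul_sum, sum_congr rfl fun y _ => e y, sum_comm]
    simp only [key]
    rw [← sum_filter, sum_const, ← Fintype.card_subtype, nsmul_eq_mul, mul_comm]
  rw [hj, HS.card_eq_pow (F := F), HS.card_eq_pow (F := F), map_pow, map_neg, map_natCast, ← mul_pow, neg_mul_neg] at h5
  have h6 : qq F ^ (2 * j) = qq F ^ (2 * (finrank F M + finrank F R)) := by
    rw [mul_add, pow_add, pow_mul, sq]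
    exact_mod_cast h5
  rw [hj, Nat.eq_of_mul_eq_mul_left two_pos (Nat.pow_right_injective (two_le_qq F) h6)]

/-- hermitian structure of a cyclic module -/
structure Cy (f f' : F[X]) where
  σ : AdjoinRoot f →+* AdjoinRoot f
  l : AdjoinRoot f →ₗ[F] F
  root : σ (AdjoinRoot.root f) * AdjoinRoot.root f = 1
  smul : ∀ (c : F) x, σ (c • x) = star c • σ x
  invol : ∀ x, σ (σ x) = x
  herm : ∀ x, l (σ x) = star (l x)
  soc : ∃ t, σ (AdjoinRoot.mk f f' * t) = AdjoinRoot.mk f f' * t ∧ l (AdjoinRoot.mk f f' * t) = 1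
  dvd : ∀ a, σ a = a → a ≠ 0 → a ∣ AdjoinRoot.mk f f'

theorem exists_herm {O : Type*} [CommRing O] [Algebra F O] (σ : O →+* O)
    (hs : ∀ (c : F) x, σ (c • x) = star c • σ x) {x : O} (hx : x ≠ 0) :
    ∃ c : F, c • x + σ (c • x) ≠ 0 := by
  obtain ⟨a, ha⟩ := HF.ex (F := F)
  by_contra! h
  have h1 := h 1
  have h2 := h a
  rw [one_smul] at h1
  rw [hs, eq_neg_of_add_eq_zero_right h1, smul_neg, ← sub_eq_add_neg, ← sub_smul] at h2
  exact (smul_eq_zero.1 h2).elim (fun e => ha (sub_eq_zero.1 e).symm) hx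

variable {ι : Type w} [Fintype ι] {P : ι → F[X]} {d : ι → ℕ}

theorem exists_cy (p : FamU P d) (θ : ι) (k : ℕ) : Nonempty (Cy (P θ ^ (k + 1)) (P θ ^ k)) := by
  set f := P θ ^ (k + 1) with hf
  obtain ⟨r, hr⟩ : ∃ r, r * AdjoinRoot.root f = 1 := by
    have h0 : f.coeff 0 ≠ 0 := by rw [hf, coeff_zero_eq_eval_zero, eval_pow, ← coeff_zero_eq_eval_zero]; exact pow_ne_zero _ (p.zero θ)
    have := congrArg (AdjoinRoot.mk f) (divX_mul_X_add f)
    rw [map_add, map_mul, AdjoinRoot.mk_self, AdjoinRoot.mk_X, AdjoinRoot.mk_C] at this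
    refine ⟨-AdjoinRoot.of f (f.coeff 0)⁻¹ * AdjoinRoot.mk f f.divX, ?_⟩
    rw [mul_assoc, eq_neg_of_add_eq_zero_left this, neg_mul_neg, ← map_mul, inv_mul_cancel₀ h0, map_one]
  let i := (AdjoinRoot.of f).comp (starRingEnd F)
  have hφ : ∀ a : F[X], ∃ n, eval₂ i r a = AdjoinRoot.mk f (du a) * r ^ n := fun a => by
    let : Invertible r := ⟨AdjoinRoot.root f, (mul_comm _ _).trans hr, hr⟩
    refine ⟨(a.map (starRingEnd F)).natDegree, ?_⟩
    rw [← eval₂_map, ← eval₂_reverse_mul_pow, ← AdjoinRoot.aeval_eq]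
    rfl
  obtain ⟨u, hu⟩ : AdjoinRoot.mk f (P θ) ∣ eval₂ i r (P θ) := by
    obtain ⟨n, hn⟩ := hφ (P θ)
    exact hn ▸ (_root_.map_dvd _ (p.dual θ)).mul_right _
  have h0 : eval₂ i r f = 0 := (eval₂_pow ..).trans <| by rw [hu, mul_pow, ← map_pow, AdjoinRoot.mk_self, zero_mul]
  let σ := AdjoinRoot.lift i r h0
  have hσm : ∀ a, σ (AdjoinRoot.mk f a) = eval₂ i r a := AdjoinRoot.lift_mk h0
  have hσr : σ (AdjoinRoot.root f) = r := AdjoinRoot.lift_root h0
  have hσo : ∀ c : F, σ (AdjoinRoot.of f c) = AdjoinRoot.of f (star c) := fun c => AdjoinRoot.lift_of h0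
  have hs : ∀ (c : F) x, σ (c • x) = star c • σ x := fun c x => by
    rw [Algebra.smul_def, Algebra.smul_def, map_mul, AdjoinRoot.algebraMap_eq, hσo]
  have hσ : ∀ x, σ (σ x) = x := fun x => by
    refine RingHom.congr_fun (AdjoinRoot.ringHom_ext (f := σ.comp σ) (g := RingHom.id _) (RingHom.ext fun c => ?_) ?_) x
    · simp [hσo]
    · have := congrArg σ hr
      rw [map_mul, hσr, map_one] at this
      rw [RingHom.comp_apply, hσr, RingHom.id_apply, ← mul_one (σ r), ← hr, ← mul_assoc, this, one_mul]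
  have hP := (p.monic θ).ne_zero
  have hnu : ¬IsUnit (P θ) := fun h => (p.pos θ).ne' ((p.deg θ).symm.trans (natDegree_eq_zero_of_isUnit h))
  have hπ : ∀ j ≤ k, ∀ y : F[X], AdjoinRoot.mk f (P θ ^ j * y) = 0 → P θ ∣ y := fun j hj y h =>
    (mul_dvd_mul_iff_left (pow_ne_zero j hP)).1
      (pow_succ (P θ) j ▸ (pow_dvd_pow _ (by omega)).trans (AdjoinRoot.mk_eq_zero.1 h))
  have hw : AdjoinRoot.mk f (P θ ^ k) ≠ 0 := fun h => hnu (isUnit_of_dvd_one (hπ k le_rfl 1 (by rwa [mul_one])))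
  obtain ⟨c, hc⟩ := exists_herm σ hs hw
  obtain ⟨l, hl⟩ := Module.Projective.exists_dual_eq_one F hc
  obtain ⟨t, ht⟩ := exists_theta F
  have hσP : ∀ j, σ (AdjoinRoot.mk f (P θ ^ j)) = AdjoinRoot.mk f (P θ ^ j) * u ^ j := fun j => by
    rw [map_pow, map_pow, hσm, hu, mul_pow]
  have e : AdjoinRoot.mk f (P θ ^ k) * (c • 1 + star c • u ^ k) =
      c • AdjoinRoot.mk f (P θ ^ k) + σ (c • AdjoinRoot.mk f (P θ ^ k)) := by
    rw [hs, hσP, mul_add, mul_smul_comm, mul_smul_comm, mul_one]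
  have e' : σ (c • AdjoinRoot.mk f (P θ ^ k) + σ (c • AdjoinRoot.mk f (P θ ^ k))) =
      c • AdjoinRoot.mk f (P θ ^ k) + σ (c • AdjoinRoot.mk f (P θ ^ k)) := by rw [map_add, hσ, add_comm]
  refine ⟨⟨σ, ⟨⟨fun x => t * l x + star (t * l (σ x)), fun x y => ?_⟩, fun a x => ?_⟩, hσr ▸ hr, hs, hσ,
    fun x => ?_, ⟨c • 1 + star c • u ^ k, by rw [e, e'], ?_⟩, fun a ha h => ?_⟩⟩
  · simp only [map_add, mul_add, star_add]
    ring
  · simp only [hs, map_smul, smul_eq_mul, star_mul', star_star, RingHom.id_apply]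
    ring
  · simp only [LinearMap.coe_mk, AddHom.coe_mk, hσ, star_add, star_star, add_comm]
  · simp only [LinearMap.coe_mk, AddHom.coe_mk, e, e', hl, mul_one, ht]
  · obtain ⟨a, rfl⟩ := AdjoinRoot.mk_surjective a
    obtain ⟨j, b, hb, rfl⟩ := WfDvdMonoid.max_power_factor' (a₀ := a) (fun e => h (by rw [e, map_zero])) hnu
    have hj : j ≤ k := not_lt.1 fun e => h (AdjoinRoot.mk_eq_zero.2 ((pow_dvd_pow _ e).mul_right b))
    rcases p.loc θ b with h1 | h1
    · obtain ⟨x, y, h2⟩ := h1.pow_right (n := k + 1)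
      refine (Dvd.intro (AdjoinRoot.mk f x) ?_).trans (_root_.map_dvd _ (pow_dvd_pow _ hj))
      rw [← map_mul, AdjoinRoot.mk_eq_mk]
      exact ⟨-P θ ^ j * y, by linear_combination P θ ^ j * h2⟩
    · obtain ⟨n, hn⟩ := hφ b
      obtain ⟨z, hz⟩ := AdjoinRoot.mk_surjective (u ^ j * r ^ n)
      rw [map_mul, map_mul, hσP, hσm, hn] at ha
      have h2 := hπ j hj (du b * z - b) (by rw [map_mul, map_sub, map_mul, hz]; linear_combination ha)
      refine (hb (((p.sqf θ).dvd_pow_iff_dvd two_ne_zero).1 ?_)).elim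
      rw [show b ^ 2 = b * du b * z - b * (du b * z - b) by ring]
      exact (h1.mul_right z).sub (h2.mul_left b)

variable {V V' W : Type*} [AddCommGroup V] [Module F V] [Fintype V] [AddCommGroup V'] [Module F V'] [Fintype V']
  [AddCommGroup W] [Module F W]

/-- isometric intertwining maps -/
structure Emb (H₀ : HS F W) (T₀ : End F W) (H : HS F V) (T : End F V) (L : W →ₗ[F] V) : Prop where
  hom : L ∈ Hom T₀ T
  iso : ∀ x y, H.b (L x) (L y) = H₀.b x y

theorem Hom.mul {f : F[X]} {T : End F W} {L : AdjoinRoot f →ₗ[F] W} (h : L ∈ Hom (mr f) T) (a : F[X])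
    (x : AdjoinRoot f) : L (AdjoinRoot.mk f a * x) = Polynomial.aeval T a (L x) := by rw [← Hom.aeval h, aeval_mr]

namespace Cy
variable {f f' : F[X]} (C : Cy f f') {H : HS F V} {g : H.U}

theorem nondeg (a : AdjoinRoot f) (h : ∀ b, C.l (a * b) = 0) : a = 0 := by
  by_contra h0
  obtain ⟨c, hc⟩ := exists_herm C.σ C.smul h0
  obtain ⟨y, hy⟩ := C.dvd _ (by rw [map_add, C.invol, add_comm]) hc
  obtain ⟨t, -, ht⟩ := C.soc
  have h1 : ∀ b, C.l (C.σ a * b) = 0 := fun b => by rw [← C.invol b, ← map_mul, C.herm, h, star_zero]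
  rw [hy, mul_assoc, add_mul, C.smul, smul_mul_assoc, smul_mul_assoc, map_add, map_smul, map_smul, h, h1] at ht
  simp at ht

/-- the hermitian form -/
noncomputable def hs : HS F (AdjoinRoot f) where
  b x y := C.l (x * C.σ y)
  add_left x y z := by rw [add_mul, map_add]
  smul_left a x y := by rw [smul_mul_assoc, map_smul, smul_eq_mul]
  herm x y := by rw [← C.herm, map_mul, C.invol, mul_comm]
  nondeg x h := C.nondeg x fun b => C.invol b ▸ h (C.σ b)

theorem hs_b (x y : AdjoinRoot f) : C.hs.b x y = C.l (x * C.σ y) := rfl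

theorem isom (x y : AdjoinRoot f) : C.hs.b (mr f x) (mr f y) = C.hs.b x y := by
  rw [hs_b, hs_b, mr_apply, mr_apply, map_mul C.σ]
  congr 1
  linear_combination x * C.σ y * C.root

theorem adj {L : AdjoinRoot f →ₗ[F] V} (hL : L ∈ Hom (mr f) (H.lin g)) (c : F[X]) (y : V) (z : AdjoinRoot f) :
    H.b (aeval (H.lin g) c y) (L z) = H.b y (L (C.σ (AdjoinRoot.mk f c) * z)) := by
  induction c using Polynomial.induction_on generalizing y z with
  | C a =>
    rw [aeval_C, Module.algebraMap_end_apply, ← mul_one (Polynomial.C a), ← smul_eq_C_mul, ← AdjoinRoot.smul_mk, C.smul,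
      smul_mul_assoc]
    simp
  | add a b ha hb => simp only [map_add, add_mul, LinearMap.add_apply, H.add_left, H.add_right, ha, hb]
  | monomial n a ih =>
    rw [pow_succ, ← mul_assoc, map_mul, aeval_X, End.mul_apply, ih, map_mul (AdjoinRoot.mk f) _ X, AdjoinRoot.mk_X,
      map_mul C.σ _ (AdjoinRoot.root f), ← HS.b_smul_smul g y, ← H.lin_apply g (L _), ← hL, mr_apply]
    congr 2
    linear_combination -C.σ (AdjoinRoot.mk f (Polynomial.C a * X ^ n)) * z * C.root

theorem adj' {L L' : AdjoinRoot f →ₗ[F] V} (hL : L ∈ Hom (mr f) (H.lin g)) (hL' : L' ∈ Hom (mr f) (H.lin g))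
    (c x z : AdjoinRoot f) : H.b (L (c * x)) (L' z) = H.b (L x) (L' (C.σ c * z)) := by
  obtain ⟨c, rfl⟩ := AdjoinRoot.mk_surjective c
  rw [Hom.mul hL, C.adj hL']

include C in
theorem nd (hst : ∀ x, aeval (H.lin g) f (aeval (H.lin g) f x) = 0 → aeval (H.lin g) f x = 0) {x : V}
    (hx : aeval (H.lin g) f x = 0) (h : ∀ L ∈ Hom (mr f) (H.lin g), H.b x (L 1) = 0) : x = 0 := by
  have h1 := Submodule.eq_top_of_disjoint (LinearMap.range (aeval (H.lin g) f)) (LinearMap.ker (aeval (H.lin g) f))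
    (LinearMap.finrank_range_add_finrank_ker _).ge (Submodule.disjoint_def.2 (by rintro _ ⟨y, rfl⟩ hy; exact hst y hy))
  refine H.nondeg x fun y => ?_
  obtain ⟨_, ⟨a, rfl⟩, b, hb, rfl⟩ := Submodule.mem_sup.1 (h1.ge (Submodule.mem_top (x := y)))
  obtain ⟨L, hL⟩ := exists_L hx
  obtain ⟨L', hL'⟩ := exists_L (LinearMap.mem_ker.1 hb)
  have h2 := C.adj (hom_of_L hL) f a 1
  have h3 := h L' (hom_of_L hL')
  rw [show L 1 = x by simpa using hL 1, AdjoinRoot.mk_self, map_zero, zero_mul, map_zero, H.zero_right] at h2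
  rw [show L' 1 = b by simpa using hL' 1] at h3
  rw [H.add_right, h3, H.symm_zero h2, add_zero]

/-- hermitian elements -/
noncomputable abbrev Op : Subring (AdjoinRoot f) := C.σ.eqLocus (RingHom.id _)

theorem card_op (hf : f.Monic) : Nat.card C.Op = qq F ^ f.natDegree := by
  have := hf.finite_adjoinRoot
  obtain ⟨i, h0, hi⟩ := exists_skew F
  obtain ⟨t, ht⟩ := exists_theta F
  have e : ∀ x y : C.Op, t • x.1 + i • y.1 + C.σ (t • x.1 + i • y.1) = x.1 := fun x y => by
    rw [map_add, C.smul, C.smul, hi, show C.σ x = x from x.2, show C.σ y = y from y.2]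
    linear_combination (norm := module) ht • x.1
  have h1 := Nat.card_congr (Equiv.ofBijective (fun x : C.Op × C.Op => t • x.1.1 + i • x.2.1) ⟨fun x y h => by
    have h2 : x.1.1 = y.1.1 := by rw [← e x.1 x.2, ← e y.1 y.2, show t • x.1.1 + i • x.2.1 = _ from h]
    refine Prod.ext (Subtype.ext h2) (Subtype.ext (smul_right_injective _ h0 ?_))
    simpa only [h2, add_right_inj] using h, fun a => ⟨(⟨a + C.σ a, ?_⟩, ⟨i⁻¹ • (star t • a - t • C.σ a), ?_⟩), ?_⟩⟩)
  · rw [Nat.card_prod, Module.natCard_eq_pow_finrank (K := F) (V := AdjoinRoot f), finrank_adj hf,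
      Nat.card_eq_fintype_card (α := F), card_F, ← pow_mul, mul_comm 2, pow_mul, ← sq] at h1
    exact Nat.pow_left_injective two_ne_zero h1
  · change C.σ _ = _
    rw [map_add, C.invol, add_comm, RingHom.id_apply]
  · change C.σ _ = _
    rw [C.smul, map_sub, C.smul, C.smul, C.invol, star_inv₀, hi, star_star, RingHom.id_apply, inv_neg]
    module
  · simp only [smul_smul, mul_inv_cancel₀ h0, one_smul]
    linear_combination (norm := module) ht • a

theorem card_emb (hf : f.Monic) (hd : f' ∣ f)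
    (hst : ∀ x, aeval (H.lin g) f (aeval (H.lin g) f x) = 0 → aeval (H.lin g) f x = 0) :
    (Nat.card {L // Emb C.hs (mr f) H (H.lin g) L} : ℤ) * qq F ^ f.natDegree =
      (-(qq F : ℤ)) ^ (2 * kd (H.lin g) f) - (-(qq F : ℤ)) ^ (kd (H.lin g) f + kd (H.lin g) f') := by
  have := hf.finite_adjoinRoot
  have : Finite (AdjoinRoot f) := Module.finite_of_finite F
  have : Finite (AdjoinRoot f →ₗ[F] V) := Module.finite_of_finite F
  let M := Hom (mr f) (H.lin g)
  let _ := Fintype.ofFinite M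
  let _ := Fintype.ofFinite C.Op
  let ev : AdjoinRoot f → M →ₗ[F] V := fun a => LinearMap.applyₗ a ∘ₗ M.subtype
  have hev : ∀ a L, L ∈ LinearMap.ker (ev a) ↔ L.1 a = 0 := fun _ _ => Iff.rfl
  have hmul : ∀ (L : M) a b, L.1 a = 0 → L.1 (a * b) = 0 := fun L a b h => by
    obtain ⟨b, rfl⟩ := AdjoinRoot.mk_surjective b
    rw [mul_comm, Hom.mul L.2, h, map_zero]
  obtain ⟨ψ, i, hi, hψ⟩ := exists_psi F
  have hi0 : i ≠ 0 := fun e => hψ (by rw [e, AddChar.map_zero_eq_one])
  obtain ⟨t, ht⟩ := exists_theta F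
  let nu : Submodule F M → ℂ := fun S => (-(qq F : ℂ)) ^ (finrank F M + finrank F S)
  let G : C.Op → ℂ := fun a => nu (LinearMap.ker (ev a))
  let G' : C.Op → ℂ := fun a => nu (LinearMap.ker (ev a) ⊓ LinearMap.ker (ev (AdjoinRoot.mk f f')))
  have h1 : ∀ a : C.Op, ∑ L : M, ψ (i * H.b (L.1 a) (L.1 1)) = G a := fun a =>
    gauss_exact ψ hi hψ (fun L L' : M => i * H.b (L.1 a) (L'.1 1)) (fun x y z => by simp [mul_add])
      (fun c x y => by simp [mul_left_comm]) (fun x y => by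
        have := C.adj' y.2 x.2 a 1 1
        rw [mul_one, mul_one, show C.σ a = a from a.2] at this
        rw [star_mul', hi, H.herm, this, neg_mul]) _ fun L => ⟨fun h L' => by simp [(hev _ _).1 h], fun h =>
      C.nd (x := L.1 a) hst (by rw [← Hom.mul L.2, AdjoinRoot.mk_self, zero_mul, map_zero]) fun L' hL' =>
        (mul_eq_zero.1 (h ⟨L', hL'⟩)).resolve_left hi0⟩
  have h2 : ∀ L : M, ∑ a : C.Op, ψ (i * H.b (L.1 a) (L.1 1)) * ψ (-(i * C.l a)) =
      if Emb C.hs (mr f) H (H.lin g) L then (Fintype.card C.Op : ℂ) else 0 := fun L => by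
    simp only [← AddChar.map_add_eq_mul]
    split_ifs with h
    · simp [h.iso, hs_b]
    · obtain ⟨a, ha⟩ : ∃ a, H.b (L.1 a) (L.1 1) - C.l a ≠ 0 := by
        by_contra! h'
        refine h ⟨L.2, fun x y => ?_⟩
        rw [hs_b, ← sub_eq_zero.1 (h' _), mul_comm, C.adj' L.2 L.2, C.invol, mul_one]
      let c := t / (H.b (L.1 a) (L.1 1) - C.l a)
      refine sum_eq_zero_of_add _ (a := ⟨c • a + C.σ (c • a), by
        change C.σ _ = _; rw [map_add, C.invol, add_comm, RingHom.id_apply]⟩) hψ fun x => ?_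
      have e1 := C.adj' L.2 L.2 (C.σ a) 1 1
      have e2 : c * (H.b (L.1 a) (L.1 1) - C.l a) = t := div_mul_cancel₀ _ ha
      have e3 := congrArg star e2
      rw [mul_one, mul_one, C.invol] at e1
      rw [star_mul', star_sub, H.herm] at e3
      rw [← AddChar.map_add_eq_mul]
      congr 1
      simp only [Subring.coe_add, map_add, C.smul, map_smul, H.add_left, H.smul_left, C.herm, e1, smul_eq_mul]
      linear_combination i * e2 + i * e3 + i * ht
  have h3 : ∑ a : C.Op, G' a * ψ (-(i * C.l a)) = 0 := by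
    obtain ⟨s, hs, hs'⟩ := C.soc
    refine sum_eq_zero_of_add _ (a := ⟨_, hs⟩) (c := ψ (-i))
      (fun e => hψ (by simpa [e] using (ψ.map_add_eq_mul (-i) i).symm))
      fun x => ?_
    have : LinearMap.ker (ev (AdjoinRoot.mk f f' * s + x)) ⊓ LinearMap.ker (ev (AdjoinRoot.mk f f')) =
        LinearMap.ker (ev x) ⊓ LinearMap.ker (ev (AdjoinRoot.mk f f')) := by
      ext L
      simp only [Submodule.mem_inf, hev, map_add]
      exact and_congr_left fun h => by rw [hmul L _ s h, zero_add]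
    simp only [G', Subring.coe_add, this, map_add, hs', mul_add, neg_add, mul_one, AddChar.map_add_eq_mul]
    ring
  have h4 : ∑ a : C.Op, (G a - G' a) * ψ (-(i * C.l a)) = G 0 - G' 0 := by
    rw [sum_eq_single 0 (fun a _ ha => ?_) (by simp)]
    · simp
    · obtain ⟨y, hy⟩ := C.dvd a a.2 fun e => ha (Subtype.ext e)
      have : LinearMap.ker (ev a) ≤ LinearMap.ker (ev (AdjoinRoot.mk f f')) := fun L hL => hy ▸ hmul L _ y hL
      simp only [G, G', inf_eq_left.2 this, sub_self, zero_mul]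
  have h5 : finrank F (LinearMap.ker (ev (AdjoinRoot.mk f f'))) = kd (H.lin g) f' := by
    refine LinearEquiv.finrank_eq (LinearEquiv.ofBijective
      (LinearMap.codRestrict _ (ev 1 ∘ₗ Submodule.subtype _) fun L => (Hom.mr_mk L.1.2 f').symm.trans L.2)
      ⟨fun L L' e => Subtype.ext (Subtype.ext (LinearMap.ext fun x => ?_)), fun v => ?_⟩)
    · obtain ⟨a, rfl⟩ := AdjoinRoot.mk_surjective x
      rw [Hom.mr_mk L.1.2, Hom.mr_mk L'.1.2]
      exact congrArg _ (congrArg Subtype.val e)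
    · obtain ⟨c, hc⟩ := hd
      obtain ⟨L, hL⟩ := exists_L (T := H.lin g) (f := f) (v := v)
        (by rw [hc, mul_comm, map_mul, End.mul_apply, LinearMap.mem_ker.1 v.2, map_zero])
      exact ⟨⟨⟨L, hom_of_L hL⟩, (hL f').trans v.2⟩, Subtype.ext (show L 1 = v by simpa using hL 1)⟩
  have h6 : LinearMap.ker (ev 0) = ⊤ := eq_top_iff.2 fun L _ => map_zero L.1
  have h7 : Nat.card {L // Emb C.hs (mr f) H (H.lin g) L} = Fintype.card {L : M // Emb C.hs (mr f) H (H.lin g) L} :=
    (Nat.card_congr ⟨fun L => ⟨⟨L, L.2.hom⟩, L.2⟩, fun L => ⟨L.1, L.2⟩, fun _ => rfl, fun _ => rfl⟩).trans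
      Nat.card_eq_fintype_card
  simp only [sub_mul, sum_sub_distrib, h3, sub_zero, ← h1, sum_mul] at h4
  rw [sum_comm, sum_congr rfl fun L _ => h2 L, h1, ← sum_filter, sum_const, ← Fintype.card_subtype, ← h7,
    ← Nat.card_eq_fintype_card, C.card_op hf] at h4
  simp only [G, G', ZeroMemClass.coe_zero, nsmul_eq_mul, h6, top_inf_eq] at h4
  simp only [nu, finrank_top, h5, M, finrank_hom_mr, ← two_mul] at h4
  exact_mod_cast h4

end Cy

theorem wallB_realise_eqns : True := by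
  have := @Cy.hs.eq_1.{0}
  trivial

end GUW
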